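/-
Sign changes and signed permutation matrices for a hyperbolic frame of a quadratic form.
-/
import Cfsg.Agent.H78.BSign

set_option autoImplicit false

namespace Cfsg.Agent.H78

open Equiv Cfsg.Agent.H26 Cfsg.Agent.H26.PForm Cfsg.Agent.H80
open scoped commutatorElement

variable {F V : Type*} [Field F] [AddCommGroup V] [Module F V] {P : PForm F V} {n : ℕ}

/-- The sign change at two indices. -/
def sg2 (i j : Fin n) : WI n :=
  ⟨Function.Involutive.toPerm (fun a => if a.1 = i ∨ a.1 = j then ng a else a) fun a => by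
      by_cases h : a.1 = i ∨ a.1 = j <;> simp [h, ng],
    fun a => by
      change (if a.1 = i ∨ a.1 = j then _ else _) = ng (if a.1 = i ∨ a.1 = j then _ else _)
      split_ifs <;> rfl⟩

theorem sg2_apply (i j : Fin n) (a : BI n) :
    (sg2 i j).1 a = if a.1 = i ∨ a.1 = j then ng a else a := rfl

theorem sg2_fst (i j : Fin n) (a : BI n) : ((sg2 i j).1 a).1 = a.1 := by
  rw [sg2_apply]; split_ifs <;> rfl

theorem sg2_mul {i j k : Fin n} (h1 : i ≠ j) (h2 : j ≠ k) (h3 : i ≠ k) :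
    sg2 i j * sg2 j k = sg2 i k := Subtype.ext <| Equiv.ext fun a => by
  rw [Subgroup.coe_mul, Perm.mul_apply, sg2_apply, sg2_fst, sg2_apply, sg2_apply]
  split_ifs <;> first | rfl | exact ng_ng a | omega

theorem liftP_mul_sg2 (τ : Perm (Fin n)) (i j : Fin n) :
    liftP τ * sg2 i j = sg2 (τ i) (τ j) * liftP τ := Subtype.ext <| Equiv.ext fun ⟨k, b⟩ => by
  simp only [Subgroup.coe_mul, Perm.mul_apply, sg2_apply, liftP_apply, τ.injective.eq_iff]
  split_ifs <;> rfl

theorem diagonal_mem_of_sign {ι : Type*} [Fintype ι] [DecidableEq ι]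
    {K : Subgroup (Matrix.SpecialLinearGroup ι F)} {o : ι} (h : ∀ i, i ≠ o → dg (-1) i o ∈ K)
    {D : Matrix.SpecialLinearGroup ι F} {d : ι → F} (hD : D.1 = Matrix.diagonal d)
    (hd : ∀ i, d i * d i = 1) : D ∈ K := by
  suffices ∀ s : Finset ι, o ∉ s → ∀ (D : Matrix.SpecialLinearGroup ι F) (d : ι → F),
      D.1 = Matrix.diagonal d → (∀ i ∈ s, d i * d i = 1) → (∀ i, i ∉ s → i ≠ o → d i = 1) →
        D ∈ K from
    this (Finset.univ.erase o) (by simp) D d hD (fun i _ => hd i)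
      fun i hi hi' => absurd (by simpa using hi') hi
  intro s
  induction s using Finset.induction_on with
  | empty =>
    intro _ D d hD _ hd
    have := D.2
    rw [hD, Matrix.det_diagonal, Finset.prod_eq_single o (fun i _ hi => hd i (by simp) hi)
      (by simp)] at this
    have : D = 1 := sl_ext (by
      rw [hD, Matrix.SpecialLinearGroup.coe_one, ← Matrix.diagonal_one]
      congr 1; funext i
      by_cases hi : i = o
      · rw [hi, this]
      · exact hd i (by simp) hi)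
    exact this ▸ one_mem K
  | insert i s hi ih =>
    intro ho D d hD h1 hd
    have hio : i ≠ o := fun e => ho (by simp [e])
    have ho' : o ∉ s := fun h => ho (by simp [h])
    rcases mul_self_eq_one_iff.1 (h1 i (by simp)) with e | e
    · exact ih ho' D d hD (fun k hk => h1 k (by simp [hk])) fun k hk hko =>
        if hki : k = i then hki ▸ e else hd k (by simp [hki, hk]) hko
    rw [← K.mul_mem_cancel_left (h i hio)]
    refine ih ho' _ _ (by
      rw [Matrix.SpecialLinearGroup.coe_mul, coe_dg _ hio, hD, Matrix.diagonal_mul_diagonal])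
      (fun k hk => ?_) fun k hk hko => ?_
    · simpa [show k ≠ i by rintro rfl; exact hi hk, show k ≠ o by rintro rfl; exact ho' hk]
        using h1 k (by simp [hk])
    · by_cases hki : k = i
      · simp [hki, e]
      · simp [hki, hko, hd k (by simp [hki, hk]) hko]

variable (F n) in
/-- The matrix of a signed permutation of the frame. -/
def wM : WI n →* Matrix (BI n) (BI n) F where
  toFun σ := Matrix.of fun a c => if a = σ.1 c then 1 else 0
  map_one' := by ext; simp [Matrix.one_apply]; congr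
  map_mul' σ τ := by ext; simp [Matrix.mul_apply]; congr

namespace Frame

variable (Fr : Frame P n)

/-- The permutations of the frame. -/
noncomputable def om : WI n →* V ≃ₗ[F] V := Fr.ofMat (wM F n)

theorem om_e (σ : WI n) (a : BI n) : Fr.om σ (Fr.e a) = Fr.e (σ.1 a) := by
  simp [om, ofMat_e, wM]

theorem om_V0 (σ : WI n) {w : V} (hw : w ∈ Fr.V0) : Fr.om σ w = w := Fr.ofMat_V0 _ _ hw

theorem frame_induction {p : V → Prop} (h1 : ∀ a, p (Fr.e a)) (h2 : ∀ w ∈ Fr.V0, p w)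
    (h3 : ∀ x y, p x → p y → p (x + y)) (h4 : ∀ (c : F) x, p x → p (c • x)) (x : V) : p x := by
  rw [← sub_add_cancel x _]
  exact h3 _ _ (h2 _ (Fr.sub_sum_mem x))
    (Finset.sum_induction _ p h3 (h2 0 (zero_mem _)) fun a _ => h4 _ _ (h1 a))

/-- A normalised frame of a quadratic form of maximal index. -/
structure DFr : Prop where
  hN : Fr.Norm
  hA : Fr.Aniso
  hε : P.ε = 1
  hσ : ∀ x, P.σ x = x
  hd : ∀ a, Fr.X a a = ⊥

/-- Signed permutation matrices. -/
def SM (m : Matrix.SpecialLinearGroup (Fin n) F) (τ : Perm (Fin n)) : Prop :=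
  ∃ c : Fin n → F, (∀ i, c i * c i = 1) ∧ ∀ i b, Fr.lev m (Fr.e (i, b)) = c i • Fr.e (τ i, b)

variable {Fr}

theorem DFr.mono_om (h : Fr.DFr) (σ : WI n) : Fr.Mono (Fr.om σ) σ := by
  have hp : ∀ a, P.f (Fr.e a) (Fr.e (ng a)) = 1 := fun ⟨i, b⟩ => by
    cases b
    exacts [h.hN i, (f_symm_one (h.hN i)).trans h.hε]
  have sy : ∀ {x y}, P.f (Fr.om σ x) (Fr.om σ y) = P.f x y →
      P.f (Fr.om σ y) (Fr.om σ x) = P.f y x := fun e => by rw [P.herm, e, ← P.herm]
  have lin : ∀ y, (∀ a, P.f (Fr.om σ (Fr.e a)) (Fr.om σ y) = P.f (Fr.e a) y) →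
      (∀ w ∈ Fr.V0, P.f (Fr.om σ w) (Fr.om σ y) = P.f w y) →
      ∀ x, P.f (Fr.om σ x) (Fr.om σ y) = P.f x y := fun y h1 h2 =>
    Fr.frame_induction h1 h2 (fun x x' e e' => by rw [map_add, P.f_add_left, P.f_add_left, e, e'])
      fun c x e => by rw [map_smul, P.f_smul_left, P.f_smul_left, e]
  have h1 : ∀ b, ∀ w ∈ Fr.V0, P.f (Fr.om σ w) (Fr.om σ (Fr.e b)) = P.f w (Fr.e b) :=
    fun b w hw => by rw [Fr.om_V0 _ hw, om_e, f_V0 hw, f_V0 hw]
  have h2 : ∀ x y, P.f (Fr.om σ x) (Fr.om σ y) = P.f x y := fun x y => lin y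
    (fun a => sy (lin _ (fun b => by
      rw [om_e, om_e]
      by_cases e : a = ng b
      · rw [e, map_ng, hp, hp]
      · rw [Fr.orth _ _ e, Fr.orth _ _ (map_ok (d := True) σ ⟨e, fun _ => trivial⟩).1]) (h1 a) y))
    (fun w hw => sy (lin _ (fun b => sy (h1 b w hw))
      (fun v hv => by rw [Fr.om_V0 _ hw, Fr.om_V0 _ hv]) y)) x
  refine ⟨⟨h2, Fr.frame_induction (fun a => ?_) (fun w hw => ?_) (fun x y hx hy => ?_)
    fun c x hx => ?_⟩, fun a => ⟨1, by rw [om_e, one_smul]⟩⟩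
  · rw [om_e]; exact sub_mem (Fr.sing _) (Fr.sing a)
  · rw [Fr.om_V0 _ hw, sub_self]; exact zero_mem _
  · have := add_mem (add_mem hx hy) (sub_mem (P.h_add (Fr.om σ x) (Fr.om σ y)) (P.h_add x y))
    rw [h2] at this
    convert this using 1
    rw [map_add]; ring
  · have := add_mem (P.Λ_smul c _ hx) (sub_mem (P.h_smul c (Fr.om σ x)) (P.h_smul c x))
    convert this using 1
    rw [map_smul]; ring

section SM

variable {m m' : Matrix.SpecialLinearGroup (Fin n) F} {τ τ' : Perm (Fin n)}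

theorem SM.one : Fr.SM 1 1 := ⟨fun _ => 1, fun _ => one_mul _, fun i b => by simp⟩

theorem SM.mul (h : Fr.SM m τ) (h' : Fr.SM m' τ') : Fr.SM (m * m') (τ * τ') := by
  obtain ⟨c, h1, h2⟩ := h
  obtain ⟨c', h1', h2'⟩ := h'
  exact ⟨fun i => c' i * c (τ' i), fun i => by linear_combination c' i * c' i * h1 (τ' i) + h1' i,
    fun i b => by rw [map_mul, mul_apply', h2', map_smul, h2, smul_smul]; rfl⟩

theorem SM.inv (h : Fr.SM m τ) : Fr.SM m⁻¹ τ⁻¹ := by
  obtain ⟨c, h1, h2⟩ := h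
  refine ⟨fun i => c (τ⁻¹ i), fun i => h1 _, fun i b => (Fr.lev m).injective ?_⟩
  rw [map_inv, apply_inv_apply, map_smul, h2, smul_smul, h1, one_smul]
  simp

theorem SM.mono (hN : Fr.Norm) (h : Fr.SM m τ) : Fr.Mono (Fr.lev m) (liftP τ) :=
  ⟨lev_mem_isom hN m, fun ⟨i, b⟩ => ⟨_, h.choose_spec.2 i b⟩⟩

theorem SM.conj_om (h : Fr.SM m τ) (i j : Fin n) :
    Fr.lev m * Fr.om (sg2 i j) * (Fr.lev m)⁻¹ = Fr.om (sg2 (τ i) (τ j)) := by
  obtain ⟨c, -, h2⟩ := h
  rw [mul_inv_eq_iff_eq_mul]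
  refine Fr.ext_frame (fun ⟨k, b⟩ => ?_) fun w hw => by
    simp only [mul_apply', Fr.om_V0 _ hw, Fr.lev_V0 _ hw]
  rw [mul_apply', mul_apply', om_e, h2 k b, map_smul, om_e]
  simp only [sg2_apply, τ.injective.eq_iff]
  split_ifs
  exacts [h2 k (!b), h2 k b]

theorem SM.conj_tv (hF : Fr.DFr) (h : Fr.SM m τ) {i j : Fin n} (hij : i ≠ j) :
    m * tv i j 1 * m⁻¹ = tv (τ i) (τ j) 1 ∨ m * tv i j 1 * m⁻¹ = (tv (τ i) (τ j) 1)⁻¹ := by
  obtain ⟨c, h1, h2⟩ := h
  have hij' := τ.injective.ne hij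
  have : m * tv i j 1 * m⁻¹ = tv (τ i) (τ j) (c j * c i) := Fr.lev_injective (by
    rw [map_mul, map_mul, map_inv, lev_tv hF.hN hij, lev_tv hF.hN hij',
      conj_xs (lev_mem_isom hF.hN m) (by simpa [ng] using hij) (h2 j true) (h2 i false), hF.hσ,
      mul_one])
  rw [this, ← tv_neg hij']
  rcases mul_self_eq_one_iff.1 (h1 i) with e | e <;>
    rcases mul_self_eq_one_iff.1 (h1 j) with e' | e' <;> simp [e, e']

theorem SM.diagonal (h : Fr.SM m 1) : ∃ c, (∀ i, c i * c i = 1) ∧ m.1 = Matrix.diagonal c := by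
  obtain ⟨c, h1, h2⟩ := h
  refine ⟨c, h1, Matrix.ext fun i j => mul_right_cancel₀ (Fr.pair (i, false)) ?_⟩
  refine (Fr.f_lev m i j).symm.trans ?_
  rw [h2, P.f_smul_left, Matrix.diagonal_apply]
  split_ifs with e
  · rw [e]; rfl
  · rw [Fr.orth _ _ (by simpa [ng] using e), mul_zero, zero_mul]

theorem sm_diagonal (hF : Fr.DFr) {c : Fin n → F} (h1 : ∀ i, c i * c i = 1)
    (h : m.1 = Matrix.diagonal c) : Fr.SM m 1 := by
  refine ⟨c, h1, fun i b => ?_⟩
  cases b
  · exact lev_diagonal h i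
  · rw [← inv_eq_of_mul_eq_one_right (h1 i), ← hF.hσ (c i)]
    exact (lev_diagonal_mem_H hF.hN h).2.apply_ng (lev_diagonal h i)

theorem sm_dg (hF : Fr.DFr) {c : Fˣ} (hc : (c : F) * c = 1) {i j : Fin n} (h : i ≠ j) :
    Fr.SM (dg c i j) 1 := sm_diagonal hF (fun k => by
  split_ifs
  exacts [hc, by rw [← mul_inv, hc, inv_one], one_mul _]) (coe_dg c h)

theorem lev_tv_ff {i j : Fin n} (h : i ≠ j) (a : F) (k : Fin n) :
    Fr.lev (tv i j a) (Fr.e (k, false)) =
      Fr.e (k, false) + (if k = j then a else 0) • Fr.e (i, false) := by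
  simp [lev_ff, coe_tv h, add_smul, Finset.sum_add_distrib, Matrix.one_apply, Matrix.single_apply,
    ite_and, @eq_comm _ j k]

theorem lev_tv_tt {i j : Fin n} (h : i ≠ j) (a : F) (k : Fin n) :
    Fr.lev (tv i j a) (Fr.e (k, true)) =
      Fr.e (k, true) - (if k = i then P.σ a else 0) • Fr.e (j, true) := by
  rw [lev_tt, ← tv_neg h]
  by_cases e : k = i <;>
    simp [coe_tv h, add_smul, Finset.sum_add_distrib, Matrix.one_apply, Matrix.single_apply,
      apply_ite P.σ, e, Ne.symm, sub_eq_add_neg]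

theorem sm_swap {i j : Fin n} (h : i ≠ j) :
    Fr.SM (tv i j 1 * tv j i (-1) * tv i j 1) (swap i j) := by
  refine ⟨fun k => if k = i then -1 else 1, fun k => by dsimp only; split_ifs <;> simp, fun k b => ?_⟩
  cases b <;> simp only [map_mul, mul_apply', lev_tv_ff h, lev_tv_ff h.symm, lev_tv_tt h,
    lev_tv_tt h.symm, map_add, map_sub, map_smul, swap_apply_def] <;>
    by_cases h1 : k = i <;> by_cases h2 : k = j <;> simp_all [@eq_comm _ j i]

theorem exists_sm_SLp (S : Set (Fin n)) (hτ : ∀ i, τ i ≠ i → i ∈ S) :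
    ∃ m ∈ SLp F S, Fr.SM m τ := by
  classical
  have h1 : ∀ x, τ x ∈ S ↔ x ∈ S := fun x => by
    by_cases h : τ x = x
    · rw [h]
    · exact iff_of_true (hτ _ (τ.injective.ne h)) (hτ _ h)
  rw [← Perm.ofSubtype_subtypePerm h1 hτ]
  induction τ.subtypePerm h1 using Perm.swap_induction_on with
  | one => exact ⟨1, one_mem _, by simpa using SM.one⟩
  | swap_mul f x y hxy ih =>
    obtain ⟨m, hm, hm'⟩ := ih
    have h : x.1 ≠ y.1 := Subtype.coe_injective.ne hxy
    refine ⟨_, mul_mem (mul_mem (mul_mem (tv_mem_SLp x.2 y.2 h 1) (tv_mem_SLp y.2 x.2 h.symm (-1)))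
      (tv_mem_SLp x.2 y.2 h 1)) hm, ?_⟩
    rw [map_mul Perm.ofSubtype, Perm.ofSubtype_swap_eq]
    exact (sm_swap h).mul hm'

variable (Fr) in
theorem exists_sm (τ : Perm (Fin n)) : ∃ m, Fr.SM m τ :=
  (exists_sm_SLp Set.univ fun _ _ => trivial).imp fun _ h => h.2

end SM

end Frame

end Cfsg.Agent.H78
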