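/-
The kernel of a Curtis–Tits cover of type `D_n` lies in the lifted torus.
-/
import Cfsg.Agent.H35.SLModels

set_option autoImplicit false

namespace Cfsg.Agent.H78

open Equiv H34 H40 H75 H35 Cfsg.Agent.H78.Frame H26 H26.PForm
open H80 (mem_rootU rootU_le RA parHom mem_parHom_range par_zero)
open scoped commutatorElement

variable {F : Type*} [Field F] {G Γ : Type*} [Group G] [Group Γ]

theorem slModel_ker {ι Φ : Type*} [Fintype ι] [DecidableEq ι] [Finite Φ] {R : RS ι Φ}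
    {P : Split (sgn R) G} {π : Γ →* G} {x : ι → Bool → F → G} {Adj : ι → ι → Prop}
    (h : SLModel P x Adj) {a : ι → Bool → F → Γ} (ha : CTSys a Adj)
    (hπ : ∀ i b t, π (a i b t) = x i b t) (gen : Subgroup.closure {g | ∃ i b t, a i b t = g} = ⊤) :
    π.range = ⊤ ∧ π.ker ≤ ⨆ i, Subgroup.closure {g | ∃ b t, a i b t = g} ⊓ P.H.comap π := by
  have hY := sr_injective (R := R).extend_apply (fun p => (parHom (ha.add p.1 p.2)).range) ⊥
  generalize Function.extend _ (fun p : ι × Bool => (parHom (ha.add p.1 p.2)).range) ⊥ = Y₁ at hY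
  have hY' : ∀ i b g, g ∈ Y₁ (sr R i b) ↔ ∃ t, a i b t = g := fun i b g =>
    hY (i, b) ▸ mem_parHom_range (ha.add i b) g
  have h1 := fun i b => Prm.map_of (π := π) (X := P.X (sr R i b)) (z := a i b)
    (by simpa only [hπ] using h.prm i b) (par_zero (ha.add i b)) (hY' i b)
  have h2 : ∀ i j, Adj i j → Tri P x i j →
      ∃ Y, LocLift P π Y {i, j} ∧ SEq R Y Y₁ i ∧ SEq R Y Y₁ j := by
    rintro i j hij ⟨k, X, hk, hX, hr, p1, p2⟩
    obtain ⟨X', hX', hr'⟩ := ha.adj i j hij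
    have hp : ∀ q, Prm (P.X (rho3 R (R.simple i) (R.simple j) k q)) (X q) :=
      RA3_cases (hr.1 ▸ h.prm i false) (hr.2.1 ▸ h.prm i true)
        (hr.2.2.1 ▸ h.prm j false) (hr.2.2.2 ▸ h.prm j true) p1 p2
    obtain rfl : X = fun r t => π (X' r t) := hr.eq hX ⟨by funext t; simp only [hr'.1, hπ],
      by funext t; simp only [hr'.2.1, hπ], by funext t; simp only [hr'.2.2.1, hπ],
      by funext t; simp only [hr'.2.2.2, hπ]⟩ (hX'.map π)
    obtain ⟨Y, h3, h4⟩ := locLift_A2 (P := P) (π := π) (h.ne hij) (h.adj i j hij)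
      (h.adj j i (h.symm i j hij)) hk hX' hp
    have h5 : ∀ q i b, X' q = a i b → rho3 R (R.simple _) (R.simple _) k q = sr R i b →
        Y (sr R i b) = Y₁ (sr R i b) := fun q i b e e' => by
      rw [hY (i, b), ← e', h4]
      ext g
      rw [mem_parHom_range, mem_parHom_range, e]
    exact ⟨Y, h3, ⟨h5 _ i false hr'.1 rfl, h5 _ i true hr'.2.1 rfl⟩, h5 _ j false hr'.2.2.1 rfl,
      h5 _ j true hr'.2.2.2 rfl⟩
  suffices H : ∀ i j, ∃ Y, LocLift P π Y {i, j} ∧ SEq R Y Y₁ i ∧ SEq R Y Y₁ j by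
    obtain ⟨Y, h3, h4, -⟩ := ctLift_glue Y₁ H fun i =>
      let ⟨j, hj⟩ := h.nbr i
      ⟨j, (h.ne hj).symm, by rw [h.adj j i (h.symm i j hj)]; decide⟩
    have h5 := h3.gLift' (eq_top_iff.2 (gen ▸ (Subgroup.closure_le _).2 (by
      rintro _ ⟨i, _ | _, t, rfl⟩ <;> refine Subgroup.mem_iSup_of_mem i ?_
      exacts [Subgroup.mem_sup_left ((h4 i).1 ▸ (hY' i false _).2 ⟨t, rfl⟩),
        Subgroup.mem_sup_right ((h4 i).2 ▸ (hY' i true _).2 ⟨t, rfl⟩)])))
    refine ⟨h5.range_eq.trans h.gen, h5.ker_le_liftH.trans (rootU_le fun i _ y hy => ?_)⟩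
    rw [h3.rkH_extY, (h4 i).rkH] at hy
    refine Subgroup.mem_iSup_of_mem i ⟨(sup_le (fun z hz => ?_) (fun z hz => ?_) :
      rkL R Y₁ i ≤ _) hy.1, hy.2⟩
    exacts [Subgroup.subset_closure ⟨false, (hY' i false z).1 hz⟩,
      Subgroup.subset_closure ⟨true, (hY' i true z).1 hz⟩]
  intro i j
  by_cases hij : Adj i j
  · rcases h.tri i j hij with h3 | h3
    · exact h2 i j hij h3
    · obtain ⟨Y, h4, h5, h6⟩ := h2 j i (h.symm i j hij) h3
      exact ⟨Y, Set.pair_comm j i ▸ h4, h6, h5⟩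
  have h3 : i = j ∨ R.A i j = 0 := (em (i = j)).imp_right fun e => h.non i j e hij
  refine ⟨Y₁, ⟨fun r hr => ?_, fun r hr => ?_, fun r hr => ?_, fun r hr s hs h4 h5 y hy z hz => ?_⟩,
    ⟨rfl, rfl⟩, rfl, rfl⟩
  · obtain ⟨k, -, b, rfl⟩ := mem_Phi_orth h3 hr; exact (h1 k b).1
  · obtain ⟨k, -, b, rfl⟩ := mem_Phi_orth h3 hr; exact (h1 k b).2.1
  · obtain ⟨k, -, b, rfl⟩ := mem_Phi_orth h3 hr; exact (h1 k b).2.2
  obtain ⟨k, hk, b, rfl⟩ := mem_Phi_orth h3 hr
  obtain ⟨l, hl, c, rfl⟩ := mem_Phi_orth h3 hs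
  obtain ⟨t, rfl⟩ := (hY' _ _ _).1 hy
  obtain ⟨u, rfl⟩ := (hY' _ _ _).1 hz
  have h6 : k ≠ l := by
    rintro rfl
    rw [neg_sr] at h5
    revert h4 h5
    cases b <;> cases c <;> simp
  rw [← commutatorElement_def, (ha.non k l h6 ?_ b c t u).commutator_eq]
  · exact one_mem _
  rcases hk with rfl | rfl <;> rcases hl with rfl | rfl
  exacts [absurd rfl h6, hij, fun e => hij (h.symm _ _ e), absurd rfl h6]

theorem coord_ker {ι Φ : Type*} [Fintype ι] [DecidableEq ι] [Finite Φ]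
    {S : SignedSys ι Φ} (C : Coord S) (P : Split S G) (x : ι → Bool → F → G) (Adj : ι → ι → Prop)
    (prm : ∀ i, Prm (P.X (S.α i)) (x i false) ∧ Prm (P.X (S.neg (S.α i))) (x i true))
    (non : ∀ i j, i ≠ j → ¬ Adj i j → C.κ i (Pi.single j 1) = 0)
    (adj : ∀ i j, Adj i j → C.κ i (Pi.single j 1) = -1) (Or : ι → ι → Prop)
    (hor : ∀ i j, Adj i j → Or i j ∨ Or j i)
    (tri : ∀ i j, Or i j → ∃ k X, C.c k = C.c (S.α i) + C.c (S.α j) ∧ ASys X ∧ Res X (x i) (x j) ∧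
      Prm (P.X k) (X (r3 0 2)) ∧ Prm (P.X (S.neg k)) (X (r3 2 0)))
    (symm : ∀ i j, Adj i j → Adj j i) (nbr : ∀ i, ∃ j, Adj i j) (gen : P.U Set.univ = ⊤)
    {π : Γ →* G} {a : ι → Bool → F → Γ} (ha : CTSys a Adj) (hπ : ∀ i b t, π (a i b t) = x i b t)
    (gen' : Subgroup.closure {g | ∃ i b t, a i b t = g} = ⊤) :
    π.range = ⊤ ∧ π.ker ≤ ⨆ i, Subgroup.closure {g | ∃ b t, a i b t = g} ⊓ P.H.comap π := by
  classical
  have irr : ∀ i, ¬ Adj i i := fun i h => by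
    have := (adj i i h).symm.trans (coord_κ_self C i)
    norm_num at this
  obtain ⟨R, rfl, hA, hc⟩ := exists_rs C (fun i j => if i = j then 2 else if Adj i j then -1 else 0)
    (fun i j => by
      split_ifs with h1 h2
      · rw [h1, coord_κ_self]; rfl
      · simpa using adj i j h2
      · simpa using non i j h1 h2) (fun _ => 1) (fun _ => one_pos) (fun i j => by
      simp only [eq_comm (a := j), show Adj j i ↔ Adj i j from ⟨symm _ _, symm _ _⟩])
  have htri : ∀ i j, Or i j → Tri P x i j := fun i j h => by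
    obtain ⟨k, X, h1, h2⟩ := tri i j h
    refine ⟨k, X, funext fun l => Int.cast_injective (α := ℝ) ?_, h2⟩
    rw [hc, h1, C.c_α, C.c_α]
    simp [Pi.single_apply]
  refine slModel_ker (P := P) (x := x) ⟨fun i b => ?_, fun i j h1 h2 => ?_, fun i j h => ?_,
    fun i j h => (hor i j h).imp (htri i j) (htri j i), symm, nbr, gen⟩ ha hπ gen'
  · cases b
    exacts [(prm i).1, (prm i).2]
  · simp [hA, h1, h2]
  · have : i ≠ j := fun e => irr i (e ▸ h)
    simp [hA, h, this]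

variable {V : Type*} [AddCommGroup V] [Module F V] {P : PForm F V} {n : ℕ} {Fr : Frame P n}

/-- Adjacency in the diagram of type `D_n`. -/
def AdjD (i j : Fin n) : Prop := ((i.val = j.val + 1 ∧ j.val ≠ 0) ∨ (i.val = 2 ∧ j.val = 0)) ∨
  (j.val = i.val + 1 ∧ i.val ≠ 0) ∨ (j.val = 2 ∧ i.val = 0)

theorem ker_D [FiniteDimensional F V] (hn : 3 ≤ n) (hA : Fr.Aniso)
    (hd : ∀ a, Fr.X a a = ⊥) (hN : ∀ a, P.f (Fr.e (ng a)) (Fr.e a) = 1) (hL : BCL Fr.X (1 / 2))
    {π : Γ →* V ≃ₗ[F] V} {a : Fin n → Bool → F → Γ} (ha : CTSys a AdjD)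
    (h0 : ∀ i t, π (a i false t) = Fr.xs (ng (vD i)) (uD (by omega) i) t)
    (h1 : ∀ i t, π (a i true t) = Fr.xs (ng (uD (by omega) i)) (vD i) t)
    (gen : Subgroup.closure {g | ∃ i b t, a i b t = g} = ⊤) :
    π.range = P.E ∧ π.ker ≤ ⨆ i, Subgroup.closure {g | ∃ b t, a i b t = g} ⊓ Fr.H.comap π := by
  have hn' : 2 ≤ n := by omega
  have hj := P.E.subtype_injective
  have hr := P.E.range_subtype
  have hE : ∀ g, π g ∈ P.E := fun g => ((Subgroup.closure_le (P.E.comap π)).2 (by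
    rintro _ ⟨i, _ | _, t, rfl⟩ <;> refine Subgroup.mem_comap.2 ?_
    exacts [(h0 i t).symm ▸ eT_mem_E _ _ _, (h1 i t).symm ▸ eT_mem_E _ _ _])) (gen.ge trivial)
  have hL' := frameRDL (d := False) hA (Or.inr hn') (fun _ => hd) False.elim _ hj hr (by omega) hL
  let x : BI n → BI n → F → P.E := fun a b t => ⟨Fr.xs (ng b) a t, eT_mem_E _ _ _⟩
  have prm : ∀ {a b : BI n} (h : a.1 ≠ b.1), Prm (hL'.split.X (rt _ _ (rt_ok h))) (x a b) :=
    fun {a b} h => ⟨fun g => (mem_XS (a := ng b) h.symm).trans (exists_congr fun t => by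
      rw [Subtype.ext_iff, eq_comm]; rfl), fun t e => xs_eq_one (a := ng b) h.symm
        (congrArg Subtype.val e)⟩
  have hneg : ∀ {a b : BI n} (h : a.1 ≠ b.1), (H78.bcSys (d := False) (Or.inr hn')).neg
      (rt _ _ (rt_ok h)) = rt _ _ (rt_ok h.symm) := fun h => by
    simp [bc_neg, rt_eq_iff]
  have hκ : ∀ i j, (coordBC (d := False) (Or.inr hn') _ hL.pos).κ i (Pi.single j 1) =
      (vI (j, false) + vI (sB (d := False) (Or.inr hn') j)) ⬝ᵥ
        (vI (i, false) + vI (sB (d := False) (Or.inr hn') i)) := fun i j => by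
    rw [coordBC_κ, if_neg (sB_ok _ i).2, if_neg (sB_ok _ j).2, one_mul, one_mul]
  have := coord_ker (coordBC _ _ hL.pos) hL'.split
    (fun i b => if b then x (vD i) (uD hn' i) else x (uD hn' i) (vD i)) AdjD
    (fun i => ?_) (fun i j h1 h2 => ?_) (fun i j h => ?_) _ (fun i j h => h)
    (fun i k h => ?_) (fun i j h => h.symm) (fun i => ?_)
    (frameRD'_gen hA _ _ _ _ hj hr (by omega)) (π := π.codRestrict _ hE) ha (by
      rintro i (_ | _) t
      exacts [Subtype.ext (h0 i t), Subtype.ext (h1 i t)]) gen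
  · refine ⟨le_antisymm (by rintro _ ⟨g, rfl⟩; exact hE g) fun g hg => ?_,
      fun g hg => this.2 (Subtype.ext hg)⟩
    obtain ⟨y, hy⟩ := this.1.ge (Subgroup.mem_top ⟨g, hg⟩)
    exact ⟨y, congrArg Subtype.val hy⟩
  · rw [bc_α_D hn', hneg (uD_ne_vD hn' i)]
    exact ⟨prm (uD_ne_vD hn' i), prm (uD_ne_vD hn' i).symm⟩
  · rw [hκ, (dot_D hn' i j).1 (Fin.val_ne_of_ne h1) h2]
  · rw [hκ, (dot_D hn' i j).2 h]
  · have h1 : vD i = uD hn' k := by
      unfold uD vD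
      split_ifs <;> simp [Fin.ext_iff] <;> omega
    have h2 : (uD hn' i).1 ≠ (vD k).1 := by
      unfold uD vD
      split_ifs <;> simp [Fin.ext_iff] <;> omega
    have h3 := uD_ne_vD hn' i
    have h4 := uD_ne_vD hn' k
    refine ⟨rt _ _ (rt_ok h2), fun r => x (![uD hn' i, vD i, vD k] r.1.1)
      (![uD hn' i, vD i, vD k] r.1.2), ?_, ASys.of_map hj ?_, ⟨rfl, rfl, h1 ▸ rfl, h1 ▸ rfl⟩, prm h2,
      hneg h2 ▸ prm h2.symm⟩
    · simp only [bc_α_D hn', coordBC_c, ← map_add, vecBC_rt, if_neg (rt_ok h2).2,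
        if_neg (rt_ok h3).2, if_neg (rt_ok h4).2, vI_ng]
      exact congrArg _ (by rw [h1]; module)
    · refine aSys_xs (d := False) (fun _ => hd) hN _ fun a b hab => ?_
      rw [← h1] at h4
      fin_cases a <;> fin_cases b <;> first | exact absurd rfl hab | assumption | (symm; assumption)
  · unfold AdjD
    by_cases h0 : i.val = 0
    · exact ⟨⟨2, hn⟩, by simp [h0]⟩
    by_cases h : i.val + 1 < n
    · exact ⟨⟨_, h⟩, by simp [h0]⟩
    · exact ⟨⟨i - 1, by omega⟩, by simp only; omega⟩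

end Cfsg.Agent.H78
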