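/-
The relations of the short presentation of type `D_n`.
-/
import Cfsg.Agent.H78.DGeo
import Cfsg.Agent.H80.Par

set_option autoImplicit false

namespace Cfsg.Agent.H78

open Equiv Cfsg.Agent.H26 Cfsg.Agent.H26.PForm Cfsg.Agent.H80
open scoped commutatorElement

variable {F V : Type*} [Field F] [AddCommGroup V] [Module F V] {P : PForm F V} {n : ℕ}
  {Fr : Frame P n} {J : Type*} [Group J]

theorem exists_perm4 {ι : Type*} [Finite ι] {i j k l i' j' k' l' : ι} (h : [i, j, k, l].Nodup)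
    (h' : [i', j', k', l'].Nodup) : ∃ τ : Perm ι, τ i = i' ∧ τ j = j' ∧ τ k = k' ∧ τ l = l' := by
  obtain ⟨τ, hτ⟩ := Perm.exists_extending_pair ![i, j, k, l] ![i', j', k', l']
    (List.nodup_ofFn.1 (by simpa using h)) (List.nodup_ofFn.1 (by simpa using h'))
  exact ⟨τ, hτ 0, hτ 1, hτ 2, hτ 3⟩

theorem exists_notMem_list {l : List (Fin n)} (h : l.length < n) : ∃ k, k ∉ l := by
  by_contra H
  push Not at H
  have := (Finset.card_le_card fun x (_ : x ∈ Finset.univ) => List.mem_toFinset.2 (H x)).trans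
    (List.toFinset_card_le l)
  simp at this
  omega

theorem commute_ext [Finite F] {x y : F → J} (hx : ∀ a b, x (a + b) = x a * x b)
    (hy : ∀ a b, y (a + b) = y a * y b) (h1 : ∀ c : Fˣ, ∃ t, Acts t x c ∧ Acts t y c)
    (h2 : ∀ c : Fˣ, ∃ t, Acts t x c ∧ Acts t y (c : F)⁻¹) (h : Commute (x 1) (y 1)) (a b : F) :
    Commute (x a) (y b) := by
  obtain ⟨ζ, hζ0, hζ⟩ := exists_generator_field F
  have key : ∀ {x y : F → J} {b : F} {t : J}, (∀ a b, x (a + b) = x a * x b) → Acts t x (ζ ^ 2) →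
      Acts t y 1 → Commute (x 1) (y b) → ∀ a, Commute (x a) (y b) := by
    intro x y b t hx h1 h2 h a
    let W : AddSubgroup F :=
      { carrier := {a | Commute (x a) (y b)}
        zero_mem' := by simp [par_zero hx]
        add_mem' := fun h h' => by simpa [hx] using h.mul_left h'
        neg_mem' := fun h => by simpa [par_neg hx] using h }
    refine (eq_top_of_gen_sq hζ (W := W) h one_ne_zero fun a ha => ?_).ge (AddSubgroup.mem_top a)
    have := Commute.map ha (MulAut.conj t)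
    rwa [MulAut.conj_apply, MulAut.conj_apply, h1, h2, one_mul] at this
  obtain ⟨t, a1, a2⟩ := h1 (Units.mk0 ζ hζ0)
  obtain ⟨t', a3, a4⟩ := h2 (Units.mk0 ζ hζ0)
  exact (key hy (x := y) (y := x) ((a2.mul (a4.inv (inv_ne_zero hζ0))).congr rfl (fun _ => rfl)
    (by simp [sq])) ((a1.mul (a3.inv hζ0)).congr rfl (fun _ => rfl) (mul_inv_cancel₀ hζ0))
    (key hx ((a1.mul a3).congr rfl (fun _ => rfl) (by simp [sq]))
      ((a2.mul a4).congr rfl (fun _ => rfl) (mul_inv_cancel₀ hζ0)) h a).symm b).symm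

theorem SLp_commute {S T : Set (Fin n)} {ψ ψ' : Matrix.SpecialLinearGroup (Fin n) F →* J}
    (h : ∀ i ∈ S, ∀ j ∈ S, i ≠ j → ∀ a, ∀ k ∈ T, ∀ l ∈ T, k ≠ l → ∀ b,
      Commute (ψ (tv i j a)) (ψ' (tv k l b))) :
    ∀ m ∈ SLp F S, ∀ m' ∈ SLp F T, Commute (ψ m) (ψ' m') := fun m hm m' hm' =>
  (SLp_le (K := (Subgroup.centralizer {ψ m}).comap ψ') (fun k hk l hl hkl b =>
    Subgroup.mem_centralizer_singleton_iff.2 ((SLp_le (K := (Subgroup.centralizer
      {ψ' (tv k l b)}).comap ψ) (fun i hi j hj hij a => Subgroup.mem_centralizer_singleton_iff.2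
        (h i hi j hj hij a k hk l hl hkl b)) hm) _ rfl)) hm') _ rfl

theorem Frame.DFr.om_conj_tv (h : Fr.DFr) (σ : WI n) {i j : Fin n} (hij : i ≠ j) (a : F) :
    Fr.om σ * Fr.lev (tv i j a) * (Fr.om σ)⁻¹ = Fr.xs (σ.1 (j, true)) (σ.1 (i, false)) a := by
  rw [Frame.lev_tv h.hN hij, Frame.conj_xs (h.mono_om σ).1 (by simpa [ng] using hij) (c := 1)
    (c' := 1) (by rw [Frame.om_e, one_smul]) (by rw [Frame.om_e, one_smul])]
  simp

theorem Frame.DFr.om_conj_diagonal (h : Fr.DFr) (i j : Fin n)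
    {D : Matrix.SpecialLinearGroup (Fin n) F} {d : Fin n → F} (hD : D.1 = Matrix.diagonal d)
    (k : Fin n) : (Fr.om (sg2 i j) * Fr.lev D * (Fr.om (sg2 i j))⁻¹) (Fr.e (k, false)) =
      (if k = i ∨ k = j then (d k)⁻¹ else d k) • Fr.e (k, false) := by
  have e : (sg2 i j)⁻¹ = sg2 i j := Subtype.ext rfl
  rw [mul_apply', mul_apply', ← map_inv, e, Frame.om_e, sg2_apply]
  split_ifs with h1
  · rw [(Frame.lev_diagonal_mem_H h.hN hD).2.apply_ng (Frame.lev_diagonal hD k), map_smul,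
      Frame.om_e, sg2_apply, if_pos (by exact h1), ng_ng, h.hσ]
  · rw [Frame.lev_diagonal hD k, map_smul, Frame.om_e, sg2_apply, if_neg h1]

variable (φ : Matrix.SpecialLinearGroup (Fin n) F →* J)

/-- The elements of the Levi subgroup conjugated into the Levi subgroup. -/
def Kc (g : J) : Subgroup (Matrix.SpecialLinearGroup (Fin n) F) := (cjI φ.range g).comap φ

variable (Fr) in
/-- The sign changes. -/
def Sg (s : J) (o₁ o₂ i j : Fin n) (g : J) : Prop :=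
  ∃ m τ, Fr.SM m τ ∧ τ o₁ = i ∧ τ o₂ = j ∧ g = φ m * s * (φ m)⁻¹

variable (Fr) in
/-- The relations. -/
structure DRel (π : J →* V ≃ₗ[F] V) (s : J) (o₁ o₂ : Fin n) : Prop where
  hF : Fr.DFr
  hn : 4 ≤ n
  ho : o₁ ≠ o₂
  hφ : ∀ m, π (φ m) = Fr.lev m
  hs : π s = Fr.om (sg2 o₁ o₂)
  r1 : SLp F {o₁, o₂} ≤ Kc φ s
  r2 : SLp F {o₁, o₂}ᶜ ≤ Kc φ s
  r3 : ∃ k, k ≠ o₁ ∧ k ≠ o₂ ∧ dg (-1) o₁ k ∈ Kc φ s
  r5 : ∃ i j k l g g', [i, j, k, l].Nodup ∧ Sg Fr φ s o₁ o₂ i j g ∧ Sg Fr φ s o₁ o₂ j k g' ∧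
    Sg Fr φ s o₁ o₂ i k (g * g')
  r6 : ∃ i j k l g, [i, j, k, l].Nodup ∧ Sg Fr φ s o₁ o₂ j k g ∧
    Commute (φ (tv i j 1)) (g * φ (tv i j 1) * g⁻¹)
  r7 : n = 4 → ∃ i j k l g, [i, j, k, l].Nodup ∧ Sg Fr φ s o₁ o₂ j k g ∧
    Commute (φ (tv i j 1)) (g * φ (tv k l 1) * g⁻¹)

variable {φ} {π : J →* V ≃ₗ[F] V} {s g g' : J} {o₁ o₂ i j k l : Fin n}
  {m m' : Matrix.SpecialLinearGroup (Fin n) F} {τ : Perm (Fin n)}

theorem mem_Kc : m ∈ Kc φ g ↔ g * φ m * g⁻¹ ∈ φ.range := Iff.rfl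

theorem Sg.conj (h : Sg Fr φ s o₁ o₂ i j g) (hm : Fr.SM m τ) :
    Sg Fr φ s o₁ o₂ (τ i) (τ j) (φ m * g * (φ m)⁻¹) := by
  obtain ⟨m', τ', h1, rfl, rfl, rfl⟩ := h
  exact ⟨_, _, hm.mul h1, rfl, rfl, by simp [mul_assoc]⟩

theorem sg2_comm (i j : Fin n) : sg2 i j = sg2 j i := Subtype.ext <| Equiv.ext fun a => by
  simp only [sg2_apply, or_comm]

namespace DRel

variable (h : DRel Fr φ π s o₁ o₂)
include h

theorem conj_eq (hm : m ∈ Kc φ g) (e : π g * Fr.lev m * (π g)⁻¹ = Fr.lev m') :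
    g * φ m * g⁻¹ = φ m' := by
  obtain ⟨x, hx⟩ := hm
  have := congrArg π hx
  rw [h.hφ, MulEquiv.coe_toMonoidHom, MulAut.conj_apply, map_mul, map_mul, map_inv, h.hφ, e] at this
  exact Fr.lev_injective this ▸ hx.symm

theorem commute_s (hm : Fr.SM m τ) (h1 : τ o₁ = o₁ ∧ τ o₂ = o₂ ∨ τ o₁ = o₂ ∧ τ o₂ = o₁) :
    Commute (φ m) s := by
  have hd : ∀ i j, i ≠ j → ∀ S, SLp F S ≤ Kc φ s → i ∈ S → j ∈ S → dg (-1) i j ∈ Kc φ s :=
    fun i j hij S hS hi hj => hS (dg_mem_of_tv hij (tv_mem_SLp hi hj hij)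
      (tv_mem_SLp hj hi hij.symm) _)
  have key : ∀ m τ, Fr.SM m τ → τ o₁ = o₁ → τ o₂ = o₂ → m ∈ Kc φ s := by
    intro m τ hm h1 h2
    obtain ⟨m', h3, h4⟩ := Frame.exists_sm_SLp (Fr := Fr) (τ := τ) {o₁, o₂}ᶜ (by
      rintro i hi (rfl | rfl) <;> contradiction)
    obtain ⟨c, h5, h6⟩ := Frame.SM.diagonal (m := m * m'⁻¹) (by simpa using hm.mul h4.inv)
    obtain ⟨k, a1, a2, a3⟩ := h.r3
    rw [← inv_mul_cancel_right m m']
    refine mul_mem (diagonal_mem_of_sign (o := k) (fun i hi => ?_) h6 h5) (h.r2 h3)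
    by_cases e1 : i = o₁
    · exact e1 ▸ a3
    by_cases e2 : i = o₂
    · rw [e2, ← dg_mul _ h.ho.symm a1.symm a2.symm]
      exact mul_mem (hd _ _ h.ho.symm _ h.r1 (by simp) (by simp)) a3
    · exact hd _ _ hi _ h.r2 (by simp [e1, e2]) (by simp [a1, a2])
  have h2 : m ∈ Kc φ s := by
    rcases h1 with h1 | h1
    · exact key m τ hm h1.1 h1.2
    · have a1 := fun a : F => h.r1 (tv_mem_SLp (by simp) (by simp) h.ho a)
      have a2 := fun a : F => h.r1 (tv_mem_SLp (by simp) (by simp) h.ho.symm a)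
      rw [← (Kc φ s).mul_mem_cancel_left (mul_mem (mul_mem (a1 1) (a2 (-1))) (a1 1))]
      exact key _ _ ((Frame.sm_swap h.ho).mul hm) (by simp [h1]) (by simp [h1])
  refine (mul_inv_eq_iff_eq_mul.1 (h.conj_eq h2 ?_)).symm
  have := hm.conj_om o₁ o₂
  rw [show sg2 (τ o₁) (τ o₂) = sg2 o₁ o₂ by
    rcases h1 with h1 | h1 <;> simp [h1, sg2_comm o₂], mul_inv_eq_iff_eq_mul] at this
  rw [h.hs, ← this, mul_inv_cancel_right]

theorem sg_eq (h1 : Sg Fr φ s o₁ o₂ i j g) (h2 : Sg Fr φ s o₁ o₂ i j g') : g = g' := by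
  obtain ⟨m, τ, hm, rfl, rfl, rfl⟩ := h1
  obtain ⟨m', τ', hm', e1, e2, rfl⟩ := h2
  have := (h.commute_s (hm.inv.mul hm') (Or.inl ⟨by simp [e1], by simp [e2]⟩)).eq
  rw [map_mul, map_inv, mul_assoc, inv_mul_eq_iff_eq_mul] at this
  rw [this]; group

theorem sg_symm (h1 : Sg Fr φ s o₁ o₂ i j g) : Sg Fr φ s o₁ o₂ j i g := by
  obtain ⟨m, τ, hm, rfl, rfl, rfl⟩ := h1
  refine ⟨_, _, hm.mul (Frame.sm_swap h.ho), by simp, by simp, ?_⟩
  rw [map_mul, mul_assoc (φ m) _ s, (h.commute_s (Frame.sm_swap h.ho) (Or.inr (by simp))).eq]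
  group

theorem exists_sg (hij : i ≠ j) : ∃ g, Sg Fr φ s o₁ o₂ i j g := by
  obtain ⟨τ, hτ⟩ := Perm.exists_extending_pair _ _ (inj_fst2 (a := (o₁, false))
    (b := (o₂, false)) h.ho) (inj_fst2 (a := (i, false)) (b := (j, false)) hij)
  obtain ⟨m, hm⟩ := Fr.exists_sm τ
  exact ⟨_, m, τ, hm, hτ 0, hτ 1, rfl⟩

theorem map_sg (h1 : Sg Fr φ s o₁ o₂ i j g) : π g = Fr.om (sg2 i j) := by
  obtain ⟨m, τ, hm, rfl, rfl, rfl⟩ := h1
  rw [map_mul, map_mul, map_inv, h.hφ, h.hs, hm.conj_om]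

theorem le_Kc (h1 : Sg Fr φ s o₁ o₂ i j g) : SLp F {i, j} ≤ Kc φ g ∧ SLp F {i, j}ᶜ ≤ Kc φ g := by
  obtain ⟨m, τ, hm, rfl, rfl, rfl⟩ := h1
  have key : ∀ S, SLp F S ≤ Kc φ s → SLp F ((τ⁻¹ : Perm (Fin n)) ⁻¹' S) ≤ Kc φ (φ m * s * (φ m)⁻¹) :=
    fun S hS => SLp_le fun k hk l hl hkl a => by
      obtain ⟨b, e⟩ := Frame.exists_conj_tv h.hF.hN (hm.inv.mono h.hF.hN) hkl a
      have := hS (tv_mem_SLp (i := τ⁻¹ k) (j := τ⁻¹ l) hk hl (τ⁻¹.injective.ne hkl) b)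
      rw [← e] at this
      have h1 : φ m ∈ φ.range := ⟨m, rfl⟩
      have h2 := mul_mem (mul_mem h1 (mem_Kc.1 this)) (inv_mem h1)
      rw [mem_Kc]
      convert h2 using 1
      simp only [map_mul, map_inv]; group
  have e : (τ⁻¹ : Perm (Fin n)) ⁻¹' {o₁, o₂} = {τ o₁, τ o₂} := by ext; simp [Equiv.symm_apply_eq]
  rw [← e, ← Set.preimage_compl]
  exact ⟨key _ h.r1, key _ h.r2⟩

theorem sg_commute (h1 : Sg Fr φ s o₁ o₂ i j g) (hm : m ∈ SLp F {i, j}ᶜ) : Commute g (φ m) :=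
  SLp_le (K := (Subgroup.centralizer {g}).comap φ) (fun k hk l hl hkl a =>
    Subgroup.mem_centralizer_singleton_iff.2 (mul_inv_eq_iff_eq_mul.1 (h.conj_eq
      ((h.le_Kc h1).2 (tv_mem_SLp hk hl hkl a)) (by
        rw [h.map_sg h1, h.hF.om_conj_tv _ hkl, sg2_apply, sg2_apply, if_neg (by exact hl),
          if_neg (by exact hk),
          Frame.lev_tv h.hF.hN hkl]))).symm) hm _ rfl

theorem sg_conj_tv (h1 : Sg Fr φ s o₁ o₂ i j g) (hij : i ≠ j) (a : F) :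
    g * φ (tv i j a) * g⁻¹ = φ (tv j i (-a)) :=
  h.conj_eq ((h.le_Kc h1).1 (tv_mem_SLp (by simp) (by simp) hij a)) (by
    rw [h.map_sg h1, h.hF.om_conj_tv _ hij, sg2_apply, sg2_apply, if_pos (Or.inr rfl),
      if_pos (Or.inl rfl), Frame.lev_tv h.hF.hN hij.symm, Fr.xs_swap (by simpa [ng] using hij),
      h.hF.hε, h.hF.hσ, one_mul]
    rfl)

theorem sg_conj_dg (h1 : Sg Fr φ s o₁ o₂ i j g) (hij : i ≠ j) (c : Fˣ) :
    g * φ (dg c i j) * g⁻¹ = φ (dg c j i) :=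
  h.conj_eq ((h.le_Kc h1).1 (dg_mem_of_tv hij (tv_mem_SLp (by simp) (by simp) hij)
    (tv_mem_SLp (by simp) (by simp) hij.symm) c)) (by
    have h2 := h.hF.mono_om (sg2 i j)
    rw [h.map_sg h1]
    refine Frame.Mono.ext_torus (by
      simpa using (h2.mul (Frame.lev_dg_mem_H h.hF.hN c hij).2).mul h2.inv)
      (Frame.lev_dg_mem_H h.hF.hN c hij.symm).2 (fun k => ?_) fun w hw => by
        simp only [mul_apply', ← map_inv, Fr.om_V0 _ hw, Fr.lev_V0 _ hw]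
    rw [h.hF.om_conj_diagonal _ _ (coe_dg c hij), Frame.lev_diagonal (coe_dg c hij.symm)]
    split_ifs <;> simp_all)

theorem sg_mul (hd : [i, j, k].Nodup) (h1 : Sg Fr φ s o₁ o₂ i j g) (h2 : Sg Fr φ s o₁ o₂ j k g') :
    Sg Fr φ s o₁ o₂ i k (g * g') := by
  obtain ⟨l, hl⟩ := exists_notMem_list (l := [i, j, k]) h.hn
  obtain ⟨i', j', k', l', x, x', a1, a2, a3, a4⟩ := h.r5
  obtain ⟨τ, rfl, rfl, rfl, -⟩ := exists_perm4 a1 (i' := i) (j' := j) (k' := k) (l' := l)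
    (by grind)
  obtain ⟨m, hm⟩ := Fr.exists_sm τ
  rw [h.sg_eq h1 (a2.conj hm), h.sg_eq h2 (a3.conj hm)]
  simpa [mul_assoc] using a4.conj hm

theorem sg_mul_self (hij : i ≠ j) (h1 : Sg Fr φ s o₁ o₂ i j g) : g * g = 1 := by
  obtain ⟨k, hk⟩ := exists_notMem_list (l := [i, j]) (by have := h.hn; simp; omega)
  have hk' : [i, j, k].Nodup ∧ [j, i, k].Nodup := by grind
  obtain ⟨x, hx⟩ := h.exists_sg (i := j) (j := k) (by grind)
  have := h.sg_eq (h.sg_mul hk'.2 (h.sg_symm h1) (h.sg_mul hk'.1 h1 hx)) hx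
  rwa [← mul_assoc, mul_eq_right] at this

theorem commute_one (hd : [i, j, k, l].Nodup) {i' j' k' l' : Fin n} (hd' : [i', j', k', l'].Nodup)
    (h1 : Sg Fr φ s o₁ o₂ j k g) (h2 : Sg Fr φ s o₁ o₂ j' k' g') :
    (Commute (φ (tv i j 1)) (g * φ (tv i j 1) * g⁻¹) →
      Commute (φ (tv i' j' 1)) (g' * φ (tv i' j' 1) * g'⁻¹)) ∧
    (Commute (φ (tv i j 1)) (g * φ (tv k l 1) * g⁻¹) →
      Commute (φ (tv i' j' 1)) (g' * φ (tv k' l' 1) * g'⁻¹)) := by
  obtain ⟨τ, rfl, rfl, rfl, rfl⟩ := exists_perm4 hd hd'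
  obtain ⟨m, hm⟩ := Fr.exists_sm τ
  have key : ∀ {a b c d}, a ≠ b → c ≠ d → Commute (φ (tv a b 1)) (g * φ (tv c d 1) * g⁻¹) →
      Commute (φ (tv (τ a) (τ b) 1)) (g' * φ (tv (τ c) (τ d) 1) * g'⁻¹) := by
    intro a b c d hab hcd H
    have := H.map (MulAut.conj (φ m))
    rw [MulAut.conj_apply, MulAut.conj_apply, show φ m * (g * φ (tv c d 1) * g⁻¹) * (φ m)⁻¹ =
      φ m * g * (φ m)⁻¹ * (φ m * φ (tv c d 1) * (φ m)⁻¹) * (φ m * g * (φ m)⁻¹)⁻¹ by group,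
      h.sg_eq (h1.conj hm) h2, ← map_inv, ← map_mul, ← map_mul, ← map_mul, ← map_mul] at this
    rcases hm.conj_tv h.hF hab with e | e <;> rcases hm.conj_tv h.hF hcd with e' | e' <;>
      rw [e, e'] at this <;> simpa only [map_inv, ← conj_inv, Commute.inv_left_iff,
        Commute.inv_right_iff] using this
  exact ⟨key (by grind) (by grind), key (by grind) (by grind)⟩

omit h in
theorem acts_φ {D : Matrix.SpecialLinearGroup (Fin n) F} {c : F} (H : Acts D (tv i j) c) :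
    Acts (φ D) (fun a => φ (tv i j a)) c := fun a => by simp only [← H a, map_mul, map_inv]

theorem acts_sg (h1 : Sg Fr φ s o₁ o₂ j k g) (hjk : j ≠ k) {c : F} {x : F → J} (u : Fˣ)
    (H : Acts (φ (dg u k j)) x c) : Acts (φ (dg u j k)) (fun a => g * x a * g⁻¹) c :=
  h.sg_conj_dg (h.sg_symm h1) hjk.symm u ▸ H.conj g

theorem acts_sg' (h1 : Sg Fr φ s o₁ o₂ j k g) (hd : [i, j, k, l].Nodup) {c : F} {x : F → J}
    (u : Fˣ) (H : Acts (φ (dg u i l)) x c) : Acts (φ (dg u i l)) (fun a => g * x a * g⁻¹) c := by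
  have hil : i ≠ l := by grind
  have hi : i ∈ ({j, k}ᶜ : Set (Fin n)) := by grind
  have hl : l ∈ ({j, k}ᶜ : Set (Fin n)) := by grind
  have := H.conj g
  rwa [(h.sg_commute h1 (dg_mem_of_tv hil (tv_mem_SLp hi hl hil) (tv_mem_SLp hl hi hil.symm)
    u)).eq, mul_inv_cancel_right] at this

variable [Finite F]

theorem beta (hd : [i, j, k].Nodup) (h1 : Sg Fr φ s o₁ o₂ j k g) (hm : m ∈ SLp F {i, j})
    (hm' : m' ∈ SLp F {i, j}) : Commute (φ m) (g * φ m' * g⁻¹) := by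
  have k1 : ∀ {i j k g}, [i, j, k].Nodup → Sg Fr φ s o₁ o₂ j k g → ∀ a b,
      Commute (φ (tv i j a)) (g * φ (tv i j b) * g⁻¹) := by
    intro i j k g hd h1
    obtain ⟨l, hl⟩ := exists_notMem_list (l := [i, j, k]) h.hn
    have hd' : [i, j, k, l].Nodup := by grind
    have hij : i ≠ j := by grind
    have hjk : j ≠ k := by grind
    have hil : i ≠ l := by grind
    obtain ⟨i', j', k', l', x, a1, a2, a3⟩ := h.r6
    refine commute_ext (fun a b => by rw [stSL_tv.add _ _ hij, map_mul])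
      (fun a b => by simp [stSL_tv.add _ _ hij, mul_assoc]) (fun c => ?_) (fun c => ?_)
      ((h.commute_one a1 hd' a2 h1).1 a3)
    · have := acts_φ (φ := φ) (diagonal_acts_tv (coe_dg c hil) hij (c := c) (by grind))
      exact ⟨_, this, h.acts_sg' h1 hd' c this⟩
    · exact ⟨_, acts_φ (diagonal_acts_tv (coe_dg c⁻¹ hjk) hij (by
          have := c.ne_zero; simp only [Units.val_inv_eq_inv_val]; grind)), h.acts_sg h1 hjk c⁻¹
        (acts_φ (diagonal_acts_tv (coe_dg c⁻¹ hjk.symm) hij (by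
          have := c.ne_zero; simp only [Units.val_inv_eq_inv_val]; grind)))⟩
  have hij : i ≠ j := by grind
  obtain ⟨e, he⟩ := h.exists_sg hij
  have h2 := h.sg_mul (by grind) (h.sg_symm h1) (h.sg_symm he)
  have h3 := h.sg_eq (h.sg_mul hd he h1) (h.sg_symm h2)
  have k2 : ∀ a b, Commute (φ (tv j i a)) (g * φ (tv i j b) * g⁻¹) := fun a b => by
    have := k1 (i := j) (by grind) (h.sg_symm h2) a (-b)
    rwa [show g * e * φ (tv j i (-b)) * (g * e)⁻¹ = g * (e * φ (tv j i (-b)) * e⁻¹) * g⁻¹ by group,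
      h.sg_conj_tv (h.sg_symm he) hij.symm, neg_neg] at this
  have k3 : ∀ {x b}, Commute x (g * φ (tv i j (-b)) * g⁻¹) →
      Commute (e * x * e⁻¹) (g * φ (tv j i b) * g⁻¹) := fun {x b} H => by
    have := H.map (MulAut.conj e)
    rwa [MulAut.conj_apply, MulAut.conj_apply, show e * (g * φ (tv i j (-b)) * g⁻¹) * e⁻¹ =
      e * g * φ (tv i j (-b)) * (e * g)⁻¹ by group, h3, show g * e * φ (tv i j (-b)) * (g * e)⁻¹ =
      g * (e * φ (tv i j (-b)) * e⁻¹) * g⁻¹ by group, h.sg_conj_tv he hij, neg_neg] at this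
  refine SLp_commute (ψ' := (MulAut.conj g).toMonoidHom.comp φ) ?_ m hm m' hm'
  rintro p (rfl | rfl) q (rfl | rfl) hpq a p' (rfl | rfl) q' (rfl | rfl) hpq' b <;>
    try contradiction
  · exact k1 hd h1 a b
  · simpa [h.sg_conj_tv (h.sg_symm he) hij.symm] using k3 (k2 (-a) (-b))
  · exact k2 a b
  · simpa [h.sg_conj_tv he hij] using k3 (k1 hd h1 (-a) (-b))

theorem gamma (hd : [i, j, k, l].Nodup) (h1 : Sg Fr φ s o₁ o₂ j k g) (hm : m ∈ SLp F {i, j})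
    (hm' : m' ∈ SLp F {k, l}) : Commute (φ m) (g * φ m' * g⁻¹) := by
  have k1 : ∀ {i j k l g}, [i, j, k, l].Nodup → Sg Fr φ s o₁ o₂ j k g → ∀ a b,
      Commute (φ (tv i j a)) (g * φ (tv k l b) * g⁻¹) := by
    intro i j k l g hd h1
    have hij : i ≠ j := by grind
    have hjk : j ≠ k := by grind
    have hil : i ≠ l := by grind
    have hkl : k ≠ l := by grind
    refine commute_ext (fun a b => by rw [stSL_tv.add _ _ hij, map_mul])
      (fun a b => by simp [stSL_tv.add _ _ hkl, mul_assoc]) (fun c => ?_) (fun c => ?_) ?_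
    · exact ⟨_, acts_φ (diagonal_acts_tv (coe_dg c hil) hij (by grind)), h.acts_sg' h1 hd c
        (acts_φ (diagonal_acts_tv (coe_dg c hil) hkl (by have := c.ne_zero; grind)))⟩
    · exact ⟨_, acts_φ (diagonal_acts_tv (coe_dg c⁻¹ hjk) hij (by
          have := c.ne_zero; simp only [Units.val_inv_eq_inv_val]; grind)), h.acts_sg h1 hjk c⁻¹
        (acts_φ (diagonal_acts_tv (coe_dg c⁻¹ hjk.symm) hkl (by
          have := c.ne_zero; simp only [Units.val_inv_eq_inv_val]; grind)))⟩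
    by_cases h4 : n = 4
    · obtain ⟨i', j', k', l', x, a1, a2, a3⟩ := h.r7 h4
      exact (h.commute_one a1 hd a2 h1).2 a3
    obtain ⟨p, hp⟩ := exists_notMem_list (l := [i, j, k, l]) (by have := h.hn; simp; omega)
    obtain ⟨x, hx⟩ := h.exists_sg (i := k) (j := p) (by grind)
    obtain ⟨y, hy⟩ := h.exists_sg (i := p) (j := j) (by grind)
    rw [h.sg_eq (h.sg_symm h1) (h.sg_mul (by grind) hx hy),
      mul_assoc x, (h.sg_commute hy (tv_mem_SLp (by grind)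
        (by grind) hkl 1)).eq, mul_inv_rev, ← mul_assoc, ← mul_assoc,
      mul_inv_cancel_right]
    have := (h.sg_commute hx (tv_mem_SLp (by grind)
      (by grind) hij 1)).symm
    exact (this.mul_right ((stSL_tv.comm _ _ _ _ hij hkl hil hjk 1 1).map φ)).mul_right
      this.inv_right
  have hij : i ≠ j := by grind
  have hkl : k ≠ l := by grind
  have k2 : ∀ {i j k l g}, [i, j, k, l].Nodup → Sg Fr φ s o₁ o₂ j k g → ∀ a b,
      Commute (φ (tv i j a)) (g * φ (tv l k b) * g⁻¹) := by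
    intro i j k l g hd h1 a b
    have hkl : k ≠ l := by grind
    obtain ⟨e, he⟩ := h.exists_sg hkl
    have := (k1 hd h1 a (-b)).map (MulAut.conj e)
    rwa [MulAut.conj_apply, MulAut.conj_apply, (h.sg_commute he (tv_mem_SLp (by grind)
      (by grind) (by grind) a)).eq, mul_inv_cancel_right,
      show e * (g * φ (tv k l (-b)) * g⁻¹) * e⁻¹ = e * g * φ (tv k l (-b)) * (e * g)⁻¹ by group,
      h.sg_eq (h.sg_mul (by grind) (h.sg_symm he) (h.sg_symm h1))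
        (h.sg_symm (h.sg_mul (by grind) h1 he)), show g * e * φ (tv k l (-b)) * (g * e)⁻¹ =
      g * (e * φ (tv k l (-b)) * e⁻¹) * g⁻¹ by group, h.sg_conj_tv he hkl, neg_neg] at this
  obtain ⟨e, he⟩ := h.exists_sg hij
  have h2 := h.sg_symm (h.sg_mul (by grind) (h.sg_symm h1)
    (h.sg_symm he))
  have h3 : ∀ p ∈ ({k, l} : Set (Fin n)), ∀ q ∈ ({k, l} : Set (Fin n)), p ≠ q → ∀ b,
      g * e * φ (tv p q b) * (g * e)⁻¹ = g * φ (tv p q b) * g⁻¹ := fun p hp q hq hpq b => by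
    have : ({k, l} : Set (Fin n)) ⊆ {i, j}ᶜ := by grind
    rw [mul_assoc g, (h.sg_commute he (tv_mem_SLp (this hp) (this hq) hpq b)).eq]; group
  have hd' : [j, i, k, l].Nodup := by grind
  refine SLp_commute (ψ' := (MulAut.conj g).toMonoidHom.comp φ) ?_ m hm m' hm'
  rintro p (rfl | rfl) q (rfl | rfl) hpq a p' (rfl | rfl) q' (rfl | rfl) hpq' b <;>
    try contradiction
  · exact k1 hd h1 a b
  · exact k2 hd h1 a b
  · have := k1 hd' h2 a b
    rwa [h3 _ (by simp) _ (by simp) hkl b] at this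
  · have := k2 hd' h2 a b
    rwa [h3 _ (by simp) _ (by simp) hkl.symm b] at this

end DRel

end Cfsg.Agent.H78
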