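/-
The relations of type `D_n` define the orthogonal group.
-/
import Cfsg.Agent.H78.DRel
import Cfsg.Agent.H78.DKer

set_option autoImplicit false

namespace Cfsg.Agent.H78

open Equiv Cfsg.Agent.H26 Cfsg.Agent.H26.PForm Cfsg.Agent.H80 H35 Cfsg.Agent.H78.Frame
open scoped commutatorElement

variable {F V : Type*} [Field F] [AddCommGroup V] [Module F V] {P : PForm F V} {n : ℕ}
  {Fr : Frame P n} {J : Type*} [Group J]

theorem ctSys_sub {ι : Type*} {a : ι → Bool → F → J} {Adj : ι → ι → Prop} (ha : CTSys a Adj)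
    {K : Subgroup J} (hm : ∀ i b t, a i b t ∈ K) :
    CTSys (fun i b t => (⟨a i b t, hm i b t⟩ : K)) Adj := by
  refine ⟨fun i b t u => Subtype.ext (ha.add i b t u),
    fun i j h1 h2 b c t u => Subtype.ext (ha.non i j h1 h2 b c t u), fun i j hij => ?_⟩
  obtain ⟨X, hX, h1⟩ := ha.adj i j hij
  exact ⟨fun r t => ⟨_, h1.mem hX (hm i) (hm j) r t⟩, ASys.of_map K.subtype_injective hX,
    funext fun t => Subtype.ext (congrFun h1.1 t), funext fun t => Subtype.ext (congrFun h1.2.1 t),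
    funext fun t => Subtype.ext (congrFun h1.2.2.1 t),
    funext fun t => Subtype.ext (congrFun h1.2.2.2 t)⟩

theorem DFr_ker [FiniteDimensional F V] (hF : Fr.DFr) (hn : 3 ≤ n) {π : J →* V ≃ₗ[F] V}
    {a : Fin n → Bool → F → J} (ha : CTSys a AdjD)
    (h0 : ∀ i t, π (a i false t) = Fr.xs (ng (vD i)) (uD (by omega) i) t)
    (h1 : ∀ i t, π (a i true t) = Fr.xs (ng (uD (by omega) i)) (vD i) t) :
    (Subgroup.closure {g | ∃ i b t, a i b t = g}).map π = P.E ∧
      ∀ z ∈ Subgroup.closure {g | ∃ i b t, a i b t = g}, π z = 1 →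
        z ∈ ⨆ i, Subgroup.closure {g | ∃ b t, a i b t = g} ⊓ Fr.H.comap π := by
  let S : Set J := {g | ∃ i b t, a i b t = g}
  have hm : ∀ i b t, a i b t ∈ Subgroup.closure S := fun i b t =>
    Subgroup.subset_closure ⟨i, b, t, rfl⟩
  have hs : ∀ x y, P.f x y = P.f y x := fun x y => by rw [P.herm, hF.hε, hF.hσ, one_mul]
  obtain ⟨h2, h3⟩ := ker_D hn hF.hA hF.hd (fun ⟨i, b⟩ => by
      cases b
      exacts [(hs _ _).trans (hF.hN i), hF.hN i])
    ⟨le_rfl, by norm_num, H75.commute_XL_of_symm hs, Or.inl rfl,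
      Or.inr (H75.commute_XS fun _ => by rw [hF.hσ, hF.hε, one_mul])⟩
    (π := π.comp (Subgroup.closure S).subtype) (ctSys_sub ha hm) h0 h1 (by
      rw [← Subgroup.closure_closure_coe_preimage (k := S)]
      exact congrArg _ (Set.ext fun g => exists₃_congr fun i b t => Subtype.ext_iff))
  refine ⟨by rw [← h2, MonoidHom.range_comp, Subgroup.range_subtype], fun z hz e => ?_⟩
  refine (iSup_le (fun i y hy => ?_) : _ ≤ Subgroup.comap (Subgroup.closure S).subtype
    (⨆ i, Subgroup.closure {g | ∃ b t, a i b t = g} ⊓ Fr.H.comap π)) (h3 (x := ⟨z, hz⟩) e)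
  refine Subgroup.mem_iSup_of_mem i ⟨?_, hy.2⟩
  refine ((Subgroup.closure_le (Subgroup.comap (Subgroup.closure S).subtype
    (Subgroup.closure {g | ∃ b t, a i b t = g}))).2 ?_) hy.1
  rintro _ ⟨b, t, rfl⟩
  exact Subgroup.subset_closure ⟨b, t, rfl⟩

theorem sl_eq_top_of_adj {K : Subgroup (Matrix.SpecialLinearGroup (Fin n) F)}
    (h : ∀ i j : Fin n, j.val = i.val + 1 → ∀ a, tv i j a ∈ K ∧ tv j i a ∈ K) : K = ⊤ := by
  have hc : ∀ {a b}, a ∈ K → b ∈ K → ⁅a, b⁆ ∈ K := fun ha hb =>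
    mul_mem (mul_mem (mul_mem ha hb) (inv_mem ha)) (inv_mem hb)
  have key : ∀ d, ∀ i j : Fin n, j.val = i.val + 1 + d → ∀ a, tv i j a ∈ K ∧ tv j i a ∈ K := by
    intro d
    induction d with
    | zero => exact h
    | succ d ih =>
      intro i j hj a
      obtain ⟨k, hk⟩ : ∃ k : Fin n, k.val = i.val + 1 + d := ⟨⟨_, by omega⟩, rfl⟩
      have h1 : i ≠ k ∧ k ≠ j ∧ i ≠ j := by omega
      rw [← mul_one a, ← stSL_tv.cm _ _ _ h1.1 h1.2.1 h1.2.2,
        ← stSL_tv.cm _ _ _ h1.2.1.symm h1.1.symm h1.2.2.symm]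
      exact ⟨hc (ih i k hk _).1 (h k j (by omega) _).1, hc (h k j (by omega) _).2 (ih i k hk _).2⟩
  refine sl_eq_top_of_tv fun i j hij a => ?_
  rcases lt_or_gt_of_ne hij with e | e
  exacts [(key (j - i - 1) i j (by omega) a).1, (key (i - j - 1) j i (by omega) a).2]

/-- The Levi parts of the fundamental root elements. -/
def kD (hn : 2 ≤ n) (i : Fin n) (b : Bool) (t : F) : Matrix.SpecialLinearGroup (Fin n) F :=
  if b then tv (vD i).1 (uD hn i).1 t else tv (uD hn i).1 (vD i).1 t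

theorem kD_mem (hn : 2 ≤ n) (i : Fin n) (b : Bool) (t : F) :
    kD hn i b t ∈ SLp F {(uD hn i).1, (vD i).1} := by
  cases b
  exacts [tv_mem_SLp (by simp) (by simp) (uD_ne_vD hn i) t,
    tv_mem_SLp (by simp) (by simp) (uD_ne_vD hn i).symm t]

theorem uD_val (hn : 2 ≤ n) (i : Fin n) : (uD hn i).1.val = if i.val = 0 then 1 else i.val := by
  unfold uD; split_ifs <;> rfl

theorem vD_val (i : Fin n) : (vD i).1.val = i.val - 1 := by
  unfold vD; split_ifs with h
  exacts [by simp [h], rfl]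

theorem SLp_mono {S T : Set (Fin n)} (h : S ⊆ T) : SLp F S ≤ SLp F T :=
  SLp_le fun _ hi _ hj => tv_mem_SLp (h hi) (h hj)

/-- The embeddings of the fundamental subgroups. -/
def psiD (φ : Matrix.SpecialLinearGroup (Fin n) F →* J) (g : J) (i : Fin n) :
    Matrix.SpecialLinearGroup (Fin n) F →* J :=
  if i.val = 0 then (MulAut.conj g).toMonoidHom.comp φ else φ

variable {φ : Matrix.SpecialLinearGroup (Fin n) F →* J} {π : J →* V ≃ₗ[F] V} {s g : J}
  {o₁ o₂ p q : Fin n} {m m' : Matrix.SpecialLinearGroup (Fin n) F}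

theorem psiD_zero (hp : p.val = 0) : psiD φ g p m = g * φ m * g⁻¹ := by rw [psiD, if_pos hp]; rfl

theorem psiD_ne (hp : p.val ≠ 0) : psiD φ g p = φ := if_neg hp

namespace DRel

variable [Finite F] (h : DRel Fr φ π s o₁ o₂) (hn : 2 ≤ n) (hp : p.val = 0) (hq : q.val + 1 = n)
  (hg : Sg Fr φ s o₁ o₂ p q g)
include h hp hq hg

theorem comm0 {i : Fin n} (hi : i.val ≠ 0) (hm : m ∈ SLp F {(uD hn i).1, (vD i).1})
    (hm' : m' ∈ SLp F {(uD hn p).1, (vD p).1}) (hc : i.val = 2 → Commute m m') :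
    Commute (φ m) (g * φ m' * g⁻¹) := by
  have := h.hn
  have a1 := uD_val hn i
  have a2 := vD_val i
  have a3 := uD_val hn p
  have a4 := vD_val p
  rw [if_neg hi] at a1
  rw [if_pos hp] at a3
  generalize (uD hn p).1 = u at *
  generalize (vD p).1 = v at *
  generalize (uD hn i).1 = u' at *
  generalize (vD i).1 = v' at *
  obtain rfl : v = p := by omega
  by_cases h1 : i.val = 1
  · obtain rfl : u' = u := by omega
    obtain rfl : v' = v := by omega
    exact h.beta (by grind) hg hm hm'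
  by_cases h2 : u' = q
  · subst h2
    exact h.gamma (i := v') (l := u) (by grind) (h.sg_symm hg) (Set.pair_comm _ _ ▸ hm)
      (Set.pair_comm _ _ ▸ hm')
  have h3 := (h.sg_commute hg (SLp_mono (by grind) hm)).symm
  refine (h3.mul_right (Commute.map ?_ φ)).mul_right h3.inv_right
  by_cases h4 : i.val = 2
  · exact hc h4
  exact SLp_commute (ψ := MonoidHom.id _) (ψ' := MonoidHom.id _) (fun a ha b hb hab t c hc d hd hcd
    t' => stSL_tv.comm _ _ _ _ hab hcd (by grind) (by grind) t t') m hm m' hm'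

theorem ctSys : CTSys (fun i b t => psiD φ g i (kD hn i b t)) AdjD := by
  have := h.hn
  have non : ∀ i j : Fin n, i.val ≠ 0 → i ≠ j → ¬ AdjD i j → ∀ b c t u,
      Commute (psiD φ g i (kD hn i b t)) (psiD φ g j (kD hn j c u)) := by
    intro i j hi hij hA b c t u
    unfold AdjD at hA
    rw [psiD_ne hi]
    by_cases hj : j.val = 0
    · obtain rfl : j = p := by omega
      rw [psiD_zero hj]
      exact h.comm0 hn hp hq hg hi (kD_mem hn i b t) (kD_mem hn j c u) (by omega)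
    rw [psiD_ne hj]
    have a1 := uD_val hn i
    have a2 := vD_val i
    have a3 := uD_val hn j
    have a4 := vD_val j
    refine SLp_commute (ψ' := φ) (fun a ha b hb hab t c hc d hd hcd t' => ?_) _ (kD_mem hn i b t) _
      (kD_mem hn j c u)
    exact (stSL_tv.comm _ _ _ _ hab hcd (by grind) (by grind) t t').map φ
  have adj : ∀ i k : Fin n, (i.val = k.val + 1 ∧ k.val ≠ 0) ∨ (i.val = 2 ∧ k.val = 0) →
      Std (fun b t => psiD φ g i (kD hn i b t)) fun b t => psiD φ g k (kD hn k b t) := by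
    intro i k hik
    have a1 := uD_val hn i
    have a2 := vD_val i
    have a3 := uD_val hn k
    have a4 := vD_val k
    have e : ∀ b t, psiD φ g i (kD hn i b t) = psiD φ g k (kD hn i b t) := fun b t => by
      rw [psiD_ne (by omega)]
      by_cases hk : k.val = 0
      · rw [psiD_zero hk, (h.sg_commute hg (SLp_mono (S := {(uD hn i).1, (vD i).1}) (by grind)
          (kD_mem hn i b t))).eq,
          mul_inv_cancel_right]
      · rw [psiD_ne hk]
    have e' : (vD i).1 = (uD hn k).1 := by grind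
    have hf : Function.Injective ![(uD hn i).1, (vD i).1, (vD k).1] :=
      List.nodup_ofFn.1 (by simp; grind)
    simp only [e]
    refine ⟨_, (ASys.comap (X := fun r => tv r.1.1 r.1.2) ⟨fun r => stSL_tv.add _ _ r.2,
      fun r s => stSL_tv.comm _ _ _ _ r.2 s.2, stSL_tv.cm⟩ _ hf).map (psiD φ g k), rfl, rfl, ?_, ?_⟩
    all_goals simp [kD, e']
  refine ⟨fun i b t u => ?_, fun i j hij hA b c t u => ?_,
    fun i j hA => hA.elim (adj i j) fun hA => (adj j i hA).symm⟩
  · cases b <;> simp [kD, stSL_tv.add _ _ (uD_ne_vD hn i), stSL_tv.add _ _ (uD_ne_vD hn i).symm]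
  · by_cases hi : i.val = 0
    · exact (non j i (by omega) hij.symm (fun e => hA e.symm) c b u t).symm
    · exact non i j hi hij hA b c t u

omit [Finite F] in
theorem map_psiD (i : Fin n) (t : F) :
    π (psiD φ g i (kD hn i false t)) = Fr.xs (ng (vD i)) (uD hn i) t ∧
    π (psiD φ g i (kD hn i true t)) = Fr.xs (ng (uD hn i)) (vD i) t := by
  have := h.hn
  have h1 := uD_ne_vD hn i
  by_cases hi : i.val = 0
  · obtain rfl : i = p := by omega
    have h2 : (⟨1, hn⟩ : Fin n) ≠ i ∧ (⟨1, hn⟩ : Fin n) ≠ q := by grind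
    simp only [psiD_zero hi, map_mul, map_inv, h.hφ, h.map_sg hg, kD, if_true, Bool.false_eq_true,
      if_false, h.hF.om_conj_tv _ h1, h.hF.om_conj_tv _ h1.symm]
    simp [uD, vD, hi, sg2_apply, h2, ng]
  · simp only [psiD_ne hi, h.hφ, kD, if_true, Bool.false_eq_true, if_false, lev_tv h.hF.hN h1,
      lev_tv h.hF.hN h1.symm]
    simp [uD, vD, hi, ng]

theorem range_le : φ.range ⊔ Subgroup.zpowers s ≤
    Subgroup.closure {y | ∃ i b t, psiD φ g i (kD hn i b t) = y} := by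
  have := h.hn
  set Γ := Subgroup.closure {y | ∃ i b t, psiD φ g i (kD hn i b t) = y}
  have hpq : p ≠ q := by omega
  have h0 : ∀ i b t, psiD φ g i (kD hn i b t) ∈ Γ := fun i b t =>
    Subgroup.subset_closure ⟨i, b, t, rfl⟩
  have h1 : ∀ m, φ m ∈ Γ := fun m => (sl_eq_top_of_adj (K := Γ.comap φ) fun i j hj a => by
    have e1 : (uD hn j).1 = j := by have := uD_val hn j; grind
    have e2 : (vD j).1 = i := by have := vD_val j; grind
    simpa [kD, e1, e2, psiD_ne (show j.val ≠ 0 by omega)] using And.intro (h0 j true a)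
      (h0 j false a)).ge (Subgroup.mem_top m)
  obtain ⟨u, hu⟩ : ∃ u : Fin n, u.val = 1 := ⟨⟨1, hn⟩, rfl⟩
  have h2 : SLp F {p, u} ≤ (Γ.comap (MulAut.conj g).toMonoidHom).comap φ := by
    have e1 : (uD hn p).1 = u := by have := uD_val hn p; grind
    have e2 : (vD p).1 = p := by have := vD_val p; grind
    have a1 := h0 p
    refine SLp_le ?_
    rintro i (rfl | rfl) j (rfl | rfl) hij a <;> try contradiction
    · simpa [kD, e1, e2, psiD_zero hp] using a1 true a
    · simpa [kD, e1, e2, psiD_zero hp] using a1 false a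
  have h3 : ∀ m, g * φ m * g⁻¹ ∈ Γ := fun m => (sl_eq_top_of_adj
      (K := (Γ.comap (MulAut.conj g).toMonoidHom).comap φ) fun i j hj a => by
    suffices SLp F {i, j} ≤ (Γ.comap (MulAut.conj g).toMonoidHom).comap φ from
      ⟨this (tv_mem_SLp (by simp) (by simp) (by omega) a),
        this (tv_mem_SLp (by simp) (by simp) (by omega) a)⟩
    by_cases e1 : i = p
    · rwa [e1, show j = u by omega]
    by_cases e2 : j = q
    · obtain ⟨τ, a1, a2, a3, -⟩ := exists_perm4 (i := j) (j := p) (k := i) (l := u) (i' := p)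
        (j' := j) (k' := u) (l' := i) (by grind) (by grind)
      obtain ⟨x, hx⟩ := Fr.exists_sm τ
      have a4 := hg.conj hx
      rw [a2, ← e2, a1, e2] at a4
      refine SLp_le fun k hk l hl hkl b => ?_
      obtain ⟨c, hc⟩ := exists_conj_tv h.hF.hN (hx.mono h.hF.hN) hkl b
      have a5 := mul_mem (mul_mem (inv_mem (h1 x)) (h2 (tv_mem_SLp (i := τ k) (j := τ l) (by grind)
        (by grind) (τ.injective.ne hkl) c))) (h1 x)
      rw [← hc, ← h.sg_eq a4 (h.sg_symm hg)] at a5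
      simpa [mul_assoc] using a5
    · intro x hx
      have := (h.sg_commute hg (SLp_mono (by grind) hx)).eq
      simpa [this] using h1 x).ge (Subgroup.mem_top m)
  obtain ⟨g', hg'⟩ := h.exists_sg (i := q) (j := u) (by omega)
  obtain ⟨x, -, -, -, -, e⟩ := h.sg_mul (by grind) hg hg'
  have h4 := inv_eq_of_mul_eq_one_right (h.sg_mul_self hpq hg)
  obtain ⟨y, -, -, -, -, e1⟩ := hg
  obtain ⟨z, -, -, -, -, e2⟩ := hg'
  refine sup_le (by rintro _ ⟨m, rfl⟩; exact h1 m) (Subgroup.zpowers_le.2 ?_)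
  have h5 := mul_mem (h3 (z * y⁻¹)) (inv_mem (h1 (z * y⁻¹)))
  rw [h4, show g * φ (z * y⁻¹) * g * (φ (z * y⁻¹))⁻¹ = g * g' by simp [e1, e2, mul_assoc], e] at h5
  simpa [mul_assoc] using mul_mem (mul_mem (inv_mem (h1 x)) h5) (h1 x)

theorem torus_inj {z : J} (hz : z ∈ ⨆ i, Subgroup.closure
    {y | ∃ b t, psiD φ g i (kD hn i b t) = y} ⊓ Fr.H.comap π) (e : π z = 1) : z = 1 := by
  have := h.hn
  let B := (Diag n F ⊓ SLp F {(uD hn p).1, (vD p).1}).map (psiD φ g p)
  have hσ := h.hF.mono_om (sg2 p q)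
  obtain ⟨_, ⟨⟨D, ⟨d, hD⟩, rfl⟩, -⟩, _, ⟨D', ⟨⟨d', hD'⟩, hS⟩, rfl⟩, rfl⟩ := mem_sup_of_conj
    (A := (Diag n F).map φ ⊓ Subgroup.centralizer B) (B := B)
    (fun a ha b hb => by rwa [← ha.2 b hb, mul_inv_cancel_right]) (SetLike.le_def.1 (iSup_le
      (f := fun i => Subgroup.closure {y | ∃ b t, psiD φ g i (kD hn i b t) = y} ⊓ Fr.H.comap π)
      fun i y hy => by
      obtain ⟨m, hm, rfl⟩ := (Subgroup.closure_le ((SLp F {(uD hn i).1, (vD i).1}).map
        (psiD φ g i))).2 (by rintro _ ⟨b, t, rfl⟩; exact ⟨_, kD_mem hn i b t, rfl⟩) hy.1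
      have h1 : Fr.Mono (π (psiD φ g i m)) 1 := hy.2.2
      by_cases hi : i.val = 0
      · obtain rfl : i = p := by omega
        rw [psiD_zero hi, map_mul, map_mul, map_inv, h.hφ, h.map_sg hg] at h1
        exact Subgroup.mem_sup_right ⟨m, ⟨(mem_Diag_iff h.hF.hN).2 (by
          simpa [mul_assoc] using (hσ.inv.mul h1).mul hσ), hm⟩, rfl⟩
      rw [psiD_ne hi] at h1 ⊢
      rw [h.hφ, ← mem_Diag_iff h.hF.hN] at h1
      refine Subgroup.mem_sup_left ⟨⟨m, h1, rfl⟩, ?_⟩
      rintro _ ⟨m', ⟨⟨d', h2⟩, h3⟩, rfl⟩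
      obtain ⟨d, h1⟩ := h1
      rw [psiD_zero hp]
      exact (h.comm0 hn hp hq hg hi hm h3 fun _ => sl_ext (by
        simp [h1, h2, mul_comm])).symm.eq) hz)
  have a1 := uD_val hn p
  have a2 : (vD p).1 = p := by have := vD_val p; omega
  rw [if_pos hp] at a1
  rw [a2] at hS
  generalize (uD hn p).1 = u at *
  rw [psiD_zero hp] at e ⊢
  have inj := fun k => smul_left_injective F (Fr.e_ne_zero (k, false))
  have h1 : ∀ k, k ≠ p ∧ k ≠ u → d' k = 1 := fun k hk => inj k (by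
    simpa [lev_diagonal hD'] using lev_SLp_apply h.hF.hN hS (a := (k, false)) (by grind))
  have h2 : ∀ k, (if k = p ∨ k = q then (d' k)⁻¹ else d' k) * d k = 1 := fun k => inj k (by
    have := congrArg (fun x : V ≃ₗ[F] V => x (Fr.e (k, false))) e
    simp only [map_mul, map_inv, h.hφ, h.map_sg hg] at this
    rw [mul_apply', h.hF.om_conj_diagonal _ _ hD', map_smul, lev_diagonal hD, smul_smul] at this
    simpa using this)
  have hpu : p ≠ u := by omega
  have h3 := D.2
  have h4 := D'.2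
  have h5 := Finset.prod_congr rfl fun k (_ : k ∈ Finset.univ) => h2 k
  rw [hD, Matrix.det_diagonal] at h3
  rw [hD', Matrix.det_diagonal, Fintype.prod_eq_mul p u hpu h1] at h4
  rw [Finset.prod_mul_distrib, h3, Fintype.prod_eq_mul p u hpu (fun k hk => by simp [h1 k hk]),
    if_pos (Or.inl rfl), if_neg (by omega), mul_one, Finset.prod_const_one,
    inv_mul_eq_one₀ (left_ne_zero_of_mul_eq_one h4)] at h5
  have h6 := h.sg_eq (hg.conj (sm_diagonal h.hF (fun k => by
    by_cases e : k ≠ p ∧ k ≠ u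
    · simp [h1 k e]
    · grind) hD')) hg
  rw [← mul_inv_eq_iff_eq_mul.1 h6, mul_inv_cancel_right, ← map_mul] at e ⊢
  rw [h.hφ, ← map_one Fr.lev, Fr.lev_injective.eq_iff] at e
  rw [e, map_one]

omit hp hq hg in
theorem main [FiniteDimensional F V] : (φ.range ⊔ Subgroup.zpowers s).map π = P.E ∧
    ∀ z ∈ φ.range ⊔ Subgroup.zpowers s, π z = 1 → z = 1 := by
  have := h.hn
  have hn : 2 ≤ n := by omega
  obtain ⟨p, hp⟩ : ∃ p : Fin n, p.val = 0 := ⟨⟨0, by omega⟩, rfl⟩
  obtain ⟨q, hq⟩ : ∃ q : Fin n, q.val + 1 = n := ⟨⟨n - 1, by omega⟩, by simp; omega⟩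
  obtain ⟨g, hg⟩ := h.exists_sg (i := p) (j := q) (by omega)
  obtain ⟨h1, h2⟩ := DFr_ker h.hF (by omega) (h.ctSys hn hp hq hg)
    (fun i t => (h.map_psiD hn hp hq hg i t).1) fun i t => (h.map_psiD hn hp hq hg i t).2
  have h3 := h.range_le hn hp hq hg
  refine ⟨h1 ▸ congrArg _ (le_antisymm h3 ((Subgroup.closure_le _).2 ?_)),
    fun z hz e => h.torus_inj hn hp hq hg (h2 z (h3 hz) e) e⟩
  rintro _ ⟨i, b, t, rfl⟩
  have h4 : ∀ m, φ m ∈ φ.range ⊔ Subgroup.zpowers s := fun m => Subgroup.mem_sup_left ⟨m, rfl⟩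
  have h5 : g ∈ φ.range ⊔ Subgroup.zpowers s := by
    obtain ⟨m, -, -, -, -, rfl⟩ := hg
    exact mul_mem (mul_mem (h4 m) (Subgroup.mem_sup_right (Subgroup.mem_zpowers s))) (inv_mem (h4 m))
  by_cases hi : i.val = 0
  · rw [psiD_zero hi]
    exact mul_mem (mul_mem h5 (h4 _)) (inv_mem h5)
  · rw [psiD_ne hi]
    exact h4 _

end DRel

end Cfsg.Agent.H78
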