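/-
Short presentations of the groups of type `D_n`.
-/
import Cfsg.Agent.H78.DInj
import Cfsg.Agent.H78.SpPres

set_option autoImplicit false

namespace Cfsg.Agent.H78

open Equiv Cfsg.Agent.H26 Cfsg.Agent.H26.PForm Cfsg.Agent.H80 H35 Cfsg.Agent.H78.Frame Monoid
open scoped commutatorElement

variable {F V : Type*} [Field F] [AddCommGroup V] [Module F V] {P : PForm F V} {n : ℕ}
  {Fr : Frame P n} {J : Type*} [Group J]

theorem isPres_empty (X : Type*) : IsPres (∅ : Finset (FreeGroup X)) FreeGroup.of :=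
  ⟨(QuotientGroup.quotientMulEquivOfEq (by simp)).trans QuotientGroup.quotientBot, fun _ => rfl⟩

theorem range_fin_one (ψ : FreeGroup (Fin 1) →* J) :
    ψ.range = Subgroup.zpowers (ψ (FreeGroup.of 0)) := by
  rw [MonoidHom.range_eq_map, ← FreeGroup.closure_range_of, MonoidHom.map_closure,
    Subgroup.zpowers_eq_closure]
  simp [← Set.range_comp, Set.range_unique]

theorem forall_mem_ite {α : Type*} {c : Prop} [Decidable c] {x : α} {p : α → Prop} :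
    (∀ y ∈ (if c then [x] else []), p y) ↔ (c → p x) := by split_ifs <;> simp [*]

theorem exists_gens [Finite F] (hF : Fr.DFr) (hn : 4 ≤ n) : ∃ (o₁ o₂ k l : Fin n) (ζ : Fˣ) (m : _)
    (τ : Perm (Fin n)), [o₁, o₂, k, l].Nodup ∧ Fr.SM m τ ∧ τ o₁ = o₂ ∧ τ o₂ = o₁ ∧
      ∀ K : Subgroup (Matrix.SpecialLinearGroup (Fin n) F), tv o₁ o₂ 1 ∈ K → tv k l 1 ∈ K →
        dg ζ o₁ o₂ * dg ζ k l * dg (-1) o₁ k ∈ K → m ∈ K →
        SLp F {o₁, o₂} ≤ K ∧ SLp F {o₁, o₂}ᶜ ≤ K ∧ dg (-1) o₁ k ∈ K := by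
  classical
  obtain ⟨ζ, hζ0, hζ⟩ := exists_generator_field F
  obtain ⟨o₁, o₂, ho⟩ : ∃ a b : Fin n, a ≠ b := ⟨⟨0, by omega⟩, ⟨1, by omega⟩, by simp⟩
  let L := ({o₁, o₂}ᶜ : Finset (Fin n)).toList
  have hL : ∀ i, i ∈ L ↔ i ∈ ({o₁, o₂}ᶜ : Set (Fin n)) := fun i => by simp [L]
  have hnd : L.Nodup := Finset.nodup_toList _
  have hlen : 2 ≤ L.length := by
    rw [Finset.length_toList, Finset.card_compl, Finset.card_pair ho, Fintype.card_fin]; omega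
  have hne : ∀ i, L.formPerm i ≠ i ↔ i ∈ ({o₁, o₂}ᶜ : Set (Fin n)) := fun i => by
    rw [← hL, ← Perm.mem_support, List.support_formPerm_of_nodup L hnd (by
      intro x e; rw [e] at hlen; simp at hlen), List.mem_toFinset]
  have hcyc := List.isCycle_formPerm hnd hlen
  generalize L.formPerm = c at hne hcyc
  obtain ⟨k, hk, -⟩ := id hcyc
  have hS : ∀ i ∈ ({o₁, o₂}ᶜ : Set (Fin n)), c i ∈ ({o₁, o₂}ᶜ : Set (Fin n)) := fun i hi =>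
    (hne _).1 (c.injective.ne ((hne i).2 hi))
  have h1 : c o₁ = o₁ := by_contra fun h => (hne _).1 h (by simp)
  have h2 : c o₂ = o₂ := by_contra fun h => (hne _).1 h (by simp)
  have h3 := (hne k).1 hk
  have h4 := hS k h3
  have hd : [o₁, o₂, k, c k].Nodup := by grind
  have h5 : o₁ ≠ k := by grind
  obtain ⟨m, hm⟩ := Fr.exists_sm (swap o₁ o₂ * c)
  refine ⟨o₁, o₂, k, c k, Units.mk0 ζ hζ0, m, _, hd, hm, by simp [h1], by simp [h2],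
    fun K a1 a2 a3 a4 => ?_⟩
  have key : ∀ i j, i ≠ j → Acts (dg (Units.mk0 ζ hζ0) o₁ o₂ * dg (Units.mk0 ζ hζ0) k (c k) *
      dg (-1) o₁ k) (tv i j) (-ζ ^ 2) → tv i j 1 ∈ K → ∀ a, tv i j a ∈ K := fun i j hij H e a => by
    let W : AddSubgroup F :=
      { carrier := {a | tv i j a ∈ K}
        zero_mem' := by simp [tv_zero hij]
        add_mem' := fun h h' => by simpa [stSL_tv.add _ _ hij] using mul_mem h h'
        neg_mem' := fun h => by simpa [tv_neg hij] using h }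
    refine (eq_top_of_gen_sq hζ (W := W) e one_ne_zero fun a ha => ?_).ge (AddSubgroup.mem_top a)
    rw [← neg_mem_iff, ← neg_mul]
    exact (H a).subst (motive := (· ∈ K)) (mul_mem (mul_mem a3 ha) (inv_mem a3))
  have hD := Matrix.SpecialLinearGroup.coe_mul
    (dg (Units.mk0 ζ hζ0) o₁ o₂ * dg (Units.mk0 ζ hζ0) k (c k)) (dg (-1) o₁ k)
  rw [Matrix.SpecialLinearGroup.coe_mul (dg _ _ _) (dg _ _ _), coe_dg _ ho, coe_dg _ hk.symm,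
    coe_dg _ h5, Matrix.diagonal_mul_diagonal, Matrix.diagonal_mul_diagonal] at hD
  have b1 := key _ _ ho (diagonal_acts_tv hD ho (by simp; grind)) a1
  have b2 := key _ _ hk.symm (diagonal_acts_tv hD hk.symm (by simp; grind)) a2
  have step : ∀ i j, i ≠ j → (∀ a, tv i j a ∈ K) →
      ∀ a, tv ((swap o₁ o₂ * c) i) ((swap o₁ o₂ * c) j) a ∈ K := fun i j hij h a => by
    obtain ⟨b, hb⟩ := exists_conj_tv hF.hN (hm.inv.mono hF.hN) ((swap o₁ o₂ * c).injective.ne hij) a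
    rw [← K.mul_mem_cancel_left (inv_mem a4), ← K.mul_mem_cancel_right (inv_mem (inv_mem a4)), hb]
    simpa using h b
  have b3 : SLp F {o₁, o₂} ≤ K := by
    have := step _ _ ho b1
    refine SLp_le ?_
    rintro i (rfl | rfl) j (rfl | rfl) hij <;> try contradiction
    · exact b1
    · simpa [h1, h2] using this
  have b4 : SLp F {o₁, o₂}ᶜ ≤ K := SLp_le fun i hi j hj hij => (rel_of_cycle (σ := c)
    (R := fun i j => i ∈ ({o₁, o₂}ᶜ : Set (Fin n)) ∧ j ∈ ({o₁, o₂}ᶜ : Set (Fin n)) ∧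
      ∀ a, tv i j a ∈ K) (fun i hi j hj => hcyc.exists_pow_eq ((hne i).2 hi) ((hne j).2 hj))
    (fun i j hij h => ⟨hS _ h.1, hS _ h.2.1, by
      have := step i j hij h.2.2
      have e := fun i hi => swap_apply_of_ne_of_ne (a := o₁) (b := o₂) (x := c i)
        (fun e => hS i hi (by simp [e])) fun e => hS i hi (by simp [e])
      rwa [Perm.mul_apply, Perm.mul_apply, e i h.1, e j h.2.1] at this⟩)
    (fun i j k hij hjk hik h h' => ⟨h.1, h'.2.1, fun a => by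
      rw [← mul_one a, ← stSL_tv.cm _ _ _ hij hjk hik, commutatorElement_def]
      exact mul_mem (mul_mem (mul_mem (h.2.2 _) (h'.2.2 _)) (inv_mem (h.2.2 _)))
        (inv_mem (h'.2.2 _))⟩) h3 hk.symm ⟨h3, h4, b2⟩ i hi j hj hij).2.2
  exact ⟨b3, b4, (K.mul_mem_cancel_left (mul_mem (b3 (dg_mem_of_tv ho (tv_mem_SLp (by simp)
    (by simp) ho) (tv_mem_SLp (by simp) (by simp) ho.symm) _)) (b4 (dg_mem_of_tv hk.symm
    (tv_mem_SLp h3 h4 hk.symm) (tv_mem_SLp h4 h3 hk) _)))).1 a3⟩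

theorem sg_self {φ : Matrix.SpecialLinearGroup (Fin n) F →* J} {s : J} {o₁ o₂ : Fin n} :
    Sg Fr φ s o₁ o₂ o₁ o₂ s := ⟨1, 1, SM.one, rfl, rfl, by simp⟩

/-- The list of relations. -/
noncomputable def dRels (o₁ o₂ k l : Fin n) (ζ : Fˣ)
    (m m₁ m₂ : Matrix.SpecialLinearGroup (Fin n) F) :
    List (Coprod (Matrix.SpecialLinearGroup (Fin n) F) (FreeGroup (Fin 1)) ×
      Subgroup (Matrix.SpecialLinearGroup (Fin n) F) × Subgroup (FreeGroup (Fin 1))) :=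
  let φ : Matrix.SpecialLinearGroup (Fin n) F →* Coprod _ (FreeGroup (Fin 1)) := Coprod.inl
  let s : Coprod (Matrix.SpecialLinearGroup (Fin n) F) (FreeGroup (Fin 1)) :=
    Coprod.inr (FreeGroup.of 0)
  [(s * φ (tv o₁ o₂ 1) * s⁻¹, ⊤, ⊥), (s * φ (tv k l 1) * s⁻¹, ⊤, ⊥),
    (s * φ (dg ζ o₁ o₂ * dg ζ k l * dg (-1) o₁ k) * s⁻¹, ⊤, ⊥), (s * φ m * s⁻¹, ⊤, ⊥),
    (s * (φ m₁ * s * (φ m₁)⁻¹) * (φ m₂ * s * (φ m₂)⁻¹)⁻¹, ⊥, ⊥),
    (⁅φ (tv k o₁ 1), s * φ (tv k o₁ 1) * s⁻¹⁆, ⊥, ⊥)] ++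
    if n = 4 then [(⁅φ (tv k o₁ 1), s * φ (tv o₂ l 1) * s⁻¹⁆, ⊥, ⊥)] else []

theorem dRels_iff {o₁ o₂ k l : Fin n} {ζ : Fˣ} {m m₁ m₂ : Matrix.SpecialLinearGroup (Fin n) F}
    {φ : Matrix.SpecialLinearGroup (Fin n) F →* J} {ψ : FreeGroup (Fin 1) →* J} {s : J}
    (hs : ψ (FreeGroup.of 0) = s) :
    (∀ p ∈ dRels o₁ o₂ k l ζ m m₁ m₂, Coprod.lift φ ψ p.1 ∈ p.2.1.map φ ⊔ p.2.2.map ψ) ↔
      (tv o₁ o₂ 1 ∈ Kc φ s ∧ tv k l 1 ∈ Kc φ s ∧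
        dg ζ o₁ o₂ * dg ζ k l * dg (-1) o₁ k ∈ Kc φ s ∧ m ∈ Kc φ s ∧
        s * (φ m₁ * s * (φ m₁)⁻¹) = φ m₂ * s * (φ m₂)⁻¹ ∧
        Commute (φ (tv k o₁ 1)) (s * φ (tv k o₁ 1) * s⁻¹)) ∧
      (n = 4 → Commute (φ (tv k o₁ 1)) (s * φ (tv o₂ l 1) * s⁻¹)) := by
  simp only [dRels, List.forall_mem_append, List.forall_mem_cons, forall_mem_ite, map_mul,
    map_inv, map_commutatorElement, Coprod.lift_apply_inl, Coprod.lift_apply_inr, hs,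
    Subgroup.map_bot, sup_bot_eq, Subgroup.mem_bot, ← MonoidHom.range_eq_map, mem_Kc,
    commutatorElement_eq_one_iff_commute, mul_inv_eq_one, List.not_mem_nil, false_imp_iff,
    implies_true, and_true]

theorem Frame.DFr.pres [Finite F] [FiniteDimensional F V] (hF : Fr.DFr) (hn : 4 ≤ n) {N : ℕ}
    {r₁ : Finset (FreeGroup (Fin N))} {g₁ : Fin N → Matrix.SpecialLinearGroup (Fin n) F}
    (h₁ : IsPres r₁ g₁) : ∃ (rels : Finset (FreeGroup (Fin (N + 1)))) (g : Fin (N + 1) → P.E),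
      rels.card ≤ r₁.card + (if n = 4 then 7 else 6) ∧ IsPres rels g := by
  obtain ⟨o₁, o₂, k, l, ζ, m, τ, hd, hm, h1, h2, hK⟩ := exists_gens hF hn
  obtain ⟨τ₁, a1, a2, -⟩ := exists_perm4 hd (i' := o₂) (j' := k) (k' := l) (l' := o₁) (by grind)
  obtain ⟨τ₂, a3, a4, -⟩ := exists_perm4 hd (i' := o₁) (j' := k) (k' := l) (l' := o₂) (by grind)
  obtain ⟨m₁, hm₁⟩ := Fr.exists_sm τ₁
  obtain ⟨m₂, hm₂⟩ := Fr.exists_sm τ₂
  have ho : o₁ ≠ o₂ := by grind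
  have hk : k ≠ o₁ ∧ k ≠ o₂ ∧ k ≠ l ∧ o₂ ≠ l ∧ l ≠ o₁ := by grind
  let i₂ : FreeGroup (Fin 1) →* V ≃ₗ[F] V := FreeGroup.lift fun _ => Fr.om (sg2 o₁ o₂)
  have hi : i₂ (FreeGroup.of 0) = Fr.om (sg2 o₁ o₂) := FreeGroup.lift_apply_of
  have b1 : SLp F {o₁, o₂} ≤ Kc Fr.lev (Fr.om (sg2 o₁ o₂)) := SLp_le fun i hi j hj hij a => by
    rw [mem_Kc, hF.om_conj_tv _ hij, sg2_apply, sg2_apply, if_pos (by exact hj),
      if_pos (by exact hi)]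
    exact ((mem_X_iff_tv hF.hN hij.symm).1 (xs_mem (by simpa [ng] using hij) a)).elim
      fun t e => ⟨_, e⟩
  have b2 : SLp F {o₁, o₂}ᶜ ≤ Kc Fr.lev (Fr.om (sg2 o₁ o₂)) := SLp_le fun i hi j hj hij a => by
    rw [mem_Kc, hF.om_conj_tv _ hij, sg2_apply, sg2_apply, if_neg (by exact hj),
      if_neg (by exact hi)]
    exact ⟨_, lev_tv hF.hN hij a⟩
  have b3 : ∀ {m τ}, Fr.SM m τ → sg2 (τ o₁) (τ o₂) = sg2 o₁ o₂ →
      m ∈ Kc Fr.lev (Fr.om (sg2 o₁ o₂)) := fun {m τ} hm e => ⟨m, by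
    have := hm.conj_om o₁ o₂
    rw [e, mul_inv_eq_iff_eq_mul] at this
    exact eq_mul_inv_of_mul_eq this⟩
  have b4 : ∀ {S}, SLp F S ≤ Kc Fr.lev (Fr.om (sg2 o₁ o₂)) → ∀ {i j}, i ∈ S → j ∈ S → i ≠ j →
      dg ζ i j ∈ Kc Fr.lev (Fr.om (sg2 o₁ o₂)) := fun hS i j hi hj hij =>
    hS (dg_mem_of_tv hij (tv_mem_SLp hi hj hij) (tv_mem_SLp hj hi hij.symm) _)
  have b5 := b3 (sm_dg hF (c := -1) (by simp) hk.1.symm) rfl
  have b6 : Fr.lev (tv k o₁ 1) ∈ Fr.X (o₁, true) (k, false) :=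
    X_symm (Fr := Fr) _ _ ▸ lev_tv_mem hF.hN hk.1 1
  have b7 : Fr.om (sg2 o₁ o₂) * (Fr.lev m₁ * Fr.om (sg2 o₁ o₂) * (Fr.lev m₁)⁻¹) =
      Fr.lev m₂ * Fr.om (sg2 o₁ o₂) * (Fr.lev m₂)⁻¹ := by
    rw [hm₁.conj_om, hm₂.conj_om, a1, a2, a3, a4, ← map_mul, sg2_mul ho hk.2.1.symm hk.1.symm]
  have b8 : Commute (Fr.lev (tv k o₁ 1))
      (Fr.om (sg2 o₁ o₂) * Fr.lev (tv k o₁ 1) * (Fr.om (sg2 o₁ o₂))⁻¹) := by
    rw [hF.om_conj_tv _ hk.1, sg2_apply, sg2_apply, if_pos (Or.inl rfl), if_neg (by grind)]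
    exact H75.commute_XS (fun _ => by rw [hF.hσ, hF.hε, one_mul]) _ _ hk.1.symm _ b6 _
      (xs_mem (by simp [ng]) 1)
  have b9 : Commute (Fr.lev (tv k o₁ 1))
      (Fr.om (sg2 o₁ o₂) * Fr.lev (tv o₂ l 1) * (Fr.om (sg2 o₁ o₂))⁻¹) := by
    rw [hF.om_conj_tv _ hk.2.2.2.1, sg2_apply, sg2_apply, if_neg (by grind), if_pos (Or.inr rfl)]
    have : ((o₂, true) : BI n) ≠ ng (l, true) := by simp [ng]
    exact (Frame.bcSys (d := False) fun _ => hF.hd).c2 _ _ _ _ hk.1.symm this (by simp [ng])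
      (by simpa [ng] using hk.2.2.1.symm) (by simp [ng]) (by simpa [ng] using hk.2.1.symm) _ b6 _
      (xs_mem this 1)
  have hd' : [o₁, o₂, k, l].Nodup ∧ [k, o₁, o₂, l].Nodup := by grind
  have hself : DRel Fr Fr.lev (MonoidHom.id _) (Fr.om (sg2 o₁ o₂)) o₁ o₂ :=
    ⟨hF, hn, ho, fun _ => rfl, rfl, b1, b2, ⟨k, hk.1, hk.2.1, b5⟩,
      ⟨_, _, _, _, _, _, hd'.1, sg_self, ⟨_, _, hm₁, a1, a2, rfl⟩, _, _, hm₂, a3, a4, b7⟩,
      ⟨_, _, _, _, _, hd'.2, sg_self, b8⟩, fun _ => ⟨_, _, _, _, _, hd'.2, sg_self, b9⟩⟩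
  obtain ⟨r, g, h3, h4⟩ := h₁.amalgam (isPres_empty (Fin 1)) Fr.lev i₂
    (dRels o₁ o₂ k l ζ m m₁ m₂) ((dRels_iff hi).2 ⟨⟨b1 (tv_mem_SLp (by simp) (by simp) ho 1),
      b2 (tv_mem_SLp (by grind) (by grind) hk.2.2.1 1), mul_mem (mul_mem (b4 b1 (by simp)
      (by simp) ho) (b4 b2 (by grind) (by grind) hk.2.2.1)) b5,
      b3 hm (by rw [h1, h2, sg2_comm]), b7, b8⟩, fun _ => b9⟩) (fun J _ φ ψ π e1 e2 e3 => by
      obtain ⟨⟨c1, c2, c3, c4, c5, c6⟩, c7⟩ := (dRels_iff rfl).1 e3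
      obtain ⟨d1, d2, d3⟩ := hK _ c1 c2 c3 c4
      rw [range_fin_one]
      exact DRel.main ⟨hF, hn, ho, e1, (e2 _).trans hi, d1, d2, ⟨k, hk.1, hk.2.1, d3⟩,
        ⟨_, _, _, _, _, _, hd'.1, sg_self, ⟨_, _, hm₁, a1, a2, rfl⟩, _, _, hm₂, a3, a4, c5⟩,
        ⟨_, _, _, _, _, hd'.2, sg_self, c6⟩, fun e => ⟨_, _, _, _, _, hd'.2, sg_self, c7 e⟩⟩ |>.2)
    (E := P.E) (by simpa [range_fin_one, hi] using hself.main.1)
  obtain ⟨r', g', h5, h6⟩ := h4.to_fin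
  refine ⟨r', g', h5.trans (h3.trans ?_), h6⟩
  unfold dRels
  split_ifs <;> simp

end Cfsg.Agent.H78
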