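import Cfsg.Agent.H78.J4Cov
import Cfsg.Agent.H33.J4Odd2
import Cfsg.Agent.H83.J4U
import Cfsg.Agent.H83.J4T

/-! The classes of elements of order divisible by eleven, and the facts on elements of order three. -/

set_option autoImplicit false
set_option linter.unusedSectionVars false

namespace Cfsg.Agent.H78.J4C
open Subgroup H33.J4O

variable {G : Type*} [Group G] [Finite G]

section Eleven

variable (L : L11 G)

theorem ij_ne : L.i * L.j ≠ L.j * L.i := fun h => L.z_ne (by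
  have := L.ij
  rwa [h, left_eq_mul] at this)

theorem ji_pow (a : ℤ) : L.j * L.i ^ a = L.i ^ (-a) * L.j := by
  rw [zpow_neg, ← inv_zpow, ← L.jij, conj_zpow, inv_mul_cancel_right]

/-- The quaternion group. -/
def Q8 : Subgroup G where
  carrier := {g | ∃ a : ℤ, g = L.i ^ a ∨ g = L.i ^ a * L.j}
  one_mem' := ⟨0, Or.inl (by simp)⟩
  mul_mem' := by
    rintro _ _ ⟨a, rfl | rfl⟩ ⟨b, rfl | rfl⟩
    · exact ⟨a + b, Or.inl (zpow_add _ _ _).symm⟩
    · exact ⟨a + b, Or.inr (by rw [zpow_add, mul_assoc])⟩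
    · exact ⟨a + -b, Or.inr (by rw [zpow_add, mul_assoc, ji_pow, mul_assoc])⟩
    · refine ⟨a + -b + 2, Or.inl ?_⟩
      rw [mul_assoc, ← mul_assoc L.j, ji_pow, mul_assoc, L.jj, ← L.ii, zpow_add, zpow_add, zpow_two,
        mul_assoc]
  inv_mem' := by
    rintro _ ⟨a, rfl | rfl⟩
    · exact ⟨-a, Or.inl (zpow_neg _ _).symm⟩
    · refine ⟨a + 2, Or.inr (inv_eq_of_mul_eq_one_right ?_)⟩
      rw [mul_assoc, ← mul_assoc L.j, ji_pow, mul_assoc, L.jj, ← mul_assoc, ← zpow_add,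
        show a + -(a + 2) = -2 by ring, zpow_neg, zpow_two, L.ii, inv_mul_cancel]

theorem i_mem : L.i ∈ Q8 L := ⟨1, Or.inl (zpow_one _).symm⟩
theorem j_mem : L.j ∈ Q8 L := ⟨0, Or.inr (by simp)⟩

theorem i_pow (a : ℤ) : L.i ^ a = 1 ∨ L.i ^ a = L.i ∨ L.i ^ a = L.z ∨ L.i ^ a = L.i⁻¹ := by
  have h4 : L.i ^ (4 : ℤ) = 1 := by
    rw [show (4 : ℤ) = 2 + 2 from rfl, zpow_add, zpow_two, L.ii, L.zz]
  rw [zpow_eq_zpow_emod a h4]
  have h1 := Int.emod_nonneg a (show (4 : ℤ) ≠ 0 by norm_num)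
  have h2 := Int.emod_lt_of_pos a (show (0 : ℤ) < 4 by norm_num)
  generalize a % 4 = b at h1 h2
  interval_cases b
  · simp
  · simp
  · right; right; left; rw [zpow_two, L.ii]
  · right; right; right
    rw [eq_inv_iff_mul_eq_one, ← zpow_add_one]; exact h4

theorem Q8_cases {g : G} (h : g ∈ Q8 L) : g = 1 ∨ g = L.z ∨ (g = L.i ∨ g = L.i⁻¹) ∨
    (g = L.j ∨ g = L.j⁻¹) ∨ g = L.i * L.j ∨ g = (L.i * L.j)⁻¹ := by
  obtain ⟨a, rfl | rfl⟩ := h <;> rcases i_pow L a with e | e | e | e <;> rw [e]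
  · simp
  · simp
  · simp
  · simp
  · simp
  · simp
  · rw [L.jinv, L.jz]; simp
  · have : (L.i * L.j)⁻¹ = L.i⁻¹ * L.j := by
      have h1 := ji_pow L (-1)
      rw [neg_neg, zpow_one, zpow_neg_one] at h1
      rw [inv_eq_iff_mul_eq_one, ← mul_assoc, mul_assoc L.i, h1, ← mul_assoc, L.ii, mul_assoc, L.jj,
        L.zz]
    rw [this]; simp

theorem mem_Q8 {u : G} (h1 : u * L.z = L.z * u) (h2 : u * L.x = L.x * u) (h3 : u ^ 8 = 1) :
    u ∈ Q8 L := by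
  set D := centralizer ({L.z} : Set G) ⊓ centralizer {L.x} with hD
  have iD : L.i ∈ D := mem_inf.2 ⟨mcs.2 L.iz, mcs.2 L.xi⟩
  have jD : L.j ∈ D := mem_inf.2 ⟨mcs.2 L.jz, mcs.2 L.xj⟩
  have hQ : Q8 L ≤ D := by
    rintro _ ⟨a, rfl | rfl⟩
    exacts [D.zpow_mem iD a, D.mul_mem (D.zpow_mem iD a) jD]
  have hN : D ⊓ normalizer (Q8 L : Set G) = D := by
    refine eq_of_le_of_card_ge inf_le_left (Nat.le_of_dvd Nat.card_pos ?_)
    rw [L.cardD]
    refine Nat.Coprime.mul_dvd_of_dvd_of_dvd (m := 24) (n := 11) (by norm_num)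
      (Nat.Coprime.mul_dvd_of_dvd_of_dvd (m := 8) (n := 3) (by norm_num)
        (L.eight (mem_inf.2 ⟨iD, le_normalizer (i_mem L)⟩) (mem_inf.2 ⟨jD, le_normalizer (j_mem L)⟩))
        (L.ρ3 ▸ ord_dvd (mem_inf.2 ⟨mem_inf.2 ⟨mcs.2 L.ρz, mcs.2 L.xρ⟩, mem_norm_of ?_⟩)))
      (L.x11 ▸ ord_dvd (mem_inf.2 ⟨mem_inf.2 ⟨mcs.2 L.zx.symm, mcs.2 rfl⟩, mem_norm_of fun a ha => ?_⟩))
    · rintro _ ⟨a, rfl | rfl⟩
      · rw [← conj_zpow, L.ρi]; exact zpow_mem (j_mem L) a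
      · rw [← conj_mul, ← conj_zpow, L.ρi, L.ρj]
        exact mul_mem (zpow_mem (j_mem L) a) (mul_mem (i_mem L) (j_mem L))
    · rw [← mcs.1 (hQ ha).2, mul_inv_cancel_right]; exact ha
  obtain ⟨c, hc, e⟩ := conj_into hQ (n := 3) (m := 3) (L.eight (i_mem L) (j_mem L))
    (by rw [L.cardD]; norm_num) (mem_inf.2 ⟨mcs.2 h1, mcs.2 h2⟩) h3
  rw [← hN] at hc
  exact (mem_normalizer_iff.1 hc.2 u).2 e

/-- Conjugacy in the centraliser of an element. -/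
def Cx (x a b : G) : Prop := ∃ k, k * x = x * k ∧ k * a * k⁻¹ = b

theorem Cx.refl (x a : G) : Cx x a a := ⟨1, by simp, by simp⟩

theorem Cx.trans {x a b c : G} (h : Cx x a b) (h' : Cx x b c) : Cx x a c := by
  obtain ⟨k, k1, rfl⟩ := h
  obtain ⟨l, l1, rfl⟩ := h'
  exact ⟨l * k, (Commute.mul_left (l1 : Commute _ _) k1).eq, by group⟩

theorem Cx.symm {x a b : G} (h : Cx x a b) : Cx x b a := by
  obtain ⟨k, k1, rfl⟩ := h
  exact ⟨k⁻¹, (Commute.inv_left (k1 : Commute _ _)).eq, by group⟩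

theorem Cx.inv {x a b : G} (h : Cx x a b) : Cx x a⁻¹ b⁻¹ := by
  obtain ⟨k, k1, rfl⟩ := h
  exact ⟨k, k1, by group⟩

theorem two_elt (Γ : L.Glob) {u : G} (h2 : u * L.x = L.x * u) (h3 : u ^ 8 = 1) :
    Cx L.x 1 u ∨ Cx L.x L.z u ∨ Cx L.x L.i u := by
  obtain ⟨O, h⟩ := L.exO
  obtain ⟨c, hc, e⟩ := conj_into (inf_le_right : centralizer ({L.z} : Set G) ⊓ centralizer {L.x} ≤ _)
    (n := 3) (m := 3) (by rw [L.cardD]; norm_num) (by rw [L11.cardC h Γ]; norm_num) (mcs.2 h2) h3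
  have h4 : Cx L.x (c * u * c⁻¹) u := Cx.symm ⟨c, mcs.1 hc, rfl⟩
  have a1 : Cx L.x L.i L.i⁻¹ := ⟨L.j, L.xj, L.jij⟩
  have a2 : Cx L.x L.i L.j := ⟨L.ρ, L.xρ, L.ρi⟩
  have a3 : Cx L.x L.i (L.i * L.j) := a2.trans ⟨L.ρ, L.xρ, L.ρj⟩
  rcases Q8_cases L (mem_Q8 L (mcs.1 e.1) (mcs.1 e.2) (by rw [conj_pow, h3]; simp)) with
    e1 | e1 | (e1 | e1) | (e1 | e1) | e1 | e1 <;> rw [e1] at h4
  · exact Or.inl h4
  · exact Or.inr (Or.inl h4)
  · exact Or.inr (Or.inr h4)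
  · exact Or.inr (Or.inr (a1.trans h4))
  · exact Or.inr (Or.inr (a2.trans h4))
  · exact Or.inr (Or.inr ((a1.trans a2.inv).trans h4))
  · exact Or.inr (Or.inr (a3.trans h4))
  · exact Or.inr (Or.inr ((a1.trans a3.inv).trans h4))

theorem comm_rho (Γ : L.Glob) {v : G} (h1 : v * L.ρ = L.ρ * v) (h2 : v * L.x = L.x * v)
    (h3 : v ^ 8 = 1) : v = 1 ∨ v = L.z := by
  obtain ⟨z', z1, z2⟩ := Γ.h3 L.ρ L.ρ3
  have z3 : z' = L.z := by
    obtain ⟨k, rfl⟩ := isConj_iff.1 z1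
    refine (L.invD _ (by rw [conj_mul, L.zz]; simp) (z2 _ L.ρz.symm).symm
      (z2 _ L.xρ.symm).symm).resolve_left fun e => L.z_ne (conj_eq_one_iff.1 e)
  have key : ∀ a : G, (v = a ∨ v = a⁻¹) → L.ρ * a * L.ρ⁻¹ = a := by
    rintro a (rfl | e)
    · rw [← h1, mul_inv_cancel_right]
    · rw [← inv_inj, conj_inv, ← e, ← h1, mul_inv_cancel_right]
  rcases Q8_cases L (mem_Q8 L (z3 ▸ z2 v h1) h2 h3) with e | e | e | e | e
  · exact Or.inl e
  · exact Or.inr e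
  · exact absurd (by rw [← L.ρi, key _ e]) (ij_ne L)
  · have := key _ e
    rw [L.ρj, mul_eq_right] at this
    exact absurd (by rw [this, one_mul, mul_one]) (ij_ne L)
  · have := key _ e
    rw [← conj_mul, L.ρi, L.ρj, mul_eq_right] at this
    exact absurd (by rw [this, one_mul, mul_one]) (ij_ne L)

theorem dvd66 {r : G} (h1 : r * L.x = L.x * r) (h2 : r * L.z = L.z * r) (h3 : r * L.ρ = L.ρ * r) :
    66 ≤ cc (L.x * r) := by
  refine le_cc (Nat.Coprime.mul_dvd_of_dvd_of_dvd (m := 6) (n := 11) (by norm_num)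
    (Nat.Coprime.mul_dvd_of_dvd_of_dvd (m := 2) (n := 3) (by norm_num) (L.z2 ▸ ord_dvd_cc ?_)
      (L.ρ3 ▸ ord_dvd_cc ?_)) (L.x11 ▸ ord_dvd_cc ?_))
  · exact (Commute.mul_right (L.zx : Commute _ _) h2.symm).eq
  · exact (Commute.mul_right (L.xρ : Commute _ _) h3.symm).eq
  · exact (Commute.mul_right (Commute.refl _) h1.symm).eq

theorem locA (Γ : L.Glob) : Loc 11 0 L.x [31944, 264, 44, 66, 66, 66, 66] := by
  obtain ⟨O, h⟩ := L.exO
  have c1 : Commute L.ρ L.x := L.xρ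
  have c2 : Commute L.ρ L.z := L.ρz
  have c3 : Commute L.z L.x := L.zx
  refine ⟨[(1, 31944), (L.z, 264), (L.i, 44), (L.ρ, 66), (L.ρ⁻¹, 66), (L.ρ * L.z, 66),
    (L.ρ⁻¹ * L.z, 66)], rfl, ?_, fun u hu o1 _ => ?_⟩
  · simp only [List.forall_mem_cons, List.not_mem_nil, false_imp_iff, implies_true, and_true]
    refine ⟨by rw [mul_one, cc, L11.cardC h Γ], le_cc (L.cardD ▸ dvd_cc fun k hk => ?_), le_cc ?_,
      dvd66 L c1 c2 rfl, dvd66 L c1.inv_left c2.inv_left (Commute.refl _).inv_left,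
      dvd66 L (c1.mul_left c3) (c2.mul_left (Commute.refl _)) ((Commute.refl _).mul_left c2.symm),
      dvd66 L (c1.inv_left.mul_left c3) (c2.inv_left.mul_left (Commute.refl _))
        ((Commute.refl _).inv_left.mul_left c2.symm)⟩
    · exact (Commute.mul_right (mcs.1 hk.2 : Commute _ _) (mcs.1 hk.1)).eq
    · have i4 : orderOf L.i = 2 ^ (1 + 1) := orderOf_eq_prime_pow
        (by rw [pow_one, pow_two, L.ii]; exact L.z_ne)
        (by rw [show 2 ^ (1 + 1) = 2 * 2 from rfl, pow_mul, pow_two L.i, L.ii, pow_two, L.zz])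
      refine Nat.Coprime.mul_dvd_of_dvd_of_dvd (m := 2 ^ (1 + 1)) (n := 11) (by norm_num)
        (i4 ▸ ord_dvd_cc ?_) (L.x11 ▸ ord_dvd_cc ?_)
      · exact (Commute.mul_right (L.xi : Commute _ _) (Commute.refl _)).eq
      · exact (Commute.mul_right (Commute.refl _) L.xi.symm).eq
  have h24 : u ^ 24 = 1 := by
    have h1 := ord_dvd (mcs.2 hu)
    rw [L11.cardC h Γ, show 31944 = 24 * 11 ^ 3 by norm_num] at h1
    exact orderOf_dvd_iff_pow_eq_one.1 ((((Nat.Prime.coprime_iff_not_dvd (by norm_num)).2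
      o1).symm.pow_right 3).dvd_of_dvd_mul_right h1)
  have e : u = u ^ 16 * u ^ 9 := by rw [← pow_add, pow_succ, h24, one_mul]
  have hc : Commute u L.x := hu
  have h9 : (u ^ 9) ^ 8 = 1 := by rw [← pow_mul, show 9 * 8 = 24 * 3 from rfl, pow_mul, h24, one_pow]
  simp only [List.mem_cons, List.not_mem_nil, or_false, exists_eq_or_imp, exists_eq_left]
  by_cases h1 : u ^ 16 = 1
  · rw [h1, one_mul] at e
    rcases two_elt L Γ hu (e ▸ h9) with k | k | k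
    exacts [Or.inl k, Or.inr (Or.inl k), Or.inr (Or.inr (Or.inl k))]
  obtain ⟨g, hg, e1⟩ := conj_in (p := 3) (by norm_num) (H := centralizer {L.x})
    (by rw [L11.cardC h Γ]; norm_num) (mcs.2 L.xρ) (mcs.2 (hc.pow_left 16).eq) L.ρ3
    (by rw [← pow_mul, show 16 * 3 = 24 * 2 from rfl, pow_mul, h24, one_pow])
  have e2 : g * u ^ 16 * g⁻¹ ≠ 1 := fun e => h1 (conj_eq_one_iff.1 e)
  have e3 := comm_rho L Γ (v := g * u ^ 9 * g⁻¹)
    ((comm_iff_of_mem (by norm_num) L.ρ3 e1 e2 _).1 (by rw [conj_mul, conj_mul, ← pow_add, ← pow_add]))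
    (mcs.1 (mul_mem (mul_mem hg (mcs.2 (hc.pow_left 9).eq)) (inv_mem hg)))
    (by rw [conj_pow, h9]; simp)
  have e4 : Cx L.x (g * u ^ 16 * g⁻¹ * (g * u ^ 9 * g⁻¹)) u :=
    Cx.symm ⟨g, mcs.1 hg, by rw [conj_mul, ← e]⟩
  have e5 : g * u ^ 16 * g⁻¹ = L.ρ ∨ g * u ^ 16 * g⁻¹ = L.ρ⁻¹ := by
    classical
    rw [mem_zpowers_iff_mem_range_orderOf, L.ρ3] at e1
    simp only [Finset.mem_image, Finset.mem_range] at e1
    obtain ⟨k, hk, e1⟩ := e1
    interval_cases k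
    · exact absurd (by rw [← e1, pow_zero]) e2
    · exact Or.inl (by rw [← e1, pow_one])
    · exact Or.inr (by rw [← e1, pow_two, eq_inv_iff_mul_eq_one, L.ρρρ])
  right; right; right
  rcases e5 with e5 | e5 <;> rcases e3 with e3 | e3 <;> rw [e5, e3] at e4
  · exact Or.inl (by rwa [mul_one] at e4)
  · exact Or.inr (Or.inr (Or.inl e4))
  · exact Or.inr (Or.inl (by rwa [mul_one] at e4))
  · exact Or.inr (Or.inr (Or.inr e4))

theorem locB {y : G} (h : cc y = 242) (hy : orderOf y = 11) : Loc 11 0 y [242, 22] := by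
  obtain ⟨t, ht, t2⟩ := exists_ord Nat.prime_two (A := centralizer {y}) (by
    show 2 ∣ cc y
    rw [h]; norm_num)
  refine ⟨[(1, 242), (t, 22)], rfl, ?_, fun u hu o1 _ => ?_⟩
  · simp only [List.forall_mem_cons, List.not_mem_nil, false_imp_iff, implies_true, and_true]
    refine ⟨by rw [mul_one, h], le_cc (Nat.Coprime.mul_dvd_of_dvd_of_dvd (m := 2) (n := 11)
      (by norm_num) (t2 ▸ ord_dvd_cc ?_) (hy ▸ ord_dvd_cc ?_))⟩
    · exact (Commute.mul_right (mcs.1 ht : Commute _ _) (Commute.refl _)).eq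
    · exact (Commute.mul_right (Commute.refl _) (mcs.1 ht).symm).eq
  have h2 : u ^ 2 = 1 := by
    have h1 := ord_dvd_cc hu
    rw [h, show 242 = 2 * 11 ^ 2 by norm_num] at h1
    exact orderOf_dvd_iff_pow_eq_one.1 ((((Nat.Prime.coprime_iff_not_dvd (by norm_num)).2
      o1).symm.pow_right 2).dvd_of_dvd_mul_right h1)
  simp only [List.mem_cons, List.not_mem_nil, or_false, exists_eq_or_imp, exists_eq_left]
  obtain ⟨g, hg, e1⟩ := conj_in Nat.prime_two (H := centralizer {y}) (by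
    show ¬ _ ∣ cc y
    rw [h]; norm_num) ht (mcs.2 hu) t2 h2
  have e4 : Cx y (g * u * g⁻¹) u := Cx.symm ⟨g, mcs.1 hg, rfl⟩
  classical
  rw [mem_zpowers_iff_mem_range_orderOf, t2] at e1
  simp only [Finset.mem_image, Finset.mem_range] at e1
  obtain ⟨k, hk, e1⟩ := e1
  rw [← e1] at e4
  interval_cases k
  · exact Or.inl (by rwa [pow_zero] at e4)
  · exact Or.inr (by rwa [pow_one] at e4)

theorem no_sq {p : ℕ} (hp : p.Prime) (h : ∀ b : G, b ^ p ^ 2 = 1 → b ^ p = 1) (g : G) :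
    ¬ p ^ 2 ∣ orderOf g := fun hd => by
  have h1 := orderOf_pow_orderOf_div (orderOf_pos g).ne' hd
  have h2 := orderOf_dvd_of_pow_eq_one (h _ (h1 ▸ pow_orderOf_eq_one _))
  rw [h1] at h2
  have := Nat.le_of_dvd hp.pos h2
  have := hp.two_le
  nlinarith

theorem cov11 (Γ : L.Glob) :
    Cov {g : G | 11 ∣ orderOf g} ([31944, 264, 44, 66, 66, 66, 66] ++ [242, 22]) := by
  obtain ⟨O, h⟩ := L.exO
  obtain ⟨y, h1, h2⟩ := Γ.hna
  have h3 : ¬ IsConj L.x y := fun hc => h2 (by rw [← isConj_cent hc, L11.cardC h Γ]; norm_num)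
  have h4 : cc y = 242 := (L11.cent11 Γ h1).resolve_left fun e => h2 (by rw [e]; norm_num)
  refine ((locA L Γ).cov.union (locB h4 h1).cov).mono fun g hg => ?_
  have := Fact.mk (show Nat.Prime 11 by norm_num)
  obtain ⟨a, ha, e⟩ := mem_Sa (q := 0) (A := [L.x, y]) this.out (fun s hs =>
      (L11.classes h Γ h1 h3 hs).elim (fun e => ⟨_, by simp, e.symm⟩) fun e => ⟨_, by simp, e.symm⟩) hg
    (no_sq this.out (fun b hb => by
      obtain ⟨U, rfl⟩ := L11.exU h Γ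
      obtain ⟨k, hk⟩ := exists_conj_sylow U hb
      have := L11.expO h Γ hk
      rwa [conj_pow, conj_eq_one_iff] at this) g) (by simpa using (orderOf_pos g).ne')
  rcases List.mem_pair.1 ha with rfl | rfl
  exacts [Or.inl e, Or.inr e]

end Eleven

/-- The facts on elements of orders two and three. -/
structure F3 (G : Type*) [Group G] : Prop where
  c3 : ∀ r : G, orderOf r = 3 → cc r = 2661120
  cj3 : ∀ r s : G, orderOf r = 3 → orderOf s = 3 → IsConj r s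
  no9 : ∀ g : G, ¬ 3 ^ 2 ∣ orderOf g
  w6 : ∃ w : G, w ^ 6 = 1 ∧ w ^ 3 ≠ 1 ∧ w ^ 4 ≠ 1 ∧ 2661120 ≤ cc w
  two : ∃ z t : G, orderOf z = 2 ∧ orderOf t = 2 ∧ ¬ IsConj z t

open H83.J4 in
theorem f3 (J : JL G) : F3 G := by
  have h1 : centralizer ({J.ρ} : Set G) = J.LL := by
    ext c
    rw [J.mem_LL', mcs]
    exact ⟨fun h => ⟨J.cent_ρ h, h⟩, fun h => h.2⟩
  have h2 : cc J.ρ = 2661120 := by rw [cc, h1, J.card_LL]
  have c : Commute J.ρ J.z := J.toHyp.memH.1 J.ρH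
  have := Fact.mk Nat.prime_three
  refine ⟨fun r hr => cc_conj (J.conj_three hr) ▸ h2,
    fun r s hr hs => (J.conj_three hr).symm.trans (J.conj_three hs), no_sq Nat.prime_three fun b hb => ?_,
    ⟨J.ρ * J.z, ?_, ?_, ?_, le_cc (J.card_LL ▸ dvd_cc fun k hk => ?_)⟩, J.z, J.t,
    H49.orderOf_two_iff.2 ⟨J.toHyp.z_ne, J.toHyp.zz⟩, H49.orderOf_two_iff.2 ⟨J.t_ne, J.tt⟩, J.t_B⟩
  · obtain ⟨k, -, hk⟩ := (Nat.dvd_prime_pow Nat.prime_three).1 (orderOf_dvd_of_pow_eq_one hb)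
    obtain ⟨g, -, hg⟩ := J.sylIn_R3_top.exists_conj_le (U := zpowers b) le_top
      (IsPGroup.of_card (n := k) (by rw [Nat.card_zpowers, hk]))
    have := (J.mem_R3.1 (hg (H49.conj_mem_cj g (mem_zpowers b)))).2
    rwa [conj_pow, conj_eq_one_iff] at this
  · rw [c.mul_pow, show 6 = 3 * 2 from rfl, pow_mul, J.ρ3, one_pow, one_mul, mul_comm, pow_mul, pow_two,
      J.toHyp.zz, one_pow]
  · rw [c.mul_pow, J.ρ3, one_mul, pow_succ, pow_two, J.toHyp.zz, one_mul]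
    exact J.toHyp.z_ne
  · rw [c.mul_pow, J.z4, mul_one, pow_succ, J.ρ3, one_mul]
    exact J.ρ_ne
  · obtain ⟨k1, k2⟩ := J.mem_LL'.1 hk
    exact (Commute.mul_right (k2 : Commute _ _) (J.toHyp.memH.1 k1)).eq

end Cfsg.Agent.H78.J4C
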