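import Cfsg.Agent.H78.J4N1
import Cfsg.Agent.H78.J4N2
import Cfsg.Agent.H78.J4N3
import Cfsg.Agent.H78.J4N4
import Cfsg.Agent.H78.J4X
import Cfsg.Agent.H78.J4Loc

/-! The classes of elements whose order involves the primes two and three only. -/

set_option autoImplicit false
set_option linter.unusedSectionVars false
set_option maxRecDepth 1000000

namespace Cfsg.Agent.H78.J4C
open Subgroup H33.J4O H42 H43 H49 H46 H46.J4

variable {G : Type*} [Group G] [Finite G] (D : Dat G)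

/-- A coset element over a class representative of `M24`. -/
noncomputable def xx (i s : ℕ) : G := XX D (nthN m24reps i) s

/-- The classes with large centralisers. -/
noncomputable def B23 (c : ℕ) : List (G × ℕ) :=
  [(xx D 0 0, 86775571046077562880), (xx D 0 1, 283115520), (xx D 0 12, 1816657920),
    (xx D 3 0, 2661120), (xx D 2 46, 245760), (xx D 3 25, c)]

/-- The other classes. -/
noncomputable def R23 : List (G × ℕ) :=
  [(xx D 1 36, 98304), (xx D 1 4, 43008), (xx D 3 1, 2304), (xx D 3 2, 2304), (xx D 6 1, 1280),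
    (xx D 5 4, 768), (xx D 6 5, 512), (xx D 9 2, 192), (xx D 9 3, 192), (xx D 9 4, 48),
    (xx D 13 1, 32), (xx D 16 4, 48), (xx D 16 5, 48)]

variable (hi : Inj D)
include hi

theorem cv0 (c : ℕ) {s : ℕ} (hs : s < 2048) : ∃ p ∈ B23 D c ++ R23 D, IsConj p.1 (xx D 0 s) := by
  obtain ⟨a, ha, e⟩ := (cls0 D hi).1 s hs
  simp only [List.mem_cons, List.not_mem_nil, or_false] at ha
  rcases ha with rfl | rfl | rfl
  · exact ⟨_, List.mem_of_getElem? (i := 0) rfl, e⟩
  · exact ⟨_, List.mem_of_getElem? (i := 1) rfl, e⟩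
  · exact ⟨_, List.mem_of_getElem? (i := 2) rfl, e⟩

theorem cv1 (c : ℕ) {s : ℕ} (hs : s < 2048) : ∃ p ∈ B23 D c ++ R23 D, IsConj p.1 (xx D 1 s) := by
  obtain ⟨a, ha, e⟩ := (cls1 D hi).1 s hs
  simp only [List.mem_cons, List.not_mem_nil, or_false] at ha
  rcases ha with rfl | rfl | rfl | rfl | rfl
  · exact ⟨_, List.mem_of_getElem? (i := 1) rfl, (fu1_0 D).trans e⟩
  · exact ⟨_, List.mem_of_getElem? (i := 2) rfl, (fu1_1 D).trans e⟩
  · exact ⟨_, List.mem_of_getElem? (i := 4) rfl, (fu1_2 D).trans e⟩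
  · exact ⟨_, List.mem_of_getElem? (i := 7) rfl, e⟩
  · exact ⟨_, List.mem_of_getElem? (i := 6) rfl, e⟩

theorem cv2 (c : ℕ) {s : ℕ} (hs : s < 2048) : ∃ p ∈ B23 D c ++ R23 D, IsConj p.1 (xx D 2 s) := by
  obtain ⟨a, ha, e⟩ := (cls2 D hi).1 s hs
  simp only [List.mem_cons, List.not_mem_nil, or_false] at ha
  rcases ha with rfl | rfl | rfl | rfl
  · exact ⟨_, List.mem_of_getElem? (i := 2) rfl, (fu2_0 D).trans e⟩
  · exact ⟨_, List.mem_of_getElem? (i := 6) rfl, (fu2_1 D).trans e⟩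
  · exact ⟨_, List.mem_of_getElem? (i := 1) rfl, (fu2_28 D).trans e⟩
  · exact ⟨_, List.mem_of_getElem? (i := 4) rfl, e⟩

theorem cv3 (c : ℕ) {s : ℕ} (hs : s < 2048) : ∃ p ∈ B23 D c ++ R23 D, IsConj p.1 (xx D 3 s) := by
  obtain ⟨a, ha, e⟩ := (cls3 D hi).1 s hs
  simp only [List.mem_cons, List.not_mem_nil, or_false] at ha
  rcases ha with rfl | rfl | rfl | rfl
  · exact ⟨_, List.mem_of_getElem? (i := 3) rfl, e⟩
  · exact ⟨_, List.mem_of_getElem? (i := 8) rfl, e⟩
  · exact ⟨_, List.mem_of_getElem? (i := 9) rfl, e⟩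
  · exact ⟨_, List.mem_of_getElem? (i := 5) rfl, e⟩

theorem cv5 (c : ℕ) {s : ℕ} (hs : s < 2048) : ∃ p ∈ B23 D c ++ R23 D, IsConj p.1 (xx D 5 s) := by
  obtain ⟨a, ha, e⟩ := (cls5 D hi).1 s hs
  simp only [List.mem_cons, List.not_mem_nil, or_false] at ha
  rcases ha with rfl | rfl | rfl | rfl
  · exact ⟨_, List.mem_of_getElem? (i := 4) rfl, (fu5_0 D).trans e⟩
  · exact ⟨_, List.mem_of_getElem? (i := 6) rfl, (fu5_1 D).trans e⟩
  · exact ⟨_, List.mem_of_getElem? (i := 7) rfl, (fu5_2 D).trans e⟩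
  · exact ⟨_, List.mem_of_getElem? (i := 11) rfl, e⟩

theorem cv6 (c : ℕ) {s : ℕ} (hs : s < 2048) : ∃ p ∈ B23 D c ++ R23 D, IsConj p.1 (xx D 6 s) := by
  obtain ⟨a, ha, e⟩ := (cls6 D hi).1 s hs
  simp only [List.mem_cons, List.not_mem_nil, or_false] at ha
  rcases ha with rfl | rfl | rfl | rfl | rfl
  · exact ⟨_, List.mem_of_getElem? (i := 6) rfl, (fu6_0 D).trans e⟩
  · exact ⟨_, List.mem_of_getElem? (i := 10) rfl, e⟩
  · exact ⟨_, List.mem_of_getElem? (i := 7) rfl, (fu6_2 D).trans e⟩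
  · exact ⟨_, List.mem_of_getElem? (i := 12) rfl, e⟩
  · exact ⟨_, List.mem_of_getElem? (i := 6) rfl, (fu6_22 D).trans e⟩

theorem cv7 (c : ℕ) {s : ℕ} (hs : s < 2048) : ∃ p ∈ B23 D c ++ R23 D, IsConj p.1 (xx D 7 s) := by
  obtain ⟨a, ha, e⟩ := (cls7 D hi).1 s hs
  simp only [List.mem_cons, List.not_mem_nil, or_false] at ha
  rcases ha with rfl | rfl | rfl
  · exact ⟨_, List.mem_of_getElem? (i := 7) rfl, (fu7_0 D).trans e⟩
  · exact ⟨_, List.mem_of_getElem? (i := 12) rfl, (fu7_1 D).trans e⟩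
  · exact ⟨_, List.mem_of_getElem? (i := 6) rfl, (fu7_4 D).trans e⟩

theorem cv9 (c : ℕ) {s : ℕ} (hs : s < 2048) : ∃ p ∈ B23 D c ++ R23 D, IsConj p.1 (xx D 9 s) := by
  obtain ⟨a, ha, e⟩ := (cls9 D hi).1 s hs
  simp only [List.mem_cons, List.not_mem_nil, or_false] at ha
  rcases ha with rfl | rfl | rfl | rfl | rfl
  · exact ⟨_, List.mem_of_getElem? (i := 9) rfl, (fu9_0 D).trans e⟩
  · exact ⟨_, List.mem_of_getElem? (i := 8) rfl, (fu9_1 D).trans e⟩
  · exact ⟨_, List.mem_of_getElem? (i := 13) rfl, e⟩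
  · exact ⟨_, List.mem_of_getElem? (i := 14) rfl, e⟩
  · exact ⟨_, List.mem_of_getElem? (i := 15) rfl, e⟩

theorem cv13 (c : ℕ) {s : ℕ} (hs : s < 2048) : ∃ p ∈ B23 D c ++ R23 D, IsConj p.1 (xx D 13 s) := by
  obtain ⟨a, ha, e⟩ := (cls13 D hi).1 s hs
  simp only [List.mem_cons, List.not_mem_nil, or_false] at ha
  rcases ha with rfl | rfl | rfl
  · exact ⟨_, List.mem_of_getElem? (i := 12) rfl, (fu13_0 D).trans e⟩
  · exact ⟨_, List.mem_of_getElem? (i := 16) rfl, e⟩
  · exact ⟨_, List.mem_of_getElem? (i := 11) rfl, (fu13_2 D).trans e⟩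

theorem cv16 (c : ℕ) {s : ℕ} (hs : s < 2048) : ∃ p ∈ B23 D c ++ R23 D, IsConj p.1 (xx D 16 s) := by
  obtain ⟨a, ha, e⟩ := (cls16 D hi).1 s hs
  simp only [List.mem_cons, List.not_mem_nil, or_false] at ha
  rcases ha with rfl | rfl | rfl | rfl
  · exact ⟨_, List.mem_of_getElem? (i := 13) rfl, (fu16_0 D).trans e⟩
  · exact ⟨_, List.mem_of_getElem? (i := 14) rfl, (fu16_1 D).trans e⟩
  · exact ⟨_, List.mem_of_getElem? (i := 17) rfl, e⟩
  · exact ⟨_, List.mem_of_getElem? (i := 18) rfl, e⟩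

omit hi in
theorem Cls.dvd {y n : ℕ} {R : List (ℕ × ℕ)} (h : Cls D y n R) (j : ℕ) {s m c : ℕ}
    (ha : R[j]? = some (s, m)) (e : m * c = 2048 * n) (h0 : 0 < m) : c ∣ cc (XX D y s) := by
  obtain ⟨K, k1, k2⟩ := h.2 _ (List.mem_of_getElem? ha)
  rw [← e] at k2
  rw [← Nat.eq_of_mul_eq_mul_left h0 k2]
  exact dvd_cc fun k hk => mcs.1 (k1 hk).2

theorem ord_xx {i s n : ℕ} (l : List ℕ) (h0 : i < 26) (h1 : 0 < n) (h2 : n < 4096)
    (hl : ∀ p ∈ n.primeFactorsList, p ∈ l)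
    (h : Ops.ordChk ⟨OK.mul, OK.one, ky⟩ (xc (nthN m24reps i) s) n l = true) :
    orderOf (xx D i s) = n := ord_XX D hi (inM_m24reps h0) h1 h2 hl h

theorem o0_0 : orderOf (xx D 0 0) = 1 :=
  ord_xx D hi [] (by norm_num) (by norm_num) (by norm_num) (by simp [Nat.primeFactorsList_ofNat]) (by decide +kernel)

theorem o0_1 : orderOf (xx D 0 1) = 2 :=
  ord_xx D hi [2] (by norm_num) (by norm_num) (by norm_num) (by simp [Nat.primeFactorsList_ofNat]) (by decide +kernel)

theorem o0_12 : orderOf (xx D 0 12) = 2 :=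
  ord_xx D hi [2] (by norm_num) (by norm_num) (by norm_num) (by simp [Nat.primeFactorsList_ofNat]) (by decide +kernel)

theorem o3_0 : orderOf (xx D 3 0) = 3 :=
  ord_xx D hi [3] (by norm_num) (by norm_num) (by norm_num) (by simp [Nat.primeFactorsList_ofNat]) (by decide +kernel)

theorem o2_46 : orderOf (xx D 2 46) = 4 :=
  ord_xx D hi [2] (by norm_num) (by norm_num) (by norm_num) (by simp [Nat.primeFactorsList_ofNat]) (by decide +kernel)

theorem o3_25 : orderOf (xx D 3 25) = 6 :=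
  ord_xx D hi [2, 3] (by norm_num) (by norm_num) (by norm_num) (by simp [Nat.primeFactorsList_ofNat]) (by decide +kernel)

theorem o1_36 : orderOf (xx D 1 36) = 4 :=
  ord_xx D hi [2] (by norm_num) (by norm_num) (by norm_num) (by simp [Nat.primeFactorsList_ofNat]) (by decide +kernel)

theorem o1_4 : orderOf (xx D 1 4) = 4 :=
  ord_xx D hi [2] (by norm_num) (by norm_num) (by norm_num) (by simp [Nat.primeFactorsList_ofNat]) (by decide +kernel)

theorem o3_1 : orderOf (xx D 3 1) = 6 :=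
  ord_xx D hi [2, 3] (by norm_num) (by norm_num) (by norm_num) (by simp [Nat.primeFactorsList_ofNat]) (by decide +kernel)

theorem o3_2 : orderOf (xx D 3 2) = 6 :=
  ord_xx D hi [2, 3] (by norm_num) (by norm_num) (by norm_num) (by simp [Nat.primeFactorsList_ofNat]) (by decide +kernel)

theorem o6_1 : orderOf (xx D 6 1) = 8 :=
  ord_xx D hi [2] (by norm_num) (by norm_num) (by norm_num) (by simp [Nat.primeFactorsList_ofNat]) (by decide +kernel)

theorem o5_4 : orderOf (xx D 5 4) = 8 :=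
  ord_xx D hi [2] (by norm_num) (by norm_num) (by norm_num) (by simp [Nat.primeFactorsList_ofNat]) (by decide +kernel)

theorem o6_5 : orderOf (xx D 6 5) = 8 :=
  ord_xx D hi [2] (by norm_num) (by norm_num) (by norm_num) (by simp [Nat.primeFactorsList_ofNat]) (by decide +kernel)

theorem o9_2 : orderOf (xx D 9 2) = 12 :=
  ord_xx D hi [2, 3] (by norm_num) (by norm_num) (by norm_num) (by simp [Nat.primeFactorsList_ofNat]) (by decide +kernel)

theorem o9_3 : orderOf (xx D 9 3) = 12 :=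
  ord_xx D hi [2, 3] (by norm_num) (by norm_num) (by norm_num) (by simp [Nat.primeFactorsList_ofNat]) (by decide +kernel)

theorem o9_4 : orderOf (xx D 9 4) = 12 :=
  ord_xx D hi [2, 3] (by norm_num) (by norm_num) (by norm_num) (by simp [Nat.primeFactorsList_ofNat]) (by decide +kernel)

theorem o13_1 : orderOf (xx D 13 1) = 16 :=
  ord_xx D hi [2] (by norm_num) (by norm_num) (by norm_num) (by simp [Nat.primeFactorsList_ofNat]) (by decide +kernel)

theorem o16_4 : orderOf (xx D 16 4) = 24 :=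
  ord_xx D hi [2, 3] (by norm_num) (by norm_num) (by norm_num) (by simp [Nat.primeFactorsList_ofNat]) (by decide +kernel)

theorem o16_5 : orderOf (xx D 16 5) = 24 :=
  ord_xx D hi [2, 3] (by norm_num) (by norm_num) (by norm_num) (by simp [Nat.primeFactorsList_ofNat]) (by decide +kernel)

omit hi in
theorem ord_conj {a b : G} (h : IsConj a b) : orderOf a = orderOf b := by
  obtain ⟨c, rfl⟩ := isConj_iff.1 h
  exact (orderOf_cj c a).symm

theorem ord2 {c : ℕ} {u : G} (h : ∃ p ∈ B23 D c ++ R23 D, IsConj p.1 u) (hu : orderOf u = 2) :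
    IsConj (xx D 0 1) u ∨ IsConj (xx D 0 12) u := by
  obtain ⟨p, hp, e⟩ := h
  have h := (ord_conj e).trans hu
  simp only [B23, R23, List.cons_append, List.nil_append, List.mem_cons, List.not_mem_nil,
    or_false] at hp
  rcases hp with rfl | rfl | rfl | rfl | rfl | rfl | rfl | rfl | rfl | rfl | rfl | rfl | rfl | rfl | rfl | rfl | rfl | rfl | rfl
  · exact absurd ((o0_0 D hi).symm.trans h) (by norm_num)
  · exact Or.inl e
  · exact Or.inr e
  · exact absurd ((o3_0 D hi).symm.trans h) (by norm_num)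
  · exact absurd ((o2_46 D hi).symm.trans h) (by norm_num)
  · exact absurd ((o3_25 D hi).symm.trans h) (by norm_num)
  · exact absurd ((o1_36 D hi).symm.trans h) (by norm_num)
  · exact absurd ((o1_4 D hi).symm.trans h) (by norm_num)
  · exact absurd ((o3_1 D hi).symm.trans h) (by norm_num)
  · exact absurd ((o3_2 D hi).symm.trans h) (by norm_num)
  · exact absurd ((o6_1 D hi).symm.trans h) (by norm_num)
  · exact absurd ((o5_4 D hi).symm.trans h) (by norm_num)
  · exact absurd ((o6_5 D hi).symm.trans h) (by norm_num)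
  · exact absurd ((o9_2 D hi).symm.trans h) (by norm_num)
  · exact absurd ((o9_3 D hi).symm.trans h) (by norm_num)
  · exact absurd ((o9_4 D hi).symm.trans h) (by norm_num)
  · exact absurd ((o13_1 D hi).symm.trans h) (by norm_num)
  · exact absurd ((o16_4 D hi).symm.trans h) (by norm_num)
  · exact absurd ((o16_5 D hi).symm.trans h) (by norm_num)

theorem ord6 {c : ℕ} {u : G} (h : ∃ p ∈ B23 D c ++ R23 D, IsConj p.1 u) (hu : orderOf u = 6) :
    IsConj (xx D 3 25) u ∨ IsConj (xx D 3 1) u ∨ IsConj (xx D 3 2) u := by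
  obtain ⟨p, hp, e⟩ := h
  have h := (ord_conj e).trans hu
  simp only [B23, R23, List.cons_append, List.nil_append, List.mem_cons, List.not_mem_nil,
    or_false] at hp
  rcases hp with rfl | rfl | rfl | rfl | rfl | rfl | rfl | rfl | rfl | rfl | rfl | rfl | rfl | rfl | rfl | rfl | rfl | rfl | rfl
  · exact absurd ((o0_0 D hi).symm.trans h) (by norm_num)
  · exact absurd ((o0_1 D hi).symm.trans h) (by norm_num)
  · exact absurd ((o0_12 D hi).symm.trans h) (by norm_num)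
  · exact absurd ((o3_0 D hi).symm.trans h) (by norm_num)
  · exact absurd ((o2_46 D hi).symm.trans h) (by norm_num)
  · exact Or.inl e
  · exact absurd ((o1_36 D hi).symm.trans h) (by norm_num)
  · exact absurd ((o1_4 D hi).symm.trans h) (by norm_num)
  · exact Or.inr (Or.inl e)
  · exact Or.inr (Or.inr e)
  · exact absurd ((o6_1 D hi).symm.trans h) (by norm_num)
  · exact absurd ((o5_4 D hi).symm.trans h) (by norm_num)
  · exact absurd ((o6_5 D hi).symm.trans h) (by norm_num)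
  · exact absurd ((o9_2 D hi).symm.trans h) (by norm_num)
  · exact absurd ((o9_3 D hi).symm.trans h) (by norm_num)
  · exact absurd ((o9_4 D hi).symm.trans h) (by norm_num)
  · exact absurd ((o13_1 D hi).symm.trans h) (by norm_num)
  · exact absurd ((o16_4 D hi).symm.trans h) (by norm_num)
  · exact absurd ((o16_5 D hi).symm.trans h) (by norm_num)

theorem good23 (card : Nat.card G = 86775571046077562880) (F : F3 G) (h5 : 5 ∣ cc (xx D 6 1)) {c : ℕ}
    (hc : c ≤ cc (xx D 3 25)) : Good (B23 D c ++ R23 D) := by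
  simp only [Good, B23, R23, List.cons_append, List.nil_append, List.forall_mem_cons, List.not_mem_nil,
    false_imp_iff, implies_true, and_true]
  refine ⟨?_, le_cc (Cls.dvd D (cls0 D hi) 1 rfl (by norm_num) (by norm_num)), le_cc (Cls.dvd D (cls0 D hi) 2 rfl (by norm_num) (by norm_num)),
    (F.c3 _ (o3_0 D hi)).ge, le_cc (Cls.dvd D (cls2 D hi) 3 rfl (by norm_num) (by norm_num)), hc,
    le_cc (Cls.dvd D (cls1 D hi) 4 rfl (by norm_num) (by norm_num)),
    le_cc (Cls.dvd D (cls1 D hi) 3 rfl (by norm_num) (by norm_num)),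
    le_cc (Cls.dvd D (cls3 D hi) 1 rfl (by norm_num) (by norm_num)),
    le_cc (Cls.dvd D (cls3 D hi) 2 rfl (by norm_num) (by norm_num)),
    le_cc (Nat.Coprime.mul_dvd_of_dvd_of_dvd (m := 5) (n := 256) (by norm_num) h5
      (Cls.dvd D (cls6 D hi) 1 rfl (by norm_num) (by norm_num))),
    le_cc (Cls.dvd D (cls5 D hi) 3 rfl (by norm_num) (by norm_num)),
    le_cc (Cls.dvd D (cls6 D hi) 3 rfl (by norm_num) (by norm_num)),
    le_cc (Cls.dvd D (cls9 D hi) 2 rfl (by norm_num) (by norm_num)),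
    le_cc (Cls.dvd D (cls9 D hi) 3 rfl (by norm_num) (by norm_num)),
    le_cc (Cls.dvd D (cls9 D hi) 4 rfl (by norm_num) (by norm_num)),
    le_cc (Cls.dvd D (cls13 D hi) 1 rfl (by norm_num) (by norm_num)),
    le_cc (Cls.dvd D (cls16 D hi) 2 rfl (by norm_num) (by norm_num)),
    le_cc (Cls.dvd D (cls16 D hi) 3 rfl (by norm_num) (by norm_num))⟩
  rw [orderOf_eq_one_iff.1 (o0_0 D hi), ← card, ← card_top]
  exact le_cc (dvd_cc fun k _ => by simp)

theorem le6 : 34560 ≤ cc (xx D 3 25) := le_cc (Cls.dvd D (cls3 D hi) 3 rfl (by norm_num) (by norm_num))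

theorem g_eq {k l : KK} (h : D.ψ k = D.ψ l) : k.g = l.g := by
  rw [ψ_nu, ψ_nu] at h
  exact (hi _ (syn_lt _) _ (syn_lt _) _ _ h).2

theorem cv_all (c : ℕ) (k : KK) (h : (orderOf k.g).Coprime 8855)
    (h' : ∀ i ∈ [4, 10, 17], ¬ IsConj (toM (nthN m24reps i)) k.g) :
    ∃ p ∈ B23 D c ++ R23 D, IsConj p.1 (D.ψ k) := by
  obtain ⟨i, h1, s, hs, e, e1, e2⟩ := conj_rep D k
  have h2 : ∀ i < 26, (nthN m24t_os i).Coprime 8855 → i ∈ [4, 10, 17] ∨
      i ∈ [0, 1, 2, 3, 5, 6, 7, 9, 13, 16] := by decide +kernel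
  have h3 := (h2 i h1 (e2 ▸ h)).resolve_left fun hi => h' i hi e1
  simp only [List.mem_cons, List.not_mem_nil, or_false] at h3
  have key : ∀ {i : ℕ}, (∃ p ∈ B23 D c ++ R23 D, IsConj p.1 (xx D i s)) →
      IsConj (xx D i s) (D.ψ k) → ∃ p ∈ B23 D c ++ R23 D, IsConj p.1 (D.ψ k) :=
    fun ⟨p, hp, a⟩ b => ⟨p, hp, a.trans b⟩
  rcases h3 with rfl | rfl | rfl | rfl | rfl | rfl | rfl | rfl | rfl | rfl
  exacts [key (cv0 D hi c hs) e, key (cv1 D hi c hs) e, key (cv2 D hi c hs) e, key (cv3 D hi c hs) e,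
    key (cv5 D hi c hs) e, key (cv6 D hi c hs) e, key (cv7 D hi c hs) e, key (cv9 D hi c hs) e,
    key (cv13 D hi c hs) e, key (cv16 D hi c hs) e]

omit hi in
theorem two_pow {u : G} (h : ∀ p, p.Prime → p ∣ orderOf u → p = 2) : ∃ m, u ^ 2 ^ m = 1 :=
  ⟨_, by rw [← Nat.eq_prime_pow_of_unique_prime_dvd (orderOf_pos u).ne' fun hp hd => h _ hp hd,
    pow_orderOf_eq_one]⟩

omit hi in
theorem no_fix {i : ℕ} (h : i ∈ [4, 10, 17]) :
    ¬ IsConj (toM (nthN m24reps i) ^ 4) (toM (nthN m24reps 3)) := fun e => by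
  obtain ⟨c, hc⟩ := isConj_iff.1 e
  have h1 : ∀ i ∈ [4, 10, 17], i < 26 ∧ ∀ j < 24, app (ppow (nthN m24reps i) 4) j ≠ j := by
    decide +kernel
  obtain ⟨j, hj, h2⟩ : ∃ j < 24, app (nthN m24reps 3) j = j := by decide +kernel
  have h3 := toM_smul_pt (inM_m24reps (i := 3) (by norm_num)) hj
  have h4 := inM_ppow (inM_m24reps (h1 i h).1) 4
  rw [h2, ← hc, mul_smul, mul_smul, smul_eq_iff_eq_inv_smul, ← pt_idx (c⁻¹ • pt j),
    ← toM_ppow (inM_m24reps (h1 i h).1), toM_smul_pt h4 (idx_lt _)] at h3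
  exact (h1 i h).2 _ (idx_lt _) (pt_inj (app_lt_of_isPerm (inM_isPerm h4) (idx_lt _)) (idx_lt _) h3)

theorem cover23 (card : Nat.card G = 86775571046077562880)
    (hc : Nat.card D.ψ.range = 2048 * 244823040) (F : F3 G) (c : ℕ) :
    Cv {g : G | ∀ p, p.Prime → p ∣ orderOf g → p = 2 ∨ p = 3} (B23 D c ++ R23 D) := by
  intro g hg
  have key : ∀ {x : G}, IsConj g x → (∃ p ∈ B23 D c ++ R23 D, IsConj p.1 x) →
      ∃ p ∈ B23 D c ++ R23 D, IsConj p.1 g := fun b ⟨p, hp, a⟩ => ⟨p, hp, a.trans b.symm⟩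
  have k2 : ∀ {k : KK} {m : ℕ}, D.ψ k ^ 2 ^ m = 1 → k.g ^ 2 ^ m = 1 := fun {k m} h => by
    have := g_eq D hi (k := k ^ 2 ^ m) (l := 1) (by rw [map_pow, h, map_one])
    exact (map_pow prM k _).symm.trans this
  by_cases h3 : 3 ∣ orderOf g
  · obtain ⟨s, u, rfl, e2, e3, e4, e5⟩ := exists_split Nat.prime_three h3 (F.no9 g)
    obtain ⟨m, hm⟩ := two_pow (u := u) fun p hp hd =>
      (hg p hp (hd.trans e5)).resolve_right fun e => e4 (e ▸ hd)
    obtain ⟨a, ha⟩ := isConj_iff.1 (F.cj3 _ _ e3 (o3_0 D hi))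
    obtain ⟨K, k0, k1⟩ := (cls3 D hi).2 (0, 64) (by simp)
    obtain ⟨b, hb, e⟩ := conj_into (C := centralizer {xx D 3 0}) (K := K) (k0.trans inf_le_right)
      (n := 8) (m := m) (u := a * u * a⁻¹) (by
        rw [show Nat.card K = 34560 by omega]; norm_num)
      (by
        show ¬ _ ∣ cc _
        rw [F.c3 _ (o3_0 D hi)]; norm_num)
      (by rw [mcs, ← ha, conj_mul, conj_mul, e2]) (by rw [conj_pow, hm]; simp)
    obtain ⟨⟨k, hk⟩, e⟩ := k0 e
    have y0 : D.ψ (inK (toM (nthN m24reps 3))) = xx D 3 0 := by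
      rw [D.ψ_inK, xx, XX, nu, show xorC bs 0 11 = 0 by decide +kernel, D.σ_zero, one_mul]
    have a1 : k.g ^ 2 ^ m = 1 := k2 (by rw [hk, conj_pow, conj_pow, hm]; simp)
    have a2 : Commute (toM (nthN m24reps 3)) k.g := g_eq D hi (k := inK (toM (nthN m24reps 3)) * k)
      (l := k * inK (toM (nthN m24reps 3)))
      (by rw [map_mul, map_mul, y0, hk]; exact (mcs.1 e).symm)
    have a3 : toM (nthN m24reps 3) ^ 3 = 1 :=
      orderOf_dvd_iff_pow_eq_one.1 (m24_rep_spec (i := 3) (by norm_num)).1.dvd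
    refine key (x := D.ψ (inK (toM (nthN m24reps 3)) * k)) (isConj_iff.2 ⟨b * a, ?_⟩)
      (cv_all D hi c _ (Nat.Coprime.coprime_dvd_left (n := 8855) (k := 3 * 2 ^ m)
        (orderOf_dvd_of_pow_eq_one ?_) (Nat.Coprime.mul_left (by norm_num)
          (Nat.Coprime.pow_left _ (by norm_num)))) fun i h e => no_fix h ?_)
    · rw [map_mul, y0, hk]
      calc _ = b * (a * s * a⁻¹) * b⁻¹ * (b * (a * u * a⁻¹) * b⁻¹) := by group
        _ = _ := by rw [ha, mcs.1 hb, mul_inv_cancel_right]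
    · show (toM (nthN m24reps 3) * k.g) ^ _ = 1
      rw [a2.mul_pow, pow_mul, a3, one_pow, one_mul, mul_comm, pow_mul, a1, one_pow]
    · obtain ⟨d, hd⟩ := isConj_iff.1 e
      have b1 : ∀ i ∈ [4, 10, 17], i < 26 ∧ nthN m24t_os i ∣ 12 := by decide +kernel
      have b2 : toM (nthN m24reps i) ^ 12 = 1 := orderOf_dvd_iff_pow_eq_one.1
        ((m24_rep_spec (b1 i h).1).1 ▸ (b1 i h).2)
      have b3 : 4 ^ (m + 1) ≡ 4 [MOD 12] := by
        rw [pow_succ']
        exact Nat.ModEq.mul_left' 4 (show 4 ^ m ≡ 1 [MOD 3] from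
          (Nat.ModEq.pow m (show 4 ≡ 1 [MOD 3] from rfl)).trans (by rw [one_pow]))
      refine isConj_iff.2 ⟨d, ?_⟩
      rw [pow_eq_pow_of_modEq b3.symm b2, ← conj_pow, hd]
      show (toM (nthN m24reps 3) * k.g) ^ _ = _
      rw [a2.mul_pow, pow_eq_pow_of_modEq (b3.of_dvd (by norm_num : 3 ∣ 12)) a3, pow_succ, a3, one_mul,
        show 4 ^ (m + 1) = 2 ^ m * 2 ^ (m + 2) by
          rw [show 4 = 2 ^ 2 from rfl, ← pow_mul, ← pow_add]; congr 1; ring, pow_mul, a1, one_pow,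
        mul_one]
  · obtain ⟨m, hm⟩ := two_pow (u := g) fun p hp hd =>
      (hg p hp hd).resolve_right fun e => h3 (e ▸ hd)
    obtain ⟨b, -, k, hk⟩ := conj_into (C := ⊤) (K := D.ψ.range) le_top (n := 21) (m := m)
      (by rw [hc]; norm_num) (by rw [card_top, card]; norm_num) (mem_top g) hm
    have a1 : orderOf k.g ∣ 2 ^ m :=
      orderOf_dvd_of_pow_eq_one (k2 (by rw [hk, conj_pow, hm]; simp))
    refine key (isConj_iff.2 ⟨b, hk.symm⟩) (cv_all D hi c k (Nat.Coprime.coprime_dvd_left a1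
      (Nat.Coprime.pow_left _ (by norm_num))) fun i h e => ?_)
    have b1 : ∀ i ∈ [4, 10, 17], i < 26 ∧ 3 ∣ nthN m24t_os i := by decide +kernel
    obtain ⟨d, hd⟩ := isConj_iff.1 e
    rw [← hd, orderOf_cj, (m24_rep_spec (b1 i h).1).1] at a1
    exact absurd (Nat.prime_three.dvd_of_dvd_pow ((b1 i h).2.trans a1)) (by norm_num)

omit hi in
theorem snd23 (c : ℕ) : (B23 D c ++ R23 D).map Prod.snd = [86775571046077562880, 283115520, 1816657920,
    2661120, 245760, c, 98304, 43008, 2304, 2304, 1280, 768, 512, 192, 192, 48, 32, 48, 48] := rfl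

/-- The centraliser orders of the remaining classes. -/
def Lr : List ℕ := [6720, 960, 80, 30, 160, 160, 30, 40, 40, 840, 84, 56, 42, 28, 42, 35, 840, 84, 56,
  42, 28, 42, 35, 31944, 264, 44, 66, 66, 66, 66, 242, 22, 23, 29, 31, 31, 31, 37, 37, 37, 43, 43, 43]

theorem classes62 (card : Nat.card G = 86775571046077562880)
    (hc : Nat.card D.ψ.range = 2048 * 244823040) (F : F3 G) (h5 : 5 ∣ cc (xx D 6 1))
    (hr : Cov {g : G | ¬ ∀ p, p.Prime → p ∣ orderOf g → p = 2 ∨ p = 3} Lr) :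
    Nat.card (ConjClasses G) = 62 := by
  obtain ⟨Q, q1, q2, q3⟩ := hr
  have h0 : ∀ c, 0 < c → ∀ r ∈ B23 D c ++ R23 D ++ Q, 0 < r.2 := fun c hc r hr => by
    have h1 : r.2 ∈ (B23 D c ++ R23 D ++ Q).map Prod.snd := List.mem_map_of_mem hr
    rw [List.map_append, snd23, q1] at h1
    simp only [Lr, List.cons_append, List.nil_append, List.mem_cons, List.not_mem_nil, or_false] at h1
    omega
  have h1 : ∀ c ≤ cc (xx D 3 25), Good (B23 D c ++ R23 D ++ Q) := fun c h r hr =>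
    (List.mem_append.1 hr).elim (good23 D hi card F h5 h r) (q2 r)
  have h2 : ∀ c, Cv Set.univ (B23 D c ++ R23 D ++ Q) := fun c g _ => by
    by_cases h : ∀ p, p.Prime → p ∣ orderOf g → p = 2 ∨ p = 3
    · obtain ⟨p, hp, e⟩ := cover23 D hi card hc F c g h
      exact ⟨p, List.mem_append_left _ hp, e⟩
    · obtain ⟨p, hp, e⟩ := q3 g h
      exact ⟨p, List.mem_append_right _ hp, e⟩
  have h3 : ∀ {n : ℕ} {u : G}, orderOf u = n → n ∣ 6 → ∃ p ∈ B23 D 0 ++ R23 D, IsConj p.1 u :=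
    fun {n u} hu hn => cover23 D hi card hc F 0 u fun p hp hd => by
      rcases (Nat.Prime.dvd_mul hp).1 (show p ∣ 2 * 3 from (hu ▸ hd).trans hn) with h | h
      exacts [Or.inl ((Nat.prime_dvd_prime_iff_eq hp Nat.prime_two).1 h),
        Or.inr ((Nat.prime_dvd_prime_iff_eq hp Nat.prime_three).1 h)]
  have h4 : 2661120 ≤ cc (xx D 3 25) := by
    obtain ⟨w, w1, w2, w3, w4⟩ := F.w6
    have w5 : orderOf w = 6 := by
      have a1 := orderOf_dvd_of_pow_eq_one w1
      have a2 := Nat.le_of_dvd (by norm_num) a1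
      rw [Ne, ← orderOf_dvd_iff_pow_eq_one] at w2 w3
      generalize orderOf w = n at *
      interval_cases n <;> omega
    have key : ∀ {x : G} (n : ℕ), (B23 D 34560 ++ R23 D ++ Q)[n]? = some (x, 2304) → ¬ IsConj x w :=
      fun n hn e => not_better (h0 _ (by norm_num)) (h1 _ (le6 D hi)) (h2 _) (List.mem_of_getElem? hn)
        (c := 2661120) (by norm_num) (cc_conj e ▸ w4) (by
          rw [List.map_append, snd23, q1, card]; dsimp only; decide +kernel)
    rcases ord6 D hi (h3 w5 dvd_rfl) w5 with e | e | e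
    exacts [cc_conj e ▸ w4, absurd e (key 8 rfl), absurd e (key 9 rfl)]
  have h6 : ¬ IsConj (xx D 0 1) (xx D 0 12) := fun e => by
    obtain ⟨z, t, z2, t2, h⟩ := F.two
    rcases ord2 D hi (h3 z2 (by norm_num)) z2 with a | a <;>
      rcases ord2 D hi (h3 t2 (by norm_num)) t2 with b | b
    exacts [h (a.symm.trans b), h (a.symm.trans (e.trans b)), h (a.symm.trans (e.symm.trans b)),
      h (a.symm.trans b)]
  have h7 : ∀ {a b : G} {m n : ℕ}, orderOf a = m → orderOf b = n → m ≠ n → ¬ IsConj a b :=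
    fun ha hb h e => h (ha ▸ hb ▸ ord_conj e)
  have := card_classes (B := B23 D 2661120) (R := R23 D ++ Q)
    (List.append_assoc _ _ _ ▸ h0 _ (by norm_num)) (List.append_assoc _ _ _ ▸ h1 _ h4)
    (List.append_assoc _ _ _ ▸ h2 _) (by
      simp only [B23, List.pairwise_cons, List.forall_mem_cons, List.not_mem_nil, false_imp_iff,
        implies_true, and_true, List.Pairwise.nil]
      refine ⟨⟨?_, ?_, ?_, ?_, ?_⟩, ⟨h6, ?_, ?_, ?_⟩, ⟨?_, ?_, ?_⟩, ⟨?_, ?_⟩, ?_⟩ <;>
        (intro e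
         have := ord_conj e
         simp only [o0_0 D hi, o0_1 D hi, o0_12 D hi, o3_0 D hi, o2_46 D hi, o3_25 D hi] at this
         try omega)) (by
      rw [← List.append_assoc, List.map_append (l₂ := Q), List.map_append (l₂ := Q), snd23, q1, card,
        show (R23 D).map Prod.snd = [98304, 43008, 2304, 2304, 1280, 768, 512, 192, 192, 48, 32, 48, 48]
          from rfl]
      decide +kernel)
  rw [this, ← List.append_assoc, ← List.length_map (f := Prod.snd), List.map_append, snd23, q1]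
  rfl

end Cfsg.Agent.H78.J4C
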