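import Cfsg.Agent.H78.McDefs
import Cfsg.Agent.S0081
import Cfsg.Agent.H1.Npc
import Cfsg.Agent.H3.Cores

/-! Project MC (row S3865): the assembly. -/

set_option autoImplicit false

namespace Cfsg.Agent.H78.Mc

open Subgroup
open scoped commutatorElement

universe u

theorem main (uni : UniStmt.{u}) (fra : FraStmt.{u}) (ind : IndStmt.{u}) (unq : UnqStmt.{u})
    {G : Type u} [Group G] [Finite G] (p : ℕ) [Fact p.Prime] (P : Sylow p G) (n : ℕ)
    (hP : Nat.card P = p ^ n) (hn : 2 ≤ n) (hmax : Group.nilpotencyClass ↥(P : Subgroup G) = n - 1)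
    (hcore : Cfsg.pPrimeCore p G = ⊥)
    (hres : ∀ N : Subgroup G, N.Normal → (N.index).Coprime p → N = ⊤) :
    (∃ x ∈ (P : Subgroup G), (Nat.card (Subgroup.centralizer ({x} : Set G))).factorization p = 2) ∨
      (Cfsg.IsQuasisimple G ∧ Nat.card (Subgroup.center G) ≤ p) := by
  have hp : p.Prime := Fact.out
  rcases hn.eq_or_lt with rfl | hn3
  · refine Or.inl ⟨1, one_mem _, ?_⟩
    have e : centralizer ({1} : Set G) = ⊤ := by
      ext g; simp [mem_centralizer_iff]
    rw [e, card_top]
    have := P.card_eq_multiplicity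
    rw [hP] at this
    exact (Nat.pow_right_injective hp.two_le this).symm
  by_contra hc
  rw [not_or] at hc
  obtain ⟨h1, h2⟩ := hc
  have U : ∀ M : Subgroup G, ¬ (P : Subgroup G) ≤ M → ∃ x ∈ (P : Subgroup G), x ∉ M ∧
      Nat.card ((P : Subgroup G) ⊓ centralizer ({x} : Set G) : Subgroup G) = p ^ 2 := by
    intro M hM
    obtain ⟨x, hx, e⟩ := uni P p n hP hn3 hmax (M.subgroupOf P) (by rwa [Ne, subgroupOf_eq_top])
    refine ⟨x, x.2, hx, ?_⟩
    rw [← e]
    refine Nat.card_congr ⟨fun a => ⟨⟨a.1, a.2.1⟩, mem_centralizer_singleton_iff.2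
      (Subtype.ext (mem_centralizer_singleton_iff.1 a.2.2))⟩, fun b => ⟨b.1.1, b.1.2,
      mem_centralizer_singleton_iff.2 (congrArg Subtype.val (mem_centralizer_singleton_iff.1 b.2))⟩,
      fun _ => rfl, fun _ => rfl⟩
  have nP : ∀ N : Subgroup G, N.Normal → N ≠ ⊤ → ¬ (P : Subgroup G) ≤ N := fun N hN ne le =>
    ne (hres N hN ((hp.coprime_iff_not_dvd.2 fun h => P.not_dvd_index
      (h.trans (index_dvd_of_le le))).symm))
  have A : ∀ N : Subgroup G, N.Normal → N ≠ ⊤ → N.relIndex (P : Subgroup G) ≠ p ∧ IsPGroup p N := by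
    intro N hN ne
    have hi : N.relIndex (P : Subgroup G) ≠ p := by
      intro e
      obtain ⟨x, xP, xN, c⟩ := U N (nP N hN ne)
      exact h1 ⟨x, xP, ind G p P N hN e x xP xN c⟩
    refine ⟨hi, ?_⟩
    have f := fra P p n hP hn3 hmax (N.subgroupOf P) inferInstance
      (by rw [Ne, subgroupOf_eq_top]; exact nP N hN ne) hi
    refine H1.isPGroup_of_npc_of_core (S0081.result P N fun x hx => ⟨⟨x, hx.2⟩, f hx.1, rfl⟩) ?_
    have := H3.map_pPrimeCore_le_pPrimeCore (p := p) N
    rw [hcore, le_bot_iff, map_eq_bot_iff_of_injective _ N.subtype_injective] at this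
    exact this
  have hPne : (⊥ : Subgroup G) ≠ ⊤ := by
    intro e
    have : (P : Subgroup G) = ⊥ := le_bot_iff.1 (e ▸ le_top)
    rw [this, card_bot] at hP
    exact absurd hP.symm (Nat.one_lt_pow (by omega) hp.one_lt).ne'
  obtain ⟨N, ⟨hN, ne⟩, mx⟩ := Set.exists_max_image {N : Subgroup G | N.Normal ∧ N ≠ ⊤}
    (fun N => Nat.card N) (Set.toFinite _) ⟨⊥, inferInstance, hPne⟩
  have pN := (A N hN ne).2
  have all : ∀ K : Subgroup G, K.Normal → K ≠ ⊤ → K ≤ N := by
    intro K hK kne
    have pk : IsPGroup p (K ⊔ N : Subgroup G) := (A K hK kne).2.to_sup_of_normal_right pN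
    have t : K ⊔ N ≠ ⊤ := by
      intro e
      have hG : IsPGroup p G := (e ▸ pk : IsPGroup p (⊤ : Subgroup G)).of_equiv topEquiv
      have l1 : K ≤ P := (A K hK kne).2.le_sylow_of_normal P
      have l2 : N ≤ P := pN.le_sylow_of_normal P
      have f1 := fra P p n hP hn3 hmax (K.subgroupOf P) inferInstance
        (by rw [Ne, subgroupOf_eq_top]; exact nP K hK kne) (A K hK kne).1
      have f2 : K.subgroupOf P ⊔ N.subgroupOf P = ⊤ := by
        rw [← subgroupOf_sup l1 l2, e, top_subgroupOf]
      have f3 := frattini_nongenerating (top_le_iff.1 (f2 ▸ (sup_comm _ _).le.trans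
        (sup_le_sup_left f1 _)))
      exact nP N hN ne (subgroupOf_eq_top.1 f3)
    exact le_sup_left.trans (eq_of_le_of_card_ge le_sup_right (mx _ ⟨inferInstance, t⟩)).ge
  obtain ⟨x, xP, xN, c⟩ := U N (nP N hN ne)
  by_cases hC : centralizer (N : Set G) = ⊤
  swap
  · exact h1 ⟨x, xP, unq G p P N hN pN (all _ inferInstance hC) x xP xN c⟩
  have NZ : N ≤ center G := centralizer_eq_top_iff_subset.1 hC
  have perf : commutator G = ⊤ := by
    by_contra hd
    have l := all _ inferInstance hd
    have l2 : N ≤ P := pN.le_sylow_of_normal P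
    haveI : (P : Subgroup G).Normal := ⟨fun a ha g => by
      have : ⁅g, a⁆ ∈ (P : Subgroup G) := l2 (l (commutator_mem_commutator (mem_top g) (mem_top a)))
      have e : g * a * g⁻¹ = ⁅g, a⁆ * a := by rw [commutatorElement_def]; group
      rw [e]; exact mul_mem this ha⟩
    have pt : (P : Subgroup G) = ⊤ := by
      by_contra h
      exact nP _ inferInstance h le_rfl
    have hG : IsPGroup p G := (pt ▸ P.isPGroup' : IsPGroup p (⊤ : Subgroup G)).of_equiv topEquiv
    haveI := hG.isNilpotent
    obtain ⟨M, hM, le⟩ := (eq_top_or_exists_le_coatom N).resolve_left ne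
    have Mn : M.Normal :=
      Subgroup.NormalizerCondition.normal_of_coatom M Group.normalizerCondition_of_isNilpotent hM
    have hi := (A M Mn hM.1).1
    rw [pt, relIndex_top_right] at hi
    apply hi
    haveI : IsSimpleGroup (G ⧸ M) := by
      haveI : Nontrivial (G ⧸ M) := QuotientGroup.nontrivial_iff.2 hM.1
      refine ⟨fun K _ => ?_⟩
      rcases hM.le_iff.1 (QuotientGroup.le_comap_mk' M K) with h | h
      · right; rw [← map_comap_eq_self_of_surjective (QuotientGroup.mk'_surjective M) K, h]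
        exact map_top_of_surjective _ (QuotientGroup.mk'_surjective M)
      · left; rw [← map_comap_eq_self_of_surjective (QuotientGroup.mk'_surjective M) K, h]
        exact QuotientGroup.map_mk'_self M
    have pq : IsPGroup p (G ⧸ M) := hG.to_quotient M
    haveI := pq.isNilpotent
    haveI : IsMulCommutative (G ⧸ M) := ⟨⟨fun a b => IsSimpleGroup.comm_iff_isSolvable.2 inferInstance a b⟩⟩
    letI : CommGroup (G ⧸ M) := { (inferInstance : Group (G ⧸ M)) with mul_comm := mul_comm' }
    have pr : (Nat.card (G ⧸ M)).Prime := IsSimpleGroup.prime_card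
    obtain ⟨k, hk⟩ := IsPGroup.iff_card.1 pq
    show Nat.card (G ⧸ M) = p
    rw [hk] at pr ⊢
    rw [pr.eq_one_of_pow, pow_one]
  have Zne : center G ≠ ⊤ := by
    intro e
    have : commutator G = ⊥ := by
      rw [_root_.commutator_def, commutator_eq_bot_iff_le_centralizer]
      intro a _
      exact mem_centralizer_iff.2 fun b _ => mem_center_iff.1 (e ▸ mem_top a) b
    exact hPne (this.symm.trans perf)
  have ZN : center G = N := le_antisymm (all _ inferInstance Zne) NZ
  refine h2 ⟨⟨⟨perf⟩, ?_⟩, ?_⟩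
  · haveI : Nontrivial (G ⧸ center G) := QuotientGroup.nontrivial_iff.2 Zne
    refine ⟨fun K _ => ?_⟩
    by_cases h : K.comap (QuotientGroup.mk' (center G)) = ⊤
    · right; rw [← map_comap_eq_self_of_surjective (QuotientGroup.mk'_surjective _) K, h]
      exact map_top_of_surjective _ (QuotientGroup.mk'_surjective _)
    · left
      have := all _ inferInstance h
      rw [← ZN] at this
      rw [← map_comap_eq_self_of_surjective (QuotientGroup.mk'_surjective _) K, Subgroup.map_eq_bot_iff,
        QuotientGroup.ker_mk']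
      exact this
  · have l : center G ≤ (P : Subgroup G) ⊓ centralizer ({x} : Set G) :=
      le_inf (ZN ▸ pN.le_sylow_of_normal P) (center_le_centralizer _)
    have d := card_dvd_of_le l
    rw [c] at d
    obtain ⟨k, hk, e⟩ := (Nat.dvd_prime_pow hp).1 d
    have : k ≠ 2 := by
      rintro rfl
      have := eq_of_le_of_card_ge l (by rw [c, e])
      exact xN (ZN ▸ this ▸ ⟨xP, mem_centralizer_singleton_iff.2 rfl⟩)
    rw [e]
    calc p ^ k ≤ p ^ 1 := Nat.pow_le_pow_right hp.pos (by omega)
      _ = p := pow_one p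

end Cfsg.Agent.H78.Mc
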