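import Mathlib
import Cfsg.Prelude.Def_Solvable
import Cfsg.Prelude.Def_CaseTheorems

/-! Project MC (row S3865): Sylow subgroups of maximal class. -/

set_option autoImplicit false

namespace Cfsg.Agent.H78.Mc

open Subgroup

universe u

/-- an element outside a given proper subgroup with centraliser of order `p ^ 2` -/
def UniStmt : Prop := ∀ (P : Type u) [Group P] [Finite P] (p n : ℕ) [Fact p.Prime],
  Nat.card P = p ^ n → 3 ≤ n → Group.nilpotencyClass P = n - 1 → ∀ M : Subgroup P, M ≠ ⊤ →
    ∃ x : P, x ∉ M ∧ Nat.card (centralizer ({x} : Set P)) = p ^ 2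

/-- normal subgroups of index at least `p ^ 2` -/
def FraStmt : Prop := ∀ (P : Type u) [Group P] [Finite P] (p n : ℕ) [Fact p.Prime],
  Nat.card P = p ^ n → 3 ≤ n → Group.nilpotencyClass P = n - 1 → ∀ K : Subgroup P, K.Normal →
    K ≠ ⊤ → K.index ≠ p → K ≤ frattini P

def IndStmt : Prop := ∀ (G : Type u) [Group G] [Finite G] (p : ℕ) [Fact p.Prime] (P : Sylow p G)
  (N : Subgroup G), N.Normal → N.relIndex (P : Subgroup G) = p → ∀ x ∈ (P : Subgroup G), x ∉ N →
    Nat.card ((P : Subgroup G) ⊓ centralizer ({x} : Set G) : Subgroup G) = p ^ 2 →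
    (Nat.card (centralizer ({x} : Set G))).factorization p = 2

def UnqStmt : Prop := ∀ (G : Type u) [Group G] [Finite G] (p : ℕ) [Fact p.Prime] (P : Sylow p G)
  (N : Subgroup G), N.Normal → IsPGroup p N → centralizer (N : Set G) ≤ N →
    ∀ x ∈ (P : Subgroup G), x ∉ N →
    Nat.card ((P : Subgroup G) ⊓ centralizer ({x} : Set G) : Subgroup G) = p ^ 2 →
    (Nat.card (centralizer ({x} : Set G))).factorization p = 2

end Cfsg.Agent.H78.Mc
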