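/-
Even permutations moving finite sets.
-/
import Cfsg.Agent.H78.GrpAux

set_option autoImplicit false

namespace Cfsg.Agent.H78

open Equiv Equiv.Perm

variable {Ω : Type} [Fintype Ω] [DecidableEq Ω] {σ τ : alternatingGroup Ω} {S T U : Finset Ω}

/-- The even permutation `σ` maps `S` onto `T`. -/
def Mp (σ : alternatingGroup Ω) (S T : Finset Ω) : Prop := ∀ x, (σ : Perm Ω) x ∈ T ↔ x ∈ S

theorem Mp.one : Mp 1 S S := fun _ => Iff.rfl

theorem Mp.mul (h : Mp σ T U) (h' : Mp τ S T) : Mp (σ * τ) S U := fun x => (h _).trans (h' x)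

theorem Mp.inv (h : Mp σ S T) : Mp σ⁻¹ T S := fun x => by
  rw [← h]; simp

theorem mp_image (σ : alternatingGroup Ω) (S : Finset Ω) : Mp σ S (S.image (σ : Perm Ω)) :=
  fun _ => (σ : Perm Ω).injective.mem_finset_image

theorem Mp.eq_image (h : Mp σ S T) : T = S.image (σ : Perm Ω) := Finset.ext fun x => by
  obtain ⟨x, rfl⟩ := (σ : Perm Ω).surjective x
  rw [h, mp_image]

theorem Mp.card_eq (h : Mp σ S T) : T.card = S.card := by
  rw [h.eq_image, Finset.card_image_of_injective _ (σ : Perm Ω).injective]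

theorem Mp.union {S' T' : Finset Ω} (h : Mp σ S T) (h' : Mp σ S' T') : Mp σ (S ∪ S') (T ∪ T') :=
  fun x => by rw [Finset.mem_union, Finset.mem_union, h, h']

theorem Mp.subset {S' T' : Finset Ω} (h : Mp σ S T) (h' : Mp σ S' T') (hS : S ⊆ S') : T ⊆ T' :=
  fun x hx => (h'.inv x).1 (hS ((h.inv x).2 hx))

theorem mp_of_maps (h : ∀ x ∈ S, (σ : Perm Ω) x ∈ T) (hc : T.card = S.card) : Mp σ S T := by
  have : S.image (σ : Perm Ω) = T := Finset.eq_of_subset_of_card_le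
    (Finset.image_subset_iff.2 h) (by rw [(mp_image σ S).card_eq, hc])
  exact this ▸ mp_image σ S

/-- The even permutations supported in `S`. -/
def AOn (S : Finset Ω) : Subgroup (alternatingGroup Ω) := (symOn S).subgroupOf _

theorem mem_AOn : σ ∈ AOn S ↔ ∀ x ∉ S, (σ : Perm Ω) x = x := Iff.rfl

theorem AOn_mono (h : S ⊆ T) : AOn S ≤ AOn T := fun _ hσ => symOn_mono h hσ

theorem mp_of_mem_AOn (h : σ ∈ AOn S) (hS : S ⊆ T) : Mp σ T T :=
  mp_of_maps (fun _ => symOn_apply_mem (AOn_mono hS h)) rfl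

theorem Mp.conj_AOn (h : Mp σ S T) (hτ : τ ∈ AOn S) : σ * τ * σ⁻¹ ∈ AOn T :=
  h.eq_image ▸ conj_mem_symOn hτ _

theorem AOn_le {H : Subgroup (alternatingGroup Ω)}
    (h : altOn S ≤ H.map (alternatingGroup Ω).subtype) : AOn S ≤ H := fun σ hσ =>
  (Subgroup.mem_map_iff_mem (alternatingGroup Ω).subtype_injective).1 (h ⟨hσ, σ.2⟩)

theorem altOn_le {H : Subgroup (alternatingGroup Ω)} (h : AOn S ≤ H) :
    altOn S ≤ H.map (alternatingGroup Ω).subtype := fun σ hσ => ⟨⟨σ, hσ.2⟩, h hσ.1, rfl⟩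

theorem exists_mp {κ : Type} {f g : κ → Ω} (hf : Function.Injective f)
    (hg : Function.Injective g) (hfS : ∀ k, f k ∉ S) (hgT : ∀ k, g k ∉ T) (hc : T.card = S.card)
    (h2 : 2 ≤ S.card) : ∃ σ, Mp σ S T ∧ ∀ k, (σ : Perm Ω) (f k) = g k := by
  obtain ⟨a, ha, b, hb, hab⟩ := Finset.one_lt_card.1 h2
  let e := Finset.equivOfCardEq hc.symm
  obtain ⟨σ, h⟩ := exists_alt_map_of_swap (f := Sum.elim (fun x : S => x.1) f)
    (g := Sum.elim (fun x : S => (e x).1) g)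
    (Subtype.val_injective.sumElim hf fun x k h => hfS k (h ▸ x.2))
    ((Subtype.val_injective.comp e.injective).sumElim hg fun x k h => hgT k (h ▸ (e x).2)) hab
  rcases h with h | h
  · exact ⟨σ, mp_of_maps (fun x hx => (h (Sum.inl ⟨x, hx⟩)).symm ▸ (e _).2) hc,
      fun k => h (Sum.inr k)⟩
  · refine ⟨σ, mp_of_maps (fun x hx => ?_) hc, fun k => ?_⟩
    · have := h (Sum.inl ⟨swap a b x, symOn_apply_mem (swap_mem_symOn ha hb) hx⟩)
      simp only [Sum.elim_inl, swap_apply_self] at this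
      exact this ▸ (e _).2
    · have := h (Sum.inr k)
      rwa [Sum.elim_inr, swap_mem_symOn ha hb _ (hfS k)] at this

theorem exists_mp_one (hc : T.card = S.card) (h2 : 2 ≤ S.card) : ∃ σ, Mp σ S T :=
  (exists_mp (κ := Empty) (f := Empty.elim) (g := Empty.elim) (fun x => x.elim) (fun x => x.elim)
    (fun x => x.elim) (fun x => x.elim) hc h2).imp fun _ h => h.1

theorem exists_mp_disj {S' T' : Finset Ω} (hS : Disjoint S S') (hT : Disjoint T T')
    (hc : T.card = S.card) (hc' : T'.card = S'.card) (h2 : 2 ≤ S.card) :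
    ∃ σ, Mp σ S T ∧ Mp σ S' T' := by
  let e := Finset.equivOfCardEq hc'.symm
  obtain ⟨σ, h1, h3⟩ := exists_mp (f := fun x : S' => x.1) (g := fun x => (e x).1)
    Subtype.val_injective (Subtype.val_injective.comp e.injective)
    (fun k => Finset.disjoint_right.1 hS k.2) (fun k => Finset.disjoint_right.1 hT (e k).2) hc h2
  exact ⟨σ, h1, mp_of_maps (fun x hx => (h3 ⟨x, hx⟩).symm ▸ (e _).2) hc'⟩

theorem exists_mp_sub {S' T' : Finset Ω} (hS : S ⊆ S') (hT : T ⊆ T')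
    (hc : T.card = S.card) (hc' : T'.card = S'.card) (h2 : 2 ≤ S.card) :
    ∃ σ, Mp σ S T ∧ Mp σ S' T' := by
  obtain ⟨σ, h1, h3⟩ := exists_mp_disj (S := S) (S' := S' \ S) (T := T) (T' := T' \ T)
    Finset.disjoint_sdiff Finset.disjoint_sdiff hc
    (by rw [Finset.card_sdiff_of_subset hS, Finset.card_sdiff_of_subset hT, hc, hc']) h2
  exact ⟨σ, h1, by
    simpa [Finset.union_eq_right.2 hS, Finset.union_eq_right.2 hT] using h1.union h3⟩

theorem exists_mp_on (hS : S ⊆ U) (hT : T ⊆ U) (hc : T.card = S.card) (h2 : 2 ≤ S.card) :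
    ∃ σ ∈ AOn U, Mp σ S T := by
  obtain ⟨σ, h1, h3⟩ := exists_mp (f := fun x : {x // x ∉ U} => x.1) (g := fun x => x.1)
    Subtype.val_injective Subtype.val_injective (fun k h => k.2 (hS h)) (fun k h => k.2 (hT h))
    hc h2
  exact ⟨σ, fun x hx => h3 ⟨x, hx⟩, h1⟩

theorem exists_two_gen_symOn (X : Finset Ω) : ∃ s₁ ∈ symOn X, ∃ s₂ ∈ symOn X,
    ∀ H : Subgroup (Perm Ω), s₁ ∈ H → s₂ ∈ H → symOn X ≤ H := by
  obtain ⟨r, g, -, h⟩ := two_gen_pres_perm X.card
  let ι : Perm (Fin X.card) →* Perm Ω :=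
    (ofSubtype : Perm X →* Perm Ω).comp X.equivFin.symm.permCongrHom.toMonoidHom
  have h1 : symOn X = ι.range := by
    rw [MonoidHom.range_comp, MonoidHom.range_eq_top.2 (MulEquiv.surjective _),
      ← MonoidHom.range_eq_map]
    ext σ
    rw [Perm.mem_range_ofSubtype_iff, mem_symOn_iff_support]
    rfl
  refine ⟨ι (g 0), h1 ▸ ⟨_, rfl⟩, ι (g 1), h1 ▸ ⟨_, rfl⟩, fun H a b => ?_⟩
  rw [h1, MonoidHom.range_eq_map, ← h.closure_eq_top, Subgroup.map_le_iff_le_comap,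
    Subgroup.closure_le]
  rintro _ ⟨i, rfl⟩
  fin_cases i
  exacts [a, b]

/-- The stabiliser of a set `S` is generated by two elements together with the even permutations
supported in `S`. -/
theorem exists_two_gen_stab (h2 : 2 ≤ S.card) : ∃ τ₁ τ₂, Mp τ₁ S S ∧ Mp τ₂ S S ∧
    ∀ H : Subgroup (alternatingGroup Ω), τ₁ ∈ H → τ₂ ∈ H → AOn S ≤ H → ∀ τ, Mp τ S S → τ ∈ H := by
  obtain ⟨a, ha, b, hb, hab⟩ := Finset.one_lt_card.1 h2
  obtain ⟨s₁, h₁, s₂, h₂, hgen⟩ := exists_two_gen_symOn Sᶜ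
  let θ : Perm Ω → alternatingGroup Ω := fun s =>
    ⟨s * if sign s = 1 then 1 else swap a b, by
      rcases Int.units_eq_one_or (sign s) with h | h <;> simp [h, hab]⟩
  have hsw := swap_mem_symOn ha hb
  have hθ : ∀ s ∈ symOn Sᶜ, Mp (θ s) S S := fun s hs => mp_of_maps (fun x hx => by
    have : (if sign s = 1 then 1 else swap a b : Perm Ω) x ∈ S := by
      split_ifs
      exacts [hx, symOn_apply_mem hsw hx]
    simp only [θ, Perm.mul_apply]
    rwa [hs _ (by simpa using this)]) rfl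
  refine ⟨θ s₁, θ s₂, hθ _ h₁, hθ _ h₂, fun H a₁ a₂ hS τ hτ => ?_⟩
  have hq : ∀ {s t : alternatingGroup Ω}, (∀ x ∉ S, (s : Perm Ω) x = (t : Perm Ω) x) → s ∈ H →
      t ∈ H := fun {s t} h hs => by
    simpa using mul_mem hs (hS (x := s⁻¹ * t) fun x hx => by simp [← h x hx])
  have hθ' : ∀ s, ∀ x ∉ S, (θ s : Perm Ω) x = s x := fun s x hx => by
    simp only [θ, Perm.mul_apply]
    split_ifs
    exacts [rfl, by rw [hsw x hx]]
  let W : Subgroup (Perm Ω) :=
    { carrier := {s | s ∈ symOn Sᶜ ∧ θ s ∈ H}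
      one_mem' := ⟨one_mem _, hq (s := 1) (fun x hx => (hθ' 1 x hx).symm) (one_mem _)⟩
      mul_mem' := fun {s t} hs ht => ⟨mul_mem hs.1 ht.1, hq (fun x hx => by
        rw [hθ' _ x hx, Subgroup.coe_mul, Perm.mul_apply, hθ' _ x hx, hθ', Perm.mul_apply]
        simpa using symOn_apply_mem ht.1 (x := x) (by simpa using hx)) (mul_mem hs.2 ht.2)⟩
      inv_mem' := fun {s} hs => ⟨inv_mem hs.1, hq (fun x hx => by
        rw [hθ' _ x hx, Subgroup.coe_inv, Perm.inv_eq_iff_eq, hθ']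
        · simp
        · simpa using symOn_apply_mem (inv_mem hs.1) (x := x) (by simpa using hx))
        (inv_mem hs.2)⟩ }
  have hτ' : ∀ x, (τ : Perm Ω) x ∈ Sᶜ ↔ x ∈ Sᶜ := fun x => by simp [hτ x]
  have := (hgen W ⟨h₁, a₁⟩ ⟨h₂, a₂⟩ (x := ofSubtype ((τ : Perm Ω).subtypePerm hτ'))
    fun x hx => ofSubtype_apply_of_not_mem _ hx).2
  exact hq (fun x hx => by
    rw [hθ' _ x hx, ofSubtype_apply_of_mem _ (by simpa using hx)]; rfl) this

theorem AOn_eq_bot (h : S.card ≤ 2) : AOn S = ⊥ := by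
  refine eq_bot_iff.2 (AOn_le (altOn_le_of_forall_c3 fun a ha b hb c hc h1 h2 h3 => ?_))
  have := Finset.card_le_card (s := {a, b, c}) (t := S) (by simp [Finset.insert_subset_iff, *])
  rw [Finset.card_eq_three.2 ⟨a, b, c, h1, h2, h3, rfl⟩] at this
  omega

theorem exists_gens_AOn (h2 : 2 ≤ S.card) : ∃ L : List (alternatingGroup Ω),
    L.length + 2 = S.card ∧ (∀ σ ∈ L, σ ∈ AOn S) ∧
      ∀ H : Subgroup (alternatingGroup Ω), (∀ σ ∈ L, σ ∈ H) → AOn S ≤ H := by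
  obtain ⟨a, ha, b, hb, hab⟩ := Finset.one_lt_card.1 h2
  let c : Ω → alternatingGroup Ω := fun i => if h : i = a then 1 else ⟨c3 i a b, sign_c3 h hab⟩
  refine ⟨((S.erase a).erase b).toList.map c, ?_, ?_, fun H hH => AOn_le (altOn_le_of_c3 hab
    fun i hi h1 h2 => ⟨c i, hH _ (List.mem_map_of_mem (by simp [*])), by simp [c, h1]⟩)⟩
  · rw [List.length_map, Finset.length_toList, Finset.card_erase_of_mem (by simp [hb, hab.symm]),
      Finset.card_erase_of_mem ha]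
    omega
  · simp only [List.forall_mem_map, Finset.mem_toList, Finset.mem_erase]
    rintro i ⟨-, h1, hi⟩
    simp only [c, dif_neg h1]
    exact (c3_mem_altOn hi ha hb h1 hab).1

/-- An interval of `Fin n`. -/
def Ic (n i k : ℕ) : Finset (Fin n) := Finset.univ.filter fun x => i ≤ x.1 ∧ x.1 < i + k

variable {n i j k l : ℕ}

theorem mem_Ic {x : Fin n} : x ∈ Ic n i k ↔ i ≤ x.1 ∧ x.1 < i + k := by simp [Ic]

theorem card_Ic (h : i + k ≤ n) : (Ic n i k).card = k := by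
  rw [← Finset.card_map Fin.valEmbedding, show (Ic n i k).map Fin.valEmbedding =
    Finset.Ico i (i + k) from ?_, Nat.card_Ico, Nat.add_sub_cancel_left]
  ext x
  simp only [Finset.mem_map, mem_Ic, Fin.valEmbedding_apply, Finset.mem_Ico]
  exact ⟨by rintro ⟨a, h, rfl⟩; exact h, fun h' => ⟨⟨x, by omega⟩, h', rfl⟩⟩

theorem Ic_subset (h1 : i ≤ j) (h2 : j + l ≤ i + k) : Ic n j l ⊆ Ic n i k := fun x hx => by
  rw [mem_Ic] at hx ⊢; omega

theorem disjoint_Ic (h : i + k ≤ j) : Disjoint (Ic n i k) (Ic n j l) :=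
  Finset.disjoint_left.2 fun x hx hx' => by rw [mem_Ic] at hx hx'; omega

theorem eq_top_of_AOn_Ic {H : Subgroup (alternatingGroup (Fin n))} (hn : 3 ≤ n)
    (h : ∀ l, l + 3 ≤ n → AOn (Ic n l 3) ≤ H) : H = ⊤ := by
  have key : ∀ l, l + 3 ≤ n → AOn (Ic n 0 (l + 3)) ≤ H := fun l hl => by
    induction l with
    | zero => exact h 0 hl
    | succ l ih =>
      refine (AOn_mono fun x hx => ?_).trans (AOn_le (altOn_union_le (u := ⟨l + 1, by omega⟩)
        (v := ⟨l + 2, by omega⟩) (by simp) ?_ ?_ ?_ ?_ (altOn_le (ih (by omega)))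
        (altOn_le (h _ hl))))
      all_goals simp only [mem_Ic, Finset.mem_union] at *
      all_goals omega
  refine eq_top_iff.2 fun σ _ => key (n - 3) (by omega) fun x hx => absurd (mem_Ic.2 ?_) hx
  omega

end Cfsg.Agent.H78
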