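/-
Equivariant systems of lifts for an amalgam of an alternating group with a small block group.
-/
import Cfsg.Agent.H78.PhanPerm

set_option autoImplicit false

namespace Cfsg.Agent.H78

open Equiv Cfsg.Agent.H80 Monoid
open scoped commutatorElement

variable {Ω : Type} [Fintype Ω] [DecidableEq Ω] {σ : alternatingGroup Ω}
  {S T U S₀ T₀ : Finset Ω} {G J : Type*} [Group G] [Group J] {K : Finset Ω → Subgroup G}
  {a : alternatingGroup Ω →* G} {π : J →* G} {φ : alternatingGroup Ω →* J}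
  {Y Y' Y₂ Y₃ : Finset Ω → Subgroup J} {Z : Subgroup J}

/-- An equivariant family of subgroups. -/
def Eqv (φ : alternatingGroup Ω →* J) (Y : Finset Ω → Subgroup J) : Prop :=
  ∀ σ S T, Mp σ S T → ∀ y ∈ Y S, φ σ * y * (φ σ)⁻¹ ∈ Y T

namespace Eqv

variable (h : Eqv φ Y)
include h

theorem back (hσ : Mp σ S T) {y : J} (hy : y ∈ Y T) : (φ σ)⁻¹ * y * φ σ ∈ Y S := by
  simpa using h _ _ _ hσ.inv y hy

theorem le (h' : Eqv φ Y') (h0 : T₀ ⊆ S₀) (h2 : 2 ≤ T₀.card) (hle : Y T₀ ≤ Y' S₀) (hTS : T ⊆ S)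
    (hT : T.card = T₀.card) (hS : S.card = S₀.card) : Y T ≤ Y' S := fun y hy => by
  obtain ⟨σ, h3, h4⟩ := exists_mp_sub h0 hTS hT hS h2
  simpa [mul_assoc] using h' _ _ _ h4 _ (hle (h.back h3 hy))

theorem comm (h' : Eqv φ Y') (h0 : Disjoint T₀ S₀) (h2 : 2 ≤ T₀.card)
    (hc : ∀ x ∈ Y T₀, ∀ y ∈ Y' S₀, Commute x y) (hTS : Disjoint T S)
    (hT : T.card = T₀.card) (hS : S.card = S₀.card) : ∀ x ∈ Y T, ∀ y ∈ Y' S, Commute x y := by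
  intro x hx y hy
  obtain ⟨σ, h3, h4⟩ := exists_mp_disj h0 hTS hT hS h2
  simpa [mul_assoc] using (hc _ (h.back h3 hx) _ (h'.back h4 hy)).map (MulAut.conj (φ σ))

theorem alt (h2 : 2 ≤ S₀.card) (h0 : ∀ σ ∈ AOn S₀, φ σ ∈ Y S₀) (hS : S.card = S₀.card) :
    ∀ σ ∈ AOn S, φ σ ∈ Y S := fun τ hτ => by
  obtain ⟨σ, h3⟩ := exists_mp_one hS h2
  simpa [mul_assoc] using h _ _ _ h3 _ (h0 _ (h3.inv.conj_AOn hτ))

theorem le_base (h0 : ∀ σ ∈ AOn S₀, φ σ ∈ Z) (hT₀ : T₀ ⊆ S₀) (h2 : 2 ≤ T₀.card) (hle : Y T₀ ≤ Z)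
    (hT : T ⊆ S₀) (hc : T.card = T₀.card) : Y T ≤ Z := fun y hy => by
  obtain ⟨σ, h3, h4⟩ := exists_mp_on hT₀ hT hc h2
  simpa [mul_assoc] using
    mul_mem (mul_mem (h0 σ h3) (hle (h.back h4 hy))) (inv_mem (h0 σ h3))

end Eqv

theorem isLift_of_conj {X X' : Subgroup G} {Z' : Subgroup J} (h : IsLift π X Z) {g : J}
    (hX : ∀ x, x ∈ X' ↔ (π g)⁻¹ * x * π g ∈ X) (hZ : ∀ y, y ∈ Z' ↔ g⁻¹ * y * g ∈ Z) :
    IsLift π X' Z' := by
  refine ⟨fun y hy => ?_, fun y hy h1 => ?_, fun x hx => ?_⟩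
  · simpa [hX] using h.map _ ((hZ y).1 hy)
  · have := h.inj _ ((hZ y).1 hy) (by simp [h1])
    rwa [mul_assoc, inv_mul_eq_one, eq_comm, mul_eq_right] at this
  · obtain ⟨y, hy, e⟩ := h.surj _ ((hX x).1 hx)
    exact ⟨g * y * g⁻¹, (hZ _).2 (by simpa [mul_assoc] using hy), by simp [e, mul_assoc]⟩

theorem Eqv.iff (h : Eqv φ Y) (hσ : Mp σ S T) (y : J) : y ∈ Y T ↔ (φ σ)⁻¹ * y * φ σ ∈ Y S :=
  ⟨h.back hσ, fun hy => by simpa [mul_assoc] using h _ _ _ hσ _ hy⟩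

/-- An equivariant family of lifts. -/
structure Sys (π : J →* G) (φ : alternatingGroup Ω →* J) (K : Finset Ω → Subgroup G) (j : ℕ)
    (Y : Finset Ω → Subgroup J) : Prop where
  eqv : Eqv φ Y
  lift : ∀ S, S.card = j → IsLift π (K S) (Y S)

/-- The block subgroups. -/
structure KGeo (a : alternatingGroup Ω →* G) (K : Finset Ω → Subgroup G) : Prop where
  eqv : Eqv a K
  mono : ∀ {S T}, S ⊆ T → K S ≤ K T
  alt : ∀ S, ∀ σ ∈ AOn S, a σ ∈ K S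
  comm : ∀ {S T}, Disjoint S T → ∀ x ∈ K S, ∀ y ∈ K T, Commute x y

/-- Lifts of the blocks of size four. -/
def Four (π : J →* G) (K : Finset Ω → Subgroup G) (Y : Finset Ω → Subgroup J) : Prop :=
  ∀ U : Finset Ω, U.card = 4 → ∃ Z, IsLift π (K U) Z ∧ ∀ T ⊆ U, T.card = 3 → Y T ≤ Z

/-- Commuting blocks. -/
def Cm (i j : ℕ) (Y Y' : Finset Ω → Subgroup J) : Prop :=
  ∀ S T : Finset Ω, Disjoint S T → S.card = i → T.card = j → ∀ x ∈ Y S, ∀ y ∈ Y' T, Commute x y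

/-- Nested blocks. -/
def Ne (Y Y' : Finset Ω → Subgroup J) : Prop :=
  ∀ S T : Finset Ω, S ⊆ T → S.card = 2 → T.card = 3 → Y S ≤ Y' T

/-- The subgroup generated by the blocks of size two. -/
def upS (Y : Finset Ω → Subgroup J) (S : Finset Ω) : Subgroup J :=
  ⨆ (T : Finset Ω) (_ : T ⊆ S ∧ T.card = 2), Y T

omit [Fintype Ω] [DecidableEq Ω] in
theorem ne_upS : Ne Y (upS Y) := fun S _ h h2 _ => le_iSup₂_of_le S ⟨h, h2⟩ le_rfl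

omit [Fintype Ω] [DecidableEq Ω] in
theorem upS_le (h : ∀ T ⊆ S, T.card = 2 → Y T ≤ Z) : upS Y S ≤ Z :=
  iSup₂_le fun T hT => h T hT.1 hT.2

omit [Fintype Ω] [DecidableEq Ω] in
theorem le_upS (h : T ⊆ S) (h2 : T.card = 2) : Y T ≤ upS Y S := le_iSup₂_of_le T ⟨h, h2⟩ le_rfl

theorem Eqv.upS (h : Eqv φ Y) : Eqv φ (upS Y) := fun σ _ T hσ =>
  upS_le (Z := cjI (H78.upS Y T) (φ σ)) fun U h1 h2 y hy => le_upS ((mp_image σ U).subset hσ h1)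
    ((mp_image σ U).card_eq.trans h2) (h _ _ _ (mp_image σ U) y hy)

omit [Fintype Ω] [DecidableEq Ω] in
theorem Cm.symm {i j : ℕ} (h : Cm i j Y Y') : Cm j i Y' Y := fun S T hd hS hT x hx y hy =>
  (h T S hd.symm hT hS y hy x hx).symm

omit [Fintype Ω] [DecidableEq Ω] in
theorem Cm.upS {i j : ℕ} (h : Cm i 2 Y Y') : Cm i j Y (upS Y') := fun S _ hd hS _ x hx _ hy =>
  (Subgroup.mem_centralizer_singleton_iff.1 (upS_le (Z := Subgroup.centralizer {x})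
    (fun U h1 h2 y hy => Subgroup.mem_centralizer_singleton_iff.2
      (h S U (hd.mono_right h1) hS h2 x hx y hy).symm) hy)).symm

theorem Cm.of_three (h : Cm 3 3 Y₃ Y₃) (hn : Ne Y₂ Y₃) (h6 : 6 ≤ Fintype.card Ω) : Cm 2 3 Y₂ Y₃ := by
  intro S T hd hS hT x hx
  obtain ⟨U, h1, h2, h3⟩ := Finset.exists_subsuperset_card_eq (n := 3)
    (Finset.subset_compl_iff_disjoint_right.2 hd) (by omega) (by rw [Finset.card_compl]; omega)
  exact h U T (Finset.subset_compl_iff_disjoint_right.1 h2) h3 hT x (hn S U h1 hS h3 hx)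

namespace KGeo

variable (hK : KGeo a K) (hφ : ∀ σ, π (φ σ) = a σ)
include hK hφ

theorem sys (h : Eqv φ Y) (h2 : 2 ≤ S₀.card) (h0 : IsLift π (K S₀) (Y S₀)) :
    Sys π φ K S₀.card Y := ⟨h, fun S hS => by
  obtain ⟨σ, h3⟩ := exists_mp_one hS h2
  exact isLift_of_conj h0 (fun x => by rw [hφ, hK.eqv.iff h3]) (h.iff h3)⟩

theorem exists_sys (h2 : 2 ≤ S₀.card) (h0 : IsLift π (K S₀) Z)
    (hN : ∀ τ, Mp τ S₀ S₀ → ∀ z ∈ Z, φ τ * z * (φ τ)⁻¹ ∈ Z) :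
    ∃ Y, Sys π φ K S₀.card Y ∧ Y S₀ = Z := by
  let Y : Finset Ω → Subgroup J := fun S => ⨅ (σ) (_ : Mp σ S S₀), cjI Z (φ σ)
  have hY : ∀ S y, y ∈ Y S ↔ ∀ σ, Mp σ S S₀ → φ σ * y * (φ σ)⁻¹ ∈ Z := fun S y => by
    simp only [Y, Subgroup.mem_iInf, mem_cjI]
  have e : Y S₀ = Z := Subgroup.ext fun y =>
    ⟨fun h => by simpa using (hY _ y).1 h 1 Mp.one, fun h => (hY _ y).2 fun σ hσ => hN σ hσ y h⟩
  exact ⟨Y, hK.sys hφ (fun σ S T hσ y hy => (hY _ _).2 fun τ hτ => by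
    simpa [mul_assoc] using (hY _ _).1 hy _ (hτ.mul hσ)) h2 (e ▸ h0), e⟩

theorem four (h : Eqv φ Y) (h4 : S₀.card = 4) (hZ : IsLift π (K S₀) Z)
    (h0 : ∀ T ⊆ S₀, T.card = 3 → Y T ≤ Z) : Four π K Y := fun U hU => by
  obtain ⟨σ, h3⟩ := exists_mp_one (hU.trans h4.symm) (by omega)
  refine ⟨cjI Z (φ σ)⁻¹, isLift_of_conj hZ (fun x => by rw [hφ, hK.eqv.iff h3])
    fun y => by simp [mem_cjI], fun T h1 h2 y hy => ?_⟩
  simpa [mem_cjI] using h0 _ ((mp_image σ⁻¹ T).subset h3.inv h1)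
    ((mp_image σ⁻¹ T).card_eq.trans h2) (h _ _ _ (mp_image σ⁻¹ T) y hy)

omit hφ in
theorem cm_of_four (h : Sys π φ K 2 Y₂) (hn : Ne Y₂ Y₃) (h4 : Four π K Y₃) : Cm 2 2 Y₂ Y₂ := by
  intro S T hd hS hT x hx y hy
  have hc : (S ∪ T).card = 4 := by rw [Finset.card_union_of_disjoint hd, hS, hT]
  obtain ⟨Z, h1, h2⟩ := h4 _ hc
  have : ∀ U ⊆ S ∪ T, U.card = 2 → Y₂ U ≤ Z := fun U hU hU' => by
    obtain ⟨W, h3, h5, h6⟩ := Finset.exists_subsuperset_card_eq (n := 3) hU (by omega) (by omega)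
    exact (hn U W h3 hU' h6).trans (h2 W h5 h6)
  have hx' := this S Finset.subset_union_left hS hx
  have hy' := this T Finset.subset_union_right hT hy
  exact h1.eq_of_map_eq (mul_mem hx' hy') (mul_mem hy' hx') (by
    simpa using (hK.comm hd _ ((h.lift S hS).map x hx) _ ((h.lift T hT).map y hy)).eq)

theorem sys_upS (h : Sys π φ K 2 Y₂) {X : Subgroup G} (hZ : IsLift π X Z) (h3 : S₀.card = 3)
    (h0 : ∀ T ⊆ S₀, T.card = 2 → Y₂ T ≤ Z) (hg : K S₀ ≤ upS K S₀) : Sys π φ K 3 (upS Y₂) :=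
  h3 ▸ hK.sys hφ h.eqv.upS (by omega) ⟨fun _ hy => upS_le (Z := (K S₀).comap π)
    (fun T h1 h2 y hy => hK.mono h1 ((h.lift T h2).map y hy)) hy,
    fun y hy => hZ.inj y (upS_le h0 hy), fun _ hx => upS_le (Z := (upS Y₂ S₀).map π)
      (fun T h1 h2 x hx => by
        obtain ⟨y, hy, rfl⟩ := (h.lift T h2).surj x hx
        exact ⟨y, ne_upS T S₀ h1 h2 h3 hy, rfl⟩) (hg hx)⟩

theorem exists_sys_two (h : Sys π φ K 3 Y₃) (h4 : Four π K Y₃) (h3 : S₀.card = 3) (hT : T₀ ⊆ S₀)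
    (h2 : T₀.card = 2) : ∃ Y₂, Sys π φ K 2 Y₂ ∧ Ne Y₂ Y₃ ∧ Y₂ T₀ = Y₃ S₀ ⊓ (K T₀).comap π := by
  have h0 := h.lift S₀ h3
  have hL : IsLift π (K T₀) (Y₃ S₀ ⊓ (K T₀).comap π) :=
    ⟨fun _ hy => hy.2, fun y hy => h0.inj y hy.1, fun x hx => by
      obtain ⟨y, hy, rfl⟩ := h0.surj x (hK.mono hT hx)
      exact ⟨y, ⟨hy, hx⟩, rfl⟩⟩
  obtain ⟨Y₂, h5, h6⟩ := hK.exists_sys hφ h2.ge hL fun τ hτ z hz => by
    have h5 := mp_image τ S₀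
    have h6 : π (φ τ * z * (φ τ)⁻¹) ∈ K T₀ := by simpa [hφ] using hK.eqv _ _ _ hτ _ hz.2
    refine ⟨?_, h6⟩
    have h7 := h.eqv _ _ _ h5 z hz.1
    by_cases e : S₀.image τ = S₀
    · exact e ▸ h7
    have h8 := h5.card_eq
    have h9 := Finset.card_le_card (Finset.subset_inter hT (hτ.subset h5 hT))
    have h10 := Finset.card_union_add_card_inter S₀ (S₀.image τ)
    have h11 := Finset.card_lt_card (Finset.ssubset_iff_subset_ne.2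
      ⟨Finset.inter_subset_right (s₁ := S₀) (s₂ := S₀.image τ), fun h' =>
        e (Finset.eq_of_subset_of_card_le (Finset.inter_eq_right.1 h') h8.ge)⟩)
    obtain ⟨Z, h12, h13⟩ := h4 (S₀ ∪ S₀.image τ) (by omega)
    exact h0.mem_of_le h12 (h13 _ Finset.subset_union_left h3)
      (h13 _ Finset.subset_union_right (h8.trans h3) h7) (hK.mono hT h6)
  exact ⟨Y₂, h2 ▸ h5, fun S T h7 h8 h9 => h5.eqv.le h.eqv hT h2.ge (h6 ▸ inf_le_left) h7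
    (h8.trans h2.symm) (h9.trans h3.symm), h6⟩

end KGeo

/-- The data needed for the amalgamation theorem. -/
structure PData (π : J →* G) (φ : alternatingGroup Ω →* J) (K : Finset Ω → Subgroup G) (b : Prop)
    (Y₂ Y₃ : Finset Ω → Subgroup J) : Prop where
  s₂ : Sys π φ K 2 Y₂
  s₃ : Sys π φ K 3 Y₃
  ne : Ne Y₂ Y₃
  alt : ∀ S : Finset Ω, S.card = 3 → ∀ σ ∈ AOn S, φ σ ∈ Y₃ S
  c22 : Cm 2 2 Y₂ Y₂
  c23 : Cm 2 3 Y₂ Y₃
  c33 : Cm 3 3 Y₃ Y₃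
  four : b ∨ Four π K Y₃

/-- The relations of the amalgam. -/
structure ARel (π : J →* G) (φ : alternatingGroup Ω →* J) (K : Finset Ω → Subgroup G)
    (S₀ S : Finset Ω) (W : Subgroup G) (ρ : alternatingGroup Ω) (Z : Subgroup J)
    (Y : Finset Ω → Subgroup J) : Prop where
  lift : IsLift π (K S₀) Z
  alt : ∀ σ ∈ AOn S₀, φ σ ∈ Z
  sys : Sys π φ K S.card Y
  le : Y S ≤ Z
  comm : ∀ y ∈ Y S, ∀ z ∈ Z, π z ∈ W → Commute y (φ ρ * z * (φ ρ)⁻¹)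

theorem exists_list_gen {X X' : Subgroup G} (hX : X ≤ X') {l : List G}
    (hl : Subgroup.closure {x | x ∈ l} = X) : ∃ l' : List X', l'.length = l.length ∧
      (∀ x ∈ l', x.1 ∈ X) ∧ ∀ H : Subgroup X', (∀ x ∈ l', x ∈ H) → ∀ x : X', x.1 ∈ X → x ∈ H := by
  have h1 : ∀ x ∈ l, x ∈ X := fun x hx => hl ▸ Subgroup.subset_closure hx
  refine ⟨l.pmap (fun x hx => ⟨x, hX hx⟩) h1, by simp, by
    simpa using fun x _ => h1 x, fun H hH x hx => ?_⟩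
  refine (Subgroup.mem_map_iff_mem X'.subtype_injective).1
    ((Subgroup.closure_le (H.map X'.subtype)).2 (fun y hy => ?_) (hl.ge hx))
  exact ⟨⟨y, hX (h1 y hy)⟩, hH _ (List.mem_pmap.2 ⟨y, hy, rfl⟩), rfl⟩

theorem KGeo.pres [Finite G] (hK : KGeo a K) (hS : S ⊆ S₀) (h2 : 2 ≤ S.card) (hT : T ⊆ S₀)
    {l l' : List G} (hl : Subgroup.closure {x | x ∈ l} = K S) {W : Subgroup G} (hW : W ≤ K T)
    (hl' : Subgroup.closure {x | x ∈ l'} = W) {ρ : alternatingGroup Ω} (hρ : Mp ρ T U)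
    (hd : Disjoint S U) {k m : ℕ} {r₁ : Finset (FreeGroup (Fin k))}
    {r₂ : Finset (FreeGroup (Fin m))} {g₁ : Fin k → alternatingGroup Ω} {g₂ : Fin m → K S₀}
    (h₁ : IsPres r₁ g₁) (h₂ : IsPres r₂ g₂)
    (hJ : ∀ (J : Type) [Group J] (π : J →* G) (φ : alternatingGroup Ω →* J) Z Y,
      (∀ σ, π (φ σ) = a σ) → ARel π φ K S₀ S W ρ Z Y → ∀ z ∈ φ.range ⊔ Z, π z = 1 → z = 1)
    {E : Subgroup G} (hE : a.range ⊔ K S₀ = E) :
    ∃ (rels : Finset (FreeGroup (Fin (k + m)))) (g : Fin (k + m) → E),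
      rels.card + 2 ≤ r₁.card + r₂.card + S₀.card + 2 * l.length + l.length * l'.length ∧
        IsPres rels g := by
  obtain ⟨cs, c1, c2, c3⟩ := exists_gens_AOn (h2.trans (Finset.card_le_card hS))
  obtain ⟨τ₁, τ₂, t1, t2, t3⟩ := exists_two_gen_stab h2
  obtain ⟨ys, y1, y2, y3⟩ := exists_list_gen (hK.mono hS) hl
  obtain ⟨ws, w1, w2, w3⟩ := exists_list_gen (hW.trans (hK.mono hT)) hl'
  let i₁ : alternatingGroup Ω →* Coprod (alternatingGroup Ω) (K S₀) := Coprod.inl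
  let i₂ : K S₀ →* Coprod (alternatingGroup Ω) (K S₀) := Coprod.inr
  refine (h₁.amalgam h₂ a (K S₀).subtype
    (cs.map (fun c => (i₁ c, ⊥, ⊤)) ++ (([τ₁, τ₂] ×ˢ ys).map
      (fun p => (i₁ p.1 * i₂ p.2 * (i₁ p.1)⁻¹, ⊥, (K S).subgroupOf (K S₀))) ++
      (ys ×ˢ ws).map fun p => (⁅i₂ p.1, i₁ ρ * i₂ p.2 * (i₁ ρ)⁻¹⁆, ⊥, ⊥))) ?_
      (fun J _ φ ψ π hφ hψ H => ?_) (E := E) (by rwa [Subgroup.range_subtype])).elim
      fun r ⟨g, h3, h4⟩ => ?_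
  rotate_right
  · obtain ⟨r', g', h5, h6⟩ := h4.to_fin
    refine ⟨r', g', ?_, h6⟩
    simp only [List.length_append, List.length_map, List.length_product, List.length_cons,
      List.length_nil, y1, w1] at h3
    omega
  all_goals simp only [List.forall_mem_append, List.forall_mem_map, Prod.forall, List.mem_product,
    and_imp, map_mul, map_inv, map_commutatorElement, i₁, i₂, Coprod.lift_apply_inl,
    Coprod.lift_apply_inr, Subgroup.map_bot, bot_sup_eq, Subgroup.mem_bot,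
    ← MonoidHom.range_eq_map, commutatorElement_eq_one_iff_commute] at *
  · refine ⟨fun c hc => ?_, fun τ y hτ hy => ?_, fun y w hy hw => ?_⟩
    · rw [Subgroup.range_subtype]; exact hK.alt _ c (c2 c hc)
    · rw [Subgroup.map_subgroupOf_eq_of_le (hK.mono hS)]
      exact hK.eqv _ _ _ (by
        simp only [List.mem_cons, List.not_mem_nil, or_false] at hτ
        rcases hτ with rfl | rfl <;> assumption) _ (y2 y hy)
    · exact hK.comm hd _ (y2 y hy) _ (hK.eqv _ _ _ hρ _ (hW (w2 w hw)))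
  obtain ⟨H1, H2, H3⟩ := H
  have hZ : IsLift π (K S₀) ψ.range :=
    ⟨by rintro _ ⟨x, rfl⟩; exact hψ x ▸ x.2, by
      rintro _ ⟨x, rfl⟩ h
      rw [show x = 1 from Subtype.ext ((hψ x).symm.trans h), map_one],
      fun x hx => ⟨_, ⟨⟨x, hx⟩, rfl⟩, hψ _⟩⟩
  have hA : ∀ σ ∈ AOn S₀, φ σ ∈ ψ.range := c3 (ψ.range.comap φ) H1
  set Z := ((K S).subgroupOf (K S₀)).map ψ with hZ'
  have hZZ : Z ≤ ψ.range := Subgroup.map_le_range _ _
  have hL : IsLift π (K S) Z :=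
    ⟨by rintro _ ⟨x, hx, rfl⟩; exact hψ x ▸ hx, fun y hy => hZ.inj y (hZZ hy),
      fun x hx => ⟨_, ⟨⟨x, hK.mono hS hx⟩, hx, rfl⟩, hψ _⟩⟩
  have : Finite (Z : Set J) := Set.Finite.image _ (Set.toFinite _)
  have hN : ∀ τ ∈ [τ₁, τ₂], φ τ ∈ Nm Z := fun τ hτ => Subgroup.mem_normalizer_fintype (by
    rintro _ ⟨x, hx, rfl⟩
    exact y3 ((cjI Z (φ τ)).comap ψ) (fun y hy => H2 τ y hτ hy) x hx)
  obtain ⟨Y, h5, h6⟩ := hK.exists_sys hφ h2 hL fun τ hτ z => Nm.conj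
    (t3 ((Nm Z).comap φ) (hN _ (by simp)) (hN _ (by simp)) (fun σ hσ => Subgroup.le_normalizer
      (hL.mem_of_le hZ hZZ (hA σ (AOn_mono hS hσ)) (hφ σ ▸ hK.alt _ σ hσ))) τ hτ)
  refine hJ J π φ _ Y hφ ⟨hZ, hA, h5, h6 ▸ hZZ, ?_⟩
  rw [h6]
  rintro _ ⟨y, hy, rfl⟩ _ ⟨w, rfl⟩ hw
  refine Subgroup.mem_centralizer_singleton_iff.1
    (y3 ((Subgroup.centralizer _).comap ψ) (fun y hy => ?_) y hy)
  exact Subgroup.mem_centralizer_singleton_iff.2 (Subgroup.mem_centralizer_singleton_iff.1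
    (w3 ((cjI (Subgroup.centralizer {ψ y}) (φ ρ)).comap ψ) (fun w hw =>
      Subgroup.mem_centralizer_singleton_iff.2 (H3 y w hy hw).symm) w (by rwa [hψ] at hw))).symm

/-- The amalgamation property. -/
def PhanP (a : alternatingGroup Ω →* G) (K : Finset Ω → Subgroup G) (b : Prop) : Prop :=
  ∀ (J : Type) [Group J] (π : J →* G) (φ : alternatingGroup Ω →* J) Y₂ Y₃, (∀ σ, π (φ σ) = a σ) →
    PData π φ K b Y₂ Y₃ → ∃ N : Subgroup J, (∀ z ∈ N, π z = 1 → z = 1) ∧ φ.range ≤ N ∧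
      ∀ S : Finset Ω, S.card = 3 → Y₃ S ≤ N

section cases

variable {J : Type} [Group J] {π : J →* G} {φ : alternatingGroup Ω →* J}
  {Y Y₂ Y₃ : Finset Ω → Subgroup J} {Z : Subgroup J} {b : Prop} {W : Subgroup G}
  {ρ : alternatingGroup Ω} (hP : PhanP a K b) (hK : KGeo a K) (hφ : ∀ σ, π (φ σ) = a σ)
  (hg : ∀ M, (∀ T ⊆ S₀, T.card = 3 → K T ≤ M) → K S₀ ≤ M)
include hP hφ hg

theorem PhanP.inj (h : PData π φ K b Y₂ Y₃) (hZ : IsLift π (K S₀) Z)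
    (h0 : ∀ T ⊆ S₀, T.card = 3 → Y₃ T ≤ Z) : ∀ z ∈ φ.range ⊔ Z, π z = 1 → z = 1 := by
  obtain ⟨N, h1, h2, h3⟩ := hP J π φ Y₂ Y₃ hφ h
  refine fun z hz => h1 z (sup_le h2 (le_of_isLift hZ (hg _ fun T h4 h5 x hx => ?_)) hz)
  obtain ⟨y, hy, rfl⟩ := (h.s₃.lift T h5).surj x hx
  exact ⟨y, ⟨h0 T h4 h5 hy, h3 T h5 hy⟩, rfl⟩

include hK

theorem PhanP.inj_big (h : ARel π φ K S₀ T₀ W ρ Z Y) (h1 : T₀ ⊆ S) (h1' : S ⊆ S₀)
    (h2 : T₀.card = 2) (h3 : S.card = 3) (hg' : K S ≤ upS K S)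
    (hc : (b ∧ W = K T₀ ∧ Mp ρ T₀ U ∧ Disjoint T₀ U) ∨ S₀.card = 4) :
    ∀ z ∈ φ.range ⊔ Z, π z = 1 → z = 1 := by
  have s₂ : Sys π φ K 2 Y := h2 ▸ h.sys
  have h4 : ∀ T ⊆ S₀, T.card = 2 → Y T ≤ Z := fun T h4 h5 =>
    s₂.eqv.le_base h.alt (h1.trans h1') h2.ge h.le h4 (h5.trans h2.symm)
  have h5 : ∀ T ⊆ S₀, T.card = 3 → upS Y T ≤ Z := fun T h5 _ =>
    upS_le fun U h6 => h4 U (h6.trans h5)
  have s₃ := hK.sys_upS hφ s₂ h.lift h3 (fun T h6 => h4 T (h6.trans h1')) hg'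
  have h6 : Cm 2 2 Y Y ∧ (b ∨ Four π K (upS Y)) := by
    rcases hc with ⟨hb, rfl, hρ, hd⟩ | hc
    · refine ⟨fun T T' h6 h7 h8 => s₂.eqv.comm s₂.eqv hd h2.ge (fun x hx y hy => ?_) h6
        (h7.trans h2.symm) (by rw [h8, hρ.card_eq, h2]), Or.inl hb⟩
      have h9 := s₂.eqv.back hρ hy
      simpa [mul_assoc] using h.comm x hx _ (h.le h9) ((s₂.lift _ h2).map _ h9)
    · have := hK.four hφ s₃.eqv hc h.lift h5
      exact ⟨hK.cm_of_four s₂ ne_upS this, Or.inr this⟩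
  exact hP.inj hφ hg ⟨s₂, s₃, ne_upS, fun T h7 => s₃.eqv.alt (by omega) (fun σ hσ =>
    (s₃.lift S h3).mem_of_le h.lift (h5 S h1' h3) (h.alt σ (AOn_mono h1' hσ))
      (hφ σ ▸ hK.alt _ σ hσ)) (h7.trans h3.symm), h6.1, h6.1.upS, h6.1.upS.symm.upS, h6.2⟩
    h.lift h5

theorem PhanP.inj_two (h : ARel π φ K S₀ S (K T) ρ Z Y) (h1 : T ⊆ S) (h1' : S ⊆ S₀)
    (h3 : S.card = 3) (h4 : S₀.card = 4) (hρ : Mp ρ T U) (hd : Disjoint S U)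
    (hc : (T = S ∧ 6 ≤ Fintype.card Ω) ∨ (T.card = 2 ∧ Fintype.card Ω ≤ 5)) :
    ∀ z ∈ φ.range ⊔ Z, π z = 1 → z = 1 := by
  have s₃ : Sys π φ K 3 Y := h3 ▸ h.sys
  have h5 : ∀ T ⊆ S₀, T.card = 3 → Y T ≤ Z := fun T h5 h6 =>
    s₃.eqv.le_base h.alt h1' (by omega) h.le h5 (h6.trans h3.symm)
  have h6 := hK.four hφ s₃.eqv h4 h.lift h5
  suffices ∃ Y₂, Sys π φ K 2 Y₂ ∧ Ne Y₂ Y ∧ Cm 2 3 Y₂ Y ∧ Cm 3 3 Y Y by
    obtain ⟨Y₂, s₂, h7, h8, h9⟩ := this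
    exact hP.inj hφ hg ⟨s₂, s₃, h7, fun T h7 => s₃.eqv.alt (by omega) (fun σ hσ =>
      (s₃.lift S h3).mem_of_le h.lift h.le (h.alt σ (AOn_mono h1' hσ))
        (hφ σ ▸ hK.alt _ σ hσ)) (h7.trans h3.symm), hK.cm_of_four s₂ h7 h6, h8, h9, Or.inr h6⟩
      h.lift h5
  rcases hc with ⟨rfl, hc⟩ | ⟨h2, hc⟩
  · obtain ⟨T₀, h7, h2⟩ := Finset.exists_subset_card_eq (s := T) (n := 2) (by omega)
    obtain ⟨Y₂, s₂, h8, -⟩ := hK.exists_sys_two hφ s₃ h6 h3 h7 h2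
    have h9 : Cm 3 3 Y Y := fun S S' h6 h7 h8 => s₃.eqv.comm s₃.eqv hd (by omega)
      (fun x hx y hy => by
        have h9 := s₃.eqv.back hρ hy
        simpa [mul_assoc] using h.comm x hx _ (h.le h9) ((s₃.lift _ h3).map _ h9)) h6
        (h7.trans h3.symm) (by rw [h8, hρ.card_eq, h3])
    exact ⟨Y₂, s₂, h8, h9.of_three h8 hc, h9⟩
  · obtain ⟨Y₂, s₂, h8, h9⟩ := hK.exists_sys_two hφ s₃ h6 h3 h1 h2
    refine ⟨Y₂, s₂, h8, Cm.symm fun S S' h6 h7 h8 => s₃.eqv.comm s₂.eqv hd (by omega)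
      (fun x hx y hy => ?_) h6 (h7.trans h3.symm) (by rw [h8, hρ.card_eq, h2]),
      fun S S' h6 h7 h8 => ?_⟩
    · have h10 := h9 ▸ s₂.eqv.back hρ hy
      simpa [mul_assoc] using h.comm x hx _ (h.le h10.1) h10.2
    · have := Finset.card_le_univ (S ∪ S')
      rw [Finset.card_union_of_disjoint h6] at this
      omega

end cases

end Cfsg.Agent.H78
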