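/-
The amalgamation property for the special unitary groups.
-/
import Cfsg.Agent.H78.PhanSys
import Cfsg.Agent.H31.PhanMain
import Cfsg.Agent.H31.SU3

set_option autoImplicit false

namespace Cfsg.Agent.H78

open Equiv Cfsg.Agent.H80 Cfsg.Agent.H31 Matrix

variable {F : Type*} [Field F] [Fintype F] {q n i k : ℕ} (hF : Fintype.card F = q ^ 2)

/-- The permutation action on coordinates. -/
noncomputable def aP (F : Type*) [Field F] (n : ℕ) :
    alternatingGroup (Fin n) →* ((Fin n → F) ≃ₗ[F] (Fin n → F)) :=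
  (glEquiv (Fin n) F).toMonoidHom.comp (SpecialLinearGroup.toGL.comp (altP F))

omit [Fintype F] in
theorem aP_apply (σ : alternatingGroup (Fin n)) (v : Fin n → F) :
    aP F n σ v = v ∘ ⇑(σ : Perm (Fin n))⁻¹ := permMatrix_mulVec _

omit [Fintype F] in
theorem aP_single (σ : alternatingGroup (Fin n)) (i : Fin n) :
    aP F n σ (Pi.single i 1) = Pi.single ((σ : Perm (Fin n)) i) 1 := by
  ext j
  simp [aP_apply, Pi.single_apply, Equiv.symm_apply_eq]

theorem aP_mem (σ : alternatingGroup (Fin n)) : aP F n σ ∈ sisom (hermB hF n) := by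
  refine mem_sisom.2 ⟨fun x y => ?_, ?_⟩
  · rw [aP_apply, aP_apply, stdB_apply, stdB_apply]
    exact Equiv.sum_comp (σ : Perm (Fin n))⁻¹ fun i => frobQ hF (x i) * y i
  · exact (det_glEquiv _).trans (Units.ext (altP F σ).2)

/-- The block subgroups of the special unitary group. -/
noncomputable def KU (n : ℕ) (S : Finset (Fin n)) : Subgroup ((Fin n → F) ≃ₗ[F] (Fin n → F)) :=
  sisom (hermB hF n) ⊓ ⨅ i ∉ S, MulAction.stabilizer _ (Pi.single i 1 : Fin n → F)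

theorem mem_KU {S : Finset (Fin n)} {g : (Fin n → F) ≃ₗ[F] (Fin n → F)} :
    g ∈ KU hF n S ↔ g ∈ sisom (hermB hF n) ∧ ∀ i ∉ S, g (Pi.single i 1) = Pi.single i 1 := by
  simp [KU, Subgroup.mem_iInf]

theorem KU_apply {S T : Finset (Fin n)} (hd : Disjoint S T) {g g' : (Fin n → F) ≃ₗ[F] (Fin n → F)}
    (hg : g ∈ KU hF n S) (hg' : g' ∈ KU hF n T) {i : Fin n} (hi : i ∉ T) :
    (g * g') (Pi.single i 1) = (g' * g) (Pi.single i 1) := by
  rw [mem_KU] at hg hg'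
  rw [LinearEquiv.mul_apply, LinearEquiv.mul_apply, hg'.2 i hi,
    pi_eq_sum_univ' (g (Pi.single i 1)), map_sum]
  refine Finset.sum_congr rfl fun j _ => ?_
  by_cases hj : j ∈ T
  · have := hg.1.1 (Pi.single j 1) (Pi.single i 1)
    rw [hg.2 j (Finset.disjoint_right.1 hd hj), stdB_single_left, stdB_single_left, map_one,
      one_mul, one_mul, Pi.single_eq_of_ne (by rintro rfl; exact hi hj)] at this
    simp [this]
  · rw [map_smul, hg'.2 j hj]

theorem kGeo_KU : KGeo (aP F n) (KU hF n) where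
  eqv σ S T h g hg := by
    rw [mem_KU] at hg ⊢
    refine ⟨mul_mem (mul_mem (aP_mem hF σ) hg.1) (inv_mem (aP_mem hF σ)), fun i hi => ?_⟩
    rw [LinearEquiv.mul_apply, LinearEquiv.mul_apply, ← map_inv, aP_single,
      hg.2 _ (mt (h.inv i).1 hi), aP_single]
    simp
  mono h g hg := (mem_KU hF).2 ⟨hg.1, fun i hi => ((mem_KU hF).1 hg).2 i (mt (h ·) hi)⟩
  alt S σ h := (mem_KU hF).2 ⟨aP_mem hF σ, fun i hi => by rw [aP_single, mem_AOn.1 h i hi]⟩
  comm {S T} h g hg g' hg' := by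
    refine (Pi.basisFun F (Fin n)).ext' fun i => ?_
    rw [Pi.basisFun_apply]
    by_cases hi : i ∈ T
    · exact (KU_apply hF h.symm hg' hg (Finset.disjoint_right.1 h hi)).symm
    · exact KU_apply hF h hg hg' hi

theorem KU_Ic (h : i + k ≤ n) :
    KU hF n (Ic n i k) = suOn (hermB hF n) (Iv F (stdSeq F n) i k) := by
  have he := onSeq_stdSeq hF n
  refine Subgroup.ext fun g => (mem_KU hF).trans ⟨fun hg => ?_, fun hg => ⟨hg.1, fun j hj => ?_⟩⟩
  · refine he.mem_suOn_of_fix (isHerm_hermB hF n) (i := 0) (k := n) (by omega)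
      (by rw [he.Iv_top (finrank_fin n), (isHerm_hermB hF n).suOn_top]; exact hg.1) (by omega)
      (by omega) fun s _ h1 h2 => ?_
    rw [stdSeq, dif_pos (by omega)]
    exact hg.2 _ fun h3 => by rw [mem_Ic] at h3; simp only at h3; omega
  · have := he.fix h hg j.2 (by rw [mem_Ic] at hj; omega)
    rwa [stdSeq, dif_pos j.2] at this

theorem KU_succ_le (h : i + (k + 1) ≤ n) (hd : 3 ≤ k ∨ (2 ≤ k ∧ 3 ≤ q))
    {M : Subgroup ((Fin n → F) ≃ₗ[F] (Fin n → F))}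
    (hM : ∀ T ⊆ Ic n i (k + 1), T.card = k → KU hF n T ≤ M) : KU hF n (Ic n i (k + 1)) ≤ M := by
  rw [KU_Ic hF h]
  refine (onSeq_stdSeq hF n).suOn_succ_le hF (fun _ => rfl) (isHerm_hermB hF n) h hd ?_ ?_
  all_goals
    rw [← KU_Ic hF (by omega)]
    exact hM _ (Ic_subset (by omega) (by omega)) (card_Ic (by omega))

theorem nonempty_KU_equiv (h : k ≤ n) : Nonempty (SU k F q ≃* KU hF n (Ic n 0 k)) := by
  have h1 := isHerm_hermB hF n
  have h2 := isHerm_hermB hF k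
  have e1 := onSeq_stdSeq hF n
  have e2 := onSeq_stdSeq hF k
  have e3 : suOn (hermB hF k) (Iv F (stdSeq F k) 0 k) = sisom (hermB hF k) := by
    rw [e2.Iv_top (finrank_fin k), h2.suOn_top]
  rw [KU_Ic hF (by omega)]
  obtain ⟨Φ, hΦ⟩ := exists_hom_of_rel
    (fun (g : suOn (hermB hF n) (Iv F (stdSeq F n) 0 k)) (g' : sisom (hermB hF k)) =>
      Rel (hermB hF k) (hermB hF n) (RingEquiv.refl F) (stdSeq F k) 0 (stdSeq F n) 0 k g'.1 g.1)
    (fun _ _ _ _ => Rel.mul h2 h1 e2 e1 (by omega) (by omega))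
    (fun _ _ _ a b => Subtype.ext (a.unique h1 e1 (by omega) b)) fun g => by
      obtain ⟨g', h⟩ := Rel.exists (T := RingEquiv.refl F) (i := 0) (j := 0) h2 h1 (fun _ => rfl)
        e2 e1 (by omega) (by omega) (e3.ge g.2)
      exact ⟨⟨g', h.2.1⟩, h⟩
  refine ⟨(suEquiv hF k).trans (MulEquiv.ofBijective Φ ⟨fun x y e => Subtype.ext
    (((hΦ _ x).2 rfl).symm.unique h2 e2 (by omega) ((hΦ _ y).2 e.symm).symm), fun g => ?_⟩)⟩
  obtain ⟨g', h⟩ := Rel.exists (T := RingEquiv.refl F) (i := 0) (j := 0) h1 h2 (fun _ => rfl)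
    e1 e2 (by omega) (by omega) g.2
  exact ⟨⟨g', h.2.1.1⟩, (hΦ _ _).1 h.symm⟩

theorem sisom_le_of_three (hn : 3 ≤ n) {M : Subgroup ((Fin n → F) ≃ₗ[F] (Fin n → F))}
    (h : ∀ l, l + 3 ≤ n → KU hF n (Ic n l 3) ≤ M) : sisom (hermB hF n) ≤ M := by
  have he := onSeq_stdSeq hF n
  rw [← (isHerm_hermB hF n).suOn_top, ← he.Iv_top (finrank_fin n)]
  exact he.suOn_le_of_three hF (fun _ => rfl) (isHerm_hermB hF n) (by omega) hn fun l _ hl => by
    rw [← KU_Ic hF (by omega)]; exact h l (by omega)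

theorem range_sup_KU (hk : 3 ≤ k) (h : k ≤ n) :
    (aP F n).range ⊔ KU hF n (Ic n 0 k) = sisom (hermB hF n) := by
  refine le_antisymm (sup_le (by rintro _ ⟨σ, rfl⟩; exact aP_mem hF σ) inf_le_left)
    (sisom_le_of_three hF (by omega) fun l hl g hg => ?_)
  obtain ⟨σ, hσ⟩ := exists_mp_one (S := Ic n 0 3) (T := Ic n l 3)
    (by rw [card_Ic hl, card_Ic (by omega)]) (by rw [card_Ic (by omega)]; omega)
  have h1 : aP F n σ ∈ (aP F n).range ⊔ KU hF n (Ic n 0 k) := Subgroup.mem_sup_left ⟨σ, rfl⟩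
  simpa [mul_assoc] using mul_mem (mul_mem h1 (Subgroup.mem_sup_right ((kGeo_KU hF).mono
    (Ic_subset le_rfl (by omega)) ((kGeo_KU hF).eqv.back hσ hg)))) (inv_mem h1)

theorem exists_homOn_of_isLift {G J : Type*} [Group G] [Group J] {π : J →* G} {X : Subgroup G}
    {Y : Subgroup J} (h : IsLift π X Y) :
    ∃ f : G → J, H31.HomOn X f ∧ ∀ x ∈ X, f x ∈ Y ∧ π (f x) = x := by
  choose! f h1 h2 using h.surj
  exact ⟨f, fun x hx y hy => h.eq_of_map_eq (h1 _ (mul_mem hx hy)) (mul_mem (h1 x hx) (h1 y hy))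
    (by rw [map_mul, h2 x hx, h2 y hy, h2 _ (mul_mem hx hy)]), fun x hx => ⟨h1 x hx, h2 x hx⟩⟩

theorem phanP_KU (hn : 3 ≤ n) : PhanP (aP F n) (KU hF n) (4 ≤ q) := by
  intro J _ π φ Y₂ Y₃ hφ h
  have he := onSeq_stdSeq hF n
  have hB := isHerm_hermB hF n
  have hK := kGeo_KU (n := n) hF
  have L₃ : ∀ l, l + 3 ≤ n → IsLift π (suOn (hermB hF n) (Iv F (stdSeq F n) l 3))
      (Y₃ (Ic n l 3)) := fun l hl => KU_Ic hF hl ▸ h.s₃.lift _ (card_Ic hl)
  choose! f f1 f2 using fun l hl => exists_homOn_of_isLift (L₃ l hl)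
  have m₂ : ∀ l j, l ≤ j → j + 2 ≤ l + 3 → l + 3 ≤ n →
      ∀ g ∈ suOn (hermB hF n) (Iv F (stdSeq F n) j 2), f l g ∈ Y₂ (Ic n j 2) :=
    fun l j h1 h2 hl g hg => by
      have h3 := f2 l hl g (suOn_Iv_mono h1 h2 hg)
      exact (h.s₂.lift _ (card_Ic (by omega))).mem_of_le (L₃ l hl) (h.ne _ _ (Ic_subset h1 h2)
        (card_Ic (by omega)) (card_Ic hl)) h3.1 (by rwa [h3.2, KU_Ic hF (by omega)])
  obtain ⟨Θ, h1, h2⟩ := he.exists_homOn hF (fun _ => rfl) hB f1 (U₂ := fun l => Y₂ (Ic n l 2))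
    (U₃ := fun l => Y₃ (Ic n l 3)) (fun l => m₂ l l le_rfl (by omega))
    (fun l => m₂ l _ (by omega) (by omega)) (fun l hl g hg => (f2 l hl g hg).1)
    (fun i j h1 h2 => h.c22 _ _ (disjoint_Ic h1) (card_Ic (by omega)) (card_Ic h2))
    (fun i j h1 h2 => h.c23 _ _ (disjoint_Ic h1) (card_Ic (by omega)) (card_Ic h2))
    (fun i j h1 h2 => h.c23.symm _ _ (disjoint_Ic h1) (card_Ic (by omega)) (card_Ic h2))
    (fun i j h1 h2 => h.c33 _ _ (disjoint_Ic h1) (card_Ic (by omega)) (card_Ic h2))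
    (fun l hl g hg => (h.s₂.lift _ (card_Ic (by omega))).eq_of_map_eq
      (m₂ l _ (by omega) (by omega) (by omega) g hg) (m₂ _ _ le_rfl (by omega) (by omega) g hg)
      (by rw [(f2 l (by omega) g (suOn_Iv_mono (by omega) (by omega) hg)).2,
        (f2 _ (by omega) g (suOn_Iv_mono le_rfl (by omega) hg)).2]))
    (h.four.imp_right fun h4 l hl => by
      obtain ⟨Z, h1, h2⟩ := h4 _ (card_Ic hl)
      rw [KU_Ic hF hl] at h1
      obtain ⟨Θ, h3, h5⟩ := exists_homOn_of_isLift h1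
      have : ∀ j, l ≤ j → j + 3 ≤ l + 4 → ∀ g ∈ suOn (hermB hF n) (Iv F (stdSeq F n) j 3),
          Θ g = f j g := fun j h6 h7 g hg => by
        have h8 := h5 g (suOn_Iv_mono h6 h7 hg)
        have h9 := f2 j (by omega) g hg
        exact h1.eq_of_map_eq h8.1 (h2 _ (Ic_subset h6 h7) (card_Ic (by omega)) h9.1)
          (h8.2.trans h9.2.symm)
      exact ⟨Θ, h3, this l le_rfl (by omega), this _ (by omega) (by omega)⟩) hn (i := 0) (by omega)
  have h3 : ∀ l, l + 3 ≤ n → Y₃ (Ic n l 3) ≤ h1.toHom.range := fun l hl y hy => by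
    have h3 := (L₃ l hl).map y hy
    have h4 := f2 l hl _ h3
    exact ⟨⟨_, suOn_Iv_mono (by omega) (by omega) h3⟩, (h2 l (by omega) (by omega) _ h3).trans
      ((L₃ l hl).eq_of_map_eq h4.1 hy h4.2)⟩
  have h4 : ∀ σ, φ σ ∈ h1.toHom.range := fun σ => (eq_top_of_AOn_Ic (H := h1.toHom.range.comap φ)
    hn fun l hl τ hτ => h3 l hl (h.alt _ (card_Ic hl) τ hτ)).ge (Subgroup.mem_top σ)
  refine ⟨h1.toHom.range, ?_, by rintro _ ⟨σ, rfl⟩; exact h4 σ, fun S hS y hy => ?_⟩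
  · rintro _ ⟨g, rfl⟩ e
    have h5 : H31.HomOn (suOn (hermB hF n) (Iv F (stdSeq F n) 0 n)) fun g => π (Θ g) :=
      fun a ha b hb => by simp only [h1 a ha b hb, map_mul]
    have := (he.suOn_le_of_three hF (fun _ => rfl) hB (by omega) hn
      (K := h5.eqSub (ψ := id) fun _ _ _ _ => rfl) (fun l h6 h7 g hg =>
        ⟨suOn_Iv_mono h6 h7 hg, by
          simp only [h2 l h6 h7 g hg, (f2 l (by omega) g hg).2, id]⟩) g.2).2
    rw [show g = 1 from Subtype.ext (this.symm.trans e), map_one]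
  · obtain ⟨σ, hσ⟩ := exists_mp_one (S := Ic n 0 3) (T := S)
      (by rw [hS, card_Ic (by omega)]) (by rw [card_Ic (by omega)]; omega)
    simpa [mul_assoc] using
      mul_mem (mul_mem (h4 σ) (h3 0 (by omega) (h.s₃.eqv.back hσ hy))) (inv_mem (h4 σ))

end Cfsg.Agent.H78
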