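/-
Short presentations of the three dimensional unitary groups.
-/
import Cfsg.Agent.H78.SU3Core

set_option autoImplicit false

namespace Cfsg.Agent.H78

open Equiv Cfsg.Agent.H26 Cfsg.Agent.H26.PForm Cfsg.Agent.H78.Frame Cfsg.Agent.H80 Polynomial
open scoped commutatorElement

variable {F V : Type*} [Field F] [AddCommGroup V] [Module F V] {P : PForm F V} {n : ℕ}
  {J : Type*} [Group J]

theorem exists_isPres_of_mem {X : Type} {G : Type*} [Group G] (φ₀ : FreeGroup X →* G)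
    (L : List (FreeGroup X × Set (FreeGroup X))) (hL : ∀ p ∈ L, φ₀ p.1 ∈ φ₀ '' p.2)
    (hJ : ∀ (J : Type) [Group J] (φ : FreeGroup X →* J) (π : J →* G), (∀ r, π (φ r) = φ₀ r) →
      (∀ p ∈ L, φ p.1 ∈ φ '' p.2) → ∀ r, π (φ r) = 1 → φ r = 1)
    {E : Subgroup G} (hE : φ₀.range = E) :
    ∃ (rels : Finset (FreeGroup X)) (g : X → E), rels.card ≤ L.length ∧ IsPres rels g := by
  classical
  have hex : ∀ p : FreeGroup X × Set (FreeGroup X), ∃ k, p ∈ L → k ∈ p.2 ∧ φ₀ k = φ₀ p.1 :=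
    fun p => by
      by_cases hp : p ∈ L
      exacts [(hL p hp).imp fun _ h _ => h, ⟨1, fun h => absurd h hp⟩]
  choose k hk using hex
  let rels := (L.map fun p => p.1 * (k p)⁻¹).toFinset
  have hm : ∀ r, r ∈ rels ↔ ∃ p ∈ L, p.1 * (k p)⁻¹ = r := fun r => by simp [rels]
  let π : PresentedGroup (↑rels : Set (FreeGroup X)) →* G :=
    QuotientGroup.lift _ φ₀ (Subgroup.normalClosure_le_normal fun r hr => by
      obtain ⟨p, hp, rfl⟩ := (hm r).1 hr
      simp [(hk p hp).2])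
  have hinj : Function.Injective π := (injective_iff_map_eq_one π).2 fun z => by
    obtain ⟨r, rfl⟩ := PresentedGroup.mk_surjective _ z
    exact hJ _ (PresentedGroup.mk _) π (fun _ => rfl) (fun p hp => ⟨k p, (hk p hp).1,
      (PresentedGroup.mk_eq_mk_of_mul_inv_mem (Finset.mem_coe.2 ((hm _).2 ⟨p, hp, rfl⟩))).symm⟩) r
  have hr : π.range = E := by
    rw [← hE]
    ext x
    exact ⟨fun ⟨z, e⟩ => by
      obtain ⟨r, rfl⟩ := PresentedGroup.mk_surjective _ z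
      exact ⟨r, e⟩, fun ⟨r, e⟩ => ⟨PresentedGroup.mk _ r, e⟩⟩
  let e := (MonoidHom.ofInjective hinj).trans (MulEquiv.subgroupCongr hr)
  exact ⟨rels, fun x => e (PresentedGroup.of x),
    (List.toFinset_card_le _).trans (List.length_map _).le, e, fun _ => rfl⟩

/-- Baumslag's argument in arbitrary degree. -/
theorem baumslag {u h : J} {d k : ℕ} (hd : 0 < d) (h1 : ∀ i ≤ d, Commute u (cj u h i))
    (h2 : u⁻¹ * cj u h k ∈ Subgroup.closure (cj u h '' Set.Icc 1 d))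
    (h3 : cj u h k * (cj u h d)⁻¹ ∈ Subgroup.closure (cj u h '' Set.Iio d)) (a b : ℕ) :
    Commute (cj u h a) (cj u h b) := by
  refine commute_cj_of_forall (fun m => ?_) a b
  induction m using Nat.strong_induction_on with
  | _ m ih =>
    by_cases hm : m ≤ d
    · exact h1 m hm
    obtain ⟨m, rfl⟩ := Nat.exists_eq_add_of_le' (not_le.1 hm).le
    have a1 : ∀ i j, i < j + (m + d) → j < i + (m + d) → Commute (cj u h i) (cj u h j) := by
      intro i j hi hj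
      rcases le_total i j with hij | hij
      · obtain ⟨d, rfl⟩ := Nat.exists_eq_add_of_le hij
        exact commute_cj_of_zero (ih d (by omega)) i
      · obtain ⟨d, rfl⟩ := Nat.exists_eq_add_of_le hij
        exact (commute_cj_of_zero (ih d (by omega)) j).symm
    have a2 : ∀ i, (∀ j < d, Commute (cj u h i) (cj u h (m + j))) →
        Commute (cj u h i) (cj u h (m + k) * (cj u h (m + d))⁻¹) := fun i H => by
      have := (Subgroup.closure_le (cjI (Subgroup.centralizer {cj u h i}) (h ^ m))).2 (by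
        rintro _ ⟨j, hj, rfl⟩
        rw [SetLike.mem_coe, mem_cjI, ← cj_add]
        exact Subgroup.mem_centralizer_singleton_iff.2 (H j hj).symm) h3
      rw [mem_cjI, Subgroup.mem_centralizer_singleton_iff] at this
      rw [cj_add, cj_add]
      convert Commute.symm this using 1
      group
    have a3 : u⁻¹ * cj u h k ∈ Subgroup.centralizer {cj u h (m + k)} :=
      (Subgroup.closure_le _).2 (by
        rintro _ ⟨i, ⟨hi, hi'⟩, rfl⟩
        exact Subgroup.mem_centralizer_singleton_iff.2 (by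
          simpa using ((a2 i fun j hj => a1 _ _ (by omega) (by omega)).mul_right
            (a1 i (m + d) (by omega) (by omega))).eq)) h2
    have a4 := commute_of_commute_mul_left (Subgroup.mem_centralizer_singleton_iff.1 a3)
      (a1 k (m + k) (by omega) (by omega))
    have a5 := a2 0 fun j hj => a1 _ _ (by omega) (by omega)
    rw [cj_zero] at a5
    simpa using (commute_of_commute_mul_right a5 (by simpa using a4.inv_left)).inv_right

theorem cell_map {J' : Type*} [Group J'] (φ : J →* J') {U T : Subgroup J} {w : J} {z : J'} :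
    z ∈ φ '' {z | Cell U T w z} ↔ Cell (U.map φ) (T.map φ) (φ w) z := by
  constructor
  · rintro ⟨_, ⟨b, hb, s, hs, u, hu, rfl⟩, rfl⟩
    exact ⟨_, ⟨b, hb, rfl⟩, _, ⟨s, hs, rfl⟩, _, ⟨u, hu, rfl⟩, by simp⟩
  · rintro ⟨_, ⟨b, hb, rfl⟩, _, ⟨s, hs, rfl⟩, _, ⟨u, hu, rfl⟩, rfl⟩
    exact ⟨_, ⟨b, hb, s, hs, u, hu, rfl⟩, by simp⟩

theorem map_closure_cj {J' : Type*} [Group J'] (φ : J →* J') (x t : J) (S : Set ℕ) :
    (Subgroup.closure (cj x t '' S)).map φ = Subgroup.closure (cj (φ x) (φ t) '' S) := by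
  rw [MonoidHom.map_closure, Set.image_image]; simp only [map_cj]

theorem conj_mem_closure_cj {u h x : J} {S : Set ℕ} {k : ℕ} (hS : ∀ i ∈ S, k + i ∈ S)
    (hx : x ∈ Subgroup.closure (cj u h '' S)) :
    h ^ k * x * (h ^ k)⁻¹ ∈ Subgroup.closure (cj u h '' S) :=
  (Subgroup.closure_le (cjI (Subgroup.closure (cj u h '' S)) (h ^ k))).2 (by
    rintro _ ⟨i, hi, rfl⟩
    exact Subgroup.subset_closure ⟨_, hS i hi, cj_add u h k i⟩) hx

theorem pow_eq_one_of_weyl {t w : J} {q : ℕ} (h1 : w * t * w⁻¹ = (t ^ q)⁻¹)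
    (h2 : w * w ∈ Subgroup.zpowers t) : t ^ (q ^ 2 - 1) = 1 := by
  obtain ⟨k, hk⟩ := h2
  have h3 : t ^ q ^ 2 = t := by
    calc _ = w * (w * t * w⁻¹) * w⁻¹ := by
          rw [h1, ← conj_inv, ← conj_pow, h1, inv_pow, inv_inv, ← pow_mul, sq]
      _ = t ^ k * t * (t ^ k)⁻¹ := by rw [show t ^ k = w * w from hk]; group
      _ = t := by group
  rcases Nat.eq_zero_or_pos (q ^ 2) with h | h
  · simp [h]
  · rw [← mul_left_inj t, ← pow_succ, Nat.sub_add_cancel h, h3, one_mul]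

theorem mem_Nm_of_pow_eq_one {K : Subgroup J} {t : J} {N : ℕ} (hN : 0 < N) (h : t ^ N = 1)
    (h1 : ∀ x ∈ K, t * x * t⁻¹ ∈ K) : t ∈ Nm K := by
  have h2 : ∀ k : ℕ, ∀ x ∈ K, t ^ k * x * (t ^ k)⁻¹ ∈ K := fun k => by
    induction k with
    | zero => simp
    | succ k ih => exact fun x hx => by simpa [pow_succ', mul_assoc] using h1 _ (ih x hx)
  refine mem_Nm h1 ?_
  rw [inv_eq_of_mul_eq_one_left (show t ^ (N - 1) * t = 1 by
    rw [← pow_succ, Nat.sub_add_cancel hN, h])]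
  exact h2 _

theorem central_of_rels {K : Type*} [Field K] {κ : K} (hκ : ∀ a : K, a ≠ 0 → ∃ k : ℕ, κ ^ k = a)
    {x t z : J} {Z : K → J} (hZ : IsRootHom κ z t Z) {m N : ℕ} (hm : κ ^ m = 1) (hN : 0 < N)
    (ht : t ^ N = 1) (h1 : ∀ i < 3, Commute (cj x t i) z)
    (h2 : cj x t 3 ∈ Subgroup.closure (cj x t '' {k | ∃ i < 3, ∃ j, k = m * j + i}) ⊔
      Subgroup.closure (cj z t '' Set.univ)) (b : K) : Commute x (Z b) := by
  have h3 : ∀ j, (t ^ (m * j)) ∈ Subgroup.centralizer {z} := fun j => by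
    have := hZ.pow_conj (m * j) 1
    rw [pow_mul, pow_mul, hm, one_pow, mul_one, hZ.one, mul_inv_eq_iff_eq_mul] at this
    rwa [Subgroup.mem_centralizer_singleton_iff, pow_mul]
  have h4 : ∀ i, cj x t i ∈ Subgroup.centralizer {z} := fun i => by
    induction i using Nat.strong_induction_on with
    | _ i ih =>
      by_cases hi : i < 3
      · exact Subgroup.mem_centralizer_singleton_iff.2 (h1 i hi)
      obtain ⟨i, rfl⟩ := Nat.exists_eq_add_of_le' (not_lt.1 hi)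
      rw [cj_add]
      refine (sup_le ((Subgroup.closure_le _).2 ?_) ((Subgroup.closure_le _).2 ?_) :
        _ ≤ cjI (Subgroup.centralizer {z}) (t ^ i)) h2
      · rintro _ ⟨_, ⟨k, hk, j, rfl⟩, rfl⟩
        rw [SetLike.mem_coe, mem_cjI, ← cj_add, add_left_comm, cj_add]
        exact mul_mem (mul_mem (h3 j) (ih _ (by omega))) (inv_mem (h3 j))
      · rintro _ ⟨k, -, rfl⟩
        rw [SetLike.mem_coe, mem_cjI, ← cj_add, hZ.cj_eq, ← hZ.one]
        exact Subgroup.mem_centralizer_singleton_iff.2 (hZ.commute _ _)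
  by_cases hb : b = 0
  · simp [hb, hZ.zero]
  obtain ⟨j, rfl⟩ := hκ b hb
  have h5 := (show Commute _ _ from Subgroup.mem_centralizer_singleton_iff.1
    (h4 (j * (N - 1)))).map (MulAut.conj (t ^ j))
  rwa [MulAut.conj_apply, MulAut.conj_apply, ← cj_add, ← mul_one_add, show 1 + (N - 1) = N by omega, cj,
    mul_comm j, pow_mul, ht, one_pow, one_mul, inv_one, mul_one, ← cj, hZ.cj_eq] at h5

theorem exists_quot_rootHom {K : Type*} [Field K] {κ : K} (hκ : κ ≠ 0) {θ : F} {p k : ℕ} {M : ℤ[X]}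
    (hθ : ∀ a : F, ∃ f : ℤ[X], aeval θ f = a)
    (hker : ∀ f : ℤ[X], aeval θ f = 0 → ∃ g₁ g₂ : ℤ[X], f = g₁ * p + g₂ * M)
    {x t : J} {Z : K → J} (hZ : IsRootHom κ ⁅x, cj x t 1⁆ t Z) (hx : ∀ b, Commute x (Z b))
    (H : ∀ y ∈ [⁅x, cj x t 2⁆, ⁅x, cj x t 3⁆,
      (x * (cj x t 1 ^ 3 * cj x t 2 ^ 3 * cj x t 3))⁻¹ * cj x t k, x ^ p, polyWord x t M],
      y ∈ Subgroup.closure (cj ⁅x, cj x t 1⁆ t '' Set.univ))
    {G : Type*} [Group G] (π : J →* G) {A : Subgroup G} {s : G → F}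
    (hs : ∀ g ∈ A, ∀ g' ∈ A, s (g * g') = s g + s g')
    (hA : ∀ i, π (cj x t i) ∈ A ∧ s (π (cj x t i)) = θ ^ i) {y : J}
    (hy : y ∈ Subgroup.closure (cj x t '' Set.univ)) (e : π y = 1) : ∃ b, Z b = y := by
  let R : Subgroup J :=
    { carrier := Set.range Z
      one_mem' := ⟨0, hZ.zero⟩
      mul_mem' := by rintro _ _ ⟨a, rfl⟩ ⟨b, rfl⟩; exact ⟨_, hZ.add a b⟩
      inv_mem' := by rintro _ ⟨a, rfl⟩; exact ⟨_, hZ.neg a⟩ }
  have hR : Subgroup.closure (cj ⁅x, cj x t 1⁆ t '' Set.univ) ≤ R := (Subgroup.closure_le _).2 (by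
    rintro _ ⟨i, -, rfl⟩
    exact ⟨_, (hZ.cj_eq i).symm⟩)
  let x' : Nm R := ⟨x, mem_Nm_of_commute (by rintro _ ⟨b, rfl⟩; exact hx b)⟩
  let t' : Nm R := ⟨t, mem_Nm (by rintro _ ⟨b, rfl⟩; exact ⟨_, (hZ.conj b).symm⟩) (by
    rintro _ ⟨b, rfl⟩
    exact ⟨κ⁻¹ * b, by rw [← mul_inv_cancel_left₀ hκ b, ← hZ.conj, inv_mul_cancel_left₀ hκ]; group⟩)⟩
  let ρ := QuotientGroup.mk' (R.subgroupOf (Nm R))
  have hρ : ∀ y : Nm R, ρ y = 1 ↔ (Nm R).subtype y ∈ R := fun y => QuotientGroup.eq_one_iff y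
  simp only [List.forall_mem_cons] at H
  obtain ⟨h1, h2, h3, h4, h5, -⟩ := H
  have a1 : ∀ i, ⁅x, cj x t i⁆ ∈ R → Commute (ρ x') (cj (ρ x') (ρ t') i) := fun i h => by
    rw [← commutatorElement_eq_one_iff_commute, ← map_cj, ← map_commutatorElement, hρ,
      map_commutatorElement, map_cj]
    exact h
  have a2 : cj (ρ x') (ρ t') k = ρ x' * (cj (ρ x') (ρ t') 1 ^ 3 * cj (ρ x') (ρ t') 2 ^ 3 *
      cj (ρ x') (ρ t') 3) := by
    have := (hρ ((x' * (cj x' t' 1 ^ 3 * cj x' t' 2 ^ 3 * cj x' t' 3))⁻¹ * cj x' t' k)).2 (by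
      simp only [map_mul, map_inv, map_pow, map_cj]; exact hR h3)
    simp only [map_mul, map_inv, map_pow, map_cj] at this
    exact (inv_mul_eq_one.1 this).symm
  have a3 : ∀ {S : Set ℕ} i, i ∈ S → cj (ρ x') (ρ t') i ∈ Subgroup.closure (cj (ρ x') (ρ t') '' S) :=
    fun i hi => Subgroup.subset_closure ⟨i, hi, rfl⟩
  obtain ⟨W, hW⟩ := exists_isPolyHom (baumslag (u := ρ x') (h := ρ t') (d := 3) (k := k) (by decide)
    (fun i hi => by
      interval_cases i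
      exacts [by rw [cj_zero], a1 1 ⟨1, hZ.one⟩, a1 2 (hR h1), a1 3 (hR h2)])
    (by
      rw [a2, inv_mul_cancel_left]
      exact mul_mem (mul_mem (pow_mem (a3 1 (by simp)) 3) (pow_mem (a3 2 (by simp)) 3))
        (a3 3 (by simp)))
    (by
      rw [a2, ← mul_assoc, mul_inv_cancel_right]
      exact mul_mem (by simpa [cj_zero] using a3 (S := Set.Iio 3) 0 (by simp))
        (mul_mem (pow_mem (a3 1 (by simp)) 3) (pow_mem (a3 2 (by simp)) 3))))
  obtain ⟨U, hU⟩ := exists_isRootHom hθ hker hW (by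
    rw [← map_pow, hρ, map_pow]; exact hR h4) (by
    rw [← hW.polyWord_eq, ← map_polyWord, hρ, map_polyWord]; exact hR h5)
  have s1 : s 1 = 0 := by simpa using hs 1 (one_mem _) 1 (one_mem _)
  have key : ∃ y' : Nm R, (Nm R).subtype y' = y ∧ π y ∈ A ∧ ρ y' = U (s (π y)) := by
    clear e
    induction hy using Subgroup.closure_induction with
    | mem y hy =>
      obtain ⟨i, -, rfl⟩ := hy
      exact ⟨cj x' t' i, map_cj _ _ _ _, (hA i).1, by rw [map_cj, hU.cj_eq, (hA i).2]⟩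
    | one => exact ⟨1, rfl, by simp, by simp [s1, hU.zero]⟩
    | mul y z _ _ h h' =>
      obtain ⟨y, rfl, b1, b2⟩ := h
      obtain ⟨z, rfl, b3, b4⟩ := h'
      exact ⟨y * z, rfl, by simpa using mul_mem b1 b3, by
        rw [map_mul, map_mul, hs _ b1 _ b3, hU.add, b2, b4]⟩
    | inv y _ h =>
      obtain ⟨y, rfl, b1, b2⟩ := h
      have := hs _ b1 _ (inv_mem b1)
      rw [mul_inv_cancel, s1, eq_comm, add_eq_zero_iff_neg_eq] at this
      exact ⟨y⁻¹, rfl, by simpa using b1, by rw [map_inv, map_inv, ← this, hU.neg, b2]⟩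
  obtain ⟨y, rfl, -, h⟩ := key
  exact (hρ y).1 (by rw [h, e, s1, hU.zero])

namespace UOdd

variable {Fr : Frame P n} {v : V} (h : UOdd Fr v) {a : BI n}
include h

theorem sc_cj {t u : V ≃ₗ[F] V} {c d : F} (ht : t ∈ P.isom) (e : t (Fr.e a) = c • Fr.e a)
    (e' : t v = d • v) (hu : u ∈ Fr.X a a) (i : ℕ) :
    cj u t i ∈ Fr.X a a ∧ Fr.sc v a (cj u t i) = (P.σ c * d) ^ i * Fr.sc v a u := by
  induction i with
  | zero => simpa [cj_zero] using hu
  | succ i ih =>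
    obtain ⟨h1, h2, -⟩ := h.sc_ty_conj ht e e' ih.1
    rw [add_comm, cj_add, pow_one, h2, ih.2, pow_add, pow_one, mul_assoc (P.σ c * d)]
    exact ⟨h1, rfl⟩

theorem sc_polyWord {t u : V ≃ₗ[F] V} {c d : F} (ht : t ∈ P.isom) (e : t (Fr.e a) = c • Fr.e a)
    (e' : t v = d • v) (hu : u ∈ Fr.X a a) (f : ℤ[X]) : polyWord u t f ∈ Fr.X a a ∧
      Fr.sc v a (polyWord u t f) = aeval (P.σ c * d) f * Fr.sc v a u := by
  rw [polyWord, aeval_eq_sum_range]
  generalize f.natDegree + 1 = m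
  induction m with
  | zero => simpa using h.sc_one
  | succ m ih =>
    obtain ⟨h1, h2⟩ := h.sc_cj ht e e' hu m
    simp only [List.range_succ, List.map_append, List.prod_append, List.map_singleton,
      List.prod_singleton, Finset.sum_range_succ]
    refine ⟨mul_mem ih.1 (zpow_mem h1 _), ?_⟩
    rw [h.sc_mul ih.1 (zpow_mem h1 _), ih.2, h.sc_zpow h1, h2, zsmul_eq_mul]
    ring

/-- The image of a subgroup in the abelianised Heisenberg group. -/
def scIm (a : BI n) (M : Subgroup (V ≃ₗ[F] V)) : AddSubgroup F where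
  carrier := Fr.sc v a '' (Fr.X a a ⊓ M :)
  zero_mem' := ⟨1, one_mem _, h.sc_one⟩
  add_mem' := by
    rintro _ _ ⟨x, hx, rfl⟩ ⟨y, hy, rfl⟩
    exact ⟨_, mul_mem hx hy, h.sc_mul hx.1 hy.1⟩
  neg_mem' := by
    rintro _ ⟨x, hx, rfl⟩
    exact ⟨_, inv_mem hx, h.sc_inv hx.1⟩

variable [Fintype F] [FiniteDimensional F V] {q : ℕ} (hF : Fintype.card F = q ^ 2)
  (hσ : ∀ x, P.σ x = x ^ q) {ζ : F} (h0 : ζ ≠ 0) (hζ : ∀ a : F, a ≠ 0 → ∃ k : ℕ, ζ ^ k = a)
  {τ : V ≃ₗ[F] V} (hL : τ ∈ Fr.L a) (hτ : Fr.Mono τ 1) (he : τ (Fr.e a) = ζ • Fr.e a)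
include hF hζ hL hτ he

omit h hF hζ hL hτ [Fintype F] [FiniteDimensional F V] in
theorem pow_apply_e (k : ℕ) : (τ ^ k) (Fr.e a) = ζ ^ k • Fr.e a := by
  induction k with
  | zero => simp
  | succ k ih => rw [pow_succ, mul_apply', he, map_smul, ih, smul_smul, pow_succ']

theorem isLift_torus {π : J →* V ≃ₗ[F] V} {t : J} (ht : π t = τ) (h1 : t ^ (q ^ 2 - 1) = 1) :
    IsLift π (Fr.H ⊓ Fr.L a) (Subgroup.zpowers t) := by
  have h2 := Fintype.one_lt_card (α := F)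
  refine ⟨fun y hy => (Subgroup.zpowers_le (H := (Fr.H ⊓ Fr.L a).comap π)).2
    (show π t ∈ Fr.H ⊓ Fr.L a from ht ▸ ⟨⟨L_le_E _ hL, hτ⟩, hL⟩) hy, fun y hy e => ?_, fun y hy => ?_⟩
  · obtain ⟨k, rfl⟩ := (isOfFinOrder_iff_pow_eq_one.2
      ⟨_, by omega, h1⟩).mem_powers_iff_mem_zpowers.2 hy
    have := pow_apply_e he k
    rw [← ht, ← map_pow, e] at this
    obtain ⟨j, rfl⟩ := dvd_of_gen_pow hζ
      (smul_left_injective F (Fr.e_ne_zero a) (this.symm.trans (one_smul _ _).symm))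
    simp only [pow_mul, hF, h1, one_pow]
  · obtain ⟨c, hc, e⟩ := hy.1.2.exists_ne a
    obtain ⟨k, rfl⟩ := hζ c hc
    exact ⟨t ^ k, Subgroup.npow_mem_zpowers t k, h.torus_ext (by rw [map_pow, ht]; exact pow_mem hL k)
      (by simpa [ht] using hτ.pow k) hy.2 hy.1.2 (by rw [map_pow, ht, pow_apply_e he, e]; rfl)⟩

include hσ in
theorem pres_of_borel {X : Type} {φ₀ : FreeGroup X →* V ≃ₗ[F] V} {t w : FreeGroup X}
    {U : Subgroup (FreeGroup X)} (hgen : U ⊔ Subgroup.zpowers t ⊔ Subgroup.zpowers w = ⊤)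
    (ht : φ₀ t = τ) (hw : Fr.Mono (φ₀ w) (rf a a)) (hwL : φ₀ w ∈ Fr.L a)
    (L : List (FreeGroup X × Set (FreeGroup X))) (hL' : ∀ p ∈ L, φ₀ p.1 ∈ φ₀ '' p.2)
    (hU : U.map φ₀ = Fr.X a a)
    (hJ : ∀ (J : Type) [Group J] (φ : FreeGroup X →* J) (π : J →* V ≃ₗ[F] V),
      (∀ r, π (φ r) = φ₀ r) → (∀ p ∈ L, φ p.1 ∈ φ '' p.2) → φ t ^ (q ^ 2 - 1) = 1 →
      (∀ x ∈ U.map φ, φ t * x * (φ t)⁻¹ ∈ U.map φ) ∧ ∀ x ∈ U.map φ, π x = 1 → x = 1) :
    ∃ (rels : Finset (FreeGroup X)) (g : X → Fr.L a), rels.card ≤ L.length + 9 ∧ IsPres rels g := by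
  have h2 := Fintype.one_lt_card (α := F)
  obtain ⟨R, hR, hR', H⟩ := h.exists_reps a
  have hex : ∀ x, ∃ r, x ∈ R → r ∈ U ∧ φ₀ r = x := fun x => by
    by_cases hx : x ∈ R
    exacts [(hU.ge (hR' x hx).1).imp fun _ h _ => h, ⟨1, fun h => absurd h hx⟩]
  choose r hr using hex
  have e1 : φ₀ w * τ * (φ₀ w)⁻¹ = (τ ^ q)⁻¹ := by
    have := hw.conj_apply (hτ.apply_ng he)
    rw [rf_ng_left] at this
    refine h.torus_ext (mul_mem (mul_mem hwL hL) (inv_mem hwL)) (by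
      simpa using (hw.mul hτ).mul hw.inv) (inv_mem (pow_mem hL q)) (by simpa using (hτ.pow q).inv)
      (this.trans ((τ ^ q).injective ?_))
    rw [apply_inv_apply, map_smul, pow_apply_e he, ← hσ,
      inv_smul_smul₀ (P.σ_ne_zero (by rintro rfl; simp [Fr.e_ne_zero] at he))]
  have e2 : φ₀ w * φ₀ w ∈ Fr.H ⊓ Fr.L a :=
    ⟨⟨L_le_E _ (mul_mem hwL hwL), rf_mul_self a a ▸ hw.mul hw⟩, mul_mem hwL hwL⟩
  have hT : ∀ y ∈ Fr.H ⊓ Fr.L a, y ∈ Subgroup.zpowers τ := fun y hy => by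
    obtain ⟨c, hc, e⟩ := hy.1.2.exists_ne a
    obtain ⟨k, rfl⟩ := hζ c hc
    exact h.torus_ext (pow_mem hL k) (by simpa using hτ.pow k) hy.2 hy.1.2
      (by rw [pow_apply_e he, e]; rfl) ▸ Subgroup.npow_mem_zpowers τ k
  refine (exists_isPres_of_mem φ₀ (L ++ ([(w * t * w⁻¹, {(t ^ q)⁻¹}),
    (w * w, (Subgroup.zpowers t : Set (FreeGroup X)))] ++ R.map fun x =>
      (w * r x * w⁻¹, {z | Cell U (Subgroup.zpowers t) w z}))) ?_ (fun J _ φ π hπ H' s => ?_)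
      ?_).imp fun _ => Exists.imp fun _ h => ⟨by simpa [hR] using h.1, h.2⟩
  · simp only [List.forall_mem_append, List.forall_mem_cons, List.forall_mem_map]
    refine ⟨hL', ⟨by simp [ht, e1], ?_, by simp⟩, fun x hx => ?_⟩
    · rw [← Subgroup.coe_map, MonoidHom.map_zpowers, ht, map_mul]; exact hT _ e2
    · obtain ⟨b, hb, s, hs, u, hu, e⟩ := h.cell_self hw hwL (hR' x hx).1 (hR' x hx).2
      rw [cell_map, MonoidHom.map_zpowers, hU, ht, map_mul, map_mul, map_inv, (hr x hx).2]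
      exact ⟨b, hb, s, hT s hs, u, hu, e⟩
  · simp only [List.forall_mem_append, List.forall_mem_cons, List.forall_mem_map] at H'
    obtain ⟨a1, ⟨a2, a3, -⟩, a4⟩ := H'
    rw [← Subgroup.coe_map, MonoidHom.map_zpowers, map_mul] at a3
    replace a2 : φ w * φ t * (φ w)⁻¹ = (φ t ^ q)⁻¹ := by simpa [eq_comm] using a2
    have a5 := pow_eq_one_of_weyl a2 a3
    obtain ⟨a6, a7⟩ := hJ J φ π hπ a1 a5
    have a8 : ∀ y ∈ Subgroup.zpowers (φ t), φ w * y * (φ w)⁻¹ ∈ Subgroup.zpowers (φ t) :=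
      fun y hy => (Subgroup.zpowers_le (H := cjI (Subgroup.zpowers (φ t)) (φ w))).2
        (by rw [mem_cjI, a2]; exact inv_mem (Subgroup.npow_mem_zpowers _ _)) hy
    refine H J π (U.map φ) (Subgroup.zpowers (φ t)) (φ w) ⟨⟨?_, a7, fun x hx => ?_⟩,
      h.isLift_torus hF hζ hL hτ he ((hπ t).trans ht) a5, Subgroup.zpowers_le.2
        (mem_Nm_of_pow_eq_one (by omega) a5 a6), hπ w ▸ hw, mem_Nm a8 fun y hy => ?_, a3⟩
      (fun x hx => ⟨_, ⟨_, (hr x hx).1, rfl⟩, (hπ _).trans (hr x hx).2, ?_⟩) _ ?_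
    · rintro _ ⟨x, hx, rfl⟩
      exact hπ x ▸ hU.le ⟨x, hx, rfl⟩
    · obtain ⟨y, hy, rfl⟩ := hU.ge hx
      exact ⟨_, ⟨y, hy, rfl⟩, hπ y⟩
    · simpa [mul_assoc] using mul_mem (mul_mem (inv_mem a3) (a8 y hy)) a3
    · simpa using (cell_map φ).1 (a4 x hx)
    · rw [← MonoidHom.map_zpowers, ← MonoidHom.map_zpowers, ← Subgroup.map_sup, ← Subgroup.map_sup,
        hgen]
      exact ⟨s, trivial, rfl⟩
  · refine le_antisymm ?_ (sup_le (hU.ge.trans (Subgroup.map_le_range _ _)) ?_)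
    · rw [MonoidHom.range_eq_map, ← hgen, Subgroup.map_sup, Subgroup.map_sup, hU,
        MonoidHom.map_zpowers, MonoidHom.map_zpowers, ht]
      exact sup_le (sup_le le_sup_left (Subgroup.zpowers_le.2 hL)) (Subgroup.zpowers_le.2 hwL)
    · simpa [rf_left] using hw.X_le (M := φ₀.range) ⟨w, rfl⟩ (ne_ng a) (hU.ge.trans (Subgroup.map_le_range _ _))

omit [Fintype F] hF hζ in
theorem center_rootHom {κ : H31.fixedField (P.σ : F →+* F)} (hκ : (κ : F) = ζ * P.σ ζ)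
    (hκ' : ∀ b, b ≠ 0 → ∃ k : ℕ, κ ^ k = b) {z : V ≃ₗ[F] V} (hz : z ∈ Fr.X a a)
    (hz1 : Fr.sc v a z = 0) (hz2 : Fr.ty a z ≠ 0) : (∃ Z, IsRootHom κ z τ Z) ∧
      ∀ y ∈ Fr.X a a, Fr.sc v a y = 0 → y ∈ Subgroup.closure (cj z τ '' Set.univ) := by
  have hz3 := h.tr_ty hz
  rw [hz1, zero_mul] at hz3
  have hz4 : ∀ b : H31.fixedField (P.σ : F →+* F), b * Fr.ty a z + P.σ (b * Fr.ty a z) =
      0 * P.σ 0 := fun b => by
    rw [map_mul, show P.σ b = b from b.2, ← mul_add, hz3, mul_zero, zero_mul]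
  have hZ : IsRootHom κ z τ fun b => Fr.hz v a 0 (b * Fr.ty a z) := by
    refine ⟨fun b c => ?_, h.ext (h.hz_mem (hz4 1)) hz ?_ ?_, fun b => ?_⟩
    · have e1 := h.hz_mem (a := a) (hz4 b)
      have e2 := h.hz_mem (a := a) (hz4 c)
      refine h.ext (h.hz_mem (hz4 _)) (mul_mem e1 e2) ?_ ?_ <;>
        simp only [h.sc_mul e1 e2, h.ty_mul e1 e2, h.sc_hz (hz4 _), h.ty_hz (hz4 _)] <;>
        simp [add_mul]
    · rw [h.sc_hz (hz4 _), hz1]
    · rw [h.ty_hz (hz4 _)]; simp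
    · obtain ⟨e1, e2, e3⟩ := h.sc_ty_conj hτ.1 he (h.torus_v hL hτ he).2 (h.hz_mem (a := a) (hz4 b))
      refine h.ext e1 (h.hz_mem (hz4 _)) ?_ ?_ <;>
        simp only [e2, e3, h.sc_hz (hz4 _), h.ty_hz (hz4 _)] <;> simp [hκ, mul_assoc]
  refine ⟨⟨_, hZ⟩, fun y hy e => ?_⟩
  by_cases e1 : Fr.ty a y = 0
  · rw [h.eq_one hy e1]; exact one_mem _
  have e2 := h.tr_ty hy
  rw [e, zero_mul] at e2
  obtain ⟨i, hi⟩ := hκ' ⟨Fr.ty a y / Fr.ty a z, show P.σ _ = _ by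
    rw [map_div₀, eq_neg_of_add_eq_zero_right e2, eq_neg_of_add_eq_zero_right hz3,
      neg_div_neg_eq]; rfl⟩ fun e => div_ne_zero e1 hz2 (congrArg Subtype.val e)
  refine Subgroup.subset_closure ⟨i, trivial, ?_⟩
  rw [hZ.cj_eq, hi]
  exact h.ext (h.hz_mem (hz4 _)) hy (by rw [h.sc_hz (hz4 _), e]) (by
    rw [h.ty_hz (hz4 _), div_mul_cancel₀ _ hz2])

include hσ h0 in
theorem pres_big_aux (hq : q ≠ 2) : ∃ (rels : Finset (FreeGroup (Fin 3))) (g : Fin 3 → Fr.L a),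
    rels.card ≤ 22 ∧ IsPres rels g := by
  have h2 := Fintype.one_lt_card (α := F)
  have h2' := H31.two_le_of_card_sq hF
  obtain ⟨w₀, hwL, hw, -⟩ := h.exists_weyl a one_ne_zero
  obtain ⟨u, hu, hu'⟩ := h.exists_sc a 1
  have hv := (h.torus_v hL hτ he).2
  have hθ := theta_gen hF h0 hζ hq
  have hθ' := theta_ne hF h0 hζ hq
  have hθ3 := theta_pow hF h0
  have hθr := theta_finrank hF h0 hζ
  rw [← hσ ζ] at hθ hθ' hθ3 hθr
  rw [← hσ] at hθ'
  have hc := fun i => h.sc_cj hτ.1 he hv hu i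
  have hp := h.sc_polyWord hτ.1 he hv hu
  have hcj := fun x hx => (h.sc_cj (u := x) hτ.1 he hv hx (q - 1))
  have hle := fun M => h.heis_le_of_conj (M := M) hτ.1 he hv
  simp only [hu', mul_one] at hc hp
  generalize P.σ ζ * (P.σ ζ / ζ) = θ at hθ hθ' hθ3 hθr hc hp hcj hle
  let κ : H31.fixedField (P.σ : F →+* F) := ⟨ζ * P.σ ζ, h.invol.norm_fixed ζ⟩
  have hκ0 : κ ≠ 0 := fun e => mul_ne_zero h0 (P.σ_ne_zero h0) (congrArg Subtype.val e)
  have hκ : ∀ b, b ≠ 0 → ∃ k : ℕ, κ ^ k = b := fun b hb => by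
    obtain ⟨c, hc⟩ := h.invol.exists_norm_eq b.2
    obtain ⟨k, rfl⟩ := hζ c (by rintro rfl; exact hb (Subtype.ext (by simpa using hc.symm)))
    exact ⟨k, Subtype.ext (by simpa [κ, mul_pow] using hc)⟩
  have hκq : κ ^ (q - 1) = 1 := Subtype.ext (by
    have : (κ : F) ^ (q - 1) * κ = 1 * κ := by
      rw [← pow_succ, Nat.sub_add_cancel (by omega), ← hσ, one_mul]; exact κ.2
    exact mul_right_cancel₀ (fun e => hκ0 (Subtype.ext e)) this)
  obtain ⟨p, k, j, M, a1, a2, a3, a4, a5⟩ := exists_rootRels _ hκ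
  obtain ⟨p', hp'⟩ := CharP.exists F
  have : Fact p'.Prime := ⟨CharP.char_is_prime F p'⟩
  obtain ⟨M', a6, a7⟩ := exists_ker_gen p' θ
  obtain ⟨k', a8⟩ : ∃ k' : ℕ, θ ^ k' = (1 + θ) ^ 3 := by
    obtain ⟨m, hm⟩ := hζ (1 + θ) fun e => hθ' (by rw [eq_neg_of_add_eq_zero_right e]; simp)
    exact ⟨(2 * q + 1) * m, by rw [pow_mul, hθ3, ← hm, ← pow_mul, ← pow_mul, mul_comm]⟩
  have hz := h.comm_mem hu (hc 1).1
  have hz1 := h.sc_comm hu (hc 1).1
  have hz2 : Fr.ty a ⁅u, cj u τ 1⁆ ≠ 0 := by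
    rw [h.ty_comm hu (hc 1).1, hu', (hc 1).2]; simpa [sub_eq_zero] using hθ'.symm
  obtain ⟨⟨Z, hZ⟩, hZ'⟩ := h.center_rootHom hL hτ he (κ := κ) rfl hκ hz hz1 hz2
  let x : FreeGroup (Fin 3) := FreeGroup.of 0
  let t : FreeGroup (Fin 3) := FreeGroup.of 1
  let S : Set ℕ := {k | ∃ i < 3, ∃ j, k = (q - 1) * j + i}
  let C : Subgroup (FreeGroup (Fin 3)) := Subgroup.closure (cj ⁅x, cj x t 1⁆ t '' Set.univ)
  have ex : FreeGroup.lift ![u, τ, w₀] x = u := by simp [x]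
  have et : FreeGroup.lift ![u, τ, w₀] t = τ := by simp [t]
  refine (h.pres_of_borel hF hσ hζ hL hτ he (φ₀ := FreeGroup.lift ![u, τ, w₀]) (t := t)
    (w := FreeGroup.of 2) (U := Subgroup.closure (cj x t '' Set.univ)) ?_ et (by simpa using hw)
    (by simpa using hwL) ((rootRels p k j M ⁅x, cj x t 1⁆ t).map (fun p => (p.1, {p.2})) ++
      ([0, 1, 2].map (fun i => (⁅cj x t i, ⁅x, cj x t 1⁆⁆, {1})) ++
      ((cj x t 3, ((Subgroup.closure (cj x t '' S) ⊔ C :) : Set _)) ::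
      [⁅x, cj x t 2⁆, ⁅x, cj x t 3⁆, (x * (cj x t 1 ^ 3 * cj x t 2 ^ 3 * cj x t 3))⁻¹ * cj x t k',
        x ^ p', polyWord x t M'].map fun y => (y, (C : Set _))))) ?_ ?_
    fun J _ φ π hπ H ht => ⟨fun y hy => ?_, fun y hy e => ?_⟩).imp
      fun _ => Exists.imp fun _ h => ⟨by simpa [rootRels] using h.1, h.2⟩
  · rw [eq_top_iff, ← FreeGroup.closure_range_of, Subgroup.closure_le]
    rintro _ ⟨i, rfl⟩
    fin_cases i
    exacts [Subgroup.mem_sup_left (Subgroup.mem_sup_left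
        (Subgroup.subset_closure ⟨0, trivial, cj_zero _ _⟩)),
      Subgroup.mem_sup_left (Subgroup.mem_sup_right (Subgroup.mem_zpowers _)),
      Subgroup.mem_sup_right (Subgroup.mem_zpowers _)]
  · simp only [List.forall_mem_append, List.forall_mem_map, List.forall_mem_cons (a := (_, _)),
      Set.image_singleton, Set.mem_singleton_iff, ← Subgroup.coe_map, SetLike.mem_coe, C,
      Subgroup.map_sup, map_closure_cj, map_commutatorElement, map_cj, ex, et, map_one]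
    refine ⟨rootRels_of_isRootHom a1 a2 a3 _ (by simpa [map_cj, ex, et] using hZ),
      fun i _ => (h.commute_of_sc (hc i).1 hz hz1).commutator_eq, ?_, ?_⟩
    · obtain ⟨y, ⟨hy, hy'⟩, e⟩ := cube_mem_of_finrank hθr
        (U := h.scIm a (Subgroup.closure (cj u τ '' S)))
        (fun i hi => ⟨_, ⟨(hc i).1, Subgroup.subset_closure ⟨i, ⟨i, hi, 0, by simp⟩, rfl⟩⟩, (hc i).2⟩)
        (by
          rintro _ ⟨y, hy, rfl⟩
          exact ⟨_, ⟨(hcj y hy.1).1, conj_mem_closure_cj (by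
            rintro _ ⟨i, hi, j, rfl⟩
            exact ⟨i, hi, j + 1, by ring⟩) hy.2⟩, (hcj y hy.1).2⟩)
      rw [← mul_inv_cancel_left y (cj u τ 3)]
      exact Subgroup.mul_mem_sup hy' (hZ' _ (mul_mem (inv_mem hy) (hc 3).1) (by
        rw [h.sc_mul (inv_mem hy) (hc 3).1, h.sc_inv hy, e, (hc 3).2, neg_add_cancel]))
    · simp only [List.forall_mem_cons, map_commutatorElement, map_cj, ex, et, map_mul, map_inv,
        map_pow, map_polyWord]
      have b1 := fun i => pow_mem (hc i).1 3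
      have b2 := fun i => h.sc_zpow (hc i).1 (3 : ℕ)
      have b3 := mul_mem (mul_mem (b1 1) (b1 2)) (hc 3).1
      simp only [zpow_natCast] at b2
      refine ⟨hZ' _ (h.comm_mem hu (hc 2).1) (h.sc_comm hu (hc 2).1),
        hZ' _ (h.comm_mem hu (hc 3).1) (h.sc_comm hu (hc 3).1),
        hZ' _ (mul_mem (inv_mem (mul_mem hu b3)) (hc k').1) ?_, hZ' _ (pow_mem hu _) ?_,
        hZ' _ (hp _).1 ((hp _).2.trans a6), by simp⟩
      · rw [h.sc_mul (inv_mem (mul_mem hu b3)) (hc k').1, h.sc_inv (mul_mem hu b3), h.sc_mul hu b3,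
          h.sc_mul (mul_mem (b1 1) (b1 2)) (hc 3).1, h.sc_mul (b1 1) (b1 2), b2, b2, hu', (hc _).2,
          (hc _).2, (hc _).2, (hc _).2, a8]
        push_cast; ring
      · simp [← zpow_natCast, h.sc_zpow hu]
  · rw [map_closure_cj, ex, et]
    refine le_antisymm ((Subgroup.closure_le _).2 (by rintro _ ⟨i, -, rfl⟩; exact (hc i).1))
      (hle _ (fun y hy => by simpa using conj_mem_closure_cj (k := 1) (fun _ _ => Set.mem_univ _) hy)
        fun U hU hU' => eq_top_iff.2 fun s _ => ?_)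
    obtain ⟨f, rfl⟩ := hθ s
    simpa [hu'] using aeval_mul_mem
      (hU u ⟨hu, Subgroup.subset_closure ⟨0, trivial, cj_zero _ _⟩⟩) hU' f
  · rw [map_closure_cj] at hy ⊢
    simpa using conj_mem_closure_cj (k := 1) (fun _ _ => Set.mem_univ _) hy
  · simp only [List.forall_mem_append, List.forall_mem_map, List.forall_mem_cons (a := (_, _)),
      Set.image_singleton, Set.mem_singleton_iff, ← Subgroup.coe_map, SetLike.mem_coe, C,
      Subgroup.map_sup, map_closure_cj, map_commutatorElement, map_cj, map_one] at H hy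
    obtain ⟨b1, b2, b3, b4⟩ := H
    obtain ⟨Z', hZ'⟩ := isRootHom_of_rootRels hκ a4 a5 φ b1
    rw [map_commutatorElement, map_cj] at hZ'
    obtain ⟨b, rfl⟩ := exists_quot_rootHom hκ0 hθ a7 hZ' (central_of_rels hκ hZ' hκq (by omega) ht
      (fun i hi => commutatorElement_eq_one_iff_commute.1 (b2 i (by
        interval_cases i <;> simp))) b3) (k := k') (by
        simpa only [List.forall_mem_cons, map_commutatorElement, map_cj, map_mul, map_inv,
          map_pow, map_polyWord, List.not_mem_nil, IsEmpty.forall_iff, implies_true] using b4)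
      π (A := Fr.X a a) (fun _ h1 _ => h.sc_mul h1)
      (fun i => by rw [map_cj, hπ, hπ, ex, et]; exact hc i) hy e
    by_cases hb : b = 0
    · rw [hb, hZ'.zero]
    obtain ⟨i, rfl⟩ := hκ b hb
    rw [← hZ'.cj_eq, map_cj, map_commutatorElement, map_cj, hπ, hπ, ex, et, cj, conj_eq_one_iff] at e
    exact absurd (e ▸ ty_one) hz2

include hσ h0 in
theorem pres_two_aux (hq : q = 2) : ∃ (rels : Finset (FreeGroup (Fin 4))) (g : Fin 4 → Fr.L a),
    rels.card ≤ 13 ∧ IsPres rels g := by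
  obtain ⟨w₀, hwL, hw, -⟩ := h.exists_weyl a one_ne_zero
  obtain ⟨u, hu, hu'⟩ := h.exists_sc a 1
  obtain ⟨u₁, hu₁, hu₁'⟩ := h.exists_sc a ζ
  have hne := h.gen_ne hζ
  have e3 : ζ ^ 3 = 1 := by simpa [hF, hq] using FiniteField.pow_card_sub_one_eq_one ζ h0
  have e2 : (2 : F) = 0 := by
    have := H31.add_pow_q hF 1 1
    rw [hq] at this
    linear_combination this
  have e1 : ζ ^ 2 + ζ + 1 = 0 := by
    have : ζ - 1 ≠ 0 := sub_ne_zero.2 (by rintro rfl; simp at hne)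
    apply mul_left_cancel₀ this
    linear_combination e3
  have e0 : P.σ ζ = ζ ^ 2 := by rw [hσ, hq]
  have hc : ∀ y ∈ Fr.X a a, τ * y * τ⁻¹ = y := fun y hy => by
    obtain ⟨b1, b2, b3⟩ := h.sc_ty_conj hτ.1 he (h.torus_v hL hτ he).2 hy
    refine h.ext b1 hy ?_ ?_
    · rw [b2, e0]; field_simp; rw [e3, one_mul]
    · rw [b3, e0, ← pow_succ', e3, one_mul]
  have b1 := h.tr_ty hu
  have b2 : Fr.ty a (u * u) = 1 := by
    rw [h.ty_mul hu hu, hu']; simp [← two_mul, e2]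
  let x : FreeGroup (Fin 4) := FreeGroup.of 0
  let y : FreeGroup (Fin 4) := FreeGroup.of 1
  let t : FreeGroup (Fin 4) := FreeGroup.of 2
  have ex : FreeGroup.lift ![u, u₁, τ, w₀] x = u := by simp [x]
  have ey : FreeGroup.lift ![u, u₁, τ, w₀] y = u₁ := by simp [y]
  have et : FreeGroup.lift ![u, u₁, τ, w₀] t = τ := by simp [t]
  refine h.pres_of_borel hF hσ hζ hL hτ he (φ₀ := FreeGroup.lift ![u, u₁, τ, w₀]) (t := t)
    (w := FreeGroup.of 3) (U := Subgroup.zpowers x ⊔ Subgroup.zpowers y) ?_ et (by simpa using hw)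
    (by simpa using hwL) [(y * x * y⁻¹, {x⁻¹}), (y * y, {x * x}), (t * x * t⁻¹, {x}),
      (t * y * t⁻¹, {y})] ?_ ?_ fun J _ φ π hπ H ht => ?_
  · rw [eq_top_iff, ← FreeGroup.closure_range_of, Subgroup.closure_le]
    rintro _ ⟨i, rfl⟩
    fin_cases i
    exacts [Subgroup.mem_sup_left (Subgroup.mem_sup_left
        (Subgroup.mem_sup_left (Subgroup.mem_zpowers _))),
      Subgroup.mem_sup_left (Subgroup.mem_sup_left
        (Subgroup.mem_sup_right (Subgroup.mem_zpowers _))),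
      Subgroup.mem_sup_left (Subgroup.mem_sup_right (Subgroup.mem_zpowers _)),
      Subgroup.mem_sup_right (Subgroup.mem_zpowers _)]
  · simp only [List.forall_mem_cons, Set.image_singleton, Set.mem_singleton_iff, map_mul, map_inv,
      ex, ey, et]
    refine ⟨h.ext (mul_mem (mul_mem hu₁ hu) (inv_mem hu₁)) (inv_mem hu) ?_ ?_,
      h.ext (mul_mem hu₁ hu₁) (mul_mem hu hu) ?_ ?_, hc u hu, hc u₁ hu₁, by simp⟩
    · rw [h.sc_mul (mul_mem hu₁ hu) (inv_mem hu₁), h.sc_mul hu₁ hu, h.sc_inv hu₁, h.sc_inv hu, hu']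
      linear_combination e2
    · have b3 := h.tr_ty hu₁
      rw [h.ty_mul (mul_mem hu₁ hu) (inv_mem hu₁), h.ty_mul hu₁ hu, h.sc_mul hu₁ hu, h.sc_inv hu₁,
        h.ty_inv hu₁, h.ty_inv hu]
      rw [hu', hu₁', map_add, map_one, e0] at *
      linear_combination b3 - b1 + e1 + (Fr.ty a u - ζ - 1) * e2
    · rw [h.sc_mul hu₁ hu₁, h.sc_mul hu hu, ← two_mul, ← two_mul, e2, zero_mul, zero_mul]
    · rw [b2, h.ty_mul hu₁ hu₁, hu₁', e0, ← two_mul, e2, zero_mul, zero_add, ← pow_succ', e3]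
  · rw [Subgroup.map_sup, MonoidHom.map_zpowers, MonoidHom.map_zpowers, ex, ey]
    refine le_antisymm (sup_le (Subgroup.zpowers_le.2 hu) (Subgroup.zpowers_le.2 hu₁))
      (h.heis_le fun s => show s ∈ h.scIm a _ from ?_)
    by_cases hs : s = 0
    · exact hs ▸ zero_mem _
    obtain ⟨k, rfl⟩ := hζ s hs
    induction k using Nat.twoStepInduction with
    | zero => exact ⟨u, ⟨hu, Subgroup.mem_sup_left (Subgroup.mem_zpowers _)⟩, by simpa using hu'⟩
    | one => exact ⟨u₁, ⟨hu₁, Subgroup.mem_sup_right (Subgroup.mem_zpowers _)⟩, by simpa using hu₁'⟩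
    | more k c1 c2 =>
      convert neg_mem (add_mem (c1 (pow_ne_zero _ h0)) (c2 (pow_ne_zero _ h0))) using 1
      linear_combination ζ ^ k * e1
  simp only [List.forall_mem_cons, Set.image_singleton, Set.mem_singleton_iff, map_mul,
    map_inv] at H
  obtain ⟨c1, c2, c3, c4, -⟩ := H
  rw [Subgroup.map_sup, MonoidHom.map_zpowers, MonoidHom.map_zpowers]
  refine ⟨fun z hz => (sup_le (Subgroup.zpowers_le.2 ?_) (Subgroup.zpowers_le.2 ?_) :
    _ ≤ cjI (Subgroup.zpowers (φ x) ⊔ Subgroup.zpowers (φ y)) (φ t)) hz, fun z hz e => ?_⟩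
  · rw [mem_cjI, c3]; exact Subgroup.mem_sup_left (Subgroup.mem_zpowers _)
  · rw [mem_cjI, c4]; exact Subgroup.mem_sup_right (Subgroup.mem_zpowers _)
  have c5 : φ x ^ 4 = 1 := by
    calc _ = φ y * (φ y * φ y) * (φ y)⁻¹ * (φ x * φ x) := by
          rw [show φ y * (φ y * φ y) * (φ y)⁻¹ = φ y * φ y by group, c2]
          simp only [pow_succ, pow_zero, one_mul, mul_assoc]
      _ = φ y * φ x * (φ y)⁻¹ * (φ y * φ x * (φ y)⁻¹) * (φ x * φ x) := by rw [c2]; group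
      _ = 1 := by rw [c1]; group
  have c6 : ∀ z ∈ Subgroup.zpowers (φ x), φ y * z * (φ y)⁻¹ ∈ Subgroup.zpowers (φ x) :=
    fun z hz => (Subgroup.zpowers_le (H := cjI (Subgroup.zpowers (φ x)) (φ y))).2
      (by rw [mem_cjI, c1]; exact inv_mem (Subgroup.mem_zpowers _)) hz
  have c7 : φ y * φ y ∈ Subgroup.zpowers (φ x) :=
    c2 ▸ mul_mem (Subgroup.mem_zpowers _) (Subgroup.mem_zpowers _)
  obtain ⟨B, hB⟩ := exists_coset_subgroup (mem_Nm c6 fun z hz => by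
    simpa [mul_assoc] using mul_mem (mul_mem (inv_mem c7) (c6 z hz)) c7) c7
  rcases (hB z).1 ((sup_le (fun z hz => (hB z).2 (Or.inl hz))
    (Subgroup.zpowers_le.2 ((hB _).2 (Or.inr c7))) : _ ≤ B) hz) with ⟨k, rfl⟩ | ⟨k, hk⟩
  · have c8 := congrArg (Fr.sc v a) e
    simp only [map_zpow, hπ, ex] at e c8
    rw [h.sc_zpow hu, hu', h.sc_one, mul_one] at c8
    change φ x ^ k = 1
    have c9 : u ^ 4 = 1 := by simpa [hπ, ex] using congrArg π c5
    rw [zpow_eq_zpow_emod' k c5]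
    rw [zpow_eq_zpow_emod' k c9] at e
    rw [← Int.emod_add_mul_ediv k 4] at c8
    push_cast at c8 e ⊢
    have := Int.emod_nonneg k (show (4 : ℤ) ≠ 0 by decide)
    have := Int.emod_lt_of_pos k (show (0 : ℤ) < 4 by decide)
    interval_cases k % 4
    · simp
    · exact absurd (by linear_combination c8 - 2 * ((k / 4 : ℤ) : F) * e2) (one_ne_zero (α := F))
    · rw [zpow_two] at e
      exact absurd (by rw [← b2, e, ty_one]) (one_ne_zero (α := F))
    · exact absurd (by linear_combination c8 - (2 * ((k / 4 : ℤ) : F) + 1) * e2)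
        (one_ne_zero (α := F))
  · have c8 := congrArg (fun z => Fr.sc v a (π z)) hk
    simp only [map_zpow, map_mul, hπ, ex, ey, e, one_mul] at c8
    rw [h.sc_zpow hu, hu', hu₁', mul_one] at c8
    exact absurd (by rw [← c8, map_intCast]) hne

end UOdd

theorem UOdd.pres_L [Fintype F] [FiniteDimensional F V] {Fr : Frame P n} {v : V} (h : UOdd Fr v)
    (a : BI n) {q : ℕ} (hF : Fintype.card F = q ^ 2) (hσ : ∀ x, P.σ x = x ^ q) :
    (q ≠ 2 → ∃ (rels : Finset (FreeGroup (Fin 3))) (g : Fin 3 → Fr.L a),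
      rels.card ≤ 22 ∧ IsPres rels g) ∧ (q = 2 → ∃ (rels : Finset (FreeGroup (Fin 4)))
      (g : Fin 4 → Fr.L a), rels.card ≤ 13 ∧ IsPres rels g) := by
  obtain ⟨ζ, h0, hζ⟩ := exists_generator_field F
  obtain ⟨τ, hL, hτ, he⟩ := h.exists_torus a h0
  exact ⟨h.pres_big_aux hF hσ h0 hζ hL hτ he, h.pres_two_aux hF hσ h0 hζ hL hτ he⟩

end Cfsg.Agent.H78
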