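/-
Short presentations of the unitary groups.
-/
import Cfsg.Agent.H78.SU3Pres

set_option autoImplicit false

namespace Cfsg.Agent.H78

open Equiv Cfsg.Agent.H26 Cfsg.Agent.H26.PForm Cfsg.Agent.H78.Frame Module

variable {F V : Type*} [Field F] [AddCommGroup V] [Module F V] {P : PForm F V} {n : ℕ}

theorem Frame.L_eq_E [FiniteDimensional F V] (Fr : Frame P 1) : Fr.L (0, false) = P.E := by
  refine le_antisymm (L_le_E _) ?_
  rw [← Fr.iSup_X le_rfl]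
  refine iSup_le fun ⟨i, b⟩ => iSup_le fun ⟨j, c⟩ => iSup_le fun h => ?_
  obtain rfl := Subsingleton.elim i 0
  obtain rfl := Subsingleton.elim j 0
  cases b <;> cases c <;> simp [ng] at h
  exacts [le_sup_left, le_sup_right]

theorem UOdd.exists_bGeo [Finite F] [FiniteDimensional F V] {Fr : Frame P n} {v : V}
    (h : UOdd Fr v) (hn : 2 ≤ n) : ∃ B : BGeo Fr, B.Ms.length ≤ 2 := by
  obtain ⟨ω, hω⟩ := h.exists_skew
  obtain ⟨b, hb⟩ := h.exists_basis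
  obtain ⟨z₀, hz₀, e₀⟩ := h.exists_sc (⟨0, by omega⟩, false) 1
  obtain ⟨z₁, hz₁, e₁⟩ := h.exists_sc (⟨0, by omega⟩, false) b
  have key : ∀ {a : BI n} {W : Subgroup (V ≃ₗ[F] V)} {c : F}, (∀ w ν, w ∈ Fr.V0 →
      P.EV (Fr.e a) w ν → eT P (Fr.e a) w ν ∈ W → eT P (Fr.e a) (P.σ c • w) (c * P.σ c * ν) ∈ W) →
      ∀ s ∈ h.scIm a W, P.σ c * s ∈ h.scIm a W := by
    rintro a W c hW _ ⟨x, ⟨hx, hx'⟩, rfl⟩
    obtain ⟨s, ν, e, rfl⟩ := h.exists_hz hx
    have e' : c * P.σ c * ν + P.σ (c * P.σ c * ν) = P.σ c * s * P.σ (P.σ c * s) := by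
      simp only [map_mul, P.σσ]; linear_combination c * P.σ c * e
    exact ⟨_, ⟨h.hz_mem e', by simpa [hz, smul_smul] using hW _ _ (h.v_mem s) (h.ev_hz e) hx'⟩,
      by rw [h.sc_hz e', h.sc_hz e]⟩
  obtain ⟨B, -, h1, -⟩ := Frame.exists_bGeo _ ω h.hN h.aniso (o₁ := ⟨0, by omega⟩)
    (o₂ := ⟨1, by omega⟩) (by simp) (fun k => (hω _).2 ⟨k, rfl⟩) (fun k => k.2) hb
    (fun x hx h1 e => h.torus_ext hx h1 (one_mem _) Mono.one e) hz₀ hz₁
    (fun W h0 hW => h.heis_le fun s => show s ∈ h.scIm _ W from by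
      by_cases hs : s = 0
      · exact hs ▸ zero_mem _
      · simpa [P.σσ, e₀] using key (fun w ν => hW _ w ν (P.σ_ne_zero hs)) _ ⟨z₀, ⟨hz₀, h0⟩, rfl⟩)
    fun W κ hκ h0 h1 hW => h.heis_le fun s => show s ∈ h.scIm _ W from by
      have h2 := key (W := W) (c := κ) (by rw [show P.σ κ = κ from κ.2]; exact hW)
      rw [show P.σ κ = κ from κ.2] at h2
      have h3 : ∀ x ∈ h.scIm (⟨0, by omega⟩, false) W, ∀ k : H31.fixedField (P.σ : F →+* F),
          k * x ∈ h.scIm (⟨0, by omega⟩, false) W := fun x hx k => by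
        by_cases hk : k = 0
        · simp [hk]
        obtain ⟨i, rfl⟩ := hκ k hk
        clear hk
        induction i with
        | zero => simpa using hx
        | succ i ih => simpa [pow_succ', mul_assoc] using h2 _ ih
      obtain ⟨k, k', rfl⟩ := hb s
      exact add_mem (h3 _ ⟨z₀, ⟨hz₀, h0⟩, e₀⟩ k) (h3 _ ⟨z₁, ⟨hz₁, h1⟩, e₁⟩ k')
  exact ⟨B, h1⟩

variable [Fintype F] {q : ℕ} (hF : Fintype.card F = q ^ 2)
include hF

theorem su3_pres (hq : q ≠ 2) : ∃ (rels : Finset (FreeGroup (Fin 3))) (g : Fin 3 → SU 3 F q),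
    rels.card ≤ 22 ∧ IsPres rels g := by
  obtain ⟨Fr, hN⟩ := exists_frame_su hF (n := 3) 1 (by decide)
  obtain ⟨v, hv⟩ := (herm_suP hF _).exists_uOdd hN (by simp)
  obtain ⟨r, g, h1, h2⟩ := (hv.pres_L (0, false) hF fun _ => rfl).1 hq
  exact ⟨r, _, h1, h2.map ((MulEquiv.subgroupCongr Fr.L_eq_E).trans (suE hF (by simpa using hq)))⟩

theorem su_pres (hn : 4 ≤ n) : ∃ (k : ℕ) (rels : Finset (FreeGroup (Fin k))) (g : Fin k → SU n F q),
    rels.card ≤ 66 ∧ IsPres rels g := by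
  have e := suE hF (n := n) (by omega)
  obtain ⟨m, rfl | rfl⟩ := Nat.even_or_odd' n
  · obtain ⟨k, r, g, h1, h2⟩ := sl_pres_all (F := F) (n := m) (fun _ h => stUniv h) (by omega)
    obtain ⟨Fr, hN⟩ := exists_frame_su hF _ le_rfl
    obtain ⟨ω, hω⟩ := (herm_suP hF (2 * m)).exists_skew
    obtain ⟨b, hb⟩ := (herm_suP hF (2 * m)).exists_basis
    obtain ⟨r', g', h3, -, h4⟩ := pres_even _ ω hN (by omega) (by simp) hω (fun k => k.2) hb h2
    exact ⟨_, r', _, by omega, h4.map e⟩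
  · obtain ⟨k, r, g, h1, h2⟩ := sl_pres_all (F := F) (n := m) (fun _ h => stUniv h) (by omega)
    obtain ⟨Fr, hN⟩ := exists_frame_su hF m (Nat.le_succ _)
    obtain ⟨v, hv⟩ := (herm_suP hF _).exists_uOdd hN (by simp)
    obtain ⟨B, hB⟩ := hv.exists_bGeo (by omega)
    obtain ⟨h3, h4⟩ := hv.pres_L (B.o₁, false) hF fun _ => rfl
    by_cases hq : q = 2
    · obtain ⟨r', g', h5, h6⟩ := h4 hq
      obtain ⟨r'', g'', h7, h8⟩ := B.pres h2 h6
      exact ⟨_, r'', _, by omega, h8.map e⟩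
    · obtain ⟨r', g', h5, h6⟩ := h3 hq
      obtain ⟨r'', g'', h7, h8⟩ := B.pres h2 h6
      exact ⟨_, r'', _, by omega, h8.map e⟩

end Cfsg.Agent.H78
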