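/-
Two generator presentations of small linear groups and four generator presentations of `SU₄(2)`
and `SU₄(3)`.
-/
import Cfsg.Agent.H78.UPres
import Cfsg.Agent.H29.Pres235
import Cfsg.Agent.H31.SU3
import Cfsg.Agent.S0252

set_option autoImplicit false

namespace Cfsg.Agent.H78

open Polynomial Matrix Cfsg.Agent.H36
open scoped MatrixGroups

variable {F : Type*} [Field F]

theorem alt_five_pres : ∃ (rels : Finset (FreeGroup (Fin 2))) (g : Fin 2 → alternatingGroup (Fin 5)),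
    rels.card ≤ 3 ∧ IsPres rels g := by
  classical
  let x : FreeGroup (Fin 2) := FreeGroup.of 0
  let a : FreeGroup (Fin 2) := FreeGroup.of 1
  let rels : Finset (FreeGroup (Fin 2)) := {x * x, a ^ 5, (x * a) ^ 3}
  have hR := presented_rel rels
  obtain ⟨h1, h2⟩ := H29.finite_card_closure_235
    (x := PresentedGroup.of (rels := (↑rels : Set (FreeGroup (Fin 2)))) 0)
    (a := PresentedGroup.of 1) (by simpa [x] using hR (x * x) (by simp [rels]))
    ((map_pow (FreeGroup.lift _) a 5).symm.trans (hR (a ^ 5) (by simp [rels])))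
    ((map_pow (FreeGroup.lift _) (x * a) 3).symm.trans (hR ((x * a) ^ 3) (by simp [rels])))
  rw [← Matrix.range_cons_cons_empty _ _ ![], show (![PresentedGroup.of 0, PresentedGroup.of 1] :
    Fin 2 → PresentedGroup (↑rels : Set (FreeGroup (Fin 2)))) = PresentedGroup.of by
      ext i; fin_cases i <;> rfl, PresentedGroup.closure_range_of] at h1 h2
  refine ⟨rels, ![H29.a5x, H29.a5a], Finset.card_le_three, isPres_of_card_le ?_
    (by rw [Matrix.range_cons_cons_empty, H29.closure_a5])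
    (Finite.of_equiv _ Subgroup.topEquiv.toEquiv) (by rwa [H29.card_A5, ← Subgroup.card_top])⟩
  simpa [rels, x, a] using ⟨H29.a5x_mul_self, H29.a5a_pow, H29.a5xa_pow⟩

theorem sl2_four_pres [Fintype F] (hF : Fintype.card F = 4) :
    ∃ (rels : Finset (FreeGroup (Fin 2))) (g : Fin 2 → SL(2, F)), rels.card ≤ 3 ∧ IsPres rels g := by
  obtain ⟨r, g, h1, h2⟩ := alt_five_pres
  obtain ⟨e⟩ := S0252.result hF
  have h3 : (2 : F) = 0 := by
    have := FiniteField.cast_card_eq_zero F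
    rw [hF] at this
    exact pow_eq_zero_iff two_ne_zero |>.1 (by linear_combination (exp := 1) this)
  exact ⟨r, _, h1, h2.map (e.symm.trans ((QuotientGroup.quotientMulEquivOfEq
    (H28.center_SL2_eq_bot h3)).trans QuotientGroup.quotientBot))⟩

theorem sl2_pres_odd' [Finite F] (h2 : (2 : F) ≠ 0) {ζ : F} (hζ : ζ ≠ 0)
    (hgen : ∀ a : F, a ≠ 0 → ∃ k : ℕ, ζ ^ k = a) : ∃ rels : Finset (FreeGroup (Fin 3)),
      rels.card ≤ 8 ∧ IsPres rels ![sl2U (1 : F), stH sl2U sl2L ζ, stW sl2U sl2L 1] := by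
  classical
  obtain ⟨p, hp⟩ := CharP.exists F
  have hpp : p.Prime := CharP.char_is_prime F p
  have : Fact p.Prime := ⟨hpp⟩
  have hθ := aeval_surj_of_gen_sq hgen
  obtain ⟨M, hM, hker⟩ := exists_ker_gen p (ζ ^ 2)
  obtain ⟨j, k, hjk⟩ : ∃ (j : ℤ) (k : ℕ), (ζ ^ 2) ^ k = 1 + j * ζ ^ 2 + (ζ ^ 2) ^ 2 := by
    by_cases h1 : ζ ^ 2 + 1 = 0
    · obtain ⟨k, hk⟩ := hgen (ζ ^ 2 - 1) (fun h => h2 (by linear_combination h1 - h))
      exact ⟨-2, k, by rw [← pow_mul, mul_comm, pow_mul, hk]; push_cast; ring⟩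
    · obtain ⟨k, hk⟩ := hgen _ h1
      exact ⟨2, k, by rw [← pow_mul, mul_comm, pow_mul, hk]; push_cast; ring⟩
  obtain ⟨f₁, hf₁⟩ := hθ ζ
  obtain ⟨f₂, hf₂⟩ := hθ ζ⁻¹
  let u : FreeGroup (Fin 3) := FreeGroup.of 0
  let h : FreeGroup (Fin 3) := FreeGroup.of 1
  let t : FreeGroup (Fin 3) := FreeGroup.of 2
  have hS := isRootHom_sl2 hζ
  refine exists_isPres_of_eqs [(u ^ p, 1), (u * cj u h 1, cj u h 1 * u), (u * cj u h 2, cj u h 2 * u),
      (cj u h k, u * cj u h 1 ^ j * cj u h 2), (polyWord u h M, 1), (t * h * t⁻¹, h⁻¹),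
      (u * (t * u * t⁻¹) * u, t),
      (polyWord u h f₁ * (t * polyWord u h f₂ * t⁻¹) * polyWord u h f₁, h * t)] _ ?_
      (sl2_closure hζ hθ) fun J _ γ hγ => ?_
  · simp only [List.forall_mem_cons, List.not_mem_nil, IsEmpty.forall_iff, implies_true, and_true,
      map_mul, map_inv, map_pow, map_zpow, map_one, map_cj, map_polyWord, u, h, t,
      FreeGroup.lift_apply_of, cons_val_zero, cons_val_one, cons_val_two, tail_cons, head_cons,
      hS.cj_eq, hS.polyWord_eq, hM, hf₁, hf₂]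
    refine ⟨?_, hS.commute _ _, hS.commute _ _, ?_, hS.zero, sl2_t_conj_h hζ, ?_, ?_⟩
    · rw [← zpow_natCast, hS.zpow]; simp [hS.zero]
    · rw [hS.zpow, ← hS.add, ← hS.add, hjk, pow_one]
    · simpa [weylWord] using weylWord_sl2 (1 : F)
    · exact (weylWord_sl2 ζ).trans (stRel_sl2.w_eq_h ζ)
  · simp only [List.forall_mem_cons, List.not_mem_nil, IsEmpty.forall_iff, implies_true, and_true,
      map_mul, map_inv, map_pow, map_zpow, map_one, map_cj, map_polyWord, u, h, t,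
      FreeGroup.lift_apply_of] at hγ
    obtain ⟨R1, R2, R3, R4, R5, R6, R7, R8⟩ := hγ
    obtain ⟨V, hV⟩ := exists_isPolyHom (baumslag_two R2 R3 R4)
    obtain ⟨U, hU⟩ := exists_isRootHom hθ hker hV R1 (hV.polyWord_eq M ▸ R5)
    have hθ0 : ζ ^ 2 ≠ 0 := pow_ne_zero 2 hζ
    have w0 : weylWord U (γ 2) 1 = γ 1 ^ 0 * γ 2 := by
      rw [weylWord, inv_one, hU.one, R7, pow_zero, one_mul]
    have w1 : weylWord U (γ 2) ζ = γ 1 ^ 1 * γ 2 := by
      rw [hU.polyWord_eq, hU.polyWord_eq, hf₁, hf₂] at R8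
      rw [weylWord, R8, pow_one]
    obtain ⟨φ, a1, a2⟩ := exists_hom_sl2_of_weyl hU R6 fun a ha => by
      obtain ⟨n, rfl⟩ := hgen a ha
      obtain ⟨i, rfl | rfl⟩ := Nat.even_or_odd' n
      · refine ⟨2 * i + 0, by ring, ?_⟩
        rw [← weylWord_step hθ0 hU R6 w0 i, mul_one, pow_mul]
      · refine ⟨2 * i + 1, by ring, ?_⟩
        rw [← weylWord_step hθ0 hU R6 w1 i, pow_succ, pow_mul]
    have b2 : γ 2 ∈ φ.range := by simpa [w0] using a2 1
    refine ⟨φ, fun x => ?_⟩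
    fin_cases x
    · exact hU.one ▸ a1 1
    · simpa [w1] using φ.range.mul_mem (a2 ζ) (φ.range.inv_mem b2)
    · exact b2

theorem sl2_tv : tv (0 : Fin 2) 1 (1 : F) = sl2U 1 := by
  apply Subtype.ext
  rw [coe_tv zero_ne_one, coe_sl2U]
  ext i j; fin_cases i <;> fin_cases j <;> simp

theorem sl2_rot : ((stW sl2U sl2L 1 : SL(2, F)) : Matrix (Fin 2) (Fin 2) F) = Matrix.of fun i j =>
    if j.val = i.val + 1 then 1 else if i.val = 0 + 1 ∧ j.val = 0 then (-1) ^ (0 + 1) else 0 := by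
  ext i j
  fin_cases i <;> fin_cases j <;> simp [stW, coe_sl2U, coe_sl2L]

theorem sl2_two_pres_odd [Fintype F] (h2 : (2 : F) ≠ 0) (h3 : 3 < Fintype.card F) :
    ∃ (rels : Finset (FreeGroup (Fin 2))) (g : Fin 2 → SL(2, F)), rels.card ≤ 8 ∧ IsPres rels g := by
  obtain ⟨ζ, hζ, hgen⟩ := exists_generator_field F
  obtain ⟨r, h1, h4⟩ := sl2_pres_odd' h2 hζ hgen
  obtain ⟨r', h5, h6⟩ := h4.tietze
    ![sl2U (1 : F) * stW sl2U sl2L 1, stH sl2U sl2L ζ, stW sl2U sl2L 1]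
    ![FreeGroup.of 0 * (FreeGroup.of 2)⁻¹, FreeGroup.of 1, FreeGroup.of 2]
    ![FreeGroup.of 0 * FreeGroup.of 2, FreeGroup.of 1, FreeGroup.of 2]
    (fun x => by fin_cases x <;> simp) (fun x => by fin_cases x <;> simp) ∅
    (fun x _ => by fin_cases x <;> simp)
  obtain ⟨r'', h7, h8⟩ := h6.sub_gens Fin.castSucc (Fin.castSucc_injective 2)
    (two_gen_big h3 (k := Units.mk0 ζ hζ) (fun u => by
      obtain ⟨k, hk⟩ := hgen u u.ne_zero
      exact ⟨k, Units.ext (by simpa using hk)⟩) sl2_rot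
      (sl2_tv (F := F) ▸ Subgroup.subset_closure ⟨0, rfl⟩) (Subgroup.subset_closure ⟨1, by
        apply Subtype.ext
        rw [coe_dg _ zero_ne_one]
        ext i j
        fin_cases i <;> fin_cases j <;> simp [stH, stW, coe_sl2U, coe_sl2L, hζ]⟩))
  exact ⟨r'', _, by simp at h5; omega, h8⟩

theorem sl2_prime_pres [Fintype F] (hF : Fintype.card F ≤ 3) :
    ∃ (rels : Finset (FreeGroup (Fin 2))) (g : Fin 2 → SL(2, F)), rels.card ≤ 2 ∧ IsPres rels g := by
  have hp : (Fintype.card F).Prime := by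
    have := Fintype.one_lt_card (α := F)
    interval_cases Fintype.card F <;> decide
  let e := (ZMod.ringEquivOfPrime F hp rfl).symm
  have hsq : ∀ a : F, a ≠ 0 → a = 1 ∨ a = -1 := fun a ha => sq_eq_one_iff.1 (by
    have h1 := FiniteField.pow_card_sub_one_eq_one a ha
    have := Fintype.one_lt_card (α := F)
    rcases (by omega : Fintype.card F = 2 ∨ Fintype.card F = 3) with h | h <;> rw [h] at h1
    · rw [show a = 1 by simpa using h1, one_pow]
    · exact h1)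
  let u : FreeGroup (Fin 2) := FreeGroup.of 0
  let t : FreeGroup (Fin 2) := FreeGroup.of 1
  refine exists_comm.1 ⟨![sl2U (1 : F), stW sl2U sl2L 1], exists_isPres_of_eqs
    [(u ^ Fintype.card F, 1), (u * (t * u * t⁻¹) * u, t)] _ ?_
    (two_gen_small hF sl2_rot (Subgroup.subset_closure ⟨1, rfl⟩)
      (sl2_tv (F := F) ▸ Subgroup.subset_closure ⟨0, rfl⟩)) fun J _ γ hγ => ?_⟩
  all_goals simp only [List.forall_mem_cons, List.not_mem_nil, IsEmpty.forall_iff, implies_true,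
    and_true, map_mul, map_inv, map_pow, map_one, u, t, FreeGroup.lift_apply_of, cons_val_zero,
    cons_val_one] at *
  · have hS := isRootHom_sl2 (F := F) one_ne_zero
    refine ⟨?_, by simpa [weylWord] using weylWord_sl2 (1 : F)⟩
    rw [← zpow_natCast, hS.zpow]; simp [hS.zero]
  obtain ⟨R1, R2⟩ := hγ
  generalize hu : γ 0 = u at R1 R2
  generalize ht : γ 1 = t at R2
  let U₀ := ZMod.lift (Fintype.card F) ⟨zmultiplesHom (Additive J) (Additive.ofMul u), by
    simp [← ofMul_pow, R1]⟩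
  let U : F → J := fun a => (U₀ (e a)).toMul
  have hadd : ∀ a b, U (a + b) = U a * U b := fun a b => by simp [U]
  have hk : ∀ k : ℤ, U k = u ^ k := fun k => by simp [U, U₀]
  have h1 : U 1 = u := by simpa using hk 1
  have h2 : U (-1) = u⁻¹ := by simpa using hk (-1)
  have h3 : t * t * u = u * (t * t) := by
    have e1 : t * u = t * u * t⁻¹ * (u * (t * u * t⁻¹) * u) := by rw [R2]; group
    have e2 : t * (t * u * t⁻¹) = u * t := by
      calc _ = u * (t * u * t⁻¹) * u * (t * u * t⁻¹) := by rw [R2]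
        _ = u * (t * u * t⁻¹ * (u * (t * u * t⁻¹) * u) * u⁻¹) := by group
        _ = _ := by rw [← e1]; group
    calc _ = t * (t * u * t⁻¹) * t := by group
      _ = _ := by rw [e2]; group
  have h4 : ∀ b, Commute (t * t) (U b) := fun b => by
    obtain ⟨k, h4⟩ := ZMod.intCast_surjective (e b)
    rw [show b = k from e.injective (by rw [← h4, map_intCast]), hk]
    exact Commute.zpow_right h3 k
  obtain ⟨φ, a1, a2⟩ := exists_hom_SL2_finite (x := U) (y := fun b => t * U (-b) * t⁻¹)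
    ⟨hadd, fun a b => by rw [neg_add, hadd]; group, fun a b ha => by
      rcases hsq a ha with rfl | rfl
      · simp only [inv_one, neg_neg, h1, R2, one_pow, one_mul]; group
      · have : u⁻¹ * (t * u⁻¹ * t⁻¹) * u⁻¹ = t⁻¹ := by
          conv_rhs => rw [← R2]
          group
        simp only [inv_neg, inv_one, neg_neg, h2, this, even_two, Even.neg_pow, one_pow, one_mul]
        calc _ = t * ((t * t)⁻¹ * U b) := by group
          _ = _ := by rw [(h4 b).inv_left.eq]; group⟩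
  refine ⟨φ, fun x => ?_⟩
  fin_cases x
  · exact ⟨sl2U 1, by simp [a1, h1, hu]⟩
  · exact ⟨sl2U 1 * sl2L (-1) * sl2U 1, by simp [a1, a2, h1, ht, R2]⟩

open Cfsg.Agent.H26 Cfsg.Agent.H26.PForm Module in
theorem Frame.pres_four {V : Type*} [AddCommGroup V] [Module F V] {P : PForm F V} {Fr : Frame P 2}
    {K : Type*} [Field K] (ι : K →+* F) (ν₀ : Fˣ) [Finite F] [FiniteDimensional F V]
    (hN : Fr.Norm) (hV : finrank F V = 2 * 2) (hν : ∀ ν, ν ∈ P.Λ ↔ ∃ k, ι k * ν₀ = ν)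
    (hσ : ∀ k, P.σ (ι k) = ι k) {b₀ b₁ : F} (hb : ∀ x, ∃ k k', x = ι k * b₀ + ι k' * b₁) {k l : ℕ}
    {r₁ : Finset (FreeGroup (Fin k))} {g₁ : Fin k → SL(2, F)} (h₁ : IsPres r₁ g₁)
    {r₂ : Finset (FreeGroup (Fin l))} {g₂ : Fin l → SL(2, K)} (h₂ : IsPres r₂ g₂) :
    ∃ (rels : Finset (FreeGroup (Fin (k + l)))) (g : Fin (k + l) → P.E),
      rels.card ≤ r₁.card + r₂.card + l + 13 ∧ IsPres rels g := by
  have := Finite.of_injective _ ι.injective
  have hν' : ∀ k, ι k * ν₀ ∈ P.Λ := fun k => (hν _).2 ⟨k, rfl⟩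
  have hV0 := Fr.V0_eq_bot hV
  obtain ⟨κ, hκ0, hκ⟩ := exists_generator_field K
  have key : ∀ (a : BI 2) (W : Subgroup (V ≃ₗ[F] V)) (κ : K),
      (∀ a : K, a ≠ 0 → ∃ k : ℕ, κ ^ k = a) → eT P (Fr.e a) 0 (ι 1 * ν₀) ∈ W →
      (∀ ν ∈ P.Λ, eT P (Fr.e a) 0 ν ∈ W → eT P (Fr.e a) 0 (ι κ * ι κ * ν) ∈ W) → Fr.X a a ≤ W := by
    intro a W κ hκ h0 hW x hx
    obtain ⟨w, ν, hw, h, rfl⟩ := Frame.mem_XL.1 hx
    obtain rfl : w = 0 := by simpa [hV0] using hw
    obtain ⟨k, rfl⟩ := (hν ν).1 h.mem_Λ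
    exact long_le ι ν₀ hκ hν' one_ne_zero h0 hW k
  have hinj : ∀ o, ∀ x ∈ Fr.L (o, false), Fr.Mono x 1 →
      x (Fr.e (o, false)) = Fr.e (o, false) → x = 1 := fun o x hx h e => by
    refine h.ext_torus Mono.one (fun i => ?_) (fun w hw => by
      obtain rfl : w = 0 := by simpa [hV0] using hw
      simp)
    by_cases hi : o = i
    · exact hi ▸ e
    · exact L_apply_e (c := (i, false)) hi hx
  obtain ⟨B, -, -, h3⟩ := exists_bGeo ι ν₀ hN (Fr.aniso_of_finrank (by omega))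
    (o₁ := 0) (o₂ := 1) (by simp) hν' hσ hb (hinj _)
    (eT_long ι ν₀ hν' _ 1) (eT_long ι ν₀ hν' _ 1)
    (fun W h0 hW => key _ W κ hκ h0 fun ν h h' => by
      simpa [hσ] using hW (ι κ) 0 ν ((map_ne_zero ι).2 hκ0) (zero_mem _) (EV.of_mem (Fr.sing _) h) h')
    (fun W κ hκ h0 _ hW => key _ W κ hκ h0 fun ν h h' => by
      simpa using hW 0 ν (zero_mem _) (EV.of_mem (Fr.sing _) h) h')
  obtain ⟨r, g, h6, h7⟩ := B.pres h₁ (h₂.map ((MonoidHom.ofInjective
    (Fr.sl2L_injective ι ν₀ B.o₁)).trans (MulEquiv.subgroupCongr (sl2L_range ι ν₀ _ hN hν hV0))))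
  refine ⟨r, g, ?_, h7⟩
  rw [h3 rfl] at h6
  simp only [List.length_nil] at h6
  omega

variable [Fintype F] {q : ℕ} (hF : Fintype.card F = q ^ 2)
include hF

theorem su4_pres : ∃ (rels : Finset (FreeGroup (Fin 6))) (g : Fin 6 → SU 4 F q),
    rels.card ≤ 32 ∧ IsPres rels g := by
  obtain ⟨r, g, h1, h2⟩ := sl2_pres (F := F)
  obtain ⟨Fr, hN⟩ := exists_frame_su hF (n := 4) 2 le_rfl
  obtain ⟨ω, hω⟩ := (herm_suP hF 4).exists_skew
  obtain ⟨b, hb⟩ := (herm_suP hF 4).exists_basis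
  obtain ⟨r', g', -, h3, h4⟩ := Frame.pres_even _ ω hN le_rfl (by simp) hω (fun k => k.2) hb h2
  exact ⟨r', _, by have := h3 rfl; omega, h4.map (suE hF (by omega))⟩

theorem su4_pres_small (hq : q ≤ 3) : ∃ (rels : Finset (FreeGroup (Fin 4))) (g : Fin 4 → SU 4 F q),
    rels.card ≤ 25 ∧ (q = 2 → rels.card ≤ 20) ∧ IsPres rels g := by
  obtain ⟨Fr, hN⟩ := exists_frame_su hF (n := 4) 2 le_rfl
  obtain ⟨ω, hω⟩ := (herm_suP hF 4).exists_skew
  obtain ⟨b, hb⟩ := (herm_suP hF 4).exists_basis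
  have := Fintype.ofFinite (H31.fixedField ((suP hF 4).σ : F →+* F))
  obtain ⟨r₂, g₂, h1, h2⟩ := sl2_prime_pres (F := H31.fixedField ((suP hF 4).σ : F →+* F)) (by
    rw [← Nat.card_eq_fintype_card]
    exact (H31.card_pow_q_eq_self hF).le.trans hq)
  obtain ⟨r₁, g₁, h3, h4, h5⟩ : ∃ (rels : Finset (FreeGroup (Fin 2))) (g : Fin 2 → SL(2, F)),
      rels.card ≤ 8 ∧ (q = 2 → rels.card ≤ 3) ∧ IsPres rels g := by
    have := H31.two_le_of_card_sq hF
    obtain rfl | rfl : q = 2 ∨ q = 3 := by omega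
    · obtain ⟨r, g, h3, h4⟩ := sl2_four_pres hF
      exact ⟨r, g, by omega, fun _ => h3, h4⟩
    · obtain ⟨r, g, h3, h4⟩ := sl2_two_pres_odd (F := F) (fun h => by
        have := FiniteField.cast_card_eq_zero F
        rw [hF] at this
        exact one_ne_zero (α := F) (by linear_combination this - 4 * h)) (by omega)
      exact ⟨r, g, h3, by omega, h4⟩
  obtain ⟨r, g, h6, h7⟩ := Frame.pres_four _ ω hN (by simp) hω (fun k => k.2) hb h5 h2
  exact ⟨r, _, by omega, fun h => by have := h4 h; omega, h7.map (suE hF (by omega))⟩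

theorem su2_two_gen : ∃ D : Fin 2 → SU 2 F q, Subgroup.closure (Set.range D) = ⊤ := by
  obtain ⟨Fr, hN⟩ := exists_frame_su hF (n := 2) 1 le_rfl
  obtain ⟨ω, hω⟩ := (herm_suP hF 2).exists_skew
  obtain ⟨D, hD⟩ := sl_two_gen (F := H31.fixedField ((suP hF 2).σ : F →+* F)) (n := 2) le_rfl
  let e := ((MonoidHom.ofInjective (Fr.sl2L_injective _ ω 0)).trans (MulEquiv.subgroupCongr
    ((Frame.sl2L_range _ ω _ hN hω (Fr.V0_eq_bot (by simp))).trans Fr.L_eq_E))).trans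
      (suE hF (by omega))
  exact ⟨e ∘ D, by rw [Set.range_comp, ← MulEquiv.coe_toMonoidHom, ← MonoidHom.map_closure, hD,
    ← MonoidHom.range_eq_map, MonoidHom.range_eq_top.2 e.surjective]⟩

open Cfsg.Agent.H31 in
theorem su3_two_gen (hq : q = 2) :
    ∃ D : Fin 2 → SU 3 F q, Subgroup.closure (Set.range D) = ⊤ := by
  subst hq
  have hI := isInvol_frobQ hF
  have hσ : ∀ x, frobQ hF x = x ^ 2 := fun _ => rfl
  have h4 : ∀ x : F, x ^ 4 = x := fun x => by simpa [hF] using FiniteField.pow_card x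
  have h2 : (2 : F) = 0 := by
    have := add_pow_q hF 1 1
    linear_combination this
  obtain ⟨ω, hω⟩ : ∃ ω : F, ω ^ 2 + ω + 1 = 0 := by
    obtain ⟨ω, hω⟩ := hI.exists_trace_eq (a := 1) (map_one _)
    exact ⟨ω, by rw [hσ] at hω; linear_combination hω + h2⟩
  have hcase : ∀ x : F, x = 0 ∨ x = 1 ∨ x = ω ∨ x = 1 + ω := fun x => by
    have : x * (x - 1) * (x - ω) * (x - (1 + ω)) = 0 := by have := h4 x; grind
    simpa only [mul_eq_zero, sub_eq_zero, or_assoc] using this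
  obtain ⟨e⟩ := (isHerm_hyp3 hI).nonempty_sisom_equiv_SU hF hσ (finrank_fin 3)
  let a : sisom (hyp3 (frobQ hF)) := ⟨_, uni3_mem_sisom hI (x := 1) (y := ω) (by
    simp only [hσ]; grind)⟩
  let b : sisom (hyp3 (frobQ hF)) := ⟨_, weyl3_mem_sisom⟩ *
    ⟨_, uni3_mem_sisom hI (x := ω) (y := 1 + ω) (by simp only [hσ]; grind)⟩
  refine ⟨e ∘ ![a, b], ?_⟩
  suffices Subgroup.closure (Set.range ![a, b]) = ⊤ by
    rw [Set.range_comp, ← MulEquiv.coe_toMonoidHom, ← MonoidHom.map_closure, this,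
      ← MonoidHom.range_eq_map, MonoidHom.range_eq_top.2 e.surjective]
  set K := (Subgroup.closure (Set.range ![a, b])).map (sisom (hyp3 (frobQ hF))).subtype
  have ha : uni3 (frobQ hF) 1 ω ∈ K := ⟨a, Subgroup.subset_closure ⟨0, rfl⟩, rfl⟩
  have hb : weyl3 F * uni3 (frobQ hF) ω (1 + ω) ∈ K := ⟨b, Subgroup.subset_closure ⟨1, rfl⟩, rfl⟩
  have hw : weyl3 F ∈ K := by
    have h1 := mul_mem (mul_mem ha hb) hb
    convert mul_mem h1 h1 using 1
    refine LinearEquiv.ext fun v => ?_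
    rw [vec3_eta v]
    simp only [LinearEquiv.mul_apply, uni3_vec, weyl3_vec, vec3_inj, hσ]
    refine ⟨?_, ?_, ?_⟩ <;> grind
  have hc := (K.mul_mem_cancel_left hw).1 hb
  have hm : ∀ {x y x' y' x'' y'' : F}, uni3 (frobQ hF) x y ∈ K → uni3 (frobQ hF) x' y' ∈ K →
      x'' = x + x' → y'' = y + y' - x ^ 2 * x' → uni3 (frobQ hF) x'' y'' ∈ K := by
    rintro x y x' y' _ _ h h' rfl rfl
    simpa only [uni3_mul, hσ] using mul_mem h h'
  have h0 : uni3 (frobQ hF) 0 0 ∈ K := uni3_zero (σ := frobQ hF) ▸ one_mem K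
  have h1 : uni3 (frobQ hF) 0 1 ∈ K := hm ha ha (by grind) (by grind)
  have key : ∀ x y y' : F, uni3 (frobQ hF) x y ∈ K → y + y ^ 2 = y' + y' ^ 2 →
      uni3 (frobQ hF) x y' ∈ K := fun x y y' h e => by
    have : (y' - y) * (y' - y - 1) = 0 := by grind
    rcases mul_eq_zero.1 this with e | e
    · exact hm h h0 (by ring) (by grind)
    · exact hm h h1 (by ring) (by grind)
  refine eq_top_iff.2 fun g _ => (Subgroup.mem_map_iff_mem (Subgroup.subtype_injective _)).1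
    (sisom_hyp3_le hI hw (fun x y hxy => ?_) g.2)
  simp only [hσ] at hxy
  rcases hcase x with rfl | rfl | rfl | rfl
  · exact key _ _ _ h0 (by grind)
  · exact key _ _ _ ha (by grind)
  · exact key _ _ _ hc (by grind)
  · exact key _ _ _ (hm ha hc rfl rfl) (by grind)

end Cfsg.Agent.H78
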