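/-
Six generator presentations of the special unitary groups.
-/
import Cfsg.Agent.H78.PhanU
import Cfsg.Agent.H78.SUSmall

set_option autoImplicit false

namespace Cfsg.Agent.H78

open Cfsg.Agent.H31

theorem exists_list_of_two_gen {G H : Type*} [Group G] [Group H] {X : Subgroup G} (e : H ≃* X)
    (h : ∃ D : Fin 2 → H, Subgroup.closure (Set.range D) = ⊤) :
    ∃ l : List G, l.length = 2 ∧ Subgroup.closure {x | x ∈ l} = X := by
  obtain ⟨D, hD⟩ := h
  refine ⟨List.ofFn (X.subtype.comp e.toMonoidHom ∘ D), List.length_ofFn, ?_⟩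
  simp only [List.mem_ofFn']
  rw [Set.ofPred_mem_eq, Set.range_comp, ← MonoidHom.map_closure, hD, ← MonoidHom.range_eq_map,
    MonoidHom.range_comp, MonoidHom.range_eq_top.2 e.surjective, ← MonoidHom.range_eq_map,
    Subgroup.range_subtype]

variable {F : Type*} [Field F] [Fintype F] {q n : ℕ} (hF : Fintype.card F = q ^ 2)
include hF

theorem su_short_aux (hn : 5 ≤ n) : ∃ (rels : Finset (FreeGroup (Fin 6)))
    (g : Fin 6 → sisom (hermB hF n)), rels.card ≤ 38 ∧ (n = 5 → rels.card ≤ 35) ∧ IsPres rels g := by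
  have hK := kGeo_KU (n := n) hF
  have hP := phanP_KU hF (n := n) (by omega)
  have : Finite ((Fin n → F) ≃ₗ[F] (Fin n → F)) := DFunLike.finite _
  have c2 : ∀ i, i ≤ 3 → (Ic n i 2).card = 2 := fun i hi => card_Ic (by omega)
  have c3 : (Ic n 0 3).card = 3 := card_Ic (by omega)
  have c4 : (Ic n 0 4).card = 4 := card_Ic (by omega)
  have s23 : Ic n 0 2 ⊆ Ic n 0 3 := Ic_subset le_rfl (by omega)
  have s34 : Ic n 0 3 ⊆ Ic n 0 4 := Ic_subset le_rfl (by omega)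
  obtain ⟨e₂⟩ := nonempty_KU_equiv hF (k := 2) (n := n) (by omega)
  obtain ⟨e₃⟩ := nonempty_KU_equiv hF (k := 3) (n := n) (by omega)
  obtain ⟨e₄⟩ := nonempty_KU_equiv hF (k := 4) (n := n) (by omega)
  obtain ⟨l, l1, l2⟩ := exists_list_of_two_gen e₂ (su2_two_gen hF)
  obtain ⟨r₁, g₁, a1, a2, a3⟩ : ∃ (rels : Finset (FreeGroup (Fin 2)))
      (g : Fin 2 → alternatingGroup (Fin n)),
      rels.card ≤ 7 ∧ (n = 5 → rels.card ≤ 3) ∧ IsPres rels g := by
    by_cases h : n = 5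
    · subst h
      obtain ⟨r, g, h1, h2⟩ := alt_five_pres
      exact ⟨r, g, by omega, fun _ => h1, h2⟩
    · obtain ⟨r, g, h1, h2⟩ := two_gen_pres_alt n
      exact ⟨r, g, h1, fun h' => absurd h' h, h2⟩
  have g3 : 3 ≤ q → KU hF n (Ic n 0 3) ≤ upS (KU hF n) (Ic n 0 3) := fun hq =>
    KU_succ_le hF (k := 2) (by omega) (Or.inr ⟨le_rfl, hq⟩) fun _ => le_upS
  have g4 := @KU_succ_le F _ _ q n 0 3 hF (by omega) (Or.inl le_rfl)
  have := two_le_of_card_sq hF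
  rcases (by omega : 4 ≤ q ∨ q = 3 ∨ q = 2) with hq | hq | hq
  · obtain ⟨r₁, g₁, a1, a2, a3⟩ : ∃ (rels : Finset (FreeGroup (Fin 3)))
        (g : Fin 3 → alternatingGroup (Fin n)),
        rels.card ≤ 7 ∧ (n = 5 → rels.card ≤ 4) ∧ IsPres rels g := by
      by_cases h : n = 5
      · obtain ⟨r, h1, h2⟩ := a3.add_gen
        exact ⟨r, _, by omega, by omega, h2⟩
      · obtain ⟨r, g, h1, h2⟩ := three_gen_pres_alt (n := n) (by omega)
        exact ⟨r, g, h1, fun h' => absurd h' h, h2⟩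
    obtain ⟨r₂, g₂, b1, b2⟩ := su3_pres hF (by omega)
    obtain ⟨ρ, hρ⟩ := exists_mp_one (S := Ic n 0 2) (T := Ic n 2 2)
      (by rw [c2 0 (by omega), c2 2 (by omega)]) (c2 0 (by omega)).ge
    obtain ⟨r, g, h1, h2⟩ := hK.pres s23 (c2 0 (by omega)).ge s23 l2 le_rfl l2 hρ
      (disjoint_Ic le_rfl) a3 (b2.map e₃) (fun J _ π φ Z Y hφ h => hP.inj_big hK hφ
        (fun M hM => hM _ subset_rfl c3) h s23 subset_rfl (c2 0 (by omega)) c3 (g3 (by omega))
        (Or.inl ⟨hq, rfl, hρ, disjoint_Ic le_rfl⟩)) (range_sup_KU hF le_rfl (by omega))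
    rw [c3, l1] at h1
    exact ⟨r, g, by omega, by omega, h2⟩
  · obtain ⟨r₂, g₂, b1, -, b2⟩ := su4_pres_small hF hq.le
    obtain ⟨r, g, h1, h2⟩ := hK.pres (s23.trans s34) (c2 0 (by omega)).ge (Finset.empty_subset _)
      l2 (l' := []) bot_le (by simp) Mp.one (Finset.disjoint_empty_right _) a3 (b2.map e₄)
      (fun J _ π φ Z Y hφ h => hP.inj_big (U := ∅) hK hφ (fun _ => g4) h s23 s34
        (c2 0 (by omega)) c3 (g3 hq.ge) (Or.inr c4)) (range_sup_KU hF (by omega) (by omega))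
    rw [c4, l1, List.length_nil] at h1
    exact ⟨r, g, by omega, by omega, h2⟩
  · obtain ⟨r₂, g₂, -, b1, b2⟩ := su4_pres_small hF (by omega)
    obtain ⟨l', l3, l4⟩ := exists_list_of_two_gen e₃ (su3_two_gen hF hq)
    obtain ⟨k, l'', l5, l6, h3, h4, h5⟩ : ∃ (k : ℕ) (l'' : List _), l''.length = 2 ∧
        Subgroup.closure {x | x ∈ l''} = KU hF n (Ic n 0 k) ∧ 2 ≤ k ∧ 3 + k ≤ n ∧
        (k = 3 ∨ (k = 2 ∧ n = 5)) := by
      by_cases h : n = 5
      exacts [⟨2, l, l1, l2, by omega⟩, ⟨3, l', l3, l4, by omega⟩]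
    have s : Ic n 0 k ⊆ Ic n 0 3 := Ic_subset le_rfl (by omega)
    obtain ⟨ρ, hρ⟩ := exists_mp_one (S := Ic n 0 k) (T := Ic n 3 k)
      (by rw [card_Ic h4, card_Ic (by omega)]) (by rwa [card_Ic (by omega)])
    obtain ⟨r, g, h1, h2⟩ := hK.pres s34 (by omega) (s.trans s34) l4 le_rfl l6 hρ
      (disjoint_Ic le_rfl) a3 (b2.map e₄) (fun J _ π φ Z Y hφ h => hP.inj_two hK hφ
        (fun _ => g4) h s s34 c3 c4 hρ (disjoint_Ic le_rfl) (h5.imp
          (fun h => ⟨by rw [h], by simp; omega⟩)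
          fun h => ⟨by rw [h.1, c2 0 (by omega)], by simp; omega⟩))
      (range_sup_KU hF (by omega) (by omega))
    rw [c4, l3, l5] at h1
    exact ⟨r, g, by omega, by omega, h2⟩

theorem su_short (hn : 4 ≤ n) : ∃ (rels : Finset (FreeGroup (Fin 6))) (g : Fin 6 → SU n F q),
    rels.card ≤ 38 ∧ (n ≤ 5 → rels.card ≤ 35) ∧ IsPres rels g := by
  rcases hn.eq_or_lt with rfl | hn
  · obtain ⟨r, g, h1, h2⟩ := su4_pres hF
    exact ⟨r, g, by omega, by omega, h2⟩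
  · obtain ⟨r, g, h1, h2, h3⟩ := su_short_aux hF hn
    exact ⟨r, _, h1, by omega, h3.map (suEquiv hF n).symm⟩

end Cfsg.Agent.H78
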