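/-
Gauss decomposition with a partly prescribed torus part for root data of rank two.
-/
import Cfsg.Agent.H80.Rel

set_option autoImplicit false

namespace Cfsg.Agent.H78.ThG

open Cfsg.Agent.H34 Cfsg.Agent.H80 Cfsg.Agent.H80.RD Subgroup
open scoped commutatorElement

variable {ι Φ : Type*} {S : SignedSys ι Φ} {G : Type*} [Group G] (P : RD S G)

/-- The radical of a minimal parabolic subgroup. -/
def Qp (i : ι) : Subgroup G := rootU P.X {r | S.pos r ∧ r ≠ S.α i}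

/-- The radical of the opposite parabolic subgroup. -/
def Qm (i : ι) : Subgroup G := rootU P.X {r | ¬ S.pos r ∧ r ≠ S.neg (S.α i)}

/-- The negative unipotent subgroup. -/
def Vm : Subgroup G := rootU P.X {r | ¬ S.pos r}

/-- An involution that maps every root subgroup to the opposite one. -/
structure Opp (m : G) : Prop where
  sq : m * m = 1
  conj : ∀ r, ∀ x ∈ P.X r, m * x * m⁻¹ ∈ P.X (S.neg r)

variable {P}

theorem Qp_le_U (i : ι) : Qp P i ≤ P.U := rootU_mono fun _ h => h.1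

theorem Qm_le_Vm (i : ι) : Qm P i ≤ Vm P := rootU_mono fun _ h => h.1

theorem mem_Vm {i : ι} {y : G} (hy : y ∈ P.X (S.neg (S.α i))) : y ∈ Vm P :=
  mem_rootU (r := S.neg (S.α i)) (S.not_pos_neg.2 (S.pos_α i)) hy

theorem mem_norm {A : Subgroup G} {g : G} (h1 : ∀ a ∈ A, g * a * g⁻¹ ∈ A)
    (h2 : ∀ a ∈ A, g⁻¹ * a * g ∈ A) : g ∈ normalizer (A : Set G) :=
  mem_normalizer_iff.2 fun a => ⟨h1 a, fun h => by simpa [mul_assoc] using h2 _ h⟩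

theorem L_conj_Qp (i : ι) {k u : G} (hk : k ∈ P.L i) (hu : u ∈ Qp P i) : k * u * k⁻¹ ∈ Qp P i := by
  have h0 : ∀ r, S.pos r ∧ r ≠ S.α i → S.pos (S.s i r) ∧ S.s i r ≠ S.α i := fun r hr =>
    ⟨S.s_pos i r hr.1 hr.2, fun e => S.not_pos_neg.2 (S.pos_α i) (by
      rw [← S.s_α, ← e, S.s_s]; exact hr.1)⟩
  have h1 : P.X (S.α i) ≤ normalizer (Qp P i : Set G) := fun x hx =>
    mem_norm (fun a ha => conj_mem_Ui i hx ha) fun a ha => by
      have := conj_mem_Ui i (inv_mem hx) ha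
      rwa [inv_inv] at this
  have h2 : P.n i ∈ normalizer (Qp P i : Set G) :=
    mem_norm (fun a ha => conj_mem_rootU (fun r hr x hx =>
      mem_rootU (r := S.s i r) (h0 r hr) (P.n_conj i r x hx)) ha) fun a ha => by
        simpa using conj_mem_rootU (g := (P.n i)⁻¹) (K := Qp P i) (fun r hr x hx =>
          mem_rootU (r := S.s i r) (h0 r hr) (by simpa using n_conj' i hx)) ha
  have h3 : P.L i ≤ normalizer (Qp P i : Set G) := sup_le h1 fun y hy => by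
    have h4 := n_conj' i hy
    rw [S.s_neg_α] at h4
    simpa [mul_assoc] using mul_mem (mul_mem h2 (h1 h4)) (inv_mem h2)
  exact (mem_normalizer_iff.1 (h3 hk) u).1 hu

namespace Opp

variable {m : G} (hm : Opp P m)
include hm

theorem inv_eq : m⁻¹ = m := inv_eq_of_mul_eq_one_right hm.sq

theorem cc (x : G) : m * (m * x * m⁻¹) * m⁻¹ = x := by
  rw [hm.inv_eq, ← mul_assoc, ← mul_assoc, hm.sq, one_mul, mul_assoc, hm.sq, mul_one]

theorem conj_neg {r : Φ} {x : G} (hx : x ∈ P.X (S.neg r)) : m * x * m⁻¹ ∈ P.X r := by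
  simpa [S.neg_neg] using hm.conj _ x hx

theorem conj_L {i : ι} {k : G} (hk : k ∈ P.L i) : m * k * m⁻¹ ∈ P.L i :=
  (sup_le (fun x hx => mem_sup_right (hm.conj _ x hx)) (fun x hx => mem_sup_left (hm.conj_neg hx)) :
    P.L i ≤ (P.L i).comap (MulAut.conj m).toMonoidHom) hk

theorem conj_Qp {i : ι} {u : G} (hu : u ∈ Qp P i) : m * u * m⁻¹ ∈ Qm P i :=
  conj_mem_rootU (fun r hr x hx => mem_rootU (r := S.neg r)
    (And.intro (S.not_pos_neg.2 hr.1) fun e => hr.2 (S.neg_inj e)) (hm.conj r x hx)) hu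

theorem conj_Qm {i : ι} {u : G} (hu : u ∈ Qm P i) : m * u * m⁻¹ ∈ Qp P i :=
  conj_mem_rootU (fun r hr x hx => mem_rootU (r := S.neg r)
    (And.intro ((S.pos_neg r).2 hr.1) fun e => hr.2 (by rw [← e, S.neg_neg])) (hm.conj r x hx)) hu

theorem conj_Vm {u : G} (hu : u ∈ Vm P) : m * u * m⁻¹ ∈ P.U :=
  conj_mem_rootU (fun r hr x hx => mem_U ((S.pos_neg r).2 hr) (hm.conj r x hx)) hu

theorem L_conj_Qm (i : ι) {k u : G} (hk : k ∈ P.L i) (hu : u ∈ Qm P i) :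
    k * u * k⁻¹ ∈ Qm P i := by
  have := hm.conj_Qp (L_conj_Qp i (hm.conj_L hk) (hm.conj_Qm hu))
  rwa [show m * k * m⁻¹ * (m * u * m⁻¹) * (m * k * m⁻¹)⁻¹ = m * (k * u * k⁻¹) * m⁻¹ by group,
    hm.cc] at this

theorem V_split (i : ι) {v : G} (hv : v ∈ Vm P) :
    ∃ v' ∈ Qm P i, ∃ y ∈ P.X (S.neg (S.α i)), v = v' * y := by
  obtain ⟨a, ha, x, hx, e⟩ := U_split i (hm.conj_Vm hv)
  exact ⟨_, hm.conj_Qp ha, _, hm.conj _ x hx, by rw [← hm.cc v, e]; group⟩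

end Opp

theorem U_split' (i : ι) {u : G} (hu : u ∈ P.U) :
    ∃ x ∈ P.X (S.α i), ∃ v ∈ Qp P i, u = x * v := by
  obtain ⟨a, ha, x, hx, e⟩ := U_split i (inv_mem hu)
  exact ⟨x⁻¹, inv_mem hx, a⁻¹, inv_mem ha, by rw [← mul_inv_rev, ← e, inv_inv]⟩

theorem eq_one_of_neg_of_B (i : ι) {y a h : G} (hy : y ∈ P.X (S.neg (S.α i)))
    (ha : a ∈ P.X (S.α i)) (hh : h ∈ P.H) (e : y = a * h) : y = 1 := by
  by_contra h1
  obtain ⟨c, hc, k, hk, b, hb, e'⟩ := P.sl2 i y hy h1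
  have e2 : k * P.n i = c⁻¹ * a * h * b⁻¹ := by rw [mul_assoc c⁻¹, ← e, e']; group
  have p := S.pos_α i
  refine not_conj_U (P := P) i (g := k * P.n i) (fun u hu => ?_) fun z hz => ?_
  · have h2 := mul_mem (inv_mem (mem_U p hc)) (mem_U p ha)
    have := mul_mem (mul_mem h2 (H_conj_U hh (mul_mem (mul_mem (inv_mem (mem_U p hb)) hu)
      (mem_U p hb)))) (inv_mem h2)
    rw [e2]
    convert this using 1; group
  · have := n_conj' i (H_conj' hk hz)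
    rw [S.s_neg_α] at this
    convert mem_U p this using 1; group

theorem H_conj_L (i : ι) {h k : G} (hh : h ∈ P.H) (hk : k ∈ P.L i) : h * k * h⁻¹ ∈ P.L i :=
  conj_mem_L (P.H_conj h hh _) (P.H_conj h hh _) hk

/-- Bruhat decomposition of `L i * H`. -/
theorem bruhat_LH (i : ι) {k h : G} (hk : k ∈ P.L i) (hh : h ∈ P.H) :
    (∃ a ∈ P.X (S.α i), ∃ h' ∈ P.H, k * h = a * h') ∨
      ∃ a ∈ P.X (S.α i), ∃ h' ∈ P.H, ∃ b ∈ P.X (S.α i), k * h = a * h' * P.n i * b := by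
  rcases bruhat_L i hk with ⟨a, ha, t, ht, rfl⟩ | ⟨a, ha, t, ht, b, hb, rfl⟩
  · exact Or.inl ⟨a, ha, t * h, mul_mem ht hh, mul_assoc _ _ _⟩
  · exact Or.inr ⟨a, ha, t * (P.n i * h * (P.n i)⁻¹), mul_mem ht (P.n_H i h hh), h⁻¹ * b * h,
      H_conj' hh hb, by group⟩

theorem exists_neg_ne_one (i : ι) : ∃ y ∈ P.X (S.neg (S.α i)), y ≠ 1 := by
  obtain ⟨y, hy, h⟩ := P.nondeg i
  exact ⟨y, hy, fun e => h (e ▸ one_mem _)⟩

/-- Rank one Gauss decomposition. -/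
theorem gauss_one (i : ι) {k h : G} (hk : k ∈ P.L i) (hh : h ∈ P.H) :
    ∃ a ∈ P.X (S.α i), ∃ y ∈ P.X (S.neg (S.α i)), ∃ h' ∈ P.H, ∃ b ∈ P.X (S.α i),
      k * h = a * y * h' * b := by
  rcases bruhat_LH i hk hh with ⟨a, ha, t, ht, e⟩ | ⟨a, ha, t, ht, b, hb, e⟩
  · exact ⟨a, ha, 1, one_mem _, t, ht, 1, one_mem _, by simp [e]⟩
  · obtain ⟨y, hy, h1⟩ := exists_neg_ne_one (P := P) i
    obtain ⟨c, hc, s, hs, d, hd, e'⟩ := P.sl2 i y hy h1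
    have ht' := mul_mem ht (inv_mem hs)
    refine ⟨a * ((t * s⁻¹) * c⁻¹ * (t * s⁻¹)⁻¹), mul_mem ha (P.H_conj _ ht' _ _ (inv_mem hc)),
      (t * s⁻¹) * y * (t * s⁻¹)⁻¹, P.H_conj _ ht' _ _ hy, _, ht', d⁻¹ * b, mul_mem (inv_mem hd) hb, ?_⟩
    rw [e, e']; group

/-- Gauss decomposition. -/
theorem gauss {m : G} (hm : Opp P m) (hS : S.Phi Set.univ = Set.univ)
    (gen : rootU P.X Set.univ = ⊤) (g : G) :
    ∃ u ∈ P.U, ∃ v ∈ Vm P, ∃ h ∈ P.H, ∃ u' ∈ P.U, g = u * v * h * u' := by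
  let Y : G → Prop := fun g => ∃ u ∈ P.U, ∃ v ∈ Vm P, ∃ h ∈ P.H, ∃ u' ∈ P.U, g = u * v * h * u'
  have key : ∀ i, ∀ k ∈ P.L i, ∀ g, Y g → Y (k * g) := by
    rintro i k hk _ ⟨u, hu, v, hv, h, hh, u', hu', rfl⟩
    obtain ⟨q, hq, x, hx, rfl⟩ := U_split i hu
    obtain ⟨q', hq', y, hy, rfl⟩ := hm.V_split i hv
    have hkx := mul_mem hk (mem_sup_left hx : x ∈ P.L i)
    obtain ⟨a, ha, z, hz, t, ht, b, hb, e⟩ := gauss_one i
      (mul_mem hkx (mem_sup_right hy : y ∈ P.L i)) hh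
    have h1 := hm.L_conj_Qm i (mul_mem (inv_mem (mem_sup_left ha : a ∈ P.L i)) hkx) hq'
    refine ⟨k * q * k⁻¹ * a, mul_mem (Qp_le_U i (L_conj_Qp i hk hq)) (mem_U (S.pos_α i) ha), _,
      mul_mem (Qm_le_Vm i h1) (mem_Vm hz), t, ht, b * u', mul_mem (mem_U (S.pos_α i) hb) hu', ?_⟩
    calc _ = k * q * x * q' * (k * x)⁻¹ * (k * x * y * h) * u' := by group
      _ = _ := by rw [e]; group
  let K : Subgroup G :=
    { carrier := {k | ∀ g, Y g → Y (k * g) ∧ Y (k⁻¹ * g)}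
      one_mem' := fun g hg => by simpa using hg
      mul_mem' := fun {a b} ha hb g hg => ⟨by rw [mul_assoc]; exact (ha _ (hb g hg).1).1,
        by rw [mul_inv_rev, mul_assoc]; exact (hb _ (ha g hg).2).2⟩
      inv_mem' := fun {a} ha g hg => ⟨(ha g hg).2, by rw [inv_inv]; exact (ha g hg).1⟩ }
  have h1 : rootU P.X Set.univ ≤ K := rootU_univ_le hS fun i k hk g hg =>
    ⟨key i k hk g hg, key i _ (inv_mem hk) g hg⟩
  simpa using (h1 (gen ▸ mem_top g) 1 ⟨1, one_mem _, 1, one_mem _, 1, one_mem _, 1, one_mem _,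
    by simp⟩).1

/-- The rank one step. -/
theorem rank_one (hH : ∀ g ∈ P.H, ∀ h ∈ P.H, Commute g h) (i : ι) {y h x : G}
    (hy : y ∈ P.X (S.neg (S.α i))) (hh : h ∈ P.H)
    (hx : x ∈ P.X (S.α i)) (hz : h ∉ centralizer (P.X (S.α i) : Set G)) :
    ∃ t ∈ P.H, ∀ s ∈ P.H, ∃ k ∈ P.L i, ∃ y' ∈ P.X (S.neg (S.α i)), ∃ x' ∈ P.X (S.α i),
      k * (y * h * x) * k⁻¹ = y' * (t * ⁅s, P.n i⁆) * x' := by
  have hB : ∀ k ∈ P.L i, (∃ a ∈ P.X (S.α i), ∃ h' ∈ P.H, k * (y * h * x) * k⁻¹ = a * h') ∨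
      ∃ a ∈ P.X (S.α i), ∃ h' ∈ P.H, ∃ b ∈ P.X (S.α i),
        k * (y * h * x) * k⁻¹ = a * h' * P.n i * b := fun k hk => by
    have := bruhat_LH i (mul_mem (mul_mem hk (mem_sup_right hy : y ∈ P.L i))
      (H_conj_L i hh (mul_mem (mem_sup_left hx : x ∈ P.L i) (inv_mem hk)))) hh
    rwa [show k * y * (h * (x * k⁻¹) * h⁻¹) * h = k * (y * h * x) * k⁻¹ by group] at this
  obtain ⟨k, hk, a, ha, t, ht, b, hb, e⟩ : ∃ k ∈ P.L i, ∃ a ∈ P.X (S.α i), ∃ h' ∈ P.H,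
      ∃ b ∈ P.X (S.α i), k * (y * h * x) * k⁻¹ = a * h' * P.n i * b := by
    by_contra hc
    have h1 : ∀ k ∈ P.L i, ∃ a ∈ P.X (S.α i), ∃ h' ∈ P.H, k * (y * h * x) * k⁻¹ = a * h' :=
      fun k hk => (hB k hk).resolve_right fun h => hc ⟨k, hk, h⟩
    obtain ⟨a, ha, t, ht, e⟩ := h1 1 (one_mem _)
    have y1 : y = 1 := eq_one_of_neg_of_B i hy (mul_mem ha (P.H_conj t ht _ _ (inv_mem hx)))
      (mul_mem ht (inv_mem hh)) (by
        calc y = 1 * (y * h * x) * 1⁻¹ * x⁻¹ * h⁻¹ := by group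
          _ = _ := by rw [e]; group)
    subst y1
    have h2 : ∀ w ∈ P.X (S.α i), w * (h * x * w⁻¹ * h⁻¹) = 1 := fun w hw => by
      have h3 : w * (h * x * w⁻¹ * h⁻¹) ∈ P.X (S.α i) := by
        simpa [mul_assoc] using mul_mem hw (P.H_conj h hh _ _ (mul_mem hx (inv_mem hw)))
      have h4 := P.n_conj i _ _ h3
      rw [S.s_α] at h4
      obtain ⟨a, ha, t, ht, e⟩ := h1 (P.n i * w) (mul_mem (P.n_mem i) (mem_sup_left hw))
      have h5 := eq_one_of_neg_of_B i h4 ha (mul_mem ht (inv_mem (P.n_H i h hh))) (by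
        calc _ = P.n i * w * (1 * h * x) * (P.n i * w)⁻¹ * (P.n i * h * (P.n i)⁻¹)⁻¹ := by group
          _ = _ := by rw [e]; group)
      simpa using h5
    have x1 : x = 1 := by simpa using h2 1 (one_mem _)
    refine hz (mem_centralizer_iff.2 fun w hw => ?_)
    have := h2 w hw
    rw [x1, mul_one] at this
    calc w * h = w * (h * w⁻¹ * h⁻¹) * (h * w) := by group
      _ = _ := by rw [this, one_mul]
  obtain ⟨z, hz, z1⟩ := exists_neg_ne_one (P := P) i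
  obtain ⟨c, hc, r, hr, d, hd, e'⟩ := P.sl2 i z hz z1
  have u0 := P.n_conj i _ _ hz
  have y1 := P.n_conj i _ _ hc
  rw [S.s_neg_α] at u0
  rw [S.s_α] at y1
  have hn := P.n_sq i
  have hr' := P.n_H i r hr
  refine ⟨t * (P.n i * r * (P.n i)⁻¹) * (P.n i * P.n i), mul_mem (mul_mem ht hr') hn, fun s hs => ?_⟩
  have hw := P.H_conj _ (mul_mem ht hs) _ _ u0
  have hs' := n_H' i (inv_mem hs)
  refine ⟨_, mul_mem (mul_mem (mem_sup_left hw : _ ∈ P.L i) (inv_mem (mem_sup_left ha))) hk, _,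
    P.H_conj _ (mul_mem ht hs) _ _ y1, _,
    mul_mem (mul_mem (mul_mem (H_conj' hs' hd) hb) ha) (inv_mem hw), ?_⟩
  have c1 := (hH _ hs _ (mul_mem hr' hn)).eq
  have c2 := (hH _ hn _ (P.n_H i _ (inv_mem hs))).eq
  have e1 : t * (P.n i * r * (P.n i)⁻¹) * (P.n i * P.n i) * ⁅s, P.n i⁆ =
      t * s * (P.n i * r * (P.n i)⁻¹) * (P.n i * s⁻¹ * (P.n i)⁻¹) * (P.n i * P.n i) := by
    calc _ = t * (P.n i * r * (P.n i)⁻¹ * (P.n i * P.n i) * s) * (P.n i * s⁻¹ * (P.n i)⁻¹) := by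
          rw [commutatorElement_def]; group
      _ = t * s * (P.n i * r * (P.n i)⁻¹) * (P.n i * P.n i * (P.n i * s⁻¹ * (P.n i)⁻¹)) := by
          rw [← c1]; group
      _ = _ := by rw [c2]; group
  calc _ = t * s * (P.n i * z * (P.n i)⁻¹) * (t * s)⁻¹ * a⁻¹ * (k * (y * h * x) * k⁻¹) * a *
        (t * s * (P.n i * z * (P.n i)⁻¹) * (t * s)⁻¹)⁻¹ := by group
    _ = _ := by
      rw [e, e1]
      nth_rewrite 1 [e']
      group

variable (P) in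
/-- Elements with a conjugate in the big cell with a given torus part. -/
def Cell (h g : G) : Prop := ∃ c, ∃ v ∈ Vm P, ∃ u ∈ P.U, c * g * c⁻¹ = v * h * u

theorem Cell.step {m : G} (hm : Opp P m) (hH : ∀ g ∈ P.H, ∀ h ∈ P.H, Commute g h) (i : ι) {h g : G}
    (hh : h ∈ P.H) (hz : h ∉ centralizer (P.X (S.α i) : Set G)) (hc : Cell P h g) :
    ∃ t ∈ P.H, ∀ s ∈ P.H, Cell P (t * ⁅s, P.n i⁆) g := by
  obtain ⟨c, v, hv, u, hu, e⟩ := hc
  obtain ⟨q, hq, y, hy, rfl⟩ := hm.V_split i hv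
  obtain ⟨x, hx, q', hq', rfl⟩ := U_split' i hu
  obtain ⟨t, ht, h1⟩ := rank_one hH i hy hh hx hz
  refine ⟨t, ht, fun s hs => ?_⟩
  obtain ⟨k, hk, y', hy', x', hx', e'⟩ := h1 s hs
  refine ⟨k * c, _, mul_mem (Qm_le_Vm i (hm.L_conj_Qm i hk hq)) (mem_Vm hy'), _,
    mul_mem (mem_U (S.pos_α i) hx') (Qp_le_U i (L_conj_Qp i hk hq')), ?_⟩
  calc _ = k * (c * g * c⁻¹) * k⁻¹ := by group
    _ = k * q * k⁻¹ * (k * (y * h * x) * k⁻¹) * (k * q' * k⁻¹) := by rw [e]; group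
    _ = _ := by rw [e']; group

theorem comm_mem_H (i : ι) {s : G} (hs : s ∈ P.H) : ⁅s, P.n i⁆ ∈ P.H := by
  simpa [commutatorElement_def, mul_assoc] using mul_mem hs (P.n_H i _ (inv_mem hs))

theorem comm_mem_L (i : ι) {s : G} (hs : s ∈ P.H) : ⁅s, P.n i⁆ ∈ P.L i :=
  mul_mem (H_conj_L i hs (P.n_mem i)) (inv_mem (P.n_mem i))

theorem exists_comm_mem_L (hH : ∀ g ∈ P.H, ∀ h ∈ P.H, Commute g h) {i j : ι}
    (hij : ∀ k, k = i ∨ k = j) {l : List ι} (hl : ∀ h ∈ P.H, P.nw l * h * (P.nw l)⁻¹ = h⁻¹)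
    (hsq : ∀ h ∈ P.H, ∃ k ∈ P.H, h = k * k) {h : G} (hh : h ∈ P.H) :
    ∃ s ∈ P.H, h * ⁅s, P.n i⁆ ∈ P.L j := by
  have e1 : ∀ s ∈ P.H, ∀ t ∈ P.H, ⁅s * t, P.n i⁆ = ⁅s, P.n i⁆ * ⁅t, P.n i⁆ := fun s hs t ht => by
    have c := (hH _ (comm_mem_H i ht) _ (P.n_H i _ (inv_mem hs))).eq
    calc _ = s * (⁅t, P.n i⁆ * (P.n i * s⁻¹ * (P.n i)⁻¹)) := by
          simp only [commutatorElement_def]; group
      _ = _ := by rw [c]; simp only [commutatorElement_def]; group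
  let A : Subgroup G :=
    { carrier := {h | h ∈ P.H ∧ ∃ s ∈ P.H, h * ⁅s, P.n i⁆ ∈ P.L j}
      one_mem' := ⟨one_mem _, 1, one_mem _, by simp⟩
      mul_mem' := by
        rintro a b ⟨ha, s, hs, h1⟩ ⟨hb, t, ht, h2⟩
        refine ⟨mul_mem ha hb, s * t, mul_mem hs ht, ?_⟩
        rw [e1 s hs t ht, (hH _ hb _ (comm_mem_H i hs)).mul_mul_mul_comm]
        exact mul_mem h1 h2
      inv_mem' := by
        rintro a ⟨ha, s, hs, h1⟩
        refine ⟨inv_mem ha, s⁻¹, inv_mem hs, ?_⟩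
        have e2 : ⁅s⁻¹, P.n i⁆ = ⁅s, P.n i⁆⁻¹ := eq_inv_of_mul_eq_one_left (by
          rw [← e1 _ (inv_mem hs) _ hs]; simp)
        rw [e2, ← mul_inv_rev, ← (hH _ ha _ (comm_mem_H i hs)).eq]
        exact inv_mem h1 }
  have h1 : ∀ k, ∀ s ∈ P.H, ⁅s, P.n k⁆ ∈ A := fun k s hs => ⟨comm_mem_H k hs, by
    rcases hij k with rfl | rfl
    · exact ⟨s⁻¹, inv_mem hs, by rw [← e1 _ hs _ (inv_mem hs)]; simp⟩
    · exact ⟨1, one_mem _, by simpa using comm_mem_L k hs⟩⟩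
  have h2 : ∀ l : List ι, ∀ s ∈ P.H, ⁅s, P.nw l⁆ ∈ A := fun l s hs => by
    induction l with
    | nil => simp
    | cons k l ih =>
      have h3 := mul_mem ih (h1 k _ (inv_mem ih.1))
      have h4 := mul_mem (h1 k s hs) h3
      convert h4 using 1
      simp only [commutatorElement_def, nw_cons]
      group
  obtain ⟨k, hk, rfl⟩ := hsq h hh
  have := (h2 l k hk).2
  rwa [commutatorElement_def, mul_assoc, mul_assoc, ← mul_assoc (P.nw l), hl _ (inv_mem hk),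
    inv_inv] at this

/-- Every element is conjugate into the product of the opposite radical, the rank one subgroup and
the radical. -/
theorem exists_conj {m : G} (hm : Opp P m) (hS : S.Phi Set.univ = Set.univ)
    (gen : rootU P.X Set.univ = ⊤) (hH : ∀ g ∈ P.H, ∀ h ∈ P.H, Commute g h) {i j : ι}
    (ha : ∀ h ∈ P.H, ∃ s ∈ P.H, h * ⁅s, P.n i⁆ ∈ P.L j)
    (hb : ∀ h ∈ P.H, h ∈ centralizer (P.X (S.α i) : Set G) →
      h ∈ centralizer (P.X (S.α j) : Set G) → h = 1)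
    (hc : ∃ s ∈ P.H, ⁅s, P.n j⁆ ∉ centralizer (P.X (S.α i) : Set G)) (g : G) :
    ∃ c, ∃ v ∈ Qm P j, ∃ k ∈ P.L j, ∃ u ∈ Qp P j, c * g * c⁻¹ = v * k * u := by
  have h1 : ∀ h ∈ P.H, h ∉ centralizer (P.X (S.α i) : Set G) → Cell P h g →
      ∃ k ∈ P.L j, Cell P k g := fun h hh hz hc => by
    obtain ⟨t, ht, h2⟩ := hc.step hm hH i hh hz
    obtain ⟨s, hs, h3⟩ := ha t ht
    exact ⟨_, h3, h2 s hs⟩
  obtain ⟨k, hk, c, v, hv, u, hu, e⟩ : ∃ k ∈ P.L j, Cell P k g := by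
    obtain ⟨u, hu, v, hv, h, hh, u', hu', e⟩ := gauss hm hS gen g
    have h2 : Cell P h g := ⟨u⁻¹, v, hv, u' * u, mul_mem hu' hu, by rw [e]; group⟩
    by_cases z1 : h ∈ centralizer (P.X (S.α i) : Set G)
    swap
    · exact h1 h hh z1 h2
    by_cases z2 : h ∈ centralizer (P.X (S.α j) : Set G)
    · exact ⟨1, one_mem _, hb h hh z1 z2 ▸ h2⟩
    obtain ⟨t, ht, h3⟩ := h2.step hm hH j hh z2
    by_cases z3 : t ∈ centralizer (P.X (S.α i) : Set G)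
    · obtain ⟨s, hs, h4⟩ := hc
      exact h1 _ (mul_mem ht (comm_mem_H j hs)) (fun h => h4 ((mul_mem_cancel_left z3).1 h))
        (h3 s hs)
    · exact h1 t ht z3 (by simpa using h3 1 (one_mem _))
  obtain ⟨q, hq, y, hy, rfl⟩ := hm.V_split j hv
  obtain ⟨x, hx, q', hq', rfl⟩ := U_split' j hu
  exact ⟨c, q, hq, y * k * x, mul_mem (mul_mem (mem_sup_right hy) hk) (mem_sup_left hx), q', hq',
    by rw [e]; group⟩

theorem exists_conj_of_fpf [Finite G] {A : Subgroup G} {x : G} (hn : ∀ a ∈ A, x * a * x⁻¹ ∈ A)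
    (hf : ∀ a ∈ A, x * a * x⁻¹ = a → a = 1) {u : G} (hu : u ∈ A) :
    ∃ a ∈ A, u * x = a * x * a⁻¹ := by
  obtain ⟨a, ha, e⟩ := (Fpf.of_finite hn fun a ha h => hf a ha (by
    rwa [commutatorElement_def, mul_inv_eq_one] at h)).surj _ (inv_mem hu)
  refine ⟨a, ha, ?_⟩
  rw [← inv_inv u, ← e, commutatorElement_def]; group

theorem fpf_of_pow {w k u : G} {n : ℕ} (hc : Commute w k) (hk : k ^ n = 1)
    (e : w * k * u * (w * k)⁻¹ = u) : w ^ n * u * (w ^ n)⁻¹ = u := by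
  have h1 : Commute (w * k) u := mul_inv_eq_iff_eq_mul.1 e
  have h2 := h1.pow_left n
  rw [hc.mul_pow, hk, mul_one] at h2
  rw [h2.eq, mul_inv_cancel_right]

/-- The square of the class of `z * s` is the whole group. -/
theorem cover [Finite G] {m : G} (hm : Opp P m) {j : ι}
    (hc : ∀ g, ∃ c, ∃ v ∈ Qm P j, ∃ k ∈ P.L j, ∃ u ∈ Qp P j, c * g * c⁻¹ = v * k * u)
    {z a s : G} (hz : z ∈ P.H) (hzc : ∀ k ∈ P.L j, Commute z k) (hmz : m * z * m⁻¹ = z⁻¹)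
    (ha : a ∈ P.X (S.α j)) (a2 : a * a = 1) (hs : s = a * (m * a * m⁻¹)) {n : ℕ} (sn : s ^ n = 1)
    (hf : ∀ u ∈ Qp P j, z ^ n * u * (z ^ n)⁻¹ = u → u = 1)
    (hL : ∀ k ∈ P.L j, k ≠ 1 → ∃ k1 ∈ P.L j, ∃ k2 ∈ P.L j, k = (k1 * s * k1⁻¹) * (k2 * s * k2⁻¹))
    (g : G) : ∃ u v, g = (u * (z * s) * u⁻¹) * (v * (z * s) * v⁻¹) := by
  obtain ⟨c, v, hv, k, hk, u, hu, e⟩ := hc g
  have haL : a ∈ P.L j := mem_sup_left ha
  have hsL : s ∈ P.L j := hs ▸ mul_mem haL (hm.conj_L haL)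
  have ai : a⁻¹ = a := inv_eq_of_mul_eq_one_right a2
  have e1 : a * s * a⁻¹ = s⁻¹ := by
    rw [hs, mul_inv_rev, ← mul_assoc, a2, one_mul, mul_inv_rev, mul_inv_rev, ai, inv_inv, mul_assoc m]
  have e2 : a * m * (z * s) * (a * m)⁻¹ = z⁻¹ * s := by
    calc _ = a * (m * z * m⁻¹) * (m * a * m⁻¹) * (m * (m * a * m⁻¹) * m⁻¹) * a⁻¹ := by rw [hs]; group
      _ = _ := by rw [hm.cc, hmz, mul_inv_cancel_right, ← (hzc a haL).inv_left.eq, hs, mul_assoc]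
  obtain ⟨k1, h1, k2, h2, rfl⟩ : ∃ k1 ∈ P.L j, ∃ k2 ∈ P.L j,
      k = (k1 * s * k1⁻¹) * (k2 * s * k2⁻¹) := by
    by_cases h : k = 1
    · exact ⟨1, one_mem _, a, haL, by simp [h, e1]⟩
    · exact hL k hk h
  have m1 := mul_mem (mul_mem h1 hsL) (inv_mem h1)
  have m2 := mul_mem (mul_mem h2 hsL) (inv_mem h2)
  obtain ⟨a1, -, f1⟩ := exists_conj_of_fpf (A := Qm P j) (x := z * (k1 * s * k1⁻¹))
    (fun w hw => by
      have : _ ∈ Qm P j := H_conj_U hz (hm.L_conj_Qm j m1 hw)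
      simpa [mul_assoc] using this) (fun w hw h => by
      have h3 := fpf_of_pow (n := n) (hzc _ m1) (by rw [conj_pow, sn]; simp) h
      have h4 := hf _ (hm.conj_Qm hw) (by
        have h5 : z ^ n = m * (z ^ n)⁻¹ * m⁻¹ := by rw [← inv_pow, ← conj_pow, ← conj_inv, hmz, inv_inv]
        rw [h5]
        conv_lhs => rw [← h3]
        group)
      simpa using h4) hv
  obtain ⟨a2, -, f2⟩ := exists_conj_of_fpf (A := Qp P j) (x := (z⁻¹ * (k2 * s * k2⁻¹))⁻¹)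
    (fun w hw => by
      simpa [mul_assoc] using L_conj_Qp j (inv_mem m2) (H_conj_U hz hw)) (fun w hw h => by
      rw [mul_inv_rev, inv_inv, ← (hzc _ (inv_mem m2)).eq] at h
      exact hf _ hw (fpf_of_pow (n := n) (hzc _ (inv_mem m2)) (by rw [inv_pow, conj_pow, sn]; simp) h))
    (inv_mem hu)
  refine ⟨c⁻¹ * a1 * k1, c⁻¹ * a2 * k2 * (a * m), ?_⟩
  have f3 : z⁻¹ * (k2 * s * k2⁻¹) * u = a2 * (z⁻¹ * (k2 * s * k2⁻¹)) * a2⁻¹ := by
    rw [← inv_inj, mul_inv_rev, f2]; group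
  have c1 := (hzc _ h1).eq
  have c2 := (hzc _ h2).inv_left.eq
  have c3 := (hzc _ m1).eq
  calc g = c⁻¹ * (c * g * c⁻¹) * c := by group
    _ = c⁻¹ * (v * (k1 * s * k1⁻¹ * z)) * (z⁻¹ * (k2 * s * k2⁻¹) * u) * c := by rw [e]; group
    _ = c⁻¹ * a1 * (z * k1) * s * k1⁻¹ * a1⁻¹ * a2 * (z⁻¹ * k2) * s * k2⁻¹ * a2⁻¹ * c := by
      rw [← c3, f1, f3]; group
    _ = c⁻¹ * a1 * k1 * (z * s) * k1⁻¹ * a1⁻¹ * a2 * k2 * (z⁻¹ * s) * k2⁻¹ * a2⁻¹ * c := by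
      rw [c1, c2]; group
    _ = _ := by rw [← e2]; group

end Cfsg.Agent.H78.ThG
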