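/-
The square of a semisimple class covers the large Ree group.
-/
import Cfsg.Agent.H78.ThGauss
import Cfsg.Agent.H80.TwF4Mult
import Cfsg.Agent.H39.SzSquare

set_option autoImplicit false

namespace Cfsg.Agent.H78.ThG

open Cfsg.Agent.H34 Cfsg.Agent.H37 Cfsg.Agent.H40 Cfsg.Agent.H80 Cfsg.Agent.H80.TF4 Cfsg.Lie Subgroup
  Equiv Cert
open scoped commutatorElement

universe u

theorem bijective_of_sz {ι Φ : Type*} {S : SignedSys ι Φ} {G : Type*} [Group G] {P : RD S G}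
    {K : Type u} [Field K] [H39.SzField K] {L : Type u} [Group L] (M : H39.Model L K)
    (i : ι) (ψ : P.L i →* L)
    (h1 : ∀ y, y ∈ M.U ↔ ∃ x : P.L i, x.1 ∈ P.X (S.α i) ∧ ψ x = y)
    (h2 : ∀ y, M.w * y * M.w ∈ M.U ↔ ∃ x : P.L i, x.1 ∈ P.X (S.neg (S.α i)) ∧ ψ x = y)
    (h3 : ∀ x : P.L i, x.1 ∈ P.X (S.α i) → ψ x = 1 → x = 1)
    (h4 : ∀ x : P.L i, x.1 ∈ P.H → ψ x ∈ M.U → x = 1) : Function.Bijective ψ := by
  have := H39.SzField.finite K
  have hu := M.u_mem_U 0 1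
  have hw : ∀ y : L, M.w * (M.w * y * M.w) * M.w = y := fun y => by
    rw [← mul_assoc, ← mul_assoc, M.w_mul_w, one_mul, mul_assoc, M.w_mul_w, mul_one]
  obtain ⟨x0, a0, b0⟩ := (h1 _).1 hu
  obtain ⟨x1, a1, b1⟩ := (h2 (M.w * M.u 0 1 * M.w)).1 (by rwa [hw])
  have m1 : ∀ {a} (ha : a ∈ P.X (S.α i)), ψ ⟨a, mem_sup_left ha⟩ ∈ M.U := fun ha =>
    (h1 _).2 ⟨_, ha, rfl⟩
  refine ⟨(injective_iff_map_eq_one _).2 fun g hg => ?_, MonoidHom.range_eq_top.1 (M.eq_top_of_U_le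
    (fun y hy => ((h1 y).1 hy).imp fun _ h => h.2) ⟨x1, b1⟩
    fun h => M.u_zero_one_ne_one (sz_not_mem M hu h))⟩
  rcases RD.bruhat_L i g.2 with ⟨a, ha, h, hh, e⟩ | ⟨a, ha, h, hh, b, hb, e⟩
  · have h5 := h4 ((⟨a, mem_sup_left ha⟩ : P.L i)⁻¹ * g) (by simpa [e] using hh)
      (by simpa [hg] using m1 ha)
    exact h3 g (by rw [← inv_mul_eq_one.1 h5]; exact ha) hg
  let k := (⟨a, mem_sup_left ha⟩ : P.L i)⁻¹ * g * (⟨b, mem_sup_left hb⟩ : P.L i)⁻¹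
  have h5 : ψ k ∈ M.U := by simpa [k, hg] using mul_mem (inv_mem (m1 ha)) (inv_mem (m1 hb))
  have h6 := P.H_conj h hh _ _ (P.n_conj i _ _ a0)
  rw [S.s_α] at h6
  have h7 := sz_not_mem M (mul_mem (mul_mem h5 hu) (inv_mem h5)) (M.U_le_B ((h2 _).2
    ⟨k * x0 * k⁻¹, by simpa [k, e, mul_assoc] using h6, by simp [b0]⟩))
  exact absurd (by simpa using h7) M.u_zero_one_ne_one

variable {K : Type u} [Field K] [CharP K 2] {θ : K →+* K} {h2 : ∀ t, θ (θ t) ^ 2 = t}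

local notation "τ" => tF4 θ h2
local notation "P" => relRD (rep h2)

theorem exists_equiv [H39.SzField K] : Nonempty ((P).L 1 ≃* (tits h2).szGL) := by
  have hs : ∀ a b : K, ∃ t v, θ t = a ∧ θ t * t + v = b := fun a b =>
    ⟨θ a ^ 2, b - a * θ a ^ 2, by simp [h2], by simp [h2]⟩
  obtain ⟨ψ, hψ⟩ : ∃ ψ : (P).L 1 →* (tits h2).szGL, ∀ x : (P).L 1, Rel h2 x.1 (ψ x) :=
    exists_hom_of_rel (Rel h2) Rel.one (fun _ _ _ _ => Rel.mul) (fun _ _ => Rel.inv)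
    (fun _ _ _ => Rel.unique) (X := (P).X ((rep h2).sys.α 1))
    (Y := (P).X ((rep h2).sys.neg ((rep h2).sys.α 1)))
    (fun a ha => by obtain ⟨t, v, rfl⟩ := mem_Xb.1 ha; exact ⟨_, rel_pos t v⟩)
    (fun a ha => by obtain ⟨t, v, rfl⟩ := mem_Yb.1 ha; exact ⟨_, rel_neg t v⟩)
  have hw : ∀ y, (tits h2).model.w * ((tits h2).model.w * y * (tits h2).model.w) *
      (tits h2).model.w = y := fun y => by
    rw [← mul_assoc, ← mul_assoc, H39.Model.w_mul_w, one_mul, mul_assoc, H39.Model.w_mul_w, mul_one]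
  refine ⟨MulEquiv.ofBijective ψ (bijective_of_sz (tits h2).model 1 ψ (fun y => ⟨fun ⟨a, b, e⟩ => ?_, ?_⟩)
    (fun y => ⟨fun ⟨a, b, e⟩ => ?_, ?_⟩) (fun x hx e => ?_) fun x hx ⟨a, b, e⟩ => ?_)⟩
  · obtain ⟨t, v, rfl, rfl⟩ := hs a b
    exact ⟨⟨_, mem_sup_left (ub_mem t v)⟩, ub_mem t v, e ▸ (hψ _).unique (rel_pos t v)⟩
  · rintro ⟨x, hx, rfl⟩
    obtain ⟨t, v, e⟩ := mem_Xb.1 hx
    exact ⟨_, _, (hψ x).unique (e ▸ rel_pos t v)⟩
  · obtain ⟨t, v, rfl, rfl⟩ := hs a b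
    have h := mem_Yb.2 ⟨t, v, (rfl : vb h2 t v = _)⟩
    exact ⟨⟨_, mem_sup_right h⟩, h, (hψ _).unique (by simpa only [← e, hw] using rel_neg (h2 := h2) t v)⟩
  · rintro ⟨x, hx, rfl⟩
    obtain ⟨t, v, e⟩ := mem_Yb.1 hx
    exact ⟨_, _, by rw [(hψ x).unique (e ▸ rel_neg t v), hw]⟩
  · obtain ⟨t, v, e'⟩ := mem_Xb.1 hx
    obtain ⟨h1, h3⟩ := (tits h2).model.u_eq_one_iff.1 (((e' ▸ rel_pos t v : Rel h2 x.1 _).unique
      (hψ x)).trans e)
    rw [h1, zero_mul, zero_add] at h3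
    exact Subtype.ext (by rw [e', h3, (map_eq_zero θ).1 h1, ub_zero]; rfl)
  · obtain ⟨⟨c, d⟩, e'⟩ := F4_exists_par θ h2 (mem_relRD_H.1 hx) ((τ).G1_le_fix x.1.2)
    have h1 := (hψ x).ch 3
    have h3 := (hψ x).ch 0
    rw [e, H39.Model.mat_u, ← e'] at h1 h3
    replace h1 := (ch_gT' c d (i := 2) (j := -1) (k := 0) (l := 0) (by decide +kernel)).symm.trans h1
    replace h3 := (ch_gT' c d (i := 0) (j := 1) (k := 0) (l := -1) (by decide +kernel)).symm.trans h3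
    have h4 : θ c = d := by simpa [H39.Tits.uM, mul_inv_eq_one₀] using h3
    have h5 : (d : K) = 1 := eq_one_of_zpow (h2 := h2) (m := -1) (n := 2) d.ne_zero
      (by simpa [H39.Tits.uM, h4, mul_comm] using h1) (by decide)
    rw [h5, map_eq_one_iff θ θ.injective] at h4
    exact Subtype.ext (Subtype.ext (by
      rw [← e', show (c, d) = 1 from Prod.ext (Units.ext h4) (Units.ext h5), map_one, map_one]; rfl))

theorem n_spec (a : Fin 2) : ((P).n a).1 ∈ (cF4.split K).N ∧ ∀ r : Fin chevF4.nroots,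
    ((cF4.split K).ν ((P).n a).1 r : ℕ) = (orbwF4.getD a []).foldr chevF4.reflectRoot r := by
  obtain ⟨h1, -, h3⟩ := ((τ).exists_lift_orb ((rep h2).e a)).choose_spec
  refine ⟨h1, fun r => ?_⟩
  have h4 := wJ_val (isOrbWords_F4 (isCartan_F4 cF4) _ (F4_π θ h2)) ((rep h2).e a) r
  rw [← h3] at h4
  refine h4.trans ?_
  fin_cases a <;> rfl

theorem nw_spec (l : List (Fin 2)) : ((P).nw l).1 ∈ (cF4.split K).N ∧ ∀ r : Fin chevF4.nroots,
    ((cF4.split K).ν ((P).nw l).1 r : ℕ) =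
      l.foldr (fun a s => (orbwF4.getD a []).foldr chevF4.reflectRoot s) r := by
  induction l with
  | nil => exact ⟨one_mem _, fun r => by
      rw [RD.nw_nil, OneMemClass.coe_one, Split.ν_H (one_mem _)]; rfl⟩
  | cons a l ih =>
    rw [RD.nw_cons, coe_mul]
    exact ⟨mul_mem (n_spec a).1 ih.1, fun r => by
      rw [Split.ν_mul _ _ (n_spec a).1 _ ih.1, Perm.mul_apply, (n_spec a).2, ih.2]; rfl⟩

theorem w0_spec (r : Fin chevF4.nroots) :
    (cF4.split K).ν ((P).nw [0, 1, 0, 1, 0, 1, 0, 1]).1 r = cF4.S.neg r :=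
  Fin.ext (((nw_spec _).2 r).trans (((by decide +kernel : ∀ r < chevF4.nroots,
    ([0, 1, 0, 1, 0, 1, 0, 1] : List (Fin 2)).foldr
      (fun a s => (orbwF4.getD a []).foldr chevF4.reflectRoot s) r = chevF4.neg r) r r.2).trans
    (cF4.neg_val r).symm))

theorem inv_of_neg {n : (τ).G1} (hn : n.1 ∈ (cF4.split K).N)
    (e : ∀ r, (cF4.split K).ν n.1 r = cF4.S.neg r) : ∀ h ∈ (P).H, n * h * n⁻¹ = h⁻¹ :=
  fun _ hh => Subtype.ext (conj_eq_inv hn e (mem_relRD_H.1 hh))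

theorem H_pow [Finite K] {h : (τ).G1} (hh : h ∈ (P).H) : h ^ (Nat.card K - 1) = 1 :=
  Subtype.ext (H_pow_card (mem_relRD_H.1 hh))

theorem H_sq [H39.SzField K] {h : (τ).G1} (hh : h ∈ (P).H) : ∃ k ∈ (P).H, h = k * k := by
  have := H39.SzField.finite K
  obtain ⟨n, hn⟩ := H39.SzField.odd_sub_one K
  refine ⟨h ^ (n + 1), pow_mem hh _, ?_⟩
  rw [← pow_add, show n + 1 + (n + 1) = 2 * n + 1 + 1 by ring, ← hn, pow_succ, H_pow hh, one_mul]

theorem opp_of_neg [H39.SzField K] {n : (τ).G1} (hn : n.1 ∈ (cF4.split K).N)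
    (e : ∀ r, (cF4.split K).ν n.1 r = cF4.S.neg r) : Opp (P) n := by
  have := H39.SzField.finite K
  refine ⟨?_, fun A x hx => ?_⟩
  · have h1 : n * n ∈ (P).H := mem_relRD_H.2 (Split.mem_H_of (mul_mem hn hn) (by
      rw [coe_mul, Split.ν_mul _ _ hn _ hn]
      exact Equiv.ext fun r => by rw [Perm.mul_apply, e, e, cF4.S.neg_neg]; rfl))
    have h3 := inv_of_neg hn e _ h1
    rw [← mul_assoc, mul_inv_cancel_right] at h3
    obtain ⟨k, hk⟩ := H39.SzField.odd_sub_one K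
    have h4 := H_pow h1
    rwa [hk, pow_succ, pow_mul, sq, eq_inv_iff_mul_eq_one.1 h3, one_pow, one_mul] at h4
  · obtain ⟨r, rfl⟩ := cls_surj A
    have := relX_conj hn ((τ).G1_le_fix n.2) (mem_subgroupOf.1 hx)
    rw [e] at this
    exact this

theorem ch24 {h : (τ).G1} (hh : h ∈ (P).H)
    (hc : h ∈ centralizer ((P).X ((rep h2).sys.α 0) : Set (τ).G1)) : ch h.1 24 = 1 := by
  have h1 := odA.conj_x (R := rep h2) hh (c := ch h.1 24) (p := (24, RingHom.id K)) (by simp) rfl 1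
  rw [← mem_centralizer_iff.1 hc _ (odA.x_mem (R := rep h2) 1), mul_inv_cancel_right, mul_one] at h1
  exact ((odA (h2 := h2)).inj (congrArg Subtype.val h1)).symm

theorem hyp_b {e : ℕ} (hθ : ∀ t, θ t = t ^ e) : ∀ h ∈ (P).H,
    h ∈ centralizer ((P).X ((rep h2).sys.α 0) : Set (τ).G1) →
    h ∈ centralizer ((P).X ((rep h2).sys.α 1) : Set (τ).G1) → h = 1 := fun h hh c0 c1 => by
  have h1 := ch24 hh c0
  have h3 := ub_conj hθ hh 1 0
  rw [← mem_centralizer_iff.1 c1 _ (ub_mem 1 0), mul_inv_cancel_right, mul_one] at h3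
  replace h3 := (ub_inj h3).1.symm
  obtain ⟨⟨c, d⟩, e'⟩ := F4_exists_par θ h2 (mem_relRD_H.1 hh) ((τ).G1_le_fix h.2)
  rw [← e'] at h1 h3
  replace h1 := (ch_gT' c d (i := 0) (j := 0) (k := -1) (l := 2) (by decide +kernel)).symm.trans h1
  replace h3 := (ch_gT' c d (i := 0) (j := -2) (k := 2) (l := -1) (by decide +kernel)).symm.trans h3
  have h4 : (c : K) = d ^ 2 := by
    simpa [inv_mul_eq_one₀, zpow_ofNat] using h1
  have hd := d.ne_zero
  have hd' : θ d ≠ 0 := by simp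
  have h5 : (d : K) = 1 := eq_one_of_zpow (h2 := h2) (m := 3) (n := -4) hd (by
    rw [← h3, h4, map_pow]; field_simp) (by decide)
  rw [h5, one_pow] at h4
  exact Subtype.ext (by
    rw [← e', show (c, d) = 1 from Prod.ext (Units.ext h4) (Units.ext h5), map_one, map_one]; rfl)

theorem hyp_c [H39.SzField K] : ∃ s ∈ (P).H,
    ⁅s, (P).n 1⁆ ∉ centralizer ((P).X ((rep h2).sys.α 0) : Set (τ).G1) := by
  obtain ⟨x, hx⟩ := H39.SzField.exists_unit_ne K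
  have hs : (⟨_, gT_mem x 1⟩ : (τ).G1) ∈ (P).H := mem_relRD_H.2 (gT_mem_H _ _)
  refine ⟨_, hs, fun h => hx ?_⟩
  have h1 := ch24 (comm_mem_H 1 hs) h
  have e1 : (gT θ x 1)⁻¹ = gT θ x⁻¹ 1 := by simp [gT, ← map_inv]
  have h3 := ch_conj_N (n_spec (h2 := h2) 1).1 (gT_mem_H (θ := θ) x⁻¹ 1) (TF4.rt 32)
  rw [(n_spec 1).2, show (orbwF4.getD (1 : Fin 2) []).foldr chevF4.reflectRoot (TF4.rt 32) = 24 by
    decide +kernel] at h3
  have e2 : (⁅(⟨_, gT_mem x 1⟩ : (τ).G1), (P).n 1⁆).1 =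
      gT θ x 1 * (((P).n 1).1 * gT θ x⁻¹ 1 * ((P).n 1).1⁻¹) := by
    simp [commutatorElement_def, mul_assoc, e1]
  rw [e2, ch_mul (gT_mem_H _ _) (Split.conj_mem_H (n_spec 1).1 (gT_mem_H _ _)) (by decide +kernel), h3,
    ch_gT' x 1 (i := 0) (j := 0) (k := -1) (l := 2) (by decide +kernel),
    ch_gT' x⁻¹ 1 (s := TF4.rt 32) (i := -2) (j := 0) (k := 1) (l := 0) (by decide +kernel)] at h1
  have h4 : (x : K) * x = 1 := by
    have := x.ne_zero
    simp at h1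
    field_simp at h1
    linear_combination -h1
  refine Units.ext ?_
  rcases mul_self_eq_one_iff.1 h4 with h | h
  · exact h
  · rw [h, CharTwo.neg_eq]; rfl

variable (h2) in
/-- The torus centralising the Suzuki subgroup. -/
noncomputable def zB (x : Kˣ) : (τ).G1 := ⟨_, gT_mem x (x ^ 2 / Units.map (θ : K →* K) x ^ 2)⟩

theorem zB_mem (x : Kˣ) : zB h2 x ∈ (P).H := mem_relRD_H.2 (gT_mem_H _ _)

theorem zB_pow (x : Kˣ) (n : ℕ) : zB h2 x ^ n = zB h2 (x ^ n) := Subtype.ext (by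
  simp only [zB, gT, SubmonoidClass.mk_pow, ← map_pow, Prod.pow_mk, div_pow, ← pow_mul, mul_comm n])

theorem zB_comm (x : Kˣ) : ∀ k ∈ (P).L 1, Commute (zB h2 x) k := fun k hk => by
  have h1 : (P).L 1 ≤ centralizer {zB h2 x} := sup_le (fun y hy => by
    rw [α_one] at hy
    exact mem_centralizer_singleton_iff.2 (mul_inv_eq_iff_eq_mul.1 (clsCh.fix (zB_mem x)
      ((ch_B (h2 := h2) x (TF4.rt 27).2).trans (by
        simp [show eB (TF4.rt 27) = (0, 0) by decide +kernel])) y hy)).symm) fun y hy => by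
    rw [α_one, Reps.neg_cls] at hy
    exact mem_centralizer_singleton_iff.2 (mul_inv_eq_iff_eq_mul.1 (clsCh.fix (zB_mem x)
      ((ch_B (h2 := h2) x (cF4.S.neg (TF4.rt 27)).2).trans (by
        simp [cF4.neg_val, show eB (chevF4.neg (TF4.rt 27)) = (0, 0) by decide +kernel])) y hy)).symm
  exact (mem_centralizer_singleton_iff.1 (h1 hk)).symm

theorem zB_fpf {x : Kˣ} (hx : x ≠ 1) : ∀ u ∈ Qp (P) 1, zB h2 x * u * (zB h2 x)⁻¹ = u → u = 1 := by
  intro u hu e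
  have hS := (cF4.split K).phi_univ
  have hz := mem_relRD_H.1 (zB_mem (h2 := h2) x)
  refine Subtype.ext (Split.eq_one_of_fixed («P» := cF4.split K) (mul_mem (cF4.S.wJ_mem_W Set.univ)
    (cF4.S.wJ_mem_W ((τ).T.orb ((rep h2).e 1)))) (MulAut.conj (zB h2 x).1).toMonoidHom
    (fun r _ y hy => ?_) (fun r hr y hy e' => ?_) ?_ (congrArg Subtype.val e))
  · have := (cF4.split K).conj _ (Split.H_le_N hz) r y hy
    rwa [Split.ν_H hz] at this
  · obtain ⟨t, rfl⟩ := mem_X.1 hy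
    obtain ⟨h3, h4⟩ := hr
    rw [Perm.mul_apply, pos_w0_iff hS, not_not] at h4
    have h5 : r ∉ cF4.S.Phi ((τ).T.orb ((rep h2).e 1)) := fun h => (cF4.S.pos_wJ_iff h).1 h4 h3
    have h6 := (ch_conj hz r.2 t).symm.trans e'
    rw [xg_eq_one_iff r.2]
    by_contra ht
    refine hx (Units.ext (eq_one_of_zpow (h2 := h2) x.ne_zero ((ch_B (h2 := h2) x r.2).symm.trans
      (show ch (zB h2 x).1 r = 1 by simpa [ht] using xg_injective r.2 h6)) (((tabB r r.2).resolve_left fun h =>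
        h5 (cls_eq_α.1 ((cls_eq_iff_mem (σ := sF4 θ h2) orbF4_1).2 h)).1).resolve_left fun h =>
        h5 (cls_eq_neg_α.1 ((cls_eq_neg_iff_mem (σ := sF4 θ h2) orbF4_1).2 h)).1)))
  · refine map_mem_rootU (τ).G1.subtype (fun A hA y hy => Split.U_sub (mem_relRD_X.1 hy)
      fun r hr => ?_) hu
    obtain rfl : cls (τ).T r = A := hr
    refine ⟨hA.1, ?_⟩
    rw [Perm.mul_apply, pos_w0_iff hS, not_not]
    exact cF4.S.pos_of_not_mem_Phi (cF4.S.wJ_mem _) hA.1 fun h => hA.2 (cls_eq_α.2 ⟨h, hA.1⟩)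

theorem ab_pow : (ub h2 0 1 * vb h2 0 1) ^ 5 = 1 := Subtype.ext (by
  have e1 : (ub h2 0 1).1 = cF4.wg K [(28, 1), (30, 1)] := by simp [ub, wF4b, xg_zero]
  have e2 : (vb h2 0 1).1 = cF4.wg K [(19, 1), (17, 1)] := by
    simp [vb, wF4b, xg_zero, ChevalleyDatum.negWord, CharTwo.neg_eq]; rfl
  have := F4_wg_eq (1 : ℕ →* K) (L := [(28, 1, 1), (30, 1, 1), (19, 1, 1), (17, 1, 1),
    (28, 1, 1), (30, 1, 1), (19, 1, 1), (17, 1, 1), (28, 1, 1), (30, 1, 1), (19, 1, 1), (17, 1, 1),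
    (28, 1, 1), (30, 1, 1), (19, 1, 1), (17, 1, 1), (28, 1, 1), (30, 1, 1), (19, 1, 1), (17, 1, 1)])
    (R := []) (by decide +kernel)
  simpa [e1, e2, wordOf, pow_succ, mul_assoc] using this)

theorem exists_opp [H39.SzField K] {e : ℕ} (hθ : ∀ t, θ t = t ^ e) : ∃ m, Opp (P) m ∧
    (∀ h ∈ (P).H, m * h * m⁻¹ = h⁻¹) ∧ m * ub h2 0 1 * m⁻¹ = vb h2 0 1 ∧ vb h2 0 1 ≠ 1 := by
  have := H39.SzField.finite K
  have hn := (nw_spec (h2 := h2) [0, 1, 0, 1, 0, 1, 0, 1]).1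
  have hw := w0_spec (h2 := h2)
  generalize (P).nw [0, 1, 0, 1, 0, 1, 0, 1] = n at hn hw
  have h0 := opp_of_neg hn hw
  have e0 : cF4.opp K negAutF4 (ub h2 0 1).1 = (vb h2 0 1).1 := opp_wg _ (wF4b_lt θ 0 1)
  have a2 : ub h2 0 1 * ub h2 0 1 = 1 := by simp [ub_mul, CharTwo.add_self_eq_zero, ub_zero]
  have b2 : vb h2 0 1 * vb h2 0 1 = 1 := Subtype.ext (by
    rw [coe_mul, ← e0, ← map_mul, ← coe_mul, a2]; exact map_one _)
  have b1 : vb h2 0 1 ≠ 1 := fun h => by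
    have h1 : ub h2 0 1 = ub h2 0 0 := Subtype.ext (by
      rw [← opp_opp negAutF4 (ub h2 0 1).1, e0, h, ub_zero]; exact map_one _)
    exact one_ne_zero (ub_inj h1).2
  obtain ⟨t, v, e1⟩ := mem_Xb.1 (h0.conj_neg (mem_Yb.2 ⟨0, 1, rfl⟩))
  have e2 : ub h2 t v * ub h2 t v = ub h2 0 0 := by
    rw [← e1, ← sq, conj_pow, sq, b2, ub_zero]; simp
  rw [ub_mul] at e2
  obtain rfl : t = 0 := by simpa [CharTwo.add_self_eq_zero] using (ub_inj e2).2
  have hv : v ≠ 0 := fun h => b1 (by simpa [h, ub_zero] using e1)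
  obtain ⟨c, hc⟩ := Finite.surjective_of_injective
    (f := fun c : Kˣ => Units.map (θ : K →* K) c * c) (fun c d h => by
      refine div_eq_one.1 (Units.ext (eq_one_of_zpow (h2 := h2) (m := 1) (n := 1) (Units.ne_zero _) ?_
        (by decide)))
      have h1 : θ c * c = θ d * d := by simpa using congrArg Units.val h
      have := d.ne_zero
      have : θ d ≠ 0 := by simp
      simp only [Units.val_div_eq_div_val, zpow_one, map_div₀]
      field_simp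
      linear_combination h1) (Units.mk0 v hv)
  obtain ⟨g, hg, e3⟩ := exists_sc (h2 := h2) c.ne_zero
  have hg' := mem_relRD_H.1 hg
  have hm := mul_mem hn (Split.H_le_N hg')
  have e4 : ∀ r, (cF4.split K).ν (n * g).1 r = cF4.S.neg r := fun r => by
    rw [coe_mul, Split.ν_mul _ _ hn _ (Split.H_le_N hg'), Split.ν_H hg', mul_one, hw]
  refine ⟨_, opp_of_neg hm e4, inv_of_neg hm e4, ?_, b1⟩
  have e5 : g * ub h2 0 1 * g⁻¹ = ub h2 0 v := by
    rw [ub_conj hθ hg, e3, mul_zero, mul_one, show θ c * c = v by simpa using congrArg Units.val hc]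
  rw [← h0.cc (vb h2 0 1), e1, ← e5]; group

omit [CharP K 2] in
/-- The square of a class of odd order elements is the whole large Ree group. -/
theorem ree_cover [Fintype K] {m : ℕ} (hm : 1 ≤ m) (hK : Fintype.card K = 2 ^ (2 * m + 1)) :
    ∃ x : twistedF4 K (2 ^ m), Odd (orderOf x) ∧
      ∀ g, ∃ u v, g = (u * x * u⁻¹) * (v * x * v⁻¹) := by
  obtain ⟨_, θ, hθ, h2⟩ := exists_theta hK
  have := H39.szField_of_card hm hK
  obtain ⟨φ⟩ : Nonempty ((tF4 θ h2).G1 ≃* twistedF4 K (2 ^ m)) :=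
    TwGrp.nonempty_equiv (twF4 θ h2 hθ)
  obtain ⟨ψ⟩ := exists_equiv (h2 := h2)
  obtain ⟨w, h0, h1, h3, h4⟩ := exists_opp (h2 := h2) hθ
  obtain ⟨y, y0, hy⟩ := exists_pow_ne_one_of_lt K
  have h8 := H39.SzField.eight_le K
  have y5 : Units.mk0 y y0 ^ 5 ≠ 1 := fun h => hy 5 (by norm_num) (by omega)
    (by simpa using congrArg Units.val h)
  have hb : vb h2 0 1 ∈ (relRD (rep h2)).X ((rep h2).sys.neg ((rep h2).sys.α 1)) :=
    mem_Yb.2 ⟨0, 1, rfl⟩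
  have hs : ub h2 0 1 * vb h2 0 1 ∈ (relRD (rep h2)).L 1 :=
    mul_mem (mem_sup_left (ub_mem 0 1)) (mem_sup_right hb)
  have := (tits h2).model.finite
  have := Fintype.ofFinite (tits h2).szGL
  obtain ⟨C, -⟩ := (tits h2).model.nonempty_ctx hm (by rw [Nat.card_eq_fintype_card, hK])
  have o5 : orderOf (ψ ⟨_, hs⟩) = 5 := by
    have := Fact.mk Nat.prime_five
    rw [MulEquiv.orderOf_eq, orderOf_mk]
    exact orderOf_eq_prime ab_pow fun h => h4 (RD.eq_one_of_neg_of_U 1 hb (by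
      rw [eq_inv_of_mul_eq_one_right h]
      exact inv_mem (RD.mem_U ((rep h2).sys.pos_α 1) (ub_mem 0 1))))
  have key := cover h0 (exists_conj h0 ((rep h2).phi_univ (cF4.split K).phi_univ) relRD_gen
    relRD_H_comm (i := 0) (j := 1) (fun h hh => exists_comm_mem_L relRD_H_comm (by decide)
      (inv_of_neg (nw_spec [0, 1, 0, 1, 0, 1, 0, 1]).1 w0_spec) (fun _ => H_sq) hh) (hyp_b hθ) hyp_c)
    (zB_mem (Units.mk0 y y0)) (zB_comm _) (h1 _ (zB_mem _)) (ub_mem 0 1)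
    (by simp [ub_mul, CharTwo.add_self_eq_zero, ub_zero]) (s := ub h2 0 1 * vb h2 0 1) (by rw [h3])
    ab_pow (by rw [zB_pow]; exact zB_fpf y5) fun k hk k1 => by
      obtain ⟨u, v, e⟩ := C.exists_mul (x := ψ ⟨_, hs⟩) (by omega) (g := ψ ⟨k, hk⟩)
        (by simpa using k1)
      refine ⟨_, (ψ.symm u).2, _, (ψ.symm v).2, ?_⟩
      simpa using congrArg (fun g => (ψ.symm g).1) e
  refine ⟨φ (zB h2 (Units.mk0 y y0) * (ub h2 0 1 * vb h2 0 1)), ?_, fun g => ?_⟩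
  · refine Odd.of_dvd_nat ((H39.SzField.odd_sub_one K).mul (by decide : Odd 5))
      (orderOf_dvd_of_pow_eq_one ?_)
    rw [← map_pow, (zB_comm _ _ hs).mul_pow, pow_mul, H_pow (zB_mem _), mul_comm _ 5, pow_mul, ab_pow]
    simp
  · obtain ⟨u, v, e⟩ := key (φ.symm g)
    exact ⟨φ u, φ v, by simpa using congrArg φ e⟩

end Cfsg.Agent.H78.ThG
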